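import Mathlib
import Cfsg.Agent.H25.Clif
import Cfsg.Agent.H52.FS
import Cfsg.Agent.H79.CopChar
import Cfsg.Agent.Char.Linear

/-!
# Frobenius–Schur indicators of induced characters and real linear characters (owner helper25)
-/

set_option autoImplicit false
set_option linter.unusedSectionVars false
set_option linter.unusedVariables false
set_option linter.style.haveILetI false

namespace Cfsg.Agent.H25.FSInd

open scoped ComplexConjugate BigOperators
open Cfsg Cfsg.Agent.CharBase Cfsg.Agent.Char Cfsg.Agent.H52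

universe v

section

variable {G : Type v} [Group G] [Fintype G]

theorem fsi_indFun (T : Subgroup G) (ψ : T → ℂ) :
    fsi (indFun T ψ) = (Nat.card T : ℂ)⁻¹ * ∑ g : G, extendByZero T ψ (g * g) := by
  have h1 : ∀ x : G, ∑ s : G, extendByZero T ψ (x⁻¹ * (s * s) * x) = ∑ g : G, extendByZero T ψ (g * g) := by
    intro x
    refine Fintype.sum_equiv (MulAut.conj x⁻¹).toEquiv _ _ (fun s => ?_)
    congr 1
    change x⁻¹ * (s * s) * x = (x⁻¹ * s * x⁻¹⁻¹) * (x⁻¹ * s * x⁻¹⁻¹)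
    group
  unfold fsi indFun
  rw [← Finset.mul_sum, Finset.sum_comm]
  simp only [h1]
  rw [Finset.sum_const, Finset.card_univ, nsmul_eq_mul, ← Nat.card_eq_fintype_card]
  have : (Nat.card G : ℂ) ≠ 0 := by exact_mod_cast Nat.card_pos.ne'
  field_simp

/-- real linear characters take the value one on squares -/
theorem real_linear_sq {μ : G → ℂ} (hμ : IsIrrCharacter G μ) (h1 : μ 1 = 1) (hfs : fsi μ = 1) (g : G) :
    μ g * μ g = 1 := by
  have h2 : ¬ ∃ s : G, (μ s).im ≠ 0 := by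
    rw [← fsi_eq_zero_iff hμ, hfs]; exact one_ne_zero
  push Not at h2
  have h3 : conj (μ g) = μ g := Complex.conj_eq_iff_im.mpr (h2 g)
  have h4 := linChar_mul_conj (isCharacter_of_isIrr hμ) h1 g
  rwa [h3] at h4

theorem linear_comm {μ : G → ℂ} (hμ : IsCharacter G μ) (h1 : μ 1 = 1) {g : G} (hg : g ∈ commutator G) : μ g = 1 := by
  have h2 : commutator G ≤ (linHom hμ h1).toHomUnits.ker := Abelianization.commutator_subset_ker _
  have h3 := h2 hg
  rw [MonoidHom.mem_ker] at h3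
  have h4 := congrArg Units.val h3
  rw [MonoidHom.coe_toHomUnits] at h4
  simpa using h4

/-- at most `|G : T|` linear characters agree with a given one on `T` -/
theorem card_agree (T : Subgroup G) {μ₀ : G → ℂ} (hμ₀ : IsCharacter G μ₀) (h₀ : μ₀ 1 = 1)
    (S : Finset (IrrCharacter G)) (hS : ∀ μ ∈ S, (μ : G → ℂ) 1 = 1 ∧ ∀ t ∈ T, (μ : G → ℂ) t = μ₀ t) :
    S.card ≤ T.index := by
  classical
  let f : S → (G →* ℂ) := fun μ => linHom (irr_isCharacter μ.1) (hS μ.1 μ.2).1 *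
    ((starRingEnd ℂ : ℂ →+* ℂ) : ℂ →* ℂ).comp (linHom hμ₀ h₀)
  have hf : ∀ (μ : S) (g : G), f μ g = (μ.1 : G → ℂ) g * conj (μ₀ g) := fun μ g => rfl
  have hfT : ∀ (μ : S) (t : G), t ∈ T → f μ t = 1 := by
    intro μ t ht
    rw [hf, (hS μ.1 μ.2).2 t ht]
    exact linChar_mul_conj hμ₀ h₀ t
  have hinj : Function.Injective f := by
    intro μ μ' h
    apply Subtype.ext
    apply Subtype.ext
    funext g
    have h1 := DFunLike.congr_fun h g
    rw [hf, hf] at h1
    have h2 : conj (μ₀ g) ≠ 0 := by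
      intro h0
      exact linChar_ne_zero hμ₀ h₀ g ((map_eq_zero _).mp h0)
    exact mul_right_cancel₀ h2 h1
  have hli : LinearIndependent ℂ (fun μ : S => (f μ : G → ℂ)) :=
    (linearIndependent_monoidHom G ℂ).comp f hinj
  have hlift : ∀ μ : S, ∀ a b : G, QuotientGroup.leftRel T a b → f μ a = f μ b := by
    intro μ a b hab
    rw [QuotientGroup.leftRel_apply] at hab
    have h1 : b = a * (a⁻¹ * b) := by group
    rw [h1, map_mul, hfT μ _ hab, mul_one]
  let F : S → (G ⧸ T → ℂ) := fun μ => Quotient.lift (f μ : G → ℂ) (hlift μ)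
  have hcomp : (fun μ : S => (LinearMap.funLeft ℂ ℂ (QuotientGroup.mk : G → G ⧸ T)) (F μ)) = fun μ : S => (f μ : G → ℂ) := by
    funext μ g
    rfl
  have hliF : LinearIndependent ℂ F := by
    apply LinearIndependent.of_comp (LinearMap.funLeft ℂ ℂ (QuotientGroup.mk : G → G ⧸ T))
    have : (⇑(LinearMap.funLeft ℂ ℂ (QuotientGroup.mk : G → G ⧸ T)) ∘ F) = fun μ : S => (f μ : G → ℂ) := hcomp
    rw [this]; exact hli
  have h1 := hliF.fintype_card_le_finrank
  rw [Module.finrank_fintype_fun_eq_card, Fintype.card_coe] at h1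
  rw [Subgroup.index, Nat.card_eq_fintype_card]
  exact h1

end

section Main

variable {G : Type v} [Group G] [Fintype G] (N : Subgroup G) [hN : N.Normal] [Fintype N]
  (T : Subgroup G) [Fintype T] (hNT : N ≤ T)

/-- some value on each coset is non-zero, for an extension of an irreducible character. -/
theorem exists_ne_zero {θ : N → ℂ} (hθ : IsIrrCharacter N θ) {ψ : T → ℂ} (hψ : IsIrrCharacter T ψ)
    (hres : ∀ n : N, ψ ⟨n, hNT n.2⟩ = θ n) (t : T) : ∃ n : N, ψ (⟨n, hNT n.2⟩ * t) ≠ 0 := by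
  classical
  have : Fintype (N.subgroupOf T) := Fintype.ofFinite _
  have h1 : IsIrrCharacter (N.subgroupOf T) (fun n : N.subgroupOf T => ψ n) := by
    have h2 := isIrrCharacter_comp_surjective hθ (Subgroup.subgroupOfEquivOfLe hNT).toMonoidHom
      (Subgroup.subgroupOfEquivOfLe hNT).surjective
    have e : (fun n : N.subgroupOf T => ψ n) = fun n => θ ((Subgroup.subgroupOfEquivOfLe hNT) n) := by
      funext n
      rw [← hres]
      rfl
    rw [e]; exact h2
  have h3 := H79.sum_coset_mul_inv (N.subgroupOf T) ⟨ψ, hψ⟩ h1 t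
  by_contra hcon
  push Not at hcon
  have h4 : ∀ n : N.subgroupOf T, ψ (n * t) = 0 := by
    intro n
    exact hcon ⟨(n : T), Subgroup.mem_subgroupOf.mp n.2⟩
  have h5 : ∑ n : N.subgroupOf T, ψ (n * t) * ψ ((n * t : T)⁻¹) = 0 :=
    Finset.sum_eq_zero (fun n _ => by rw [h4 n, zero_mul])
  have h6 : (Nat.card (N.subgroupOf T) : ℂ) = 0 := by
    rw [← h3]; exact h5
  exact (Nat.card_pos (α := N.subgroupOf T)).ne' (by exact_mod_cast h6)

/-- the number of real linear characters. -/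
theorem card_real_linear_le (hNc : N ≤ commutator G) {θ : N → ℂ} (hθ : IsIrrCharacter N θ) (hT : inertia N θ = T)
    {ψ : T → ℂ} (hψ : IsIrrCharacter T ψ) (hres : ∀ n : N, ψ ⟨n, hNT n.2⟩ = θ n) (hfs : fsi (indFun T ψ) = 1) {d : ℕ}
    (hd : indFun T ψ 1 = d) :
    Nat.card {χ : IrrCharacter G // (χ : G → ℂ) 1 = 1 ∧ fsi (χ : G → ℂ) = 1} ≤
      T.index * Nat.card {χ : IrrCharacter G // (χ : G → ℂ) 1 = d ∧ fsi (χ : G → ℂ) = 1} := by
  classical
  have : Fintype (IrrCharacter G) := Fintype.ofFinite _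
  have hlin : ∀ μ : IrrCharacter G, (μ : G → ℂ) 1 = 1 →
      IsIrrCharacter T (fun t : T => ψ t * (μ : G → ℂ) t) ∧ ∀ n : N, ψ ⟨n, hNT n.2⟩ * (μ : G → ℂ) n = θ n := by
    intro μ hμ
    have h2 : ∀ n : N, ψ ⟨n, hNT n.2⟩ * (μ : G → ℂ) n = θ n := by
      intro n
      rw [hres, linear_comm (irr_isCharacter μ) hμ (hNc n.2), mul_one]
    refine ⟨?_, h2⟩
    have hc : IsCharacter T (fun t : T => (μ : G → ℂ) t) := isCharacter_restrict (irr_isCharacter μ) T
    have hch : IsCharacter T (ψ * fun t : T => (μ : G → ℂ) t) := isCharacter_mul (isCharacter_of_isIrr hψ) hc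
    have h3 : IsCharacter T (fun t : T => ψ t * (μ : G → ℂ) t) := hch
    rw [isIrrCharacter_iff h3]
    have h4 := (isIrrCharacter_iff (isCharacter_of_isIrr hψ)).mp hψ
    rw [← h4]
    unfold classInner
    congr 1
    refine Finset.sum_congr rfl (fun t _ => ?_)
    rw [map_mul]
    have h5 := linChar_mul_conj (irr_isCharacter μ) hμ (t : G)
    linear_combination (ψ t * conj (ψ t)) * h5
  have hirr : ∀ μ : IrrCharacter G, (μ : G → ℂ) 1 = 1 → IsIrrCharacter G (indFun T (fun t : T => ψ t * (μ : G → ℂ) t)) := by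
    intro μ hμ
    obtain ⟨h1, h2⟩ := hlin μ hμ
    exact isIrr_indFun_of_ov N T hNT hθ hT h1 one_ne_zero (fun n => by rw [Nat.cast_one, one_mul]; exact h2 n)
  have hprod : ∀ μ : IrrCharacter G, indFun T (fun t : T => ψ t * (μ : G → ℂ) t) = fun g => indFun T ψ g * (μ : G → ℂ) g :=
    fun μ => indFun_mul_restrict T ψ _ (isClassFunction_of_isCharacter (irr_isCharacter μ))
  let L : Finset (IrrCharacter G) := Finset.univ.filter (fun χ => (χ : G → ℂ) 1 = 1 ∧ fsi (χ : G → ℂ) = 1)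
  let Y : Finset (IrrCharacter G) := Finset.univ.filter (fun χ => (χ : G → ℂ) 1 = d ∧ fsi (χ : G → ℂ) = 1)
  have hL : Nat.card {χ : IrrCharacter G // (χ : G → ℂ) 1 = 1 ∧ fsi (χ : G → ℂ) = 1} = L.card := by
    rw [Nat.card_eq_fintype_card, Fintype.card_subtype]
  have hY : Nat.card {χ : IrrCharacter G // (χ : G → ℂ) 1 = d ∧ fsi (χ : G → ℂ) = 1} = Y.card := by
    rw [Nat.card_eq_fintype_card, Fintype.card_subtype]
  rw [hL, hY]
  let F : IrrCharacter G → IrrCharacter G := fun μ =>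
    if h : (μ : G → ℂ) 1 = 1 then ⟨_, hirr μ h⟩ else μ
  have hF : ∀ (μ : IrrCharacter G), (μ : G → ℂ) 1 = 1 → (F μ : G → ℂ) = indFun T (fun t : T => ψ t * (μ : G → ℂ) t) := by
    intro μ hμ
    simp only [F]
    rw [dif_pos hμ]
  have hmemL : ∀ μ, μ ∈ L ↔ (μ : G → ℂ) 1 = 1 ∧ fsi (μ : G → ℂ) = 1 := fun μ => by simp [L]
  have himg : L.image F ⊆ Y := by
    intro χ hχ
    obtain ⟨μ, hμ, rfl⟩ := Finset.mem_image.mp hχ
    rw [hmemL] at hμ
    simp only [Y, Finset.mem_filter, Finset.mem_univ, true_and]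
    rw [hF μ hμ.1, hprod]
    refine ⟨by change indFun T ψ 1 * (μ : G → ℂ) 1 = _; rw [hμ.1, mul_one, hd], ?_⟩
    rw [← hfs]
    unfold fsi
    congr 1
    refine Finset.sum_congr rfl (fun s _ => ?_)
    change indFun T ψ (s * s) * (μ : G → ℂ) (s * s) = _
    rw [linChar_mul (irr_isCharacter μ) hμ.1, real_linear_sq μ.2 hμ.1 hμ.2 s, mul_one]
  have hfib : ∀ χ ∈ L.image F, (L.filter (fun μ => F μ = χ)).card ≤ T.index := by
    intro χ hχ
    obtain ⟨μ₀, hμ₀, rfl⟩ := Finset.mem_image.mp hχ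
    rw [hmemL] at hμ₀
    apply card_agree T (irr_isCharacter μ₀) hμ₀.1
    intro μ hμ
    rw [Finset.mem_filter, hmemL] at hμ
    refine ⟨hμ.1.1, ?_⟩
    have h1 : indFun T (fun t : T => ψ t * (μ : G → ℂ) t) = indFun T (fun t : T => ψ t * (μ₀ : G → ℂ) t) := by
      rw [← hF μ hμ.1.1, ← hF μ₀ hμ₀.1, hμ.2]
    have h2 := hlin μ hμ.1.1
    have h3 := hlin μ₀ hμ₀.1
    have h4 := eq_of_indFun_eq N T hNT hθ hT h2.1 h3.1 one_ne_zero one_ne_zero
      (fun n => by rw [Nat.cast_one, one_mul]; exact h2.2 n) (fun n => by rw [Nat.cast_one, one_mul]; exact h3.2 n) h1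
    intro t ht
    obtain ⟨n, hn⟩ := exists_ne_zero N T hNT hθ hψ hres ⟨t, ht⟩
    have h5 := congrFun h4 (⟨n, hNT n.2⟩ * ⟨t, ht⟩)
    have h6 := mul_left_cancel₀ hn h5
    have h7 : ((⟨(n : G), hNT n.2⟩ * ⟨t, ht⟩ : T) : G) = n * t := rfl
    rw [h7, linChar_mul (irr_isCharacter μ) hμ.1.1, linChar_mul (irr_isCharacter μ₀) hμ₀.1,
      linear_comm (irr_isCharacter μ) hμ.1.1 (hNc n.2), linear_comm (irr_isCharacter μ₀) hμ₀.1 (hNc n.2),
      one_mul, one_mul] at h6
    exact h6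
  calc L.card ≤ T.index * (L.image F).card := Finset.card_le_mul_card_image L _ hfib
    _ ≤ T.index * Y.card := Nat.mul_le_mul_left _ (Finset.card_le_card himg)

end Main

end Cfsg.Agent.H25.FSInd
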