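import Mathlib
import Cfsg.Agent.H25.FSInd

/-!
# Frobenius–Schur indicators of characters induced from inertia groups (owner helper25)
-/

set_option autoImplicit false
set_option linter.unusedSectionVars false
set_option linter.unusedVariables false
set_option linter.style.haveILetI false

namespace Cfsg.Agent.H25.FSInd

open scoped ComplexConjugate BigOperators Kronecker
open Cfsg Cfsg.Agent.CharBase Cfsg.Agent.Char Cfsg.Agent.H52

universe v

theorem eq_zero_of_sq {ι : Type*} [Fintype ι] [DecidableEq ι] {E : Matrix ι ι ℂ} {c : ℂ} (hc : c ≠ 0)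
    (h : E * E = c • E) (ht : E.trace = 0) : E = 0 := by
  have h1 : IsIdempotentElem (Matrix.toLinAlgEquiv' (c⁻¹ • E)) := by
    rw [IsIdempotentElem, ← map_mul, Matrix.smul_mul, Matrix.mul_smul, h, smul_smul c⁻¹ c, inv_mul_cancel₀ hc, one_smul]
  have h2 : LinearMap.trace ℂ _ (Matrix.toLinAlgEquiv' (c⁻¹ • E)) = 0 := by
    rw [LinearMap.trace_eq_matrix_trace ℂ (Pi.basisFun ℂ ι)]
    have : (LinearMap.toMatrix (Pi.basisFun ℂ ι) (Pi.basisFun ℂ ι)) (Matrix.toLinAlgEquiv' (c⁻¹ • E)) = c⁻¹ • E := by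
      rw [LinearMap.toMatrix_eq_toMatrix']
      exact LinearMap.toMatrix'_toLin' _
    rw [this, Matrix.trace_smul, ht, smul_zero]
  have h3 := LinearMap.IsIdempotentElem.eq_zero_of_trace_eq_zero h1 h2
  have h4 : c⁻¹ • E = 0 := by
    apply Matrix.toLinAlgEquiv'.injective
    rw [h3, map_zero]
  have h5 := smul_eq_zero.mp h4
  exact h5.resolve_left (inv_ne_zero hc)

theorem sum_pair_zero {N : Type*} [Group N] [Fintype N] {m : ℕ} (X Y : N →* Matrix (Fin m) (Fin m) ℂ)
    (A : Matrix (Fin m) (Fin m) ℂ) (h0 : ∑ n : N, (X n).trace * (Y n).trace = 0) :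
    ∑ n : N, (X n * Y n * A).trace = 0 := by
  classical
  set E : Matrix (Fin m × Fin m) (Fin m × Fin m) ℂ := ∑ n : N, (X n) ⊗ₖ (Y n) with hE
  have hEE : E * E = (Fintype.card N : ℂ) • E := by
    have h1 : ∀ n : N, (X n) ⊗ₖ (Y n) * E = E := by
      intro n
      rw [hE, Finset.mul_sum]
      refine Fintype.sum_equiv (Equiv.mulLeft n) _ _ (fun k => ?_)
      rw [← Matrix.mul_kronecker_mul, ← map_mul, ← map_mul]
      rfl
    conv_lhs => rw [hE, Finset.sum_mul]
    simp only [← hE, h1]
    rw [Finset.sum_const, Finset.card_univ, ← Nat.cast_smul_eq_nsmul ℂ]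
  have hE0 : E = 0 := by
    apply eq_zero_of_sq (c := (Fintype.card N : ℂ)) _ hEE
    · rw [hE, Matrix.trace_sum]
      simp only [Matrix.trace_kronecker]
      exact h0
    · exact_mod_cast Fintype.card_ne_zero
  have h1 : ∀ i j k l : Fin m, ∑ n : N, X n i k * Y n j l = 0 := by
    intro i j k l
    have h2 := congrFun (congrFun hE0 (i, j)) (k, l)
    rw [hE, Matrix.sum_apply] at h2
    exact h2
  have h2 : ∀ n : N, (X n * Y n * A).trace = ∑ i, ∑ k, ∑ l, (X n i l * Y n l k) * A k i := by
    intro n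
    rw [Matrix.trace]
    refine Finset.sum_congr rfl (fun i _ => ?_)
    rw [Matrix.diag_apply, Matrix.mul_apply]
    refine Finset.sum_congr rfl (fun k _ => ?_)
    rw [Matrix.mul_apply, Finset.sum_mul]
  simp only [h2]
  rw [Finset.sum_comm]
  refine Finset.sum_eq_zero (fun i _ => ?_)
  rw [Finset.sum_comm]
  refine Finset.sum_eq_zero (fun k _ => ?_)
  rw [Finset.sum_comm]
  refine Finset.sum_eq_zero (fun l _ => ?_)
  rw [← Finset.sum_mul, h1, zero_mul]

section Main

variable {G : Type v} [Group G] [Fintype G] (N : Subgroup G) [hN : N.Normal] [Fintype N]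
  (T : Subgroup G) [Fintype T] (hNT : N ≤ T)

/-- sums over `G` through the cosets of `N` -/
theorem sum_cosets (F : G → ℂ) (h : ∀ g, ∑ n : N, F (n * g) = 0) : ∑ g : G, F g = 0 := by
  have h1 : ∑ n : N, ∑ g : G, F (n * g) = (Fintype.card N : ℂ) * ∑ g : G, F g := by
    have : ∀ n : N, ∑ g : G, F (n * g) = ∑ g : G, F g := fun n =>
      Fintype.sum_equiv (Equiv.mulLeft (n : G)) _ _ (fun _ => rfl)
    simp only [this]
    rw [Finset.sum_const, Finset.card_univ, nsmul_eq_mul]
  rw [Finset.sum_comm, Finset.sum_eq_zero (fun g _ => h g)] at h1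
  have h2 : (Fintype.card N : ℂ) ≠ 0 := by exact_mod_cast Fintype.card_ne_zero
  exact (mul_eq_zero.mp h1.symm).resolve_left h2

theorem fsi_indFun_of_real {θ : N → ℂ} (hθ : IsIrrCharacter N θ) (hreal : ∀ n, conj (θ n) = θ n) (hT : inertia N θ = T)
    {ψ : T → ℂ} (hψ : IsCharacter T ψ) (hres : ∀ n : N, ψ ⟨n, hNT n.2⟩ = θ n) :
    fsi (indFun T ψ) = fsi ψ := by
  classical
  rw [fsi_indFun]
  unfold fsi
  congr 1
  let F : G → ℂ := fun g => if g ∈ T then 0 else extendByZero T ψ (g * g)
  have hF0 : ∑ g : G, F g = 0 := by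
    apply sum_cosets N F
    intro g
    by_cases hg : g ∈ T
    · refine Finset.sum_eq_zero (fun n _ => ?_)
      simp only [F]
      rw [if_pos (T.mul_mem (hNT n.2) hg)]
    have hng : ∀ n : N, ((n : G) * g) ∉ T := fun n h => hg ((Subgroup.mul_mem_cancel_left T (hNT n.2)).mp h)
    have e : ∀ n : N, (n * g) * (n * g) = (n : G) * (g * n * g⁻¹) * (g * g) := fun n => by group
    have hgn : ∀ n : N, g * n * g⁻¹ ∈ N := fun n => hN.conj_mem n n.2 g
    by_cases hgg : g * g ∈ T
    · obtain ⟨m, ρ, rfl⟩ := hψ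
      let M : T →* Matrix (Fin m) (Fin m) ℂ := (LinearMap.toMatrixAlgEquiv' (R := ℂ) (n := Fin m)).toMonoidHom.comp ρ
      have hM : ∀ g, ρ.character g = (M g).trace := by
        intro g
        change LinearMap.trace ℂ _ (ρ g) = _
        rw [LinearMap.trace_eq_matrix_trace ℂ (Pi.basisFun ℂ (Fin m))]
        rfl
      let cg : N →* N :=
        { toFun := fun n => ⟨g * n * g⁻¹, hgn n⟩
          map_one' := by ext; simp
          map_mul' := fun a b => by ext; simp }
      let X : N →* Matrix (Fin m) (Fin m) ℂ := M.comp (Subgroup.inclusion hNT)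
      let Y : N →* Matrix (Fin m) (Fin m) ℂ := X.comp cg
      have hX : ∀ n, (X n).trace = θ n := fun n => by
        change (M ⟨n, hNT n.2⟩).trace = _
        rw [← hM, hres]
      have hY : ∀ n, (Y n).trace = cj N g θ n := fun n => by
        change (X (cg n)).trace = _
        rw [hX]; rfl
      have h0 : ∑ n : N, (X n).trace * (Y n).trace = 0 := by
        have h1 : classInner (cj N g θ) θ = 0 := by
          apply classInner_eq_zero_of_irr_ne (isIrrCharacter_cj N g hθ) hθ
          intro h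
          apply hg
          rw [← hT]
          exact h
        unfold classInner at h1
        have h2 : (Nat.card N : ℂ)⁻¹ ≠ 0 := inv_ne_zero (by exact_mod_cast Nat.card_pos.ne')
        have h3 := (mul_eq_zero.mp h1).resolve_left h2
        rw [← h3]
        refine Finset.sum_congr rfl (fun n _ => ?_)
        rw [hX, hY, hreal]; ring
      have h1 := sum_pair_zero X Y (M ⟨g * g, hgg⟩) h0
      rw [← h1]
      refine Finset.sum_congr rfl (fun n _ => ?_)
      simp only [F]
      rw [if_neg (hng n)]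
      have hmem : (n * g) * (n * g) ∈ T := by
        rw [e]; exact T.mul_mem (T.mul_mem (hNT n.2) (hNT (hgn n))) hgg
      rw [extendByZero_of_mem T _ hmem, hM]
      congr 1
      change M ⟨(n * g) * (n * g), hmem⟩ = M ⟨n, hNT n.2⟩ * M ⟨g * n * g⁻¹, hNT (hgn n)⟩ * M ⟨g * g, hgg⟩
      rw [← map_mul, ← map_mul]
      congr 1
      exact Subtype.ext (e n)
    · refine Finset.sum_eq_zero (fun n _ => ?_)
      simp only [F]
      rw [if_neg (hng n), extendByZero_of_notMem]
      rw [e]
      intro h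
      exact hgg ((Subgroup.mul_mem_cancel_left T (T.mul_mem (hNT n.2) (hNT (hgn n)))).mp h)
  have h1 : ∑ g : G, extendByZero T ψ (g * g) = ∑ g : G, if g ∈ T then extendByZero T ψ (g * g) else 0 := by
    have h2 : ∀ g : G, extendByZero T ψ (g * g) = F g + if g ∈ T then extendByZero T ψ (g * g) else 0 := by
      intro g
      simp only [F]
      by_cases hg : g ∈ T
      · rw [if_pos hg, if_pos hg, zero_add]
      · rw [if_neg hg, if_neg hg, add_zero]
    rw [Finset.sum_congr rfl (fun g _ => h2 g), Finset.sum_add_distrib, hF0, zero_add]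
  rw [h1, ← Finset.sum_filter]
  symm
  refine Finset.sum_bij (fun (t : T) _ => (t : G)) ?_ ?_ ?_ ?_
  · intro t _; simp
  · intro a _ b _ h; exact Subtype.ext h
  · intro b hb
    rw [Finset.mem_filter] at hb
    exact ⟨⟨b, hb.2⟩, Finset.mem_univ _, rfl⟩
  · intro t _
    exact (extendByZero_of_mem T ψ (T.mul_mem t.2 t.2)).symm

end Main

end Cfsg.Agent.H25.FSInd
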