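import Mathlib
import Cfsg.Agent.H25.FSIndB
import Cfsg.Agent.H25.FiveE

/-!
# Real characters for an elementary abelian group extended by a 2-group (owner helper25)
-/

set_option autoImplicit false
set_option linter.unusedSectionVars false
set_option linter.unusedVariables false
set_option linter.style.haveILetI false

namespace Cfsg.Agent.H25.FSInd

open scoped ComplexConjugate BigOperators
open Cfsg Cfsg.Agent.CharBase Cfsg.Agent.Char Cfsg.Agent.H52

universe v

theorem exists_retraction {G : Type v} [Group G] (N P : Subgroup G) [N.Normal] (hdisj : N ⊓ P = ⊥) (hprod : N ⊔ P = ⊤) :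
    ∃ π : G →* G, (∀ g, π g ∈ P) ∧ (∀ g, g * (π g)⁻¹ ∈ N) ∧ ∀ p ∈ P, π p = p := by
  have hinj : Function.Injective ((QuotientGroup.mk' N).comp P.subtype) := by
    rw [injective_iff_map_eq_one]
    intro x hx
    rw [MonoidHom.comp_apply, QuotientGroup.mk'_apply, QuotientGroup.eq_one_iff] at hx
    have : (x : G) ∈ N ⊓ P := ⟨hx, x.2⟩
    rw [hdisj, Subgroup.mem_bot] at this
    exact Subtype.ext this
  have hsurj : Function.Surjective ((QuotientGroup.mk' N).comp P.subtype) := by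
    intro y
    obtain ⟨g, rfl⟩ := QuotientGroup.mk'_surjective N y
    have hg : g ∈ N ⊔ P := by rw [hprod]; exact Subgroup.mem_top g
    obtain ⟨n, hn, p, hp, rfl⟩ := (Subgroup.mem_sup_of_normal_left).mp hg
    refine ⟨⟨p, hp⟩, ?_⟩
    rw [MonoidHom.comp_apply, map_mul]
    have : QuotientGroup.mk' N n = 1 := (QuotientGroup.eq_one_iff n).mpr hn
    rw [this, one_mul]; rfl
  let e : P ≃* G ⧸ N := MulEquiv.ofBijective _ ⟨hinj, hsurj⟩
  have he : ∀ p : P, e p = QuotientGroup.mk' N p := fun p => rfl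
  refine ⟨P.subtype.comp (e.symm.toMonoidHom.comp (QuotientGroup.mk' N)), fun g => (e.symm (QuotientGroup.mk' N g)).2, ?_, ?_⟩
  · intro g
    have h1 := he (e.symm (QuotientGroup.mk' N g))
    rw [MulEquiv.apply_symm_apply] at h1
    have h2 : QuotientGroup.mk' N (g * ((e.symm (QuotientGroup.mk' N g) : P) : G)⁻¹) = 1 := by
      rw [map_mul, map_inv, ← h1, mul_inv_cancel]
    exact (QuotientGroup.eq_one_iff _).mp h2
  · intro p hp
    have h1 : e.symm (QuotientGroup.mk' N p) = ⟨p, hp⟩ := by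
      rw [MulEquiv.symm_apply_eq, he]
    change ((e.symm (QuotientGroup.mk' N p) : P) : G) = p
    rw [h1]

section Main

variable {G : Type v} [Group G] [Fintype G] (N P : Subgroup G) [hN : N.Normal] [Fintype N]

/-- a central involution of `P` inverts `N`. -/
theorem exists_inverting (hNc : ∀ a ∈ N, ∀ b ∈ N, a * b = b * a) (hP : IsPGroup 2 ↥P) (hP1 : P ≠ ⊥)
    (hdisj : N ⊓ P = ⊥) (hprod : N ⊔ P = ⊤)
    (hmin : N ≠ ⊥ ∧ ∀ M : Subgroup G, M.Normal → M ≠ ⊥ → N ≤ M) :
    ∃ z ∈ P, z ≠ 1 ∧ z * z = 1 ∧ (∀ p ∈ P, z * p = p * z) ∧ ∀ n ∈ N, z * n * z⁻¹ = n⁻¹ := by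
  haveI : Fact (Nat.Prime 2) := ⟨Nat.prime_two⟩
  haveI : Nontrivial P := by
    obtain ⟨x, hx, hx1⟩ := H25.Five.exists_mem_ne_one hP1
    exact ⟨⟨x, hx⟩, 1, fun h => hx1 (congrArg Subtype.val h)⟩
  haveI := hP.center_nontrivial
  have h2 : 2 ∣ Nat.card (Subgroup.center P) := by
    obtain ⟨k, hk⟩ := (IsPGroup.iff_card).mp (hP.to_subgroup (Subgroup.center P))
    have h3 := Finite.one_lt_card (α := Subgroup.center P)
    rw [hk] at h3 ⊢
    apply dvd_pow_self
    rintro rfl
    simp at h3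
  obtain ⟨z, hz⟩ := exists_prime_orderOf_dvd_card' 2 h2
  have hz1 : ((z : P) : G) ≠ 1 := by
    intro h
    have : z = 1 := Subtype.ext (Subtype.ext h)
    rw [this, orderOf_one] at hz
    norm_num at hz
  have hzz : ((z : P) : G) * ((z : P) : G) = 1 := by
    have h3 := pow_orderOf_eq_one z
    rw [hz, pow_two] at h3
    exact congrArg (fun x : Subgroup.center P => ((x : P) : G)) h3
  have hzP : ∀ p ∈ P, ((z : P) : G) * p = p * ((z : P) : G) := by
    intro p hp
    have h3 := (Subgroup.mem_center_iff.mp z.2) ⟨p, hp⟩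
    exact (congrArg Subtype.val h3).symm
  refine ⟨((z : P) : G), (z : P).2, hz1, hzz, hzP, ?_⟩
  set w : G := ((z : P) : G) with hw
  set C : Subgroup G := N ⊓ Subgroup.centralizer ({w} : Set G) with hC
  have hmem : ∀ c, c ∈ C ↔ c ∈ N ∧ c * w = w * c := fun c => by
    rw [hC, Subgroup.mem_inf, Subgroup.mem_centralizer_singleton_iff]
  have hCn : C.Normal := by
    refine ⟨fun c hc g => ?_⟩
    have hg : g ∈ N ⊔ P := by rw [hprod]; exact Subgroup.mem_top g
    obtain ⟨n, hn, p, hp, rfl⟩ := (Subgroup.mem_sup_of_normal_left).mp hg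
    have hc' := (hmem c).mp hc
    have h3 : p * c * p⁻¹ ∈ C := by
      rw [hmem]
      refine ⟨hN.conj_mem c hc'.1 p, ?_⟩
      have h4 : p⁻¹ * w = w * p⁻¹ := (hzP p⁻¹ (P.inv_mem hp)).symm
      calc p * c * p⁻¹ * w = p * c * (p⁻¹ * w) := by group
        _ = p * c * (w * p⁻¹) := by rw [h4]
        _ = p * (c * w) * p⁻¹ := by group
        _ = p * (w * c) * p⁻¹ := by rw [hc'.2]
        _ = (p * w) * c * p⁻¹ := by group
        _ = (w * p) * c * p⁻¹ := by rw [hzP p hp]
        _ = w * (p * c * p⁻¹) := by group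
    have h5 : n * p * c * (n * p)⁻¹ = p * c * p⁻¹ := by
      calc n * p * c * (n * p)⁻¹ = (n * (p * c * p⁻¹)) * n⁻¹ := by group
        _ = ((p * c * p⁻¹) * n) * n⁻¹ := by rw [hNc n hn _ ((hmem _).mp h3).1]
        _ = p * c * p⁻¹ := by group
    rw [h5]; exact h3
  have hCbot : C = ⊥ := by
    by_contra hne
    have h3 := hmin.2 C hCn hne
    have hcen : ∀ g : G, w * g = g * w := by
      intro g
      have hg : g ∈ N ⊔ P := by rw [hprod]; exact Subgroup.mem_top g
      obtain ⟨n, hn, p, hp, rfl⟩ := (Subgroup.mem_sup_of_normal_left).mp hg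
      have h4 := ((hmem n).mp (h3 hn)).2
      calc w * (n * p) = (w * n) * p := by group
        _ = (n * w) * p := by rw [h4]
        _ = n * (w * p) := by group
        _ = n * (p * w) := by rw [hzP p hp]
        _ = n * p * w := by group
    have hZn : (Subgroup.zpowers w).Normal := by
      refine ⟨fun c hc g => ?_⟩
      obtain ⟨k, rfl⟩ := Subgroup.mem_zpowers_iff.mp hc
      have h6 : g * w ^ k * g⁻¹ = w ^ k := by
        have h7 : Commute w g := hcen g
        have h8 := (h7.zpow_left k).eq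
        rw [← h8]; group
      rw [h6]; exact hc
    have hZb : Subgroup.zpowers w ≠ ⊥ := by
      rw [Ne, Subgroup.zpowers_eq_bot]; exact hz1
    have h9 := hmin.2 _ hZn hZb
    have h10 : N ≤ N ⊓ P := le_inf le_rfl (h9.trans (by rw [Subgroup.zpowers_le]; exact (z : P).2))
    rw [hdisj] at h10
    exact hmin.1 (le_bot_iff.mp h10)
  refine (H25.Five.inverts N w (fun c hc => hN.conj_mem c hc w) ?_ ?_).1
  · intro c hc h
    rw [mul_inv_eq_iff_eq_mul] at h
    have h3 : c ∈ C := (hmem c).mpr ⟨hc, h.symm⟩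
    rw [hCbot, Subgroup.mem_bot] at h3
    exact h3
  · intro c hc
    calc w * (w * c * w⁻¹) * w⁻¹ = (w * w) * c * (w * w)⁻¹ := by group
      _ = c := by rw [hzz]; group

/-- the main step: an irreducible character of degree `|G : T|` and indicator one. -/
theorem exists_ext (hNc : ∀ a ∈ N, ∀ b ∈ N, a * b = b * a)
    (hdisj : N ⊓ P = ⊥) (hprod : N ⊔ P = ⊤) {z : G} (hzP : z ∈ P) (hzz : z * z = 1) (hzc : ∀ p ∈ P, z * p = p * z)
    (hinv : ∀ n ∈ N, z * n * z⁻¹ = n⁻¹) {lam : N → ℂ} (hlam : IsIrrCharacter N lam) (h1 : lam 1 = 1)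
    (T : Subgroup G) [Fintype T] (hNT : N ≤ T) (hT : inertia N lam = T) :
    ∃ ψ : T → ℂ, IsIrrCharacter T ψ ∧ (∀ n : N, ψ ⟨n, hNT n.2⟩ = lam n) ∧ fsi (indFun T ψ) = 1 := by
  classical
  have hlc := isCharacter_of_isIrr hlam
  obtain ⟨π, hπP, hπN, hπ⟩ := exists_retraction N P hdisj hprod
  have hπn : ∀ n ∈ N, π n = 1 := by
    intro n hn
    have h2 : π n ∈ N ⊓ P := by
      refine ⟨?_, hπP n⟩
      have h3 := N.mul_mem (N.inv_mem (hπN n)) hn
      have e : (n * (π n)⁻¹)⁻¹ * n = π n := by group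
      rwa [e] at h3
    rw [hdisj, Subgroup.mem_bot] at h2
    exact h2
  -- conjugation values
  have hTmem : ∀ t ∈ T, ∀ n : N, lam ⟨t * n * t⁻¹, hN.conj_mem (n : G) n.2 t⟩ = lam n := by
    intro t ht
    rw [← hT] at ht
    exact mem_inertia_iff N |>.mp ht
  let ψ : T →* ℂ :=
    { toFun := fun t => lam ⟨t * (π t)⁻¹, hπN t⟩
      map_one' := by
        have : (⟨((1 : T) : G) * (π ((1 : T) : G))⁻¹, hπN _⟩ : N) = 1 := by
          apply Subtype.ext; simp
        rw [this, h1]
      map_mul' := by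
        intro t s
        have h2 : (⟨((t * s : T) : G) * (π ((t * s : T) : G))⁻¹, hπN _⟩ : N) =
            ⟨t * ((s : G) * (π s)⁻¹) * (t : G)⁻¹, hN.conj_mem _ (hπN s) t⟩ * ⟨t * (π t)⁻¹, hπN t⟩ := by
          apply Subtype.ext
          rw [Subgroup.coe_mul]
          change (t * s : G) * (π (t * s))⁻¹ = t * (s * (π s)⁻¹) * (t : G)⁻¹ * (t * (π t)⁻¹)
          rw [map_mul]; group
        rw [h2, linChar_mul hlc h1, hTmem t t.2 ⟨(s : G) * (π s)⁻¹, hπN s⟩, mul_comm] }
  have hψ : ∀ t : T, ψ t = lam ⟨t * (π t)⁻¹, hπN t⟩ := fun t => rfl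
  have hψN : ∀ n : N, ψ ⟨n, hNT n.2⟩ = lam n := by
    intro n
    rw [hψ]
    congr 1
    apply Subtype.ext
    change (n : G) * (π n)⁻¹ = n
    rw [hπn n n.2, inv_one, mul_one]
  refine ⟨ψ, isIrrCharacter_of_hom ψ, hψN, ?_⟩
  have hlinv : ∀ n : N, lam n⁻¹ * lam n = 1 := fun n => by
    rw [← linChar_mul hlc h1, inv_mul_cancel, h1]
  -- `z` and `T`
  have hzn : ∀ n : N, lam ⟨z * n * z⁻¹, hN.conj_mem (n : G) n.2 z⟩ = lam n⁻¹ := by
    intro n
    congr 1
    exact Subtype.ext (hinv n n.2)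
  have hzT : ∀ h ∈ T, z * h * z⁻¹ ∈ T := by
    intro h hh
    rw [← hT, mem_inertia_iff]
    intro n
    have e1 : (⟨z * h * z⁻¹ * n * (z * h * z⁻¹)⁻¹, hN.conj_mem (n : G) n.2 _⟩ : N) =
        ⟨z * (⟨h * (⟨z⁻¹ * n * z⁻¹⁻¹, hN.conj_mem (n : G) n.2 z⁻¹⟩ : N) * h⁻¹, hN.conj_mem _ (Subtype.prop _) h⟩ : N) * z⁻¹,
          hN.conj_mem _ (Subtype.prop _) z⟩ := by
      apply Subtype.ext
      change z * h * z⁻¹ * n * (z * h * z⁻¹)⁻¹ = z * (h * (z⁻¹ * n * z⁻¹⁻¹) * h⁻¹) * z⁻¹
      group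
    rw [e1, hzn, linChar_inv hlc h1, hTmem h hh, ← linChar_inv hlc h1]
    congr 1
    apply Subtype.ext
    change (z⁻¹ * n * z⁻¹⁻¹)⁻¹ = n
    have e2 : z⁻¹ = z := inv_eq_of_mul_eq_one_right hzz
    have e3 := hinv n n.2
    rw [e2] at e3 ⊢
    rw [e2, e3, inv_inv]
  have hψz : ∀ (h : G) (hh : h ∈ T), ψ ⟨z * h * z⁻¹, hzT h hh⟩ * ψ ⟨h, hh⟩ = 1 := by
    intro h hh
    rw [hψ, hψ, ← hlinv ⟨h * (π h)⁻¹, hπN h⟩]
    congr 2
    apply Subtype.ext
    change z * h * z⁻¹ * (π (z * h * z⁻¹))⁻¹ = (h * (π h)⁻¹)⁻¹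
    rw [← hinv _ (hπN h), map_mul, map_mul, map_inv, hπ z hzP]
    group
  -- the sum
  rw [fsi_indFun]
  have hcardT : (Nat.card T : ℂ) ≠ 0 := by exact_mod_cast Nat.card_pos.ne'
  have hmain : ∑ g : G, (extendByZero T ψ (g * g) - if g * z ∈ T then 1 else 0) = 0 := by
    apply sum_cosets N
    intro g
    have hgn : ∀ n : N, g * n * g⁻¹ ∈ N := fun n => hN.conj_mem n n.2 g
    have e : ∀ n : N, (n * g) * (n * g) = (n : G) * (g * n * g⁻¹) * (g * g) := fun n => by group
    have hngz : ∀ n : N, (n : G) * g * z ∈ T ↔ g * z ∈ T := by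
      intro n
      rw [mul_assoc]
      exact Subgroup.mul_mem_cancel_left T (hNT n.2)
    have hgg' : g * z ∈ T → g * g = (g * z) * (z * (g * z) * z⁻¹) := by
      intro _
      have e2 : z⁻¹ = z := inv_eq_of_mul_eq_one_right hzz
      calc g * g = g * (z * z) * g * (z * z) := by rw [hzz]; group
        _ = (g * z) * (z * (g * z) * z) := by group
        _ = (g * z) * (z * (g * z) * z⁻¹) := by rw [e2]
    by_cases hgg : g * g ∈ T
    · have hval : ∀ n : N, extendByZero T ψ ((n * g) * (n * g)) =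
          (lam n * lam ⟨g * n * g⁻¹, hgn n⟩) * ψ ⟨g * g, hgg⟩ := by
        intro n
        have hmem : (n * g) * (n * g) ∈ T := by
          rw [e]; exact T.mul_mem (T.mul_mem (hNT n.2) (hNT (hgn n))) hgg
        rw [extendByZero_of_mem T _ hmem, ← hψN n, ← hψN ⟨g * n * g⁻¹, hgn n⟩, ← map_mul, ← map_mul]
        congr 1
        exact Subtype.ext (e n)
      by_cases hgz : g * z ∈ T
      · refine Finset.sum_eq_zero (fun n _ => ?_)
        rw [hval, if_pos ((hngz n).mpr hgz), sub_eq_zero]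
        have h3 : lam ⟨g * n * g⁻¹, hgn n⟩ = lam n⁻¹ := by
          have h4 := hTmem (g * z) hgz ⟨z * n * z⁻¹, hN.conj_mem (n : G) n.2 z⟩
          rw [hzn] at h4
          rw [← h4]
          congr 1
          apply Subtype.ext
          change g * n * g⁻¹ = g * z * (z * n * z⁻¹) * (g * z)⁻¹
          calc g * n * g⁻¹ = g * (z * z) * n * (z * z)⁻¹ * g⁻¹ := by rw [hzz]; group
            _ = g * z * (z * n * z⁻¹) * (g * z)⁻¹ := by group
        have h4 : ψ ⟨g * g, hgg⟩ = 1 := by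
          rw [← hψz (g * z) hgz, mul_comm, ← map_mul]
          congr 1
          exact Subtype.ext (hgg' hgz)
        rw [h3, h4, mul_one, mul_comm]
        exact hlinv n
      · have h3 : ∑ n : N, lam n * lam ⟨g * n * g⁻¹, hgn n⟩ = 0 := by
          have h4 : classInner (cj N g lam) (fun n => conj (lam n)) = 0 := by
            apply classInner_eq_zero_of_irr_ne (isIrrCharacter_cj N g hlam) (isIrrCharacter_conj hlam)
            intro h
            apply hgz
            rw [← hT, mem_inertia_iff]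
            intro n
            have h5 := congrFun h ⟨z * n * z⁻¹, hN.conj_mem (n : G) n.2 z⟩
            rw [cj_apply] at h5
            have h6 : conj (lam ⟨z * n * z⁻¹, hN.conj_mem (n : G) n.2 z⟩) = lam n := by
              rw [hzn, linChar_conj hlc h1, inv_inv]
            rw [h6] at h5
            rw [← h5]
            congr 1
            apply Subtype.ext
            change g * z * n * (g * z)⁻¹ = g * (z * n * z⁻¹) * g⁻¹
            group
          unfold classInner at h4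
          have h5 : (Nat.card N : ℂ)⁻¹ ≠ 0 := inv_ne_zero (by exact_mod_cast Nat.card_pos.ne')
          have h6 := (mul_eq_zero.mp h4).resolve_left h5
          rw [← h6]
          refine Finset.sum_congr rfl (fun n _ => ?_)
          rw [Complex.conj_conj, cj_apply]; ring
        have h4 : ∀ n : N, (extendByZero T ψ ((n * g) * (n * g)) - if (n : G) * g * z ∈ T then (1 : ℂ) else 0) =
            (lam n * lam ⟨g * n * g⁻¹, hgn n⟩) * ψ ⟨g * g, hgg⟩ := by
          intro n
          rw [hval, if_neg (fun h => hgz ((hngz n).mp h)), sub_zero]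
        simp only [h4]
        rw [← Finset.sum_mul, h3, zero_mul]
    · refine Finset.sum_eq_zero (fun n _ => ?_)
      have hgz : g * z ∉ T := by
        intro h
        apply hgg
        rw [hgg' h]
        exact T.mul_mem h (hzT _ h)
      rw [if_neg (fun h => hgz ((hngz n).mp h)), sub_zero, extendByZero_of_notMem]
      rw [e]
      intro h
      exact hgg ((Subgroup.mul_mem_cancel_left T (T.mul_mem (hNT n.2) (hNT (hgn n)))).mp h)
  rw [Finset.sum_sub_distrib, sub_eq_zero] at hmain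
  rw [hmain]
  have h3 : ∑ g : G, (if g * z ∈ T then (1 : ℂ) else 0) = (Nat.card T : ℂ) := by
    have h4 : ∑ g : G, (if g * z ∈ T then (1 : ℂ) else 0) = ∑ g : G, (if g ∈ T then (1 : ℂ) else 0) :=
      Fintype.sum_equiv (Equiv.mulRight z) _ _ (fun _ => rfl)
    rw [h4, Finset.sum_ite, Finset.sum_const_zero, add_zero, Finset.sum_const, nsmul_eq_mul, mul_one,
      Nat.card_eq_fintype_card, Fintype.card_subtype]
  rw [h3, inv_mul_cancel₀ hcardT]

end Main

end Cfsg.Agent.H25.FSInd
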