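import Mathlib
import Cfsg.Prelude.Def_Blocks
import Cfsg.Agent.CharBase.Column
import Cfsg.Agent.CharBase.Central
import Cfsg.Agent.Char.Linear
import Cfsg.Agent.Char.CliffordCorr
import Cfsg.Agent.Coh.DegBound
import Cfsg.Agent.BT.Alt2

/-!
# Groups with an element `u` such that `χ(1) - χ(u) = 4` or `χ(u) = 0` for all `χ ≠ 1` (owner helper25)

Part A: accounting.
-/

set_option autoImplicit false
set_option linter.unusedSectionVars false
set_option linter.unusedVariables false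
set_option linter.style.haveILetI false

namespace Cfsg.Agent.H25.Five

open scoped ComplexConjugate BigOperators
open Cfsg Cfsg.Agent.CharBase Cfsg.Agent.Char

universe v

variable {G : Type v} [Group G] [Fintype G] {u : G}

/-- the hypothesis -/
def Hyp (u : G) : Prop :=
  ∀ χ : G → ℂ, IsIrrCharacter G χ → χ ≠ (fun _ => 1) → (χ 1 - χ u = 4 ∨ χ u = 0)

/-- complex conjugate -/
def cc (f : G → ℂ) : G → ℂ := fun g => conj (f g)

theorem cc_apply (f : G → ℂ) (g : G) : cc f g = conj (f g) := rfl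

theorem cc_cc (f : G → ℂ) : cc (cc f) = f := by funext g; simp [cc]

theorem irr_cc {χ : G → ℂ} (h : IsIrrCharacter G χ) : IsIrrCharacter G (cc χ) := isIrrCharacter_conj h

theorem char_cc {χ : G → ℂ} (h : IsCharacter G χ) : IsCharacter G (cc χ) := by
  classical
  have : Fintype (IrrCharacter G) := Fintype.ofFinite _
  obtain ⟨k, hk, hsum⟩ := exists_mult_of_isCharacter h
  have h1 : cc χ = ∑ ψ : IrrCharacter G, k ψ • cc (ψ : G → ℂ) := by
    funext g
    rw [cc_apply, hsum]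
    simp only [Finset.sum_apply, Pi.smul_apply]
    simp only [map_sum, nsmul_eq_mul, map_mul, map_natCast, cc_apply]
  rw [h1]
  exact isCharacter_sum _ _ (fun ψ _ => isCharacter_nsmul (isCharacter_of_isIrr (irr_cc ψ.2)) _)

theorem inner_self {χ : G → ℂ} (h : IsIrrCharacter G χ) : classInner χ χ = 1 := classInner_irr_self ⟨χ, h⟩

theorem inner_ne {χ ψ : G → ℂ} (h : IsIrrCharacter G χ) (h' : IsIrrCharacter G ψ) (hne : χ ≠ ψ) :
    classInner χ ψ = 0 :=
  classInner_irr_of_ne (χ := ⟨χ, h⟩) (ψ := ⟨ψ, h'⟩) (fun e => hne (congrArg Subtype.val e))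

theorem inner_cc (φ ψ : G → ℂ) : classInner (cc φ) (cc ψ) = conj (classInner φ ψ) := by
  unfold classInner
  rw [map_mul, map_inv₀, map_natCast, map_sum]
  congr 1
  refine Finset.sum_congr rfl (fun n _ => ?_)
  rw [map_mul, cc_apply, cc_apply]

/-- linear characters are trivial -/
theorem lin (h : Hyp u) {χ : G → ℂ} (hχ : IsIrrCharacter G χ) (h1 : χ 1 = 1) : χ = fun _ => 1 := by
  by_contra hne
  have hc := isCharacter_of_isIrr hχ
  rcases h χ hχ hne with h2 | h2
  · have h3 : χ u = -3 := by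
      rw [h1] at h2; linear_combination -h2
    have h4 : χ u * χ u⁻¹ = 1 := by rw [← linChar_mul hc h1, mul_inv_cancel, h1]
    rw [isCharacter_inv hc, h3] at h4
    have : conj (-3 : ℂ) = -3 := by rw [map_neg, map_ofNat]
    rw [this] at h4
    norm_num at h4
  · exact linChar_ne_zero hc h1 u h2

theorem lin' (h : Hyp u) {χ : G → ℂ} (hχ : IsCharacter G χ) (h1 : χ 1 = 1) : χ = fun _ => 1 :=
  lin h (linChar_isIrr hχ h1) h1

/-- every defect `θ(1) - θ(u)` is a natural number. -/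
theorem acc (h : Hyp u) {θ : G → ℂ} (hθ : IsCharacter G θ) : ∃ e : ℕ, θ 1 - θ u = e := by
  classical
  have : Fintype (IrrCharacter G) := Fintype.ofFinite _
  obtain ⟨k, hk, hsum⟩ := exists_mult_of_isCharacter hθ
  have hw : ∀ ψ : IrrCharacter G, ∃ w : ℕ, (ψ : G → ℂ) 1 - (ψ : G → ℂ) u = w := by
    intro ψ
    by_cases hψ : (ψ : G → ℂ) = fun _ => 1
    · exact ⟨0, by rw [hψ]; simp⟩
    rcases h ψ ψ.2 hψ with h1 | h1
    · exact ⟨4, by rw [h1]; norm_num⟩
    · obtain ⟨n, hn⟩ := exists_nat_degree (irr_isCharacter ψ)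
      exact ⟨n, by rw [hn, h1, sub_zero]⟩
  choose w hw using hw
  refine ⟨∑ ψ : IrrCharacter G, k ψ * w ψ, ?_⟩
  have e1 := congrFun hsum 1
  have e2 := congrFun hsum u
  rw [e1, e2]
  simp only [Finset.sum_apply, Pi.smul_apply]
  simp only [nsmul_eq_mul]
  push_cast
  rw [← Finset.sum_sub_distrib]
  refine Finset.sum_congr rfl (fun ψ _ => ?_)
  rw [← hw ψ]; ring

/-- a character of degree zero is zero -/
theorem eq_zero_of_deg {θ : G → ℂ} (hθ : IsCharacter G θ) (h0 : θ 1 = 0) : θ = 0 := by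
  funext g
  obtain ⟨n, hn, hle⟩ := norm_le_of_isCharacter hθ g
  have : (n : ℂ) = 0 := by rw [← hn]; exact h0
  have hn0 : n = 0 := by exact_mod_cast this
  rw [hn0] at hle
  simpa using hle

/-- an irreducible character with `u` in the kernel is trivial. -/
theorem irr_ker (h : Hyp u) {χ : G → ℂ} (hχ : IsIrrCharacter G χ) (h1 : χ u = χ 1) : χ = fun _ => 1 := by
  by_contra hne
  rcases h χ hχ hne with h2 | h2
  · rw [h1, sub_self] at h2; norm_num at h2
  · rw [h1] at h2; exact irr_one_ne_zero hχ h2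

/-- a character with `u` in the kernel is constant -/
theorem const_of_ker (h : Hyp u) {θ : G → ℂ} (hθ : IsCharacter G θ) (h1 : θ u = θ 1) (g : G) : θ g = θ 1 := by
  classical
  have : Fintype (IrrCharacter G) := Fintype.ofFinite _
  obtain ⟨k, hk, hsum⟩ := exists_mult_of_isCharacter hθ
  rw [hsum]
  simp only [Finset.sum_apply, Pi.smul_apply]
  refine Finset.sum_congr rfl (fun ψ _ => ?_)
  by_cases hk0 : k ψ = 0
  · rw [hk0]; simp
  · have h2 : classInner θ (ψ : G → ℂ) ≠ 0 := by rw [hk ψ]; exact_mod_cast hk0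
    have h3 := irr_ker h ψ.2 (Coh.ker_of_constituent hθ ψ.2 h2 h1)
    rw [h3]

/-- no character of degree two is nonzero at `u` -/
theorem not_two (h : Hyp u) {χ : G → ℂ} (hχ : IsIrrCharacter G χ) (hd : χ 1 = 2) (hu : χ 1 - χ u = 4) : False := by
  have h1 : χ u = -2 := by rw [hd] at hu; linear_combination -hu
  have hc := isCharacter_of_isIrr hχ
  have hθ : IsCharacter G (χ * cc χ) := isCharacter_mul hc (char_cc hc)
  have h2 : (χ * cc χ) u = (χ * cc χ) 1 := by
    simp only [Pi.mul_apply, cc_apply, hd, h1, map_neg, map_ofNat]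
    norm_num
  have h3 := const_of_ker h hθ h2
  have h4 : classInner (χ * cc χ) (fun _ => 1) = classInner χ χ := by
    unfold classInner
    congr 1
    refine Finset.sum_congr rfl (fun g _ => ?_)
    simp [cc]
  have h5 : classInner (χ * cc χ) (fun _ => (1 : ℂ)) = 4 := by
    unfold classInner
    have : ∀ g : G, (χ * cc χ) g * conj ((fun _ : G => (1 : ℂ)) g) = 4 := by
      intro g
      rw [h3 g]
      simp only [Pi.mul_apply, cc_apply, hd, map_ofNat, map_one]
      norm_num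
    simp only [this]
    rw [Finset.sum_const, Finset.card_univ, nsmul_eq_mul, Nat.card_eq_fintype_card]
    have : (Fintype.card G : ℂ) ≠ 0 := by
      have := Fintype.card_pos (α := G)
      exact_mod_cast this.ne'
    field_simp
  rw [h4, inner_self hχ] at h5
  norm_num at h5

/-- the type of an irreducible character (nonprincipal, `u²` in the kernel): degree `d`, defect `w`. -/
def Ty (u : G) (χ : G → ℂ) (d w : ℕ) : Prop :=
  χ 1 = d ∧ χ 1 - χ u = w ∧
    ((w = 4 ∧ χ u ≠ 0 ∧ (d = 3 ∨ 5 ≤ d)) ∨ (w = d ∧ χ u = 0 ∧ 4 ≤ d ∧ Even d))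

/-- the characters not vanishing at `u` -/
theorem deg_S (h : Hyp u) {χ : G → ℂ} (hχ : IsIrrCharacter G χ) (hne : χ ≠ fun _ => 1) (hu : χ u ≠ 0) :
    ∃ d : ℕ, χ 1 = d ∧ χ 1 - χ u = 4 ∧ (d = 3 ∨ 5 ≤ d) := by
  obtain ⟨d, hd⟩ := exists_nat_degree (isCharacter_of_isIrr hχ)
  have h1 := (h χ hχ hne).resolve_right hu
  refine ⟨d, hd, h1, ?_⟩
  have d0 : d ≠ 0 := by
    rintro rfl
    exact irr_one_ne_zero hχ (by rw [hd]; simp)
  have d1 : d ≠ 1 := by
    rintro rfl
    exact hne (lin h hχ (by rw [hd]; simp))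
  have d2 : d ≠ 2 := by
    rintro rfl
    exact not_two h hχ (by rw [hd]; norm_num) h1
  have d4 : d ≠ 4 := by
    rintro rfl
    apply hu
    rw [hd] at h1
    push_cast at h1
    linear_combination -h1
  omega

theorem typ (h : Hyp u) {χ : G → ℂ} (hχ : IsIrrCharacter G χ) (hne : χ ≠ fun _ => 1)
    (hu2 : χ (u * u) = χ 1) : ∃ d w : ℕ, Ty u χ d w := by
  by_cases hu : χ u = 0
  · obtain ⟨d, hd⟩ := exists_nat_degree (isCharacter_of_isIrr hχ)
    refine ⟨d, d, hd, by rw [hd, hu, sub_zero], Or.inr ⟨rfl, hu, ?_⟩⟩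
    have d0 : d ≠ 0 := by
      rintro rfl
      exact irr_one_ne_zero hχ (by rw [hd]; simp)
    have hD := BT.alt2_isCharacter (isCharacter_of_isIrr hχ)
    obtain ⟨e, he⟩ := acc h hD
    have h2 : (d : ℂ) ^ 2 = 2 * e := by
      rw [← he]
      simp only [mul_one, hu, hu2, hd]
      ring
    have h3 : d ^ 2 = 2 * e := by exact_mod_cast h2
    have hev : Even d := by
      have : Even (d ^ 2) := by rw [h3]; exact even_two_mul e
      exact (Nat.even_pow.mp this).1
    have d2 : d ≠ 2 := by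
      rintro rfl
      have h4 := lin' h hD (by simp only [mul_one, hd]; norm_num)
      have h5 := congrFun h4 u
      simp only [hu, hu2, hd] at h5
      norm_num at h5
    obtain ⟨m, hm⟩ := hev
    exact ⟨by omega, ⟨m, hm⟩⟩
  · obtain ⟨d, hd, h1, h2⟩ := deg_S h hχ hne hu
    exact ⟨d, 4, hd, by rw [h1]; norm_num, Or.inl ⟨rfl, hu, h2⟩⟩

theorem inner_one_of_ne {χ : G → ℂ} (hχ : IsIrrCharacter G χ) (hne : χ ≠ fun _ => 1) :
    classInner χ (fun _ => (1 : ℂ)) = 0 := inner_ne hχ Char.isIrrCharacter_one hne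

/-- peeling off a constituent -/
theorem peel (h : Hyp u) {θ : G → ℂ} (hθ : IsCharacter G θ) (h1 : classInner θ (fun _ => (1 : ℂ)) = 0) {d e : ℕ}
    (hd : θ 1 = d) (he : θ 1 - θ u = e) (hd0 : d ≠ 0) (hu2 : θ (u * u) = θ 1) :
    ∃ (χ : G → ℂ) (d' w : ℕ), IsIrrCharacter G χ ∧ χ ≠ (fun _ => 1) ∧ classInner θ χ ≠ 0 ∧ Ty u χ d' w ∧
      d' ≤ d ∧ w ≤ e ∧ IsCharacter G (θ - χ) ∧ classInner (θ - χ) (fun _ => (1 : ℂ)) = 0 ∧
      (θ - χ) 1 = ((d - d' : ℕ) : ℂ) ∧ (θ - χ) 1 - (θ - χ) u = ((e - w : ℕ) : ℂ) ∧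
      (θ - χ) (u * u) = (θ - χ) 1 ∧ (d' = d → θ = χ ∧ e = w) := by
  have hne0 : θ 1 ≠ 0 := by rw [hd]; exact_mod_cast hd0
  obtain ⟨χ, hχ, hc⟩ : ∃ χ : G → ℂ, IsIrrCharacter G χ ∧ classInner θ χ ≠ 0 := by
    by_contra hcon
    push Not at hcon
    apply hne0
    have := classFun_eq_zero_of_classInner (isClassFunction_of_isCharacter hθ) (fun ψ => hcon ψ ψ.2)
    rw [this]; rfl
  have hne : χ ≠ fun _ => 1 := by
    rintro rfl
    exact hc h1
  have hχ2 : χ (u * u) = χ 1 := Coh.ker_of_constituent hθ hχ hc hu2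
  obtain ⟨d', w, hty⟩ := typ h hχ hne hχ2
  have hsub := CC.isCharacter_sub_of_constituent hθ hχ hc
  obtain ⟨m, hm⟩ := exists_nat_degree hsub
  obtain ⟨n, hn⟩ := acc h hsub
  have e1 : (d : ℂ) = m + d' := by
    rw [← hd, ← hm, ← hty.1, Pi.sub_apply]; ring
  have e1' : d = m + d' := by exact_mod_cast e1
  have e2 : (e : ℂ) = n + w := by
    rw [← he, ← hn, ← hty.2.1, Pi.sub_apply, Pi.sub_apply]; ring
  have e2' : e = n + w := by exact_mod_cast e2
  refine ⟨χ, d', w, hχ, hne, hc, hty, by omega, by omega, hsub, ?_, ?_, ?_, ?_, ?_⟩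
  · rw [classInner_sub_left, h1, inner_one_of_ne hχ hne, sub_zero]
  · rw [hm]; congr 1; omega
  · rw [hn]; congr 1; omega
  · rw [Pi.sub_apply, Pi.sub_apply, hu2, hχ2]
  · intro hdd
    have hm0 : m = 0 := by omega
    have h5 := eq_zero_of_deg hsub (by rw [hm, hm0]; simp)
    have h6 : θ = χ := sub_eq_zero.mp h5
    refine ⟨h6, ?_⟩
    have : (e : ℂ) = w := by rw [← he, ← hty.2.1, h6]
    exact_mod_cast this

/-- a character with defect larger than degree has a constituent of degree three nonzero at `u`. -/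
theorem exists_three (h : Hyp u) (d : ℕ) : ∀ (e : ℕ) {θ : G → ℂ}, IsCharacter G θ →
    classInner θ (fun _ => (1 : ℂ)) = 0 → θ 1 = d → θ 1 - θ u = e → θ (u * u) = θ 1 → d < e →
    ∃ σ : G → ℂ, IsIrrCharacter G σ ∧ σ ≠ (fun _ => 1) ∧ Ty u σ 3 4 ∧ classInner θ σ ≠ 0 := by
  induction d using Nat.strong_induction_on with
  | _ d ih =>
    intro e θ hθ h1 hd he hu2 hlt
    have hd0 : d ≠ 0 := by
      rintro rfl
      have h2 := eq_zero_of_deg hθ (by rw [hd]; simp)
      rw [h2] at he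
      simp only [Pi.zero_apply, sub_zero] at he
      have : e = 0 := by exact_mod_cast he.symm
      omega
    obtain ⟨χ, d', w, hχ, hne, hc, hty, hdd, hww, hsub, h2, h3, h4, h5, h6⟩ := peel h hθ h1 hd he hd0 hu2
    by_cases h34 : d' = 3 ∧ w = 4
    · obtain ⟨rfl, rfl⟩ := h34
      exact ⟨χ, hχ, hne, hty, hc⟩
    have hwd : w ≤ d' := by
      rcases hty.2.2 with ⟨h7, -, h8⟩ | ⟨h7, -⟩
      · omega
      · omega
    have hd' : 0 < d' := by
      rcases hty.2.2 with ⟨h7, -, h8⟩ | ⟨h7, -, h8, -⟩ <;> omega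
    obtain ⟨σ, hσ, hσ1, hσt, hσc⟩ := ih (d - d') (by omega) (e - w) hsub h2 h3 h4 h5 (by omega)
    refine ⟨σ, hσ, hσ1, hσt, ?_⟩
    obtain ⟨m, hm⟩ := classInner_natCast hsub (isCharacter_of_isIrr hσ)
    obtain ⟨n, hn⟩ := classInner_natCast (isCharacter_of_isIrr hχ) (isCharacter_of_isIrr hσ)
    have h9 : classInner θ σ = ((m + n : ℕ) : ℂ) := by
      have : θ = (θ - χ) + χ := by simp
      rw [this, classInner_add_left, hm, hn]; push_cast; ring
    rw [h9]
    rw [hm] at hσc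
    have : m ≠ 0 := by exact_mod_cast hσc
    have : m + n ≠ 0 := by omega
    exact_mod_cast this

end Cfsg.Agent.H25.Five
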