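import Mathlib
import Cfsg.Agent.H25.FiveA

/-!
# Groups with an element `u` such that `χ(1) - χ(u) = 4` or `χ(u) = 0` for all `χ ≠ 1` (owner helper25)

Part B: the characters of degree three.
-/

set_option autoImplicit false
set_option linter.unusedSectionVars false
set_option linter.unusedVariables false
set_option linter.style.haveILetI false

namespace Cfsg.Agent.H25.Five

open scoped ComplexConjugate BigOperators
open Cfsg Cfsg.Agent.CharBase Cfsg.Agent.Char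

universe v

variable {G : Type v} [Group G] [Fintype G] {u : G}

theorem adj3 (A : Matrix (Fin 3) (Fin 3) ℂ) : 2 * (Matrix.adjugate A).trace = A.trace ^ 2 - (A * A).trace := by
  rw [Matrix.adjugate_fin_three, Matrix.trace_fin_three, Matrix.trace_fin_three, Matrix.trace_fin_three]
  simp only [Matrix.of_apply, Matrix.cons_val', Matrix.cons_val_zero, Matrix.cons_val_one, Matrix.mul_apply,
    Fin.sum_univ_three, Matrix.cons_val]
  ring

/-- squares in characters of degree three. -/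
theorem dsq (h : Hyp u) {χ : G → ℂ} (hχ : IsCharacter G χ) (h3 : χ 1 = 3) (g : G) :
    χ (g * g) = χ g ^ 2 - 2 * conj (χ g) := by
  have hc := hχ
  obtain ⟨n, ρ, rfl⟩ := hχ
  have hn : n = 3 := by
    have h1 : ρ.character 1 = (n : ℂ) := by
      rw [Representation.char_one]; simp
    rw [h1] at h3
    exact_mod_cast h3
  subst hn
  let M : G →* Matrix (Fin 3) (Fin 3) ℂ :=
    (LinearMap.toMatrixAlgEquiv' (R := ℂ) (n := Fin 3)).toMonoidHom.comp ρ
  have hM : ∀ g, ρ.character g = (M g).trace := by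
    intro g
    change LinearMap.trace ℂ _ (ρ g) = _
    rw [LinearMap.trace_eq_matrix_trace ℂ (Pi.basisFun ℂ (Fin 3))]
    rfl
  let D : G →* ℂ := Matrix.detMonoidHom.comp M
  have hD : (D : G → ℂ) = fun _ => 1 := lin h (isIrrCharacter_of_hom D) (map_one D)
  have hdet : (M g).det = 1 := congrFun hD g
  have h1 : M g * M g⁻¹ = 1 := by rw [← map_mul, mul_inv_cancel, map_one]
  have h2 : Matrix.adjugate (M g) = M g⁻¹ := by
    calc Matrix.adjugate (M g) = Matrix.adjugate (M g) * (M g * M g⁻¹) := by rw [h1, mul_one]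
      _ = (Matrix.adjugate (M g) * M g) * M g⁻¹ := by rw [mul_assoc]
      _ = M g⁻¹ := by rw [Matrix.adjugate_mul, hdet, one_smul, one_mul]
  have h4 := adj3 (M g)
  rw [h2, ← hM, ← hM, ← map_mul, ← hM, isCharacter_inv hc] at h4
  linear_combination h4

theorem ip_congr {a b c d : G → ℂ} (h : ∀ g, a g * conj (b g) = c g * conj (d g)) :
    classInner a b = classInner c d := by
  unfold classInner
  congr 1
  exact Finset.sum_congr rfl (fun g _ => h g)

/-- the characters of degree three not vanishing at `u`. -/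
def R (u : G) (ρ : G → ℂ) : Prop := IsIrrCharacter G ρ ∧ ρ ≠ (fun _ => 1) ∧ Ty u ρ 3 4

theorem R.irr {ρ : G → ℂ} (h : R u ρ) : IsIrrCharacter G ρ := h.1
theorem R.char {ρ : G → ℂ} (h : R u ρ) : IsCharacter G ρ := isCharacter_of_isIrr h.1
theorem R.one {ρ : G → ℂ} (h : R u ρ) : ρ 1 = 3 := by have := h.2.2.1; rw [this]; norm_num
theorem R.val {ρ : G → ℂ} (h : R u ρ) : ρ u = -1 := by
  have := h.2.2.2.1; rw [h.one] at this; push_cast at this; linear_combination -this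
theorem R.uu (hu : Hyp u) {ρ : G → ℂ} (h : R u ρ) : ρ (u * u) = 3 := by
  rw [dsq hu h.char h.one, h.val, map_neg, map_one]; norm_num

theorem R.cc {ρ : G → ℂ} (h : R u ρ) : R u (cc ρ) := by
  refine ⟨irr_cc h.1, ?_, ?_, ?_, Or.inl ⟨rfl, ?_, Or.inl rfl⟩⟩
  · intro h1
    have := congrFun h1 1
    rw [cc_apply, h.one, map_ofNat] at this
    norm_num at this
  · rw [cc_apply, h.one, map_ofNat]; norm_num
  · rw [cc_apply, cc_apply, h.one, h.val, map_ofNat, map_neg, map_one]; norm_num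
  · rw [cc_apply, h.val, map_neg, map_one]; norm_num

theorem ne_of_deg {α β : G → ℂ} (h : α 1 ≠ β 1) : α ≠ β := fun e => h (by rw [e])

theorem ty_w {χ : G → ℂ} {d w : ℕ} (h : Ty u χ d w) : 4 ≤ w ∧ (w = 4 ∧ χ u ≠ 0 ∧ (d = 3 ∨ 5 ≤ d) ∨ w = d ∧ χ u = 0) := by
  rcases h.2.2 with ⟨h1, h2, h3⟩ | ⟨h1, h2, h3, h4⟩
  · exact ⟨h1.ge, Or.inl ⟨h1, h2, h3⟩⟩
  · exact ⟨by omega, Or.inr ⟨h1, h2⟩⟩

/-- a character with defect less than eight is irreducible. -/
theorem irr_of_small (h : Hyp u) {θ : G → ℂ} (hθ : IsCharacter G θ) (h1 : classInner θ (fun _ => (1 : ℂ)) = 0) {d e : ℕ}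
    (hd : θ 1 = d) (he : θ 1 - θ u = e) (hd0 : d ≠ 0) (hu2 : θ (u * u) = θ 1) (he8 : e < 8) : Ty u θ d e ∧ IsIrrCharacter G θ := by
  obtain ⟨χ, d', w, hχ, hne, hc, hty, hdd, hww, hsub, h2, h3, h4, h5, h6⟩ := peel h hθ h1 hd he hd0 hu2
  have hw := (ty_w hty).1
  by_cases hdd' : d' = d
  · obtain ⟨h7, h8⟩ := h6 hdd'
    rw [h7]
    rw [hdd', ← h8] at hty
    exact ⟨hty, hχ⟩
  · exfalso
    obtain ⟨χ', d'', w', hχ', hne', hc', hty', hdd', hww', -⟩ := peel h hsub h2 h3 h4 (by omega) h5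
    have hw' := (ty_w hty').1
    omega

/-- a character with defect eight is irreducible or the sum of two irreducible characters of defect four. -/
theorem two_of_eight (h : Hyp u) {θ : G → ℂ} (hθ : IsCharacter G θ) (h1 : classInner θ (fun _ => (1 : ℂ)) = 0) {d : ℕ}
    (hd : θ 1 = d) (he : θ 1 - θ u = 8) (hd0 : d ≠ 0) (hu2 : θ (u * u) = θ 1) :
    (IsIrrCharacter G θ ∧ d = 8 ∧ θ u = 0) ∨ ∃ (α β : G → ℂ) (a b : ℕ), IsIrrCharacter G α ∧ IsIrrCharacter G β ∧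
      α ≠ (fun _ => 1) ∧ β ≠ (fun _ => 1) ∧ Ty u α a 4 ∧ Ty u β b 4 ∧ θ = α + β ∧ a + b = d := by
  have he' : θ 1 - θ u = ((8 : ℕ) : ℂ) := by rw [he]; norm_num
  obtain ⟨χ, d', w, hχ, hne, hc, hty, hdd, hww, hsub, h2, h3, h4, h5, h6⟩ := peel h hθ h1 hd he' hd0 hu2
  have hw := ty_w hty
  by_cases hdd' : d' = d
  · left
    obtain ⟨h7, h8⟩ := h6 hdd'
    rw [h7]
    rcases hw.2 with ⟨h9, -⟩ | ⟨h9, h10⟩
    · omega
    · exact ⟨hχ, by omega, h10⟩
  · right
    obtain ⟨χ', d'', w', hχ', hne', hc', hty', hdd', hww', hsub', h2', h3', h4', h5', h6'⟩ :=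
      peel h hsub h2 h3 h4 (by omega) h5
    have hw' := ty_w hty'
    have hdd'' : d'' = d - d' := by
      by_contra hcon
      obtain ⟨χ3, d3, w3, -, -, -, hty3, -, hww3, -⟩ := peel h hsub' h2' h3' h4' (by omega) h5'
      have hw3 := (ty_w hty3).1
      omega
    obtain ⟨h7, h8⟩ := h6' hdd''
    have e1 : w = 4 := by omega
    have e2 : w' = 4 := by omega
    rw [e1] at hty
    rw [e2] at hty'
    exact ⟨χ, χ', d', d'', hχ, hχ', hne, hne', hty, hty', by rw [← h7]; simp, by omega⟩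

theorem inner_one_mul_cc (ρ σ : G → ℂ) : classInner (ρ * cc σ) (fun _ => (1 : ℂ)) = classInner ρ σ :=
  ip_congr (fun g => by simp only [Pi.mul_apply, cc_apply, map_one]; ring)

/-- products of two different characters of degree three. -/
theorem pair (h : Hyp u) {ρ σ : G → ℂ} (hρ : R u ρ) (hσ : R u σ) (hne : ρ ≠ σ) :
    ∃ α β : G → ℂ, IsIrrCharacter G α ∧ IsIrrCharacter G β ∧ ρ * cc σ = α + β ∧
      ((α 1 = 3 ∧ β 1 = 6) ∨ (α 1 = 5 ∧ β 1 = 4)) := by
  have hθ : IsCharacter G (ρ * cc σ) := isCharacter_mul hρ.char (char_cc hσ.char)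
  have h1 : classInner (ρ * cc σ) (fun _ => (1 : ℂ)) = 0 := by
    rw [inner_one_mul_cc, inner_ne hρ.irr hσ.irr hne]
  have hd : (ρ * cc σ) 1 = ((9 : ℕ) : ℂ) := by
    rw [Pi.mul_apply, cc_apply, hρ.one, hσ.one, map_ofNat]; norm_num
  have hv : (ρ * cc σ) u = 1 := by
    rw [Pi.mul_apply, cc_apply, hρ.val, hσ.val, map_neg, map_one]; norm_num
  have hu2 : (ρ * cc σ) (u * u) = (ρ * cc σ) 1 := by
    rw [hd, Pi.mul_apply, cc_apply, hρ.uu h, hσ.uu h, map_ofNat]; norm_num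
  rcases two_of_eight h hθ h1 hd (by rw [hd, hv]; norm_num) (by norm_num) hu2 with ⟨-, h2, -⟩ |
    ⟨α, β, a, b, hα, hβ, -, -, hta, htb, hsum, hab⟩
  · omega
  · have ha := ty_w hta
    have hb := ty_w htb
    have hcases : (a = 3 ∧ b = 6) ∨ (a = 6 ∧ b = 3) ∨ (a = 5 ∧ b = 4) ∨ (a = 4 ∧ b = 5) := by omega
    rcases hcases with ⟨rfl, rfl⟩ | ⟨rfl, rfl⟩ | ⟨rfl, rfl⟩ | ⟨rfl, rfl⟩
    · exact ⟨α, β, hα, hβ, hsum, Or.inl ⟨by rw [hta.1]; norm_num, by rw [htb.1]; norm_num⟩⟩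
    · exact ⟨β, α, hβ, hα, by rw [hsum, add_comm], Or.inl ⟨by rw [htb.1]; norm_num, by rw [hta.1]; norm_num⟩⟩
    · exact ⟨α, β, hα, hβ, hsum, Or.inr ⟨by rw [hta.1]; norm_num, by rw [htb.1]; norm_num⟩⟩
    · exact ⟨β, α, hβ, hα, by rw [hsum, add_comm], Or.inr ⟨by rw [htb.1]; norm_num, by rw [hta.1]; norm_num⟩⟩

theorem pair_norm (h : Hyp u) {ρ σ : G → ℂ} (hρ : R u ρ) (hσ : R u σ) (hne : ρ ≠ σ) :
    classInner (ρ * cc ρ) (σ * cc σ) = 2 := by
  obtain ⟨α, β, hα, hβ, hsum, hdeg⟩ := pair h hρ hσ hne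
  have hab : α ≠ β := by
    apply ne_of_deg
    rcases hdeg with ⟨h1, h2⟩ | ⟨h1, h2⟩ <;> rw [h1, h2] <;> norm_num
  have h1 : classInner (ρ * cc ρ) (σ * cc σ) = classInner (ρ * cc σ) (ρ * cc σ) :=
    ip_congr (fun g => by simp only [Pi.mul_apply, cc_apply, map_mul, Complex.conj_conj]; ring)
  rw [h1, hsum, classInner_add_left, classInner_add_right, classInner_add_right, inner_self hα, inner_self hβ,
    inner_ne hα hβ hab, inner_ne hβ hα hab.symm]
  norm_num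

/-- `ρ ρ̄ - 1` -/
def th (ρ : G → ℂ) : G → ℂ := ρ * cc ρ - fun _ => 1

theorem th_apply (ρ : G → ℂ) (g : G) : th ρ g = ρ g * conj (ρ g) - 1 := rfl

/-- `ρ ρ̄ - 1`. -/
theorem self_prod (h : Hyp u) {ρ : G → ℂ} (hρ : R u ρ) :
    IsCharacter G (th ρ) ∧ classInner (th ρ) (fun _ => (1 : ℂ)) = 0 ∧
      th ρ 1 = 8 ∧
      ((∃ a b : G → ℂ, R u a ∧ IsIrrCharacter G b ∧ b 1 = 5 ∧ b u ≠ 0 ∧ th ρ = a + b) ∨
        ∀ ψ : G → ℂ, IsIrrCharacter G ψ → ψ u ≠ 0 → classInner (th ρ) ψ = 0) := by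
  have hθ : IsCharacter G (ρ * cc ρ) := isCharacter_mul hρ.char (char_cc hρ.char)
  have h1 : classInner (ρ * cc ρ) (fun _ => (1 : ℂ)) = 1 := by
    rw [inner_one_mul_cc, inner_self hρ.irr]
  have hone : IsIrrCharacter G (fun _ : G => (1 : ℂ)) := Char.isIrrCharacter_one
  have hsub : IsCharacter G (th ρ) :=
    CC.isCharacter_sub_of_constituent hθ hone (by rw [h1]; exact one_ne_zero)
  have h2 : classInner (th ρ) (fun _ => (1 : ℂ)) = 0 := by
    unfold th
    rw [classInner_sub_left, h1, inner_self hone, sub_self]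
  have hd : th ρ 1 = ((8 : ℕ) : ℂ) := by
    rw [th_apply, hρ.one, map_ofNat]; norm_num
  have hv : th ρ u = 0 := by
    rw [th_apply, hρ.val, map_neg, map_one]; norm_num
  have hu2 : th ρ (u * u) = th ρ 1 := by
    rw [hd, th_apply, hρ.uu h, map_ofNat]; norm_num
  refine ⟨hsub, h2, by rw [hd]; norm_num, ?_⟩
  rcases two_of_eight h hsub h2 hd (by rw [hd, hv]; norm_num) (by norm_num) hu2 with ⟨h3, -, h4⟩ |
    ⟨α, β, a, b, hα, hβ, hα1, hβ1, hta, htb, hsum, hab⟩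
  · right
    intro ψ hψ hψu
    apply inner_ne h3 hψ
    rintro rfl
    exact hψu h4
  · have ha := ty_w hta
    have hb := ty_w htb
    have hcases : (a = 3 ∧ b = 5) ∨ (a = 5 ∧ b = 3) ∨ (a = 4 ∧ b = 4) := by omega
    rcases hcases with ⟨rfl, rfl⟩ | ⟨rfl, rfl⟩ | ⟨rfl, rfl⟩
    · left
      refine ⟨α, β, ⟨hα, hα1, hta⟩, hβ, by rw [htb.1]; norm_num, ?_, hsum⟩
      rcases hb.2 with ⟨-, h5, -⟩ | ⟨h5, -⟩
      · exact h5
      · omega
    · left
      refine ⟨β, α, ⟨hβ, hβ1, htb⟩, hα, by rw [hta.1]; norm_num, ?_, by rw [hsum, add_comm]⟩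
      rcases ha.2 with ⟨-, h5, -⟩ | ⟨h5, -⟩
      · exact h5
      · omega
    · right
      intro ψ hψ hψu
      have h5 : α u = 0 := by
        rcases ha.2 with ⟨-, -, h6⟩ | ⟨-, h6⟩
        · omega
        · exact h6
      have h6 : β u = 0 := by
        rcases hb.2 with ⟨-, -, h6⟩ | ⟨-, h6⟩
        · omega
        · exact h6
      rw [hsum, classInner_add_left, inner_ne hα hψ (by rintro rfl; exact hψu h5),
        inner_ne hβ hψ (by rintro rfl; exact hψu h6), add_zero]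

/-- `ρ² - 1 - ρ` -/
def chi (ρ : G → ℂ) : G → ℂ := ρ * ρ - (fun _ => 1) - ρ

theorem chi_apply (ρ : G → ℂ) (g : G) : chi ρ g = ρ g * ρ g - 1 - ρ g := rfl

/-- the real case -/
theorem chi_irr (h : Hyp u) {ρ : G → ℂ} (hρ : R u ρ) (hr : cc ρ = ρ) :
    IsIrrCharacter G (chi ρ) ∧ chi ρ 1 = 5 ∧ chi ρ u = 1 := by
  have hrg : ∀ g, conj (ρ g) = ρ g := fun g => congrFun hr g
  have hS : IsCharacter G (ρ * ρ - ρ) := by
    have := BT.sym2_isCharacter hρ.char
    have e : (fun g => (ρ g ^ 2 + ρ (g * g)) / 2) = ρ * ρ - ρ := by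
      funext g
      rw [dsq h hρ.char hρ.one, hrg]
      simp only [Pi.sub_apply, Pi.mul_apply]; ring
    rwa [e] at this
  have hone : IsIrrCharacter G (fun _ : G => (1 : ℂ)) := Char.isIrrCharacter_one
  have h1 : classInner (ρ * ρ - ρ) (fun _ => (1 : ℂ)) = 1 := by
    have e : classInner (ρ * ρ) (fun _ => (1 : ℂ)) = classInner ρ ρ := by
      have := inner_one_mul_cc ρ ρ
      rwa [hr] at this
    rw [classInner_sub_left, e, inner_self hρ.irr, inner_ne hρ.irr hone hρ.2.1, sub_zero]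
  have hchi : chi ρ = (ρ * ρ - ρ) - fun _ => 1 := by
    funext g
    simp only [chi_apply, Pi.sub_apply, Pi.mul_apply]; ring
  have hsub : IsCharacter G (chi ρ) := by
    rw [hchi]
    exact CC.isCharacter_sub_of_constituent hS hone (by rw [h1]; exact one_ne_zero)
  have h2 : classInner (chi ρ) (fun _ => (1 : ℂ)) = 0 := by
    rw [hchi, classInner_sub_left, h1, inner_self hone, sub_self]
  have hd : chi ρ 1 = ((5 : ℕ) : ℂ) := by rw [chi_apply, hρ.one]; norm_num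
  have hv : chi ρ u = 1 := by rw [chi_apply, hρ.val]; norm_num
  have hu2 : chi ρ (u * u) = chi ρ 1 := by rw [hd, chi_apply, hρ.uu h]; norm_num
  exact ⟨(irr_of_small h hsub h2 hd (e := 4) (by rw [hd, hv]; norm_num) (by norm_num) hu2 (by norm_num)).2,
    by rw [hd]; norm_num, hv⟩

/-- the nonreal case -/
theorem tau_irr (h : Hyp u) {ρ : G → ℂ} (hρ : R u ρ) (hr : cc ρ ≠ ρ) :
    IsIrrCharacter G (ρ * ρ - cc ρ) ∧ (ρ * ρ - cc ρ) 1 = 6 ∧ (ρ * ρ - cc ρ) u = 2 := by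
  have hS : IsCharacter G (ρ * ρ - cc ρ) := by
    have := BT.sym2_isCharacter hρ.char
    have e : (fun g => (ρ g ^ 2 + ρ (g * g)) / 2) = ρ * ρ - cc ρ := by
      funext g
      rw [dsq h hρ.char hρ.one]
      simp only [Pi.sub_apply, Pi.mul_apply, cc_apply]; ring
    rwa [e] at this
  have hone : IsIrrCharacter G (fun _ : G => (1 : ℂ)) := Char.isIrrCharacter_one
  have h1 : classInner (ρ * ρ - cc ρ) (fun _ => (1 : ℂ)) = 0 := by
    have e : classInner (ρ * ρ) (fun _ => (1 : ℂ)) = classInner ρ (cc ρ) := by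
      have := inner_one_mul_cc ρ (cc ρ)
      rwa [cc_cc] at this
    rw [classInner_sub_left, e, inner_ne hρ.irr hρ.cc.irr hr.symm, inner_ne hρ.cc.irr hone hρ.cc.2.1, sub_zero]
  have hd : (ρ * ρ - cc ρ) 1 = ((6 : ℕ) : ℂ) := by
    rw [Pi.sub_apply, Pi.mul_apply, cc_apply, hρ.one, map_ofNat]; norm_num
  have hv : (ρ * ρ - cc ρ) u = 2 := by
    rw [Pi.sub_apply, Pi.mul_apply, cc_apply, hρ.val, map_neg, map_one]; norm_num
  have hu2 : (ρ * ρ - cc ρ) (u * u) = (ρ * ρ - cc ρ) 1 := by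
    rw [hd, Pi.sub_apply, Pi.mul_apply, cc_apply, hρ.uu h, map_ofNat]; norm_num
  exact ⟨(irr_of_small h hS h1 hd (e := 4) (by rw [hd, hv]; norm_num) (by norm_num) hu2 (by norm_num)).2,
    by rw [hd]; norm_num, hv⟩

/-- there is a character of degree three (column orthogonality). -/
theorem exists_R (h : Hyp u) (hu : u ≠ 1) : ∃ ρ : G → ℂ, R u ρ := by
  classical
  have : Fintype (IrrCharacter G) := Fintype.ofFinite _
  by_contra hcon
  push Not at hcon
  have h1 := sum_degree_mul (G := G) u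
  rw [if_neg hu] at h1
  have hone : IsIrrCharacter G (fun _ : G => (1 : ℂ)) := Char.isIrrCharacter_one
  have hnn : ∀ ψ : IrrCharacter G, 0 ≤ ((ψ : G → ℂ) 1 * (ψ : G → ℂ) u).re := by
    intro ψ
    by_cases h1 : (ψ : G → ℂ) = fun _ => 1
    · rw [h1]; simp
    by_cases h2 : (ψ : G → ℂ) u = 0
    · rw [h2]; simp
    obtain ⟨d, hd, h3, h4⟩ := deg_S h ψ.2 h1 h2
    rcases h4 with rfl | h4
    · exfalso
      exact hcon ψ ⟨ψ.2, h1, by rw [hd], by rw [h3]; norm_num, Or.inl ⟨rfl, h2, Or.inl rfl⟩⟩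
    · have h5 : (ψ : G → ℂ) u = ((d - 4 : ℕ) : ℂ) := by
        rw [hd] at h3
        rw [Nat.cast_sub (by omega)]
        push_cast
        linear_combination -h3
      rw [hd, h5]
      have : ((d : ℂ) * ((d - 4 : ℕ) : ℂ)) = ((d * (d - 4) : ℕ) : ℂ) := by push_cast; ring
      rw [this, Complex.natCast_re]
      positivity
  have h2 : (∑ ψ : IrrCharacter G, ((ψ : G → ℂ) 1 * (ψ : G → ℂ) u).re) = 0 := by
    rw [← Complex.re_sum, h1]; simp
  have h3 : ∀ ψ ∈ (Finset.univ : Finset (IrrCharacter G)), ((ψ : G → ℂ) 1 * (ψ : G → ℂ) u).re = 0 :=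
    (Finset.sum_eq_zero_iff_of_nonneg (fun ψ _ => hnn ψ)).mp h2
  have h4 := h3 ⟨fun _ => 1, hone⟩ (Finset.mem_univ _)
  simp at h4

end Cfsg.Agent.H25.Five
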