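import Mathlib
import Cfsg.Agent.H25.FiveB
import Cfsg.Agent.H75.Tools

/-!
# Groups with an element `u` such that `χ(1) - χ(u) = 4` or `χ(u) = 0` for all `χ ≠ 1` (owner helper25)

Part C: the four characters not vanishing at `u`; the index of the kernel is 60.
-/

set_option autoImplicit false
set_option linter.unusedSectionVars false
set_option linter.unusedVariables false
set_option linter.style.haveILetI false

namespace Cfsg.Agent.H25.Five

open scoped ComplexConjugate BigOperators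
open Cfsg Cfsg.Agent.CharBase Cfsg.Agent.Char

universe v

variable {G : Type v} [Group G] [Fintype G] {u : G}

theorem irr_one : IsIrrCharacter G (fun _ : G => (1 : ℂ)) := Char.isIrrCharacter_one

theorem inner_symm_zero {φ ψ : G → ℂ} (h : classInner φ ψ = 0) : classInner ψ φ = 0 := by
  rw [← CharBase.classInner_conj_symm, h, map_zero]

theorem cc_th (ρ : G → ℂ) : cc (th ρ) = th ρ := by
  funext g
  simp only [cc_apply, th_apply, map_sub, map_mul, Complex.conj_conj, map_one]; ring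

theorem mul_cc_eq (ρ : G → ℂ) : ρ * cc ρ = th ρ + fun _ => 1 := by
  funext g
  simp only [Pi.mul_apply, Pi.add_apply, th_apply, cc_apply]; ring

theorem part_real {σ a b : G → ℂ} (ha : R u a) (hb : IsIrrCharacter G b) (hb5 : b 1 = 5) (hsum : th σ = a + b) :
    cc a = a := by
  have h1 : classInner (th σ) a = 1 := by
    rw [hsum, classInner_add_left, inner_self ha.irr, inner_ne hb ha.irr (ne_of_deg (by rw [hb5, ha.one]; norm_num)),
      add_zero]
  have h2 : classInner (th σ) (cc a) = 1 := by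
    rw [← cc_th, inner_cc, h1, map_one]
  by_contra hne
  rw [hsum, classInner_add_left, inner_ne ha.irr ha.cc.irr (fun h => hne h.symm),
    inner_ne hb ha.cc.irr (ne_of_deg (by rw [hb5, ha.cc.one]; norm_num)), add_zero] at h2
  exact zero_ne_one h2

/-- there is a real character of degree three. -/
theorem exists_real (h : Hyp u) (hu : u ≠ 1) : ∃ ρ : G → ℂ, R u ρ ∧ cc ρ = ρ := by
  by_contra hcon
  push Not at hcon
  obtain ⟨ρ, hρ⟩ := exists_R h hu
  obtain ⟨hth, hth1, hth8, hcase⟩ := self_prod h hρ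
  rcases hcase with ⟨a, b, ha, hb, hb5, hbu, hsum⟩ | hN
  · exact hcon a ha (part_real ha hb hb5 hsum)
  have hr := hcon ρ hρ
  obtain ⟨hτ, hτ6, hτu⟩ := tau_irr h hρ hr
  set τ := ρ * ρ - cc ρ with hτdef
  have hthn : classInner (th ρ) (th ρ) = 1 := by
    have h1 := pair_norm h hρ hρ.cc hr.symm
    have h2 : cc ρ * cc (cc ρ) = ρ * cc ρ := by rw [cc_cc, mul_comm]
    rw [h2, mul_cc_eq, classInner_add_left, classInner_add_right, classInner_add_right, hth1,
      inner_symm_zero hth1, inner_self irr_one] at h1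
    linear_combination h1
  have hthi : IsIrrCharacter G (th ρ) := (isIrrCharacter_iff hth).mpr hthn
  have hτc := isCharacter_of_isIrr hτ
  have hΘ : IsCharacter G (ρ * cc τ) := isCharacter_mul hρ.char (char_cc hτc)
  have hΘρ : classInner (ρ * cc τ) (cc ρ) = 1 := by
    have e : classInner (ρ * cc τ) (cc ρ) = classInner (τ + cc ρ) τ :=
      ip_congr (fun g => by
        simp only [hτdef, Pi.mul_apply, Pi.add_apply, Pi.sub_apply, cc_apply, map_sub, map_mul, Complex.conj_conj]; ring)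
    rw [e, classInner_add_left, inner_self hτ, inner_ne hρ.cc.irr hτ (ne_of_deg (by rw [hτ6, hρ.cc.one]; norm_num)),
      add_zero]
  have hΘ' : IsCharacter G (ρ * cc τ - cc ρ) :=
    CC.isCharacter_sub_of_constituent hΘ hρ.cc.irr (by rw [hΘρ]; exact one_ne_zero)
  have hΘ1 : classInner (ρ * cc τ - cc ρ) (fun _ => (1 : ℂ)) = 0 := by
    rw [classInner_sub_left, inner_one_mul_cc, inner_ne hρ.irr hτ (ne_of_deg (by rw [hτ6, hρ.one]; norm_num)),
      inner_ne hρ.cc.irr irr_one hρ.cc.2.1, sub_zero]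
  have hd : (ρ * cc τ - cc ρ) 1 = ((15 : ℕ) : ℂ) := by
    rw [Pi.sub_apply, Pi.mul_apply, cc_apply, cc_apply, hρ.one, hτ6, map_ofNat, map_ofNat]; norm_num
  have hv : (ρ * cc τ - cc ρ) u = -1 := by
    rw [Pi.sub_apply, Pi.mul_apply, cc_apply, cc_apply, hρ.val, hτu, map_ofNat, map_neg, map_one]; norm_num
  have hu2 : (ρ * cc τ - cc ρ) (u * u) = (ρ * cc τ - cc ρ) 1 := by
    have e : τ (u * u) = 6 := by
      rw [hτdef, Pi.sub_apply, Pi.mul_apply, cc_apply, hρ.uu h, map_ofNat]; norm_num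
    rw [hd, Pi.sub_apply, Pi.mul_apply, cc_apply, cc_apply, e, hρ.uu h, map_ofNat, map_ofNat]; norm_num
  obtain ⟨σ, hσ, hσ1, hσt, hσc⟩ := exists_three h 15 16 hΘ' hΘ1 hd (by rw [hd, hv]; norm_num) hu2 (by norm_num)
  have hσR : R u σ := ⟨hσ, hσ1, hσt⟩
  have hσρ : σ ≠ cc ρ := by
    rintro rfl
    apply hσc
    rw [classInner_sub_left, hΘρ, inner_self hρ.cc.irr, sub_self]
  have h3 : classInner (ρ * cc τ) σ ≠ 0 := by
    rw [classInner_sub_left, inner_ne hρ.cc.irr hσ hσρ.symm, sub_zero] at hσc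
    exact hσc
  apply h3
  have h4 : ρ * cc τ = th ρ * cc ρ - τ := by
    funext g
    simp only [hτdef, Pi.mul_apply, Pi.sub_apply, cc_apply, th_apply, map_sub, map_mul, Complex.conj_conj]; ring
  have h5 : classInner (th ρ * cc ρ) σ = classInner (th ρ) (ρ * σ) :=
    ip_congr (fun g => by simp only [Pi.mul_apply, cc_apply, map_mul]; ring)
  have hne : ρ ≠ cc σ := by
    rintro rfl
    exact hσρ (cc_cc σ).symm
  obtain ⟨α, β, hα, hβ, hsum, hdeg⟩ := pair h hρ hσR.cc hne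
  rw [cc_cc] at hsum
  rw [h4, classInner_sub_left, h5, hsum, classInner_add_right,
    inner_ne hτ hσ (ne_of_deg (by rw [hτ6, hσR.one]; norm_num))]
  have hα8 : th ρ ≠ α := by
    apply ne_of_deg
    rcases hdeg with ⟨h6, h7⟩ | ⟨h6, h7⟩ <;> rw [hth8, h6] <;> norm_num
  have hβ8 : th ρ ≠ β := by
    apply ne_of_deg
    rcases hdeg with ⟨h6, h7⟩ | ⟨h6, h7⟩ <;> rw [hth8, h7] <;> norm_num
  rw [inner_ne hthi hα hα8, inner_ne hthi hβ hβ8]
  ring

theorem sq_real {ρ : G → ℂ} (hr : cc ρ = ρ) : ρ * cc ρ = (fun _ => (1 : ℂ)) + chi ρ + ρ := by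
  rw [hr]
  funext g
  simp only [Pi.mul_apply, Pi.add_apply, chi_apply]; ring

/-- inner product of `ρ²` with a character. -/
theorem inner_sq {ρ ψ : G → ℂ} (hr : cc ρ = ρ) :
    classInner (ρ * cc ρ) ψ = classInner (fun _ => (1 : ℂ)) ψ + classInner (chi ρ) ψ + classInner ρ ψ := by
  rw [sq_real hr, classInner_add_left, classInner_add_left]

theorem chi_eq (h : Hyp u) {ρ σ : G → ℂ} (hρ : R u ρ) (hσ : R u σ) (hrρ : cc ρ = ρ) (hrσ : cc σ = σ) :
    chi ρ = chi σ := by
  by_contra hne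
  have hne' : ρ ≠ σ := by rintro rfl; exact hne rfl
  obtain ⟨h1, h2, h3⟩ := chi_irr h hρ hrρ
  obtain ⟨h1', h2', h3'⟩ := chi_irr h hσ hrσ
  have h4 := pair_norm h hρ hσ hne'
  have hχ1 : chi ρ ≠ (fun _ => (1 : ℂ)) := ne_of_deg (by rw [h2]; norm_num)
  have hχ1' : chi σ ≠ (fun _ => (1 : ℂ)) := ne_of_deg (by rw [h2']; norm_num)
  rw [inner_sq hrρ, sq_real hrσ] at h4
  simp only [classInner_add_right] at h4
  rw [inner_self irr_one, inner_ne irr_one h1' hχ1'.symm, inner_ne irr_one hσ.irr hσ.2.1.symm,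
    inner_ne h1 irr_one hχ1, inner_ne h1 h1' hne, inner_ne h1 hσ.irr (ne_of_deg (by rw [h2, hσ.one]; norm_num)),
    inner_ne hρ.irr irr_one hρ.2.1, inner_ne hρ.irr h1' (ne_of_deg (by rw [h2', hρ.one]; norm_num)),
    inner_ne hρ.irr hσ.irr hne'] at h4
  norm_num at h4

theorem alt_chi (h : Hyp u) {ρ : G → ℂ} (hρ : R u ρ) (hr : cc ρ = ρ) :
    (fun g => (chi ρ g ^ 2 - chi ρ (g * g)) / 2) = ρ * chi ρ - chi ρ := by
  have hrg : ∀ g, conj (ρ g) = ρ g := fun g => congrFun hr g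
  funext g
  simp only [Pi.sub_apply, Pi.mul_apply, chi_apply]
  rw [dsq h hρ.char hρ.one, hrg]
  ring

theorem cc_chi {ρ : G → ℂ} (hr : cc ρ = ρ) : cc (chi ρ) = chi ρ := by
  have hrg : ∀ g, conj (ρ g) = ρ g := fun g => congrFun hr g
  funext g
  simp only [cc_apply, chi_apply, map_sub, map_mul, map_one, hrg]

/-- the second real character of degree three. -/
theorem real_two (h : Hyp u) {ρ : G → ℂ} (hρ : R u ρ) (hr : cc ρ = ρ) :
    ∃ ρ' : G → ℂ, R u ρ' ∧ cc ρ' = ρ' ∧ ρ' ≠ ρ ∧ ∀ σ : G → ℂ, R u σ → cc σ = σ → σ = ρ ∨ σ = ρ' := by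
  obtain ⟨hχ, hχ5, hχu⟩ := chi_irr h hρ hr
  have hrg : ∀ g, conj (ρ g) = ρ g := fun g => congrFun hr g
  have hχ1 : chi ρ ≠ (fun _ => (1 : ℂ)) := ne_of_deg (by rw [hχ5]; norm_num)
  have hDdef : (fun g => (chi ρ g ^ 2 - chi ρ (g * g)) / 2) = ρ * chi ρ - chi ρ := alt_chi h hρ hr
  have hD := BT.alt2_isCharacter (isCharacter_of_isIrr hχ)
  have hDσ : ∀ σ : G → ℂ, R u σ → cc σ = σ → classInner (ρ * chi ρ - chi ρ) σ = 1 := by
    intro σ hσ hrσ
    have e1 := chi_eq h hρ hσ hr hrσ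
    rw [← hDdef, e1, alt_chi h hσ hrσ, classInner_sub_left]
    have hrσg : ∀ g, conj (σ g) = σ g := fun g => congrFun hrσ g
    have e2 : classInner (σ * chi σ) σ = classInner (chi σ) (σ * cc σ) :=
      ip_congr (fun g => by simp only [Pi.mul_apply, cc_apply, map_mul, hrσg]; ring)
    obtain ⟨h1', h2', h3'⟩ := chi_irr h hσ hrσ
    rw [e2, sq_real hrσ, classInner_add_right, classInner_add_right, inner_self h1',
      inner_ne h1' irr_one (ne_of_deg (by rw [h2']; norm_num)),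
      inner_ne h1' hσ.irr (ne_of_deg (by rw [h2', hσ.one]; norm_num))]
    norm_num
  rw [hDdef] at hD
  set D := ρ * chi ρ - chi ρ with hDD
  have hDρ := hDσ ρ hρ hr
  have hD1 : classInner D (fun _ => (1 : ℂ)) = 0 := by
    have e : classInner (ρ * chi ρ) (fun _ => (1 : ℂ)) = classInner ρ (chi ρ) := by
      have := inner_one_mul_cc ρ (chi ρ)
      rwa [cc_chi hr] at this
    rw [hDD, classInner_sub_left, e, inner_ne hρ.irr hχ (ne_of_deg (by rw [hχ5, hρ.one]; norm_num)),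
      inner_ne hχ irr_one hχ1, sub_zero]
  have hDd : D 1 = 10 := by
    rw [hDD, Pi.sub_apply, Pi.mul_apply, hρ.one, hχ5]; norm_num
  have hDv : D u = -2 := by
    rw [hDD, Pi.sub_apply, Pi.mul_apply, hρ.val, hχu]; norm_num
  have hDu2 : D (u * u) = 10 := by
    rw [hDD, Pi.sub_apply, Pi.mul_apply, chi_apply, hρ.uu h]; norm_num
  -- first
  have hD' : IsCharacter G (D - ρ) := CC.isCharacter_sub_of_constituent hD hρ.irr (by rw [hDρ]; exact one_ne_zero)
  have hD'1 : classInner (D - ρ) (fun _ => (1 : ℂ)) = 0 := by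
    rw [classInner_sub_left, hD1, inner_ne hρ.irr irr_one hρ.2.1, sub_zero]
  have hd : (D - ρ) 1 = ((7 : ℕ) : ℂ) := by
    rw [Pi.sub_apply, hDd, hρ.one]; norm_num
  have hv : (D - ρ) u = -1 := by
    rw [Pi.sub_apply, hDv, hρ.val]; norm_num
  have hu2 : (D - ρ) (u * u) = (D - ρ) 1 := by
    rw [hd, Pi.sub_apply, hDu2, hρ.uu h]; norm_num
  obtain ⟨ρ', hρ'i, hρ'1, hρ't, hρ'c⟩ := exists_three h 7 8 hD' hD'1 hd (by rw [hd, hv]; norm_num) hu2 (by norm_num)
  have hρ' : R u ρ' := ⟨hρ'i, hρ'1, hρ't⟩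
  have hne : ρ' ≠ ρ := by
    rintro rfl
    apply hρ'c
    rw [classInner_sub_left, hDρ, inner_self hρ.irr, sub_self]
  -- second
  have hD'' : IsCharacter G (D - ρ - ρ') := CC.isCharacter_sub_of_constituent hD' hρ'i hρ'c
  have hD''1 : classInner (D - ρ - ρ') (fun _ => (1 : ℂ)) = 0 := by
    rw [classInner_sub_left, hD'1, inner_ne hρ'i irr_one hρ'1, sub_zero]
  have hd' : (D - ρ - ρ') 1 = ((4 : ℕ) : ℂ) := by
    rw [Pi.sub_apply, hd, hρ'.one]; norm_num
  have hv' : (D - ρ - ρ') u = 0 := by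
    rw [Pi.sub_apply, hv, hρ'.val]; norm_num
  have hu2' : (D - ρ - ρ') (u * u) = (D - ρ - ρ') 1 := by
    rw [hd', Pi.sub_apply, Pi.sub_apply, hDu2, hρ.uu h, hρ'.uu h]; norm_num
  obtain ⟨-, hirr⟩ := irr_of_small h hD'' hD''1 hd' (e := 4) (by rw [hd', hv']; norm_num) (by norm_num) hu2' (by norm_num)
  have hkey : ∀ σ : G → ℂ, R u σ → classInner D σ ≠ 0 → σ = ρ ∨ σ = ρ' := by
    intro σ hσ hc
    by_contra hcon
    push Not at hcon
    apply hc
    have e : D = (D - ρ - ρ') + ρ' + ρ := by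
      funext g; simp
    rw [e, classInner_add_left, classInner_add_left, inner_ne hρ.irr hσ.irr (fun e => hcon.1 e.symm),
      inner_ne hρ'i hσ.irr (fun e => hcon.2 e.symm),
      inner_ne hirr hσ.irr (ne_of_deg (by rw [hd', hσ.one]; norm_num))]
    ring
  have hρ'D : classInner D ρ' ≠ 0 := by
    rw [classInner_sub_left, inner_ne hρ.irr hρ'i hne.symm, sub_zero] at hρ'c
    exact hρ'c
  have hccD : cc D = D := by
    funext g
    simp only [cc_apply, hDD, Pi.sub_apply, Pi.mul_apply, chi_apply, map_sub, map_mul, map_one, hrg]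
  have hr' : cc ρ' = ρ' := by
    have h1 : classInner D (cc ρ') ≠ 0 := by
      rw [← hccD, inner_cc]
      intro h0
      exact hρ'D ((map_eq_zero _).mp h0)
    rcases hkey _ hρ'.cc h1 with h2 | h2
    · exfalso
      apply hne
      rw [← cc_cc ρ', h2, hr]
    · exact h2
  exact ⟨ρ', hρ', hr', hne, fun σ hσ hrσ => hkey σ hσ (by rw [hDσ σ hσ hrσ]; exact one_ne_zero)⟩

/-- all characters of degree three are real. -/
theorem all_real (h : Hyp u) {ρ ρ' : G → ℂ} (hρ : R u ρ) (hr : cc ρ = ρ) (hρ' : R u ρ') (hr' : cc ρ' = ρ') (hne : ρ' ≠ ρ)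
    (hall : ∀ σ : G → ℂ, R u σ → cc σ = σ → σ = ρ ∨ σ = ρ') {σ : G → ℂ} (hσ : R u σ) : σ = ρ ∨ σ = ρ' := by
  apply hall σ hσ
  by_contra hσr
  obtain ⟨hth, hth1, hth8, hcase⟩ := self_prod h hσ
  have hformula : ∀ μ : G → ℂ, R u μ → cc μ = μ → classInner (th σ) (chi μ) + classInner (th σ) μ = 1 := by
    intro μ hμ hrμ
    have hμσ : σ ≠ μ := by rintro rfl; exact hσr hrμ
    have h1 := pair_norm h hσ hμ hμσ
    obtain ⟨hχ, hχ5, hχu⟩ := chi_irr h hμ hrμ
    rw [mul_cc_eq, sq_real hrμ] at h1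
    simp only [classInner_add_left, classInner_add_right] at h1
    rw [hth1, inner_self irr_one, inner_ne irr_one hχ (ne_of_deg (by rw [hχ5]; norm_num)),
      inner_ne irr_one hμ.irr hμ.2.1.symm] at h1
    linear_combination h1
  have e1 := hformula ρ hρ hr
  have e2 := hformula ρ' hρ' hr'
  rw [← chi_eq h hρ hρ' hr hr'] at e2
  obtain ⟨hχ, hχ5, hχu⟩ := chi_irr h hρ hr
  rcases hcase with ⟨a, b, ha, hb, hb5, hbu, hsum⟩ | hN
  · have har := part_real ha hb hb5 hsum
    have h3 : classInner (th σ) ρ = classInner (th σ) ρ' := by linear_combination e1 - e2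
    have h4 : ∀ μ : G → ℂ, R u μ → classInner (th σ) μ = classInner a μ := by
      intro μ hμ
      rw [hsum, classInner_add_left, inner_ne hb hμ.irr (ne_of_deg (by rw [hb5, hμ.one]; norm_num)), add_zero]
    rw [h4 ρ hρ, h4 ρ' hρ'] at h3
    rcases hall a ha har with h5 | h5
    · rw [h5, inner_self hρ.irr, inner_ne hρ.irr hρ'.irr hne.symm] at h3
      exact one_ne_zero h3
    · rw [h5, inner_self hρ'.irr, inner_ne hρ'.irr hρ.irr hne] at h3
      exact zero_ne_one h3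
  · rw [hN _ hχ (by rw [hχu]; exact one_ne_zero), hN _ hρ.irr (by rw [hρ.val]; norm_num)] at e1
    norm_num at e1

end Cfsg.Agent.H25.Five
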