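import Mathlib
import Cfsg.Agent.H25.FiveE

/-!
# Groups with an element `u` such that `χ(1) - χ(u) = 4` or `χ(u) = 0` for all `χ ≠ 1` (owner helper25)

Part F: group theory, continued.
-/

set_option autoImplicit false
set_option linter.unusedSectionVars false
set_option linter.unusedVariables false
set_option linter.style.haveILetI false

namespace Cfsg.Agent.H25.Five

open Cfsg

universe v

/-- the group-theoretic data -/
structure Dat {G : Type v} [Group G] (u : G) (K : Subgroup G) : Prop where
  normal : K.Normal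
  idx : K.index = 60
  nmem : u ∉ K
  sq : u * u ∈ K
  cent : Nat.card (Subgroup.centralizer ({u} : Set G)) = 4
  cls : ∀ g, g ∉ K → g * g ∈ K → IsConj u g
  four : ∀ g, (g * g) * (g * g) ∈ K → g * g ∈ K
  perf : commutator G = ⊤

variable {G : Type v} [Group G] [Finite G] {u : G} {K : Subgroup G}

theorem Dat.simple [K.Normal] (d : Dat u K) : IsSimpleGroup (G ⧸ K) :=
  S3378.simple_sixty d.idx (not_solvable_quot d.perf K (by rw [d.idx]; norm_num))

theorem Dat.sylow (d : Dat u K) (P : Sylow 2 G) (hu : u ∈ P) :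
    K.relIndex P = 4 ∧ (∀ g ∈ P, g * g ∈ K) ∧ ∃ v ∈ P, v ∉ K ∧ u * v ∉ K := by
  haveI := d.normal
  haveI : Fact (Nat.Prime 2) := ⟨Nat.prime_two⟩
  have hsurj := QuotientGroup.mk'_surjective K
  have hS : Nat.card ((P : Subgroup G).map (QuotientGroup.mk' K)) = 4 := by
    have := S3378.card_sylow_of (P.mapSurjective hsurj) (k := 2) (m := 15)
      (by change K.index = _; rw [d.idx]; norm_num) (by norm_num)
    norm_num at this
    exact this
  have hrel : K.relIndex P = 4 := by
    have := Subgroup.relIndex_ker (P : Subgroup G) (QuotientGroup.mk' K)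
    rw [QuotientGroup.ker_mk'] at this
    rw [this, hS]
  refine ⟨hrel, ?_, ?_⟩
  · intro g hg
    apply d.four
    have h1 : QuotientGroup.mk' K g ∈ (P : Subgroup G).map (QuotientGroup.mk' K) := Subgroup.mem_map_of_mem _ hg
    have h2 := pow_card_eq_one' (x := (⟨_, h1⟩ : (P : Subgroup G).map (QuotientGroup.mk' K)))
    rw [hS] at h2
    have h3 := congrArg Subtype.val h2
    rw [Subgroup.coe_pow, Subgroup.coe_one] at h3
    change (QuotientGroup.mk' K g) ^ 4 = 1 at h3
    rw [← map_pow, QuotientGroup.mk'_apply, QuotientGroup.eq_one_iff] at h3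
    have h4 : (g * g) * (g * g) = g ^ 4 := by
      simp only [pow_succ, pow_zero, one_mul, mul_assoc]
    rw [h4]; exact h3
  · by_contra hcon
    push Not at hcon
    have h1 : (((P : Subgroup G).map (QuotientGroup.mk' K) : Subgroup (G ⧸ K)) : Set (G ⧸ K)) ⊆
        {1, (QuotientGroup.mk' K u)⁻¹} := by
      rintro _ ⟨g, hg, rfl⟩
      simp only [Set.mem_insert_iff, Set.mem_singleton_iff]
      by_cases hgK : g ∈ K
      · left
        rw [QuotientGroup.mk'_apply, QuotientGroup.eq_one_iff]
        exact hgK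
      · right
        have h2 := hcon g hg hgK
        rw [eq_inv_iff_mul_eq_one, ← map_mul, QuotientGroup.mk'_apply, QuotientGroup.eq_one_iff]
        have := d.normal.conj_mem _ h2 u⁻¹
        have e : u⁻¹ * (u * g) * u⁻¹⁻¹ = g * u := by group
        rwa [e] at this
    have h2 := Set.ncard_le_ncard h1 (Set.toFinite _)
    have h3 : ({1, (QuotientGroup.mk' K u)⁻¹} : Set (G ⧸ K)).ncard ≤ 2 :=
      (Set.ncard_insert_le _ _).trans (by rw [Set.ncard_singleton])
    have h4 : Nat.card ((P : Subgroup G).map (QuotientGroup.mk' K)) =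
      (((P : Subgroup G).map (QuotientGroup.mk' K) : Subgroup (G ⧸ K)) : Set (G ⧸ K)).ncard := rfl
    rw [hS] at h4
    omega

theorem exists_sylow_mem {k : ℕ} (h : orderOf u = 2 ^ k) : ∃ P : Sylow 2 G, u ∈ P := by
  haveI : Fact (Nat.Prime 2) := ⟨Nat.prime_two⟩
  have h1 : IsPGroup 2 (Subgroup.zpowers u) := IsPGroup.of_card (n := k) (by rw [Nat.card_zpowers, h])
  obtain ⟨P, hP⟩ := h1.exists_le_sylow
  exact ⟨P, hP (Subgroup.mem_zpowers u)⟩

/-- the case of an involution -/
theorem Dat.caseA (d : Dat u K) (h2 : orderOf u = 2) :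
    IsMulCommutative ↥(Cfsg.oddCore G) ∧
      Nonempty (G ⧸ Cfsg.oddCore G ≃* Matrix.ProjectiveSpecialLinearGroup (Fin 2) (ZMod 5)) := by
  classical
  haveI := d.normal
  have huu : u * u = 1 := by
    have := pow_orderOf_eq_one u
    rwa [h2, pow_two] at this
  have hinvo : ∀ g, g ∉ K → g * g ∈ K → g * g = 1 := by
    intro g hg hg2
    obtain ⟨c, hc⟩ := isConj_iff.mp (d.cls g hg hg2)
    rw [← hc]
    calc c * u * c⁻¹ * (c * u * c⁻¹) = c * (u * u) * c⁻¹ := by group
      _ = 1 := by rw [huu]; group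
  obtain ⟨P, hP⟩ := exists_sylow_mem (k := 1) (by rw [h2, pow_one])
  obtain ⟨-, hPsq, v, hvP, hvK, huvK⟩ := d.sylow P hP
  have hinv : ∀ g, g ∉ K → g * g ∈ K → ∀ k ∈ K, g * k * g = k⁻¹ := by
    intro g hg hg2 k hk
    have h3 : g * k ∉ K := fun h => hg ((Subgroup.mul_mem_cancel_right K hk).mp h)
    have h4 : (g * k) * (g * k) ∈ K := by
      have e : (g * k) * (g * k) = (g * k * g⁻¹) * (g * g) * k := by group
      rw [e]
      exact K.mul_mem (K.mul_mem (d.normal.conj_mem k hk g) hg2) hk
    have h5 := hinvo _ h3 h4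
    rw [eq_inv_iff_mul_eq_one, ← h5]; group
  have hvv : v * v = 1 := hinvo v hvK (hPsq v hvP)
  have huvuv : (u * v) * (u * v) = 1 := hinvo _ huvK (hPsq _ (mul_mem hP hvP))
  have hcomm : u * v = v * u := by
    have h3 : u = u⁻¹ := eq_inv_of_mul_eq_one_left huu
    have h4 : v = v⁻¹ := eq_inv_of_mul_eq_one_left hvv
    calc u * v = (u * v)⁻¹ := eq_inv_of_mul_eq_one_left huvuv
      _ = v⁻¹ * u⁻¹ := by group
      _ = v * u := by rw [← h3, ← h4]
  have hkk : ∀ k ∈ K, k⁻¹ = k := by
    intro k hk
    have h3 := hinv _ huvK (hPsq _ (mul_mem hP hvP)) k hk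
    rw [← h3]
    calc u * v * k * (u * v) = u * v * k * (v * u) := by rw [hcomm]
      _ = u * (v * k * v) * u := by group
      _ = u * k⁻¹ * u := by rw [hinv v hvK (hPsq v hvP) k hk]
      _ = (k⁻¹)⁻¹ := hinv u d.nmem d.sq _ (K.inv_mem hk)
      _ = k := inv_inv k
  have hcent : ∀ k ∈ K, k * u = u * k := by
    intro k hk
    have h3 := hinv u d.nmem d.sq k hk
    rw [hkk k hk] at h3
    calc k * u = (u * k * u) * u := by rw [h3]
      _ = u * k * (u * u) := by group
      _ = u * k := by rw [huu, mul_one]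
  have hKbot : K = ⊥ := by
    by_contra hne
    obtain ⟨k, hk, hk1⟩ := exists_mem_ne_one hne
    have c1 : (1 : G) ∈ K := K.one_mem
    have h5 : ({1, u, v, u * v, k} : Finset G).card = 5 := by
      have a1 : (1 : G) ≠ u := fun h => d.nmem (h ▸ c1)
      have a2 : (1 : G) ≠ v := fun h => hvK (h ▸ c1)
      have a3 : (1 : G) ≠ u * v := fun h => huvK (h ▸ c1)
      have a4 : (1 : G) ≠ k := fun h => hk1 h.symm
      have a5 : u ≠ v := fun h => huvK (by rw [← h]; exact d.sq)
      have a6 : u ≠ u * v := fun h => hvK (by rw [← mul_eq_left.mp h.symm] at c1; exact c1)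
      have a7 : u ≠ k := fun h => d.nmem (h ▸ hk)
      have a8 : v ≠ u * v := fun h => d.nmem (by rw [← mul_eq_right.mp h.symm] at c1; exact c1)
      have a9 : v ≠ k := fun h => hvK (h ▸ hk)
      have a10 : u * v ≠ k := fun h => huvK (h ▸ hk)
      rw [Finset.card_insert_of_notMem, Finset.card_insert_of_notMem, Finset.card_insert_of_notMem,
        Finset.card_insert_of_notMem, Finset.card_singleton]
      · simpa using a10
      · simp only [Finset.mem_insert, Finset.mem_singleton]; push Not; exact ⟨a8, a9⟩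
      · simp only [Finset.mem_insert, Finset.mem_singleton]; push Not; exact ⟨a5, a6, a7⟩
      · simp only [Finset.mem_insert, Finset.mem_singleton]; push Not; exact ⟨a1, a2, a3, a4⟩
    have h6 : ((({1, u, v, u * v, k} : Finset G) : Set G)) ⊆ (Subgroup.centralizer ({u} : Set G) : Set G) := by
      intro x hx
      rw [SetLike.mem_coe, Subgroup.mem_centralizer_singleton_iff]
      simp only [Finset.coe_insert, Finset.coe_singleton, Set.mem_insert_iff, Set.mem_singleton_iff] at hx
      rcases hx with rfl | rfl | rfl | rfl | rfl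
      · simp
      · rfl
      · rw [hcomm]
      · rw [mul_assoc, ← hcomm]
      · exact hcent _ hk
    have h7 := Set.ncard_le_ncard h6 (Set.toFinite _)
    rw [Set.ncard_coe_finset, h5] at h7
    have h8 : Nat.card (Subgroup.centralizer ({u} : Set G)) = (Subgroup.centralizer ({u} : Set G) : Set G).ncard := rfl
    rw [d.cent] at h8
    omega
  have h60 : Nat.card G = 60 := by
    have := d.idx
    rwa [hKbot, Subgroup.index_bot] at this
  haveI : Nontrivial G := by
    rw [← Finite.one_lt_card_iff_nontrivial, h60]; norm_num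
  haveI : IsSimpleGroup G := S3378.simple_sixty h60 (fun hs => by
    have := Group.IsSolvable.commutator_lt_top_of_nontrivial G
    exact this.ne d.perf)
  have hO : Cfsg.oddCore G = ⊥ := by
    rcases (Solv.pPrimeCore_normal (G := G) 2).eq_bot_or_eq_top with h | h
    · exact h
    · exfalso
      have h3 := Solv.pPrimeCore_card_coprime (G := G) 2
      rw [h, Subgroup.card_top, h60] at h3
      norm_num at h3
  refine ⟨?_, ?_⟩
  · rw [hO]
    refine ⟨⟨fun a b => ?_⟩⟩
    have ha : a = 1 := Subtype.ext (Subgroup.mem_bot.mp a.2)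
    have hb : b = 1 := Subtype.ext (Subgroup.mem_bot.mp b.2)
    rw [ha, hb]
  · obtain ⟨e1⟩ := S0494.result (G := G) h60
    obtain ⟨e2⟩ := S0253.result (F := ZMod 5) (by simp [ZMod.card])
    exact ⟨(QuotientGroup.quotientMulEquivOfEq hO).trans ((QuotientGroup.quotientBot).trans (e1.trans e2.symm))⟩

end Cfsg.Agent.H25.Five
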