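import Mathlib
import Cfsg.Agent.H25.FiveF

/-!
# Groups with an element `u` such that `χ(1) - χ(u) = 4` or `χ(u) = 0` for all `χ ≠ 1` (owner helper25)

Part G: group theory, the case of an element of order four.
-/

set_option autoImplicit false
set_option linter.unusedSectionVars false
set_option linter.unusedVariables false
set_option linter.style.haveILetI false

namespace Cfsg.Agent.H25.Five

open Cfsg

universe v

variable {G : Type v} [Group G] [Finite G] {u : G} {K : Subgroup G}

/-- `O(G)` is abelian if a four-group modulo a central involution acts. -/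
theorem core_comm (R : Subgroup G) [R.Normal] (hR : Odd (Nat.card R)) {z u v : G} (hz1 : z * z = 1)
    (hu : u * u = z) (hv : v * v = z) (huv : (u * v) * (u * v) = z) (huz : u * z = z * u) (hvz : v * z = z * v)
    (fu : ∀ r ∈ R, u * r * u⁻¹ = r → r = 1) (fv : ∀ r ∈ R, v * r * v⁻¹ = r → r = 1)
    (fuv : ∀ r ∈ R, (u * v) * r * (u * v)⁻¹ = r → r = 1) : ∀ a ∈ R, ∀ b ∈ R, a * b = b * a := by
  -- the fixed points of `z`
  set C : Subgroup G := R ⊓ Subgroup.centralizer ({z} : Set G) with hC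
  have hmem : ∀ c, c ∈ C ↔ c ∈ R ∧ c * z = z * c := fun c => by
    rw [hC, Subgroup.mem_inf, Subgroup.mem_centralizer_singleton_iff]
  have hstab : ∀ g : G, g * z = z * g → ∀ c ∈ C, g * c * g⁻¹ ∈ C := by
    intro g hg c hc
    rw [hmem] at hc ⊢
    refine ⟨Subgroup.Normal.conj_mem inferInstance c hc.1 g, ?_⟩
    have h1 : g⁻¹ * z = z * g⁻¹ := by
      rw [eq_comm, mul_inv_eq_iff_eq_mul, mul_assoc, ← hg, ← mul_assoc, inv_mul_cancel, one_mul]
    calc g * c * g⁻¹ * z = g * c * (g⁻¹ * z) := by group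
      _ = g * c * (z * g⁻¹) := by rw [h1]
      _ = g * (c * z) * g⁻¹ := by group
      _ = g * (z * c) * g⁻¹ := by rw [hc.2]
      _ = (g * z) * c * g⁻¹ := by group
      _ = (z * g) * c * g⁻¹ := by rw [hg]
      _ = z * (g * c * g⁻¹) := by group
  have hsq : ∀ g : G, g * g = z → ∀ c ∈ C, g * (g * c * g⁻¹) * g⁻¹ = c := by
    intro g hg c hc
    rw [hmem] at hc
    calc g * (g * c * g⁻¹) * g⁻¹ = (g * g) * c * (g * g)⁻¹ := by group
      _ = z * c * z⁻¹ := by rw [hg]
      _ = c * z * z⁻¹ := by rw [hc.2]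
      _ = c := by group
  have iu := (inverts C u (hstab u huz) (fun c hc h => fu c ((hmem c).mp hc).1 h) (hsq u hu)).1
  have iv := (inverts C v (hstab v hvz) (fun c hc h => fv c ((hmem c).mp hc).1 h) (hsq v hv)).1
  have huvz : (u * v) * z = z * (u * v) := by
    rw [mul_assoc, hvz, ← mul_assoc, huz, mul_assoc]
  have iuv := (inverts C (u * v) (hstab _ huvz) (fun c hc h => fuv c ((hmem c).mp hc).1 h) (hsq _ huv)).1
  have hC1 : ∀ c ∈ C, c = 1 := by
    intro c hc
    have h1 : c⁻¹ = c := by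
      rw [← iuv c hc]
      calc u * v * c * (u * v)⁻¹ = u * (v * c * v⁻¹) * u⁻¹ := by group
        _ = u * c⁻¹ * u⁻¹ := by rw [iv c hc]
        _ = (c⁻¹)⁻¹ := iu _ (C.inv_mem hc)
        _ = c := inv_inv c
    apply eq_one_of_odd hR ((hmem c).mp hc).1 (k := 1)
    rw [pow_one, pow_two]
    calc c * c = c * c⁻¹ := by rw [h1]
      _ = 1 := mul_inv_cancel c
  refine (inverts R z (fun c hc => Subgroup.Normal.conj_mem inferInstance c hc z) ?_ ?_).2
  · intro c hc h
    apply hC1
    rw [hmem]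
    refine ⟨hc, ?_⟩
    rw [mul_inv_eq_iff_eq_mul] at h
    exact h.symm
  · intro c hc
    calc z * (z * c * z⁻¹) * z⁻¹ = (z * z) * c * (z * z)⁻¹ := by group
      _ = c := by rw [hz1]; group

/-- the case of an element of order four -/
theorem Dat.caseB (d : Dat u K) (h4 : orderOf u = 4) :
    IsMulCommutative ↥(Cfsg.oddCore G) ∧
      Nonempty (G ⧸ Cfsg.oddCore G ≃* Matrix.SpecialLinearGroup (Fin 2) (ZMod 5)) := by
  classical
  haveI := d.normal
  haveI : Fact (Nat.Prime 2) := ⟨Nat.prime_two⟩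
  -- centralizers
  have hCu : ∀ x, x * u = u * x → x ∈ Subgroup.zpowers u := by
    have h1 : Subgroup.zpowers u = Subgroup.centralizer ({u} : Set G) := by
      apply Subgroup.eq_of_le_of_card_ge
      · rw [Subgroup.zpowers_le, Subgroup.mem_centralizer_singleton_iff]
      · rw [Nat.card_zpowers, h4, d.cent]
    intro x hx
    rw [h1, Subgroup.mem_centralizer_singleton_iff]
    exact hx
  have hg4 : ∀ g, g ∉ K → g * g ∈ K → orderOf g = 4 ∧ ∀ x, x * g = g * x → x ∈ Subgroup.zpowers g := by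
    intro g hg hg2
    obtain ⟨c, hc⟩ := isConj_iff.mp (d.cls g hg hg2)
    refine ⟨?_, ?_⟩
    · have := MulEquiv.orderOf_eq (MulAut.conj c) u
      rw [MulAut.conj_apply, hc, h4] at this
      exact this
    · intro x hx
      have h1 := hCu (c⁻¹ * x * c) (by
        have e : u = c⁻¹ * g * c := by rw [← hc]; group
        rw [e]
        calc c⁻¹ * x * c * (c⁻¹ * g * c) = c⁻¹ * (x * g) * c := by group
          _ = c⁻¹ * (g * x) * c := by rw [hx]
          _ = c⁻¹ * g * c * (c⁻¹ * x * c) := by group)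
      obtain ⟨k, hk⟩ := Subgroup.mem_zpowers_iff.mp h1
      rw [Subgroup.mem_zpowers_iff]
      refine ⟨k, ?_⟩
      rw [← hc, conj_zpow, hk]; group
  obtain ⟨P, hP⟩ := exists_sylow_mem (k := 2) (by rw [h4]; norm_num)
  obtain ⟨hrel, hPsq, v, hvP, hvK, huvK⟩ := d.sylow P hP
  have hgP : ∀ g : (P : Subgroup G), g ∉ K.subgroupOf P → orderOf g = 4 ∧
      ∀ x : (P : Subgroup G), x * g = g * x → x ∈ Subgroup.zpowers g := by
    intro g hg
    rw [Subgroup.mem_subgroupOf] at hg
    obtain ⟨h1, h2⟩ := hg4 g hg (hPsq g g.2)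
    refine ⟨by rw [← Subgroup.orderOf_coe]; exact h1, fun x hx => ?_⟩
    have h3 := h2 x (congrArg Subtype.val hx)
    obtain ⟨k, hk⟩ := Subgroup.mem_zpowers_iff.mp h3
    rw [Subgroup.mem_zpowers_iff]
    exact ⟨k, Subtype.ext (by rw [Subgroup.coe_zpow]; exact hk)⟩
  have hPsq' : ∀ g : (P : Subgroup G), g * g ∈ K.subgroupOf P := fun g => by
    rw [Subgroup.mem_subgroupOf]; exact hPsq g g.2
  have huN : (⟨u, hP⟩ : (P : Subgroup G)) ∉ K.subgroupOf P := by rw [Subgroup.mem_subgroupOf]; exact d.nmem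
  have hvN : (⟨v, hvP⟩ : (P : Subgroup G)) ∉ K.subgroupOf P := by rw [Subgroup.mem_subgroupOf]; exact hvK
  have huvN : (⟨u, hP⟩ : (P : Subgroup G)) * ⟨v, hvP⟩ ∉ K.subgroupOf P := by
    rw [Subgroup.mem_subgroupOf]; exact huvK
  obtain ⟨hN2, ⟨e⟩⟩ := two_group_quat (Q := (P : Subgroup G)) P.2 (K.subgroupOf P) hPsq' hrel hgP huN hvN huvN
  obtain ⟨z, hz1, hzN, hzz, hzc, hzsq, -⟩ := two_group_aux (Q := (P : Subgroup G)) P.2 (K.subgroupOf P) hPsq' hgP huN hvN huvN
  have hP8 : Nat.card P = 8 := by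
    have h1 := (K.subgroupOf (P : Subgroup G)).card_mul_index
    rw [hN2] at h1
    have h2 : (K.subgroupOf (P : Subgroup G)).index = 4 := hrel
    rw [h2] at h1
    exact h1.symm
  have hGc : Nat.card G = 8 * (P : Subgroup G).index := by
    rw [← (P : Subgroup G).card_mul_index]
    congr 1
  have hGK : Nat.card K * 60 = Nat.card G := by rw [← d.idx]; exact K.card_mul_index
  have hPi : ¬ 2 ∣ (P : Subgroup G).index := P.not_dvd_index
  obtain ⟨m, hm⟩ : 2 ∣ Nat.card K := by omega
  have hmodd : Odd m := by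
    rw [← Nat.not_even_iff_odd, even_iff_two_dvd]
    omega
  obtain ⟨M, hMn, hMm⟩ := exists_odd_half hm hmodd
  set R := Cfsg.oddCore G with hRdef
  haveI hRn : R.Normal := Solv.pPrimeCore_normal (G := G) 2
  have hRcop : (Nat.card R).Coprime 2 := Solv.pPrimeCore_card_coprime (G := G) 2
  have hRodd : Odd (Nat.card R) := Nat.coprime_two_right.mp hRcop
  have hMR : m ≤ Nat.card R := by
    have h1 : M.map K.subtype ≤ R :=
      (Subgroup.map_mono (Solv.le_pPrimeCore hMn (by rw [hMm]; exact Nat.coprime_two_right.mpr hmodd))).trans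
        (Solv.map_subtype_pPrimeCore_le 2 K)
    have h2 := Subgroup.card_le_of_le h1
    rwa [Subgroup.card_map_of_injective K.subtype_injective, hMm] at h2
  have hRK : R ≤ K := by
    haveI := d.simple
    haveI : (R.map (QuotientGroup.mk' K)).Normal := Subgroup.Normal.map inferInstance _ (QuotientGroup.mk'_surjective K)
    rcases (inferInstance : (R.map (QuotientGroup.mk' K)).Normal).eq_bot_or_eq_top with h | h
    · intro r hr
      have h1 : QuotientGroup.mk' K r ∈ R.map (QuotientGroup.mk' K) := Subgroup.mem_map_of_mem _ hr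
      rw [h, Subgroup.mem_bot, QuotientGroup.mk'_apply, QuotientGroup.eq_one_iff] at h1
      exact h1
    · exfalso
      have h1 : Nat.card (R.map (QuotientGroup.mk' K)) ∣ Nat.card R := Subgroup.card_map_dvd _ _
      rw [h, Subgroup.card_top] at h1
      have h2 : Nat.card (G ⧸ K) = 60 := d.idx
      rw [h2] at h1
      have h3 : 2 ∣ Nat.card R := (by norm_num : 2 ∣ 60).trans h1
      rw [← even_iff_two_dvd] at h3
      exact (Nat.not_even_iff_odd.mpr hRodd) h3
  have hRm : Nat.card R = m := by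
    have h1 : Nat.card R ∣ Nat.card K := Subgroup.card_dvd_of_le hRK
    rw [hm] at h1
    have h2 : Nat.card R ∣ m := hRcop.dvd_of_dvd_mul_left h1
    have hm0 : 0 < m := hmodd.pos
    exact le_antisymm (Nat.le_of_dvd hm0 h2) hMR
  have hm0 : 0 < m := hmodd.pos
  have hRi : R.index = 120 := by
    have h1 := R.card_mul_index
    rw [hRm, ← hGK, hm] at h1
    have h2 : m * R.index = m * 120 := by rw [h1]; ring
    exact Nat.eq_of_mul_eq_mul_left hm0 h2
  refine ⟨?_, ?_⟩
  · -- `O(G)` is abelian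
    have hz' : ∀ g ∈ (P : Subgroup G), g ∉ K → g * g = z := by
      intro g hg hgK
      exact congrArg Subtype.val (hzsq ⟨g, hg⟩ (by rw [Subgroup.mem_subgroupOf]; exact hgK))
    have hfix : ∀ g ∈ (P : Subgroup G), g ∉ K → ∀ r ∈ R, g * r * g⁻¹ = r → r = 1 := by
      intro g hg hgK r hr h
      obtain ⟨h1, h2⟩ := hg4 g hgK (hPsq g hg)
      rw [mul_inv_eq_iff_eq_mul] at h
      have h3 := h2 r h.symm
      apply eq_one_of_odd hRodd hr (k := 2)
      have h5 : orderOf r ∣ 4 := by rw [← h1]; exact orderOf_dvd_of_mem_zpowers h3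
      exact orderOf_dvd_iff_pow_eq_one.mp h5
    have hcomm := core_comm R hRodd (z := (z : G)) (u := u) (v := v) (congrArg Subtype.val hzz) (hz' u hP d.nmem)
      (hz' v hvP hvK) (hz' _ (mul_mem hP hvP) huvK) (congrArg Subtype.val (hzc ⟨u, hP⟩)).symm
      (congrArg Subtype.val (hzc ⟨v, hvP⟩)).symm (hfix u hP d.nmem) (hfix v hvP hvK) (hfix _ (mul_mem hP hvP) huvK)
    exact ⟨⟨fun a b => Subtype.ext (hcomm a a.2 b b.2)⟩⟩
  · -- the quotient
    apply S3378.result.1 (G ⧸ R) hRi (not_solvable_quot d.perf R (by rw [hRi]; norm_num))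
    intro S
    obtain ⟨P', rfl⟩ := Sylow.mapSurjective_surjective (QuotientGroup.mk'_surjective R) 2 S
    have hf : Function.Injective ((QuotientGroup.mk' R).comp (P' : Subgroup G).subtype) := by
      rw [injective_iff_map_eq_one]
      intro x hx
      rw [MonoidHom.comp_apply, QuotientGroup.mk'_apply, QuotientGroup.eq_one_iff] at hx
      obtain ⟨k, hk⟩ := P'.2 x
      apply Subtype.ext
      exact eq_one_of_odd hRodd hx (k := k) (congrArg Subtype.val hk)
    have hr : ((QuotientGroup.mk' R).comp (P' : Subgroup G).subtype).range = (P' : Subgroup G).map (QuotientGroup.mk' R) := by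
      rw [MonoidHom.range_comp, Subgroup.range_subtype]
    exact ⟨(MulEquiv.subgroupCongr hr).symm.trans ((MonoidHom.ofInjective hf).symm.trans ((P'.equiv P).trans e))⟩

end Cfsg.Agent.H25.Five
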