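import Cfsg.Agent.Bal.Quot
import Cfsg.Agent.Bal.Comp
import Cfsg.Agent.H91.SolvPCore
import Cfsg.Agent.H49.Core
import Cfsg.Agent.Cop.Basic

/-!
# S3819: `q'`-cores of centralizers under a coprime action with solvable `[H, P]`
-/

set_option autoImplicit false
set_option linter.style.haveILetI false

namespace Cfsg.Agent.H25

open Subgroup Cfsg Cfsg.Agent Cfsg.Agent.FStar Cfsg.Agent.Solv
open scoped commutatorElement

theorem conj_mem_of_normalizer {G : Type*} [Group G] {K : Subgroup G} {g x : G} (hg : g ∈ normalizer (K : Set G)) (hx : x ∈ K) :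
    g * x * g⁻¹ ∈ K := (mem_normalizer_iff.1 hg x).1 hx

theorem base_case {G : Type*} [Group G] [Finite G] {p q : ℕ} [Fact p.Prime] [Fact q.Prime] (H P : Subgroup G) [H.Normal]
    (hP : IsPGroup p P) (hHp : (Nat.card H).Coprime p) (hHP : H ⊔ P = ⊤) (hsol : Group.IsSolvable ↥⁅H, P⁆)
    {z : G} (hzH : z ∈ H) (hzP : z ∈ centralizer (P : Set G)) (hz : ∃ k : ℕ, orderOf z = q ^ k)
    (hbot : pPrimeCoreOf q H = ⊥) :
    ⁅pPrimeCoreOf q (H ⊓ centralizer {z}), P⁆ = ⊥ ∧
      pPrimeCoreOf q (H ⊓ centralizer {z}) ⊓ pPrimeCoreOf q (H ⊓ centralizer (P : Set G)) = ⊥ := by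
  have hPH : (Nat.card P).Coprime (Nat.card H) := by
    obtain ⟨k, hk⟩ := IsPGroup.iff_card.1 hP
    rw [hk]; exact Nat.Coprime.pow_left k hHp.symm
  have hHn : (H : Subgroup G).Normal := inferInstance
  have hPN : P ≤ normalizer (H : Set G) := by rw [Subgroup.normalizer_eq_top]; exact le_top
  set K := ⁅H, P⁆ with hKdef
  have hKH : K ≤ H := commutator_le_left H P
  have hKn : K.Normal := by
    rw [← Subgroup.normalizer_eq_top_iff, eq_top_iff, ← hHP, sup_le_iff]
    exact ⟨Subgroup.normalizer_commutator_ge_left H P, Subgroup.normalizer_commutator_ge_right H P⟩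
  haveI := hKn
  have hnormal : ∀ (M L : Subgroup G), M.Normal → normalizer (M : Set G) ≤ normalizer (L : Set G) → L.Normal := by
    intro M L hM hle
    haveI := hM
    rw [← Subgroup.normalizer_eq_top_iff, eq_top_iff, ← Subgroup.normalizer_eq_top (H := M)]
    exact hle
  -- O_{q'}(K) = 1
  have hKc : pPrimeCoreOf q K = ⊥ := by
    rw [eq_bot_iff, ← hbot]
    haveI := hnormal K (pPrimeCoreOf q K) hKn (le_normalizer_pPrimeCoreOf K)
    apply Bal.le_pPrimeCoreOf ((pPrimeCoreOf_le K).trans hKH)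
    · rw [Subgroup.normalizer_eq_top]; exact le_top
    · exact card_pPrimeCoreOf_coprime K
  have hKc' : pPrimeCore q K = ⊥ :=
    (Subgroup.map_eq_bot_iff_of_injective _ K.subtype_injective).1 hKc
  set Q : Subgroup G := (pCore q K).map K.subtype with hQdef
  have hQn : Q.Normal := hnormal K Q hKn (H49.normalizer_le_normalizer_pCoreOf q K)
  haveI := hQn
  have hQq : IsPGroup q Q := H49.isPGroup_pCoreOf q K
  have hQK : Q ≤ K := H49.pCoreOf_le q K
  have hCQ : K ⊓ centralizer (Q : Set G) ≤ Q := by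
    rintro x ⟨hxK, hxC⟩
    haveI := hsol
    have h1 : (⟨x, hxK⟩ : K) ∈ centralizer (pCore q K : Set K) := by
      rw [mem_centralizer_iff]
      intro y hy
      exact Subtype.ext (mem_centralizer_iff.1 hxC y ⟨y, hy, rfl⟩)
    exact ⟨⟨x, hxK⟩, H91.centralizer_pCore_le q hKc' h1, rfl⟩
  set M := H ⊓ centralizer {z} with hM
  set D := pPrimeCoreOf q M with hD
  have hDM : D ≤ M := pPrimeCoreOf_le M
  have hDc : (Nat.card D).Coprime q := card_pPrimeCoreOf_coprime M
  have hdisj : ∀ {A B : Subgroup G}, (Nat.card A).Coprime q → IsPGroup q B → ∀ x, x ∈ A → x ∈ B → x = 1 := by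
    intro A B hA hB x hxA hxB
    obtain ⟨k, hk⟩ := IsPGroup.iff_card.1 hB
    have h1 : orderOf x ∣ Nat.card A := A.orderOf_dvd_natCard hxA
    have h2 : orderOf x ∣ Nat.card B := B.orderOf_dvd_natCard hxB
    have h3 : (Nat.card A).Coprime (Nat.card B) := by rw [hk]; exact Nat.Coprime.pow_right k hA
    have h4 := Nat.dvd_gcd h1 h2
    rw [h3.gcd_eq_one] at h4
    exact orderOf_eq_one_iff.1 (Nat.dvd_one.1 h4)
  have hMD : M ≤ normalizer (D : Set G) := le_normalizer.trans (le_normalizer_pPrimeCoreOf M)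
  have hDQz : ∀ d ∈ D, ∀ u ∈ Q, u ∈ centralizer ({z} : Set G) → d * u = u * d := by
    intro d hd u hu huz
    have huM : u ∈ M := ⟨hKH (hQK hu), huz⟩
    have h1 : d * u * d⁻¹ * u⁻¹ = 1 := by
      apply hdisj hDc hQq
      · have : d * u * d⁻¹ * u⁻¹ = d * (u * d⁻¹ * u⁻¹) := by group
        rw [this]
        exact mul_mem hd (conj_mem_of_normalizer (hMD huM) (inv_mem hd))
      · exact mul_mem (hQn.conj_mem u hu d) (inv_mem hu)
    calc d * u = (d * u * d⁻¹ * u⁻¹) * (u * d) := by group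
      _ = u * d := by rw [h1, one_mul]
  have hDQ : D ≤ centralizer (Q : Set G) := by
    have hzq : IsPGroup q (zpowers z) := by
      obtain ⟨k, hk⟩ := hz
      exact IsPGroup.of_card (n := k) (by rw [Nat.card_zpowers, hk])
    refine Cop.le_centralizer_of_AxB q (P := zpowers z) hzq hDc hQq ?_ ?_ ?_ ?_
    · rw [zpowers_le, mem_centralizer_iff]
      intro d hd
      exact (mem_centralizer_iff.1 (hDM hd).2 z rfl).symm
    · rw [Subgroup.normalizer_eq_top]; exact le_top
    · rw [Subgroup.normalizer_eq_top]; exact le_top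
    · rintro u ⟨hu, huz⟩
      rw [mem_centralizer_iff]
      intro d hd
      refine hDQz d hd u hu ?_
      rw [mem_centralizer_singleton_iff]
      exact (mem_centralizer_iff.1 huz z (mem_zpowers z)).symm
  have hPM : P ≤ normalizer (M : Set G) := by
    intro g hg
    have hgz : g * z = z * g := mem_centralizer_iff.1 hzP g hg
    apply Bal.mem_normalizer_of_forall
    rintro x ⟨hxH, hxz⟩
    refine ⟨hHn.conj_mem x hxH g, ?_⟩
    have hxz' : x ∈ centralizer ({z} : Set G) := hxz
    rw [mem_centralizer_singleton_iff] at hxz'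
    have h1 : Commute g z := hgz
    have h2 : Commute x z := hxz'
    have h3 : g * x * g⁻¹ ∈ centralizer ({z} : Set G) := by
      rw [mem_centralizer_singleton_iff]
      exact ((h1.mul_left h2).mul_left h1.inv_left).eq
    exact h3
  constructor
  · rw [eq_bot_iff]
    intro x hx
    have hxD : x ∈ D := by
      have h1 : ⁅D, P⁆ ≤ D := by
        rw [commutator_le]
        intro d hd g hg
        have h2 : ⁅d, g⁆ = d * (g * d⁻¹ * g⁻¹) := by rw [commutatorElement_def]; group
        rw [h2]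
        exact mul_mem hd (conj_mem_of_normalizer ((hPM.trans (le_normalizer_pPrimeCoreOf M)) hg) (inv_mem hd))
      exact h1 hx
    have hxK : x ∈ K := commutator_mono (hDM.trans inf_le_left) le_rfl hx
    exact hdisj hDc hQq x hxD (hCQ ⟨hxK, hDQ hxD⟩)
  · set E := pPrimeCoreOf q (H ⊓ centralizer (P : Set G)) with hE
    set Y := E ⊓ centralizer (Q : Set G) with hY
    have hEle : E ≤ H ⊓ centralizer (P : Set G) := pPrimeCoreOf_le _
    have hYc : (Nat.card Y).Coprime q :=
      Nat.Coprime.coprime_dvd_left (Subgroup.card_dvd_of_le inf_le_left) (card_pPrimeCoreOf_coprime _)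
    haveI hCQn : (centralizer (Q : Set G)).Normal := inferInstance
    -- Y centralizes K
    have hYK : ∀ k ∈ K, ∀ y ∈ Y, y * k = k * y := by
      intro k hk y hy
      set c := k * y * k⁻¹ * y⁻¹ with hc
      have hcK : c ∈ K := by
        have : c = k * (y * k⁻¹ * y⁻¹) := by rw [hc]; group
        rw [this]
        exact mul_mem hk (hKn.conj_mem _ (inv_mem hk) y)
      have hcC : c ∈ centralizer (Q : Set G) := by
        rw [hc]
        exact mul_mem (hCQn.conj_mem y hy.2 k) (inv_mem hy.2)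
      have hcQ : c ∈ Q := hCQ ⟨hcK, hcC⟩
      have hcy : Commute c y := mem_centralizer_iff.1 hy.2 c hcQ
      have h1 : k * y * k⁻¹ = c * y := by rw [hc]; group
      have h2 : (c * y) ^ orderOf y = 1 := by
        rw [← h1, conj_pow, pow_orderOf_eq_one]; group
      rw [hcy.mul_pow, pow_orderOf_eq_one, mul_one] at h2
      have h3 : c = 1 := by
        obtain ⟨j, hj⟩ := hQq ⟨c, hcQ⟩
        have hj' : c ^ q ^ j = 1 := congrArg Subtype.val hj
        have h4 : (orderOf y).Coprime (q ^ j) :=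
          Nat.Coprime.pow_right j (Nat.Coprime.coprime_dvd_left (Y.orderOf_dvd_natCard hy) hYc)
        have h5 := Nat.dvd_gcd (orderOf_dvd_of_pow_eq_one h2) (orderOf_dvd_of_pow_eq_one hj')
        rw [h4.gcd_eq_one] at h5
        exact orderOf_eq_one_iff.1 (Nat.dvd_one.1 h5)
      rw [h3, one_mul] at h1
      calc y * k = (k * y * k⁻¹) * k := by rw [h1]
        _ = k * y := by group
    have hHY : H ≤ normalizer (Y : Set G) := by
      have h1 : ⁅H, P⁆ ⊔ (H ⊓ centralizer (P : Set G)) = H := by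
        apply Cop.commutator_sup_centralizer hPN hPH
        left
        haveI := hP.isNilpotent
        infer_instance
      rw [← h1, sup_le_iff]
      constructor
      · intro k hk
        apply Bal.mem_normalizer_of_forall
        intro y hy
        rw [← hYK k hk y hy, mul_inv_cancel_right]
        exact hy
      · intro k hk
        apply Bal.mem_normalizer_of_forall
        intro y hy
        refine ⟨?_, hCQn.conj_mem y hy.2 k⟩
        exact conj_mem_of_normalizer ((le_normalizer.trans (le_normalizer_pPrimeCoreOf _)) hk) hy.1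
    have hYb : Y ≤ pPrimeCoreOf q H := Bal.le_pPrimeCoreOf (inf_le_left.trans (hEle.trans inf_le_left)) hHY hYc
    rw [eq_bot_iff, ← hbot]
    rintro x ⟨hxD, hxE⟩
    exact hYb ⟨hxE, hDQ hxD⟩

theorem map_inf_of_ker_le {X Y : Type*} [Group X] [Group Y] (f : X →* Y) {H C : Subgroup X} (hk : f.ker ≤ H) :
    (H ⊓ C).map f = H.map f ⊓ C.map f := by
  apply le_antisymm (Subgroup.map_inf_le _ _ _)
  rintro y ⟨⟨h, hh, rfl⟩, ⟨c, hc, hcy⟩⟩
  refine ⟨c, ⟨?_, hc⟩, hcy⟩
  have h1 : c * h⁻¹ ∈ f.ker := by rw [MonoidHom.mem_ker, map_mul, map_inv, hcy, mul_inv_cancel]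
  have h2 := mul_mem (hk h1) hh
  rwa [inv_mul_cancel_right] at h2

theorem flavell_core {G : Type*} [Group G] [Finite G] {p q : ℕ} [Fact p.Prime] [Fact q.Prime] (H P : Subgroup G) [H.Normal]
    (hP : IsPGroup p P) (hHp : (Nat.card H).Coprime p) (hHP : H ⊔ P = ⊤) (hsol : Group.IsSolvable ↥⁅H, P⁆)
    {z : G} (hzH : z ∈ H) (hzP : z ∈ centralizer (P : Set G)) (hz : ∃ k : ℕ, orderOf z = q ^ k) :
    (pPrimeCoreOf q (H ⊓ centralizer {z}) ⊓ pPrimeCoreOf q (H ⊓ centralizer (P : Set G))) ⊔
      ⁅pPrimeCoreOf q (H ⊓ centralizer {z}), P⁆ ≤ pPrimeCoreOf q H := by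
  set N := pPrimeCoreOf q H with hN
  have hNH : N ≤ H := pPrimeCoreOf_le H
  have hNc : (Nat.card N).Coprime q := card_pPrimeCoreOf_coprime H
  have hNp : (Nat.card N).Coprime p := Nat.Coprime.coprime_dvd_left (Subgroup.card_dvd_of_le hNH) hHp
  haveI hNn : N.Normal := by
    rw [← Subgroup.normalizer_eq_top_iff, eq_top_iff, ← Subgroup.normalizer_eq_top (H := H)]
    exact le_normalizer_pPrimeCoreOf H
  set f := QuotientGroup.mk' N with hf
  have hs : Function.Surjective f := QuotientGroup.mk'_surjective N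
  have hker : f.ker = N := QuotientGroup.ker_mk' N
  have hkq : (Nat.card f.ker).Coprime q := by rw [hker]; exact hNc
  have hkp : (Nat.card f.ker).Coprime p := by rw [hker]; exact hNp
  haveI : (H.map f).Normal := Subgroup.Normal.map inferInstance f hs
  have hbot : pPrimeCoreOf q (H.map f) = ⊥ := by
    rw [← Bal.map_pPrimeCoreOf f hkq H, ← hN]
    rw [Subgroup.map_eq_bot_iff, hker]
  have hcz : (H ⊓ centralizer {z}).map f = H.map f ⊓ centralizer {f z} := by
    rw [map_inf_of_ker_le f (by rw [hker]; exact hNH), Bal.map_centralizer_singleton f hs hkq hz]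
  have hcP : (H ⊓ centralizer (P : Set G)).map f = H.map f ⊓ centralizer ((P.map f : Subgroup (G ⧸ N)) : Set (G ⧸ N)) := by
    rw [map_inf_of_ker_le f (by rw [hker]; exact hNH), Bal.map_centralizer f hs hkp hP]
  have hmain := base_case (p := p) (q := q) (H.map f) (P.map f) (hP.map f)
    (Nat.Coprime.coprime_dvd_left (Subgroup.card_map_dvd H f) hHp)
    (by rw [← Subgroup.map_sup, hHP, Subgroup.map_top_of_surjective f hs])
    (by
      rw [← Subgroup.map_commutator]
      haveI := hsol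
      exact Group.isSolvable_of_surjective (f := f.subgroupMap ⁅H, P⁆) (f.subgroupMap_surjective _))
    (z := f z) ⟨z, hzH, rfl⟩
    (by
      rw [mem_centralizer_iff]
      rintro _ ⟨g, hg, rfl⟩
      rw [← map_mul, ← map_mul, mem_centralizer_iff.1 hzP g hg])
    (by
      obtain ⟨k, hk⟩ := hz
      obtain ⟨j, -, hj⟩ := (Nat.dvd_prime_pow (Fact.out : q.Prime)).1 (hk ▸ orderOf_map_dvd f z)
      exact ⟨j, hj⟩) hbot
  rw [← hcz, ← hcP, ← Bal.map_pPrimeCoreOf f hkq, ← Bal.map_pPrimeCoreOf f hkq] at hmain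
  obtain ⟨h1, h2⟩ := hmain
  apply sup_le
  · rintro x ⟨hx1, hx2⟩
    rw [← hker, MonoidHom.mem_ker]
    have : f x ∈ (⊥ : Subgroup (G ⧸ N)) := by
      rw [← h2]; exact ⟨⟨x, hx1, rfl⟩, ⟨x, hx2, rfl⟩⟩
    exact this
  · rw [← Subgroup.map_commutator, Subgroup.map_eq_bot_iff, hker] at h1
    exact h1

end Cfsg.Agent.H25
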