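import Mathlib

/-!
# A counting lemma for Frobenius-like actions

If `u` acts on `H` without fixed points, `H` acts without fixed points on the abelian group `W`
(coprimely) and the norm of `u` vanishes on `W`, then `W` is trivial.
-/

set_option autoImplicit false

namespace Cfsg.Agent.H25

open Finset

theorem prod_eq_one_of_fix {W V : Type*} [CommGroup W] [Group V] (φ : V →* MulAut W)
    (H : Subgroup V) [Fintype H] (hC : ∀ w : W, (∀ h ∈ H, φ h w = w) → w = 1) (w : W) :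
    ∏ h : H, φ (h : V) w = 1 := by
  apply hC
  intro g hg
  rw [map_prod]
  refine Fintype.prod_equiv (Equiv.mulLeft (⟨g, hg⟩ : H)) _ _ ?_
  intro h
  simp [MulAut.mul_apply]

theorem eq_one_of_norm {W V : Type*} [CommGroup W] [Finite W] [Group V] (φ : V →* MulAut W)
    (H : Subgroup V) [Finite H] (u : V) {p : ℕ} (hp : 0 < p)
    (hnorm : ∀ i : ℕ, ∀ h ∈ H, u ^ i * h * (u ^ i)⁻¹ ∈ H)
    (hfix : ∀ i : ℕ, 0 < i → i < p → ∀ h ∈ H, u ^ i * h = h * u ^ i → h = 1)
    (hC : ∀ w : W, (∀ h ∈ H, φ h w = w) → w = 1)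
    (hN : ∀ w : W, ∏ i ∈ range p, φ (u ^ i) w = 1)
    (hcop : (Nat.card H).Coprime (Nat.card W)) (w : W) : w = 1 := by
  classical
  haveI := Fintype.ofFinite H
  have h1 : ∏ h : H, ∏ i ∈ range p, φ ((h : V) * u ^ i * (h : V)⁻¹) w = 1 := by
    apply Finset.prod_eq_one
    intro h _
    have : ∏ i ∈ range p, φ ((h : V) * u ^ i * (h : V)⁻¹) w = φ (h : V) (∏ i ∈ range p, φ (u ^ i) (φ (h : V)⁻¹ w)) := by
      rw [map_prod]
      apply Finset.prod_congr rfl
      intro i _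
      rw [map_mul, map_mul, MulAut.mul_apply, MulAut.mul_apply]
    rw [this, hN, map_one]
  rw [Finset.prod_comm] at h1
  obtain ⟨q, rfl⟩ : ∃ q, p = q + 1 := ⟨p - 1, by omega⟩
  rw [Finset.prod_range_succ'] at h1
  have h2 : ∏ i ∈ range q, ∏ h : H, φ ((h : V) * u ^ (i + 1) * (h : V)⁻¹) w = 1 := by
    apply Finset.prod_eq_one
    intro i hi
    rw [Finset.mem_range] at hi
    -- the bijection
    let β : H → H := fun h => h * ⟨u ^ (i + 1) * (h : V)⁻¹ * (u ^ (i + 1))⁻¹, hnorm _ _ (H.inv_mem h.2)⟩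
    have hβ : Function.Injective β := by
      intro a b hab
      have e1 : (a : V) * (u ^ (i + 1) * (a : V)⁻¹ * (u ^ (i + 1))⁻¹) = b * (u ^ (i + 1) * (b : V)⁻¹ * (u ^ (i + 1))⁻¹) :=
        congrArg Subtype.val hab
      have e2 : u ^ (i + 1) * ((b : V)⁻¹ * a) = ((b : V)⁻¹ * a) * u ^ (i + 1) := by
        have e3 : (b : V)⁻¹ * a * u ^ (i + 1) * (a : V)⁻¹ = u ^ (i + 1) * (b : V)⁻¹ := by
          calc (b : V)⁻¹ * a * u ^ (i + 1) * (a : V)⁻¹
              = (b : V)⁻¹ * ((a : V) * (u ^ (i + 1) * (a : V)⁻¹ * (u ^ (i + 1))⁻¹)) * u ^ (i + 1) := by group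
            _ = (b : V)⁻¹ * (b * (u ^ (i + 1) * (b : V)⁻¹ * (u ^ (i + 1))⁻¹)) * u ^ (i + 1) := by rw [e1]
            _ = _ := by group
        calc u ^ (i + 1) * ((b : V)⁻¹ * a) = (u ^ (i + 1) * (b : V)⁻¹) * a := by group
          _ = ((b : V)⁻¹ * a * u ^ (i + 1) * (a : V)⁻¹) * a := by rw [e3]
          _ = _ := by group
      have e4 := hfix (i + 1) (by omega) (by omega) _ (H.mul_mem (H.inv_mem b.2) a.2) e2
      exact (Subtype.ext (inv_mul_eq_one.1 e4)).symm
    have hβ' : Function.Bijective β := Finite.injective_iff_bijective.1 hβ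
    rw [← prod_eq_one_of_fix φ H hC (φ (u ^ (i + 1)) w)]
    refine Fintype.prod_equiv (Equiv.ofBijective β hβ') _ _ ?_
    intro h
    change φ ((h : V) * u ^ (i + 1) * (h : V)⁻¹) w = φ ((h : V) * (u ^ (i + 1) * (h : V)⁻¹ * (u ^ (i + 1))⁻¹)) (φ (u ^ (i + 1)) w)
    rw [← MulAut.mul_apply, ← map_mul]
    congr 2
    group
  rw [h2, one_mul] at h1
  have h3 : w ^ Nat.card H = 1 := by
    rw [← h1]
    simp [Finset.prod_const, Nat.card_eq_fintype_card]
  have h4 : orderOf w ∣ 1 := by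
    rw [← hcop.gcd_eq_one]
    exact Nat.dvd_gcd (orderOf_dvd_of_pow_eq_one h3) (orderOf_dvd_natCard w)
  exact orderOf_eq_one_iff.1 (Nat.dvd_one.1 h4)

/-- the norm as a power in the semidirect product -/
theorem mul_pow_eq {V : Type*} [Group V] (w u : V) (n : ℕ) :
    (w * u) ^ n = ((List.range n).map (fun i => u ^ i * w * (u ^ i)⁻¹)).prod * u ^ n := by
  induction n with
  | zero => simp
  | succ n ih =>
    rw [pow_succ, ih, List.range_succ, List.map_append, List.prod_append]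
    simp only [List.map_cons, List.map_nil, List.prod_cons, List.prod_nil, mul_one]
    rw [pow_succ u n]
    group

end Cfsg.Agent.H25
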