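import Mathlib
import Cfsg.Agent.H2.Subnormal

/-!
# A zipper lemma for perfect closures

`A < G` with `A^G = G`: the join of the proper subgroups `H ≥ A` with `A^H = H` is `G`, or `A` is
contained in a unique maximal subgroup.
-/

set_option autoImplicit false

namespace Cfsg.Agent.H25.Zip

open Subgroup

open scoped Pointwise

variable {G : Type*} [Group G]

/-- relative subnormality -/
abbrev sn (A H : Subgroup G) : Prop := (A.subgroupOf H).IsSubnormal

/-- `H` is the only subnormal subgroup of `H` containing `A`. -/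
def Pf (A H : Subgroup G) : Prop := A ≤ H ∧ ∀ N ≤ H, A ≤ N → sn N H → N = H

/-- conjugate of a subgroup -/
abbrev cj (g : G) (A : Subgroup G) : Subgroup G := MulAut.conj g • A

theorem cj_mul (g h : G) (A : Subgroup G) : cj (g * h) A = cj g (cj h A) := by
  simp only [cj, map_mul, mul_smul]

theorem cj_one (A : Subgroup G) : cj 1 A = A := by
  simp only [cj, map_one, one_smul]

theorem cj_inv_cj (g : G) (A : Subgroup G) : cj g⁻¹ (cj g A) = A := by
  rw [← cj_mul, inv_mul_cancel, cj_one]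

theorem cj_cj_inv (g : G) (A : Subgroup G) : cj g (cj g⁻¹ A) = A := by
  rw [← cj_mul, mul_inv_cancel, cj_one]

theorem cj_mono (g : G) {A B : Subgroup G} (h : A ≤ B) : cj g A ≤ cj g B :=
  Subgroup.pointwise_smul_le_pointwise_smul_iff.2 h

theorem cj_le_iff (g : G) {A B : Subgroup G} : cj g A ≤ B ↔ A ≤ cj g⁻¹ B := by
  constructor
  · intro h
    have := cj_mono g⁻¹ h
    rwa [cj_inv_cj] at this
  · intro h
    have := cj_mono g h
    rwa [cj_cj_inv] at this

theorem mem_nz_iff {A : Subgroup G} {g : G} : g ∈ normalizer (A : Set G) ↔ cj g A = A :=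
  H2.mem_normalizer_iff_conj_smul_eq

theorem mem_nz_of_le [Finite G] {A : Subgroup G} {g : G} (h : cj g A ≤ A) :
    g ∈ normalizer (A : Set G) := H2.mem_normalizer_of_conj_smul_le h

theorem cj_eq_of_mem {A : Subgroup G} {g : G} (h : g ∈ A) : cj g A = A :=
  mem_nz_iff.1 (le_normalizer h)

theorem cj_eq_of_le [Finite G] {A : Subgroup G} {g : G} (h : cj g A ≤ A) : cj g A = A :=
  mem_nz_iff.1 (mem_nz_of_le h)

theorem card_cj (g : G) (A : Subgroup G) : Nat.card (cj g A) = Nat.card A :=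
  Nat.card_congr (Subgroup.equivSMul (MulAut.conj g) A).toEquiv.symm

theorem cj_sSup (g : G) (S : Set (Subgroup G)) (B : Subgroup G)
    (h : ∀ A ∈ S, cj g A ≤ B) : cj g (sSup S) ≤ B := by
  rw [cj_le_iff]
  exact sSup_le fun A hA => (cj_le_iff g).1 (h A hA)

theorem sn_mono {A B H : Subgroup G} (hBH : B ≤ H) (h : sn A H) : sn A B :=
  H2.isSubnormal_subgroupOf_mono hBH h

theorem sn_trans {A B C : Subgroup G} (hAB : A ≤ B) (h1 : sn A B) (h2 : sn B C) : sn A C :=
  H2.isSubnormal_subgroupOf_trans hAB h1 h2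

theorem sn_cj {A H : Subgroup G} (x : G) (h : sn A H) : sn (cj x A) (cj x H) := by
  apply H2.isSubnormal_conj_subgroupOf
  have : MulAut.conj x⁻¹ • cj x H = H := cj_inv_cj x H
  rw [this]
  exact h

theorem sn_inf {A B H : Subgroup G} (hBH : B ≤ H) (h : sn A H) : sn (A ⊓ B) B := by
  have h1 := sn_mono hBH h
  have : (A ⊓ B).subgroupOf B = A.subgroupOf B := by
    ext x
    simp [mem_subgroupOf]
  unfold sn
  rw [this]
  exact h1

theorem sn_sup [Finite G] {A B H : Subgroup G} (hA : A ≤ H) (hB : B ≤ H) (h1 : sn A H)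
    (h2 : sn B H) : sn (A ⊔ B) H := by
  unfold sn
  rw [subgroupOf_sup hA hB]
  exact H62.isSubnormal_sup h1 h2

theorem sn_sSup [Finite G] (S : Set (Subgroup G)) {H : Subgroup G} (hS : ∀ A ∈ S, A ≤ H)
    (h1 : ∀ A ∈ S, sn A H) : sn (sSup S) H := by
  have hfin : S.Finite := Set.toFinite S
  revert hS h1
  refine Set.Finite.induction_on (motive := fun S _ => (∀ A ∈ S, A ≤ H) → (∀ A ∈ S, sn A H) →
    sn (sSup S) H) S hfin ?_ ?_
  · intro _ _
    rw [sSup_empty]
    unfold sn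
    have : (⊥ : Subgroup G).subgroupOf H = ⊥ := by
      rw [bot_subgroupOf]
    rw [this]
    exact (inferInstance : (⊥ : Subgroup H).Normal).isSubnormal
  · intro a s _ _ ih h1 h2
    rw [sSup_insert]
    apply sn_sup (h1 a (Set.mem_insert _ _)) (sSup_le fun A hA => h1 A (Set.mem_insert_of_mem _ hA))
      (h2 a (Set.mem_insert _ _))
    exact ih (fun A hA => h1 A (Set.mem_insert_of_mem _ hA))
      (fun A hA => h2 A (Set.mem_insert_of_mem _ hA))

theorem sn_self (A : Subgroup G) : sn A A := by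
  unfold sn
  rw [subgroupOf_self]
  exact IsSubnormal.top

theorem sn_top_iff {A : Subgroup G} : sn A ⊤ ↔ A.IsSubnormal := by
  constructor
  · intro h
    exact IsSubnormal.trans le_top h IsSubnormal.top
  · intro h
    exact h.comap _

theorem sn_of_le_nz {A H : Subgroup G} (hA : A ≤ H) (h : H ≤ normalizer (A : Set G)) : sn A H := by
  have : (A.subgroupOf H).Normal := (normal_subgroupOf_iff_le_normalizer hA).2 h
  exact this.isSubnormal

/-- minimal subnormal subgroup over `A`. -/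
theorem exists_closure [Finite G] {A K : Subgroup G} (hAK : A ≤ K) :
    ∃ B, A ≤ B ∧ B ≤ K ∧ sn B K ∧ Pf A B := by
  obtain ⟨B, hB1, hB2⟩ := Set.Finite.exists_minimal
    (s := {B : Subgroup G | A ≤ B ∧ B ≤ K ∧ sn B K}) (Set.toFinite _) ⟨K, hAK, le_rfl, sn_self K⟩
  refine ⟨B, hB1.1, hB1.2.1, hB1.2.2, hB1.1, ?_⟩
  intro N hN hAN hs
  exact le_antisymm hN (hB2 ⟨hAN, hN.trans hB1.2.1, sn_trans hN hs hB1.2.2⟩ hN)

theorem Pf_sSup [Finite G] {A : Subgroup G} (S : Set (Subgroup G)) (hne : S.Nonempty)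
    (h : ∀ H ∈ S, Pf A H) : Pf A (sSup S) := by
  obtain ⟨H₀, hH₀⟩ := hne
  refine ⟨(h H₀ hH₀).1.trans (le_sSup hH₀), ?_⟩
  intro N hN hAN hs
  refine le_antisymm hN (sSup_le ?_)
  intro H hH
  have h1 := (h H hH).2 (N ⊓ H) inf_le_right (le_inf hAN (h H hH).1) (sn_inf (le_sSup hH) hs)
  exact inf_eq_right.1 h1

theorem Pf.trans {A B H : Subgroup G} (h1 : Pf A B) (h2 : Pf B H) : Pf A H := by
  refine ⟨h1.1.trans h2.1, ?_⟩
  intro N hN hAN hs
  have h3 := h1.2 (N ⊓ B) inf_le_right (le_inf hAN h1.1) (sn_inf h2.1 hs)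
  exact h2.2 N hN (inf_eq_right.1 h3) hs

theorem Pf.mono_left {A B H : Subgroup G} (hAB : A ≤ B) (hB : B ≤ H) (h : Pf A H) : Pf B H :=
  ⟨hB, fun N hN hBN hs => h.2 N hN (hAB.trans hBN) hs⟩

theorem Pf_cj {A H : Subgroup G} (g : G) (h : Pf A H) : Pf (cj g A) (cj g H) := by
  refine ⟨cj_mono g h.1, ?_⟩
  intro N hN hAN hs
  have h1 := h.2 (cj g⁻¹ N) (by rw [cj_le_iff, inv_inv]; exact hN)
    ((cj_le_iff g).1 hAN) (by
      have := sn_cj g⁻¹ hs
      rwa [cj_inv_cj] at this)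
  rw [← h1, cj_cj_inv]

theorem exists_conj_rel [Finite G] {A K : Subgroup G} (hAK : A ≤ K) (h : sn A K)
    (hn : ¬ K ≤ normalizer (A : Set G)) :
    ∃ x ∈ K, cj x A ≤ normalizer (A : Set G) ∧ ¬ cj x A ≤ A ∧ cj x A ≤ K := by
  rcases H2.exists_conj_le_normalizer h with h1 | ⟨x, hx1, hx2⟩
  · exact absurd ((normal_subgroupOf_iff_le_normalizer hAK).1 h1) hn
  · have hcK : cj (x : G) A ≤ K := by
      rw [H2.conj_smul_le_iff]
      intro a ha
      exact mul_mem (mul_mem x.2 (hAK ha)) (inv_mem x.2)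
    refine ⟨x, x.2, ?_, ?_, hcK⟩
    · rw [H2.conj_smul_le_iff] at hx1 ⊢
      intro a ha
      have h1 := hx1 ⟨a, hAK ha⟩ (mem_subgroupOf.2 ha)
      rw [mem_normalizer_iff] at h1 ⊢
      intro b
      have hz : (x : G) * a * (x : G)⁻¹ ∈ K := mul_mem (mul_mem x.2 (hAK ha)) (inv_mem x.2)
      constructor
      · intro hb
        exact (h1 ⟨b, hAK hb⟩).1 hb
      · intro hb
        have hbK : b ∈ K := by
          have := mul_mem (mul_mem (inv_mem hz) (hAK hb)) hz
          have e : ((x : G) * a * (x : G)⁻¹)⁻¹ *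
            ((x : G) * a * (x : G)⁻¹ * b * ((x : G) * a * (x : G)⁻¹)⁻¹) *
              ((x : G) * a * (x : G)⁻¹) = b := by group
          rwa [e] at this
        exact (h1 ⟨b, hbK⟩).2 hb
    · intro h
      apply hx2
      rw [H2.conj_smul_le_iff] at h ⊢
      intro a ha
      exact h a ha

end Cfsg.Agent.H25.Zip
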