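import Mathlib
import Cfsg.Agent.H25.Zip

set_option autoImplicit false

namespace Cfsg.Agent.H25.Zip

open Subgroup

open scoped Pointwise

variable {G : Type*} [Group G]

theorem cj_top (g : G) : cj g (⊤ : Subgroup G) = ⊤ := by
  rw [eq_top_iff]
  intro x _
  rw [H2.mem_conj_smul]; trivial

theorem coatom_cj {M : Subgroup G} (g : G) (h : IsCoatom M) : IsCoatom (cj g M) := by
  constructor
  · intro h1
    apply h.1
    rw [← cj_inv_cj g M, h1, cj_top]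
  · intro B hB
    have h1 : M < cj g⁻¹ B := by
      refine lt_of_le_of_ne ((cj_le_iff g).1 hB.le) ?_
      intro h2
      rw [h2, cj_cj_inv] at hB
      exact lt_irrefl _ hB
    have h2 := h.2 _ h1
    rw [← cj_cj_inv g B, h2, cj_top]

structure Dat (A M : Subgroup G) : Prop where
  co : IsCoatom M
  le : A ≤ M
  snK : ∀ K : Subgroup G, IsCoatom K → A ≤ K → K ≠ M → sn A K
  nsn : ¬ sn A M
  nz : normalizer (A : Set G) ≤ M
  nzM : ∀ g : G, cj g M = M → g ∈ M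

theorem cj_conj_eq {A : Subgroup G} {g h : G} (e : cj h (cj g A) = cj g A) :
    cj (g⁻¹ * h * g) A = A := by
  rw [cj_mul, cj_mul, e, cj_inv_cj]

theorem Dat.cj {A M : Subgroup G} (g : G) (hD : Dat A M) : Dat (cj g A) (cj g M) where
  co := coatom_cj g hD.co
  le := cj_mono g hD.le
  snK := by
    intro K hK hAK hne
    have h1 := hD.snK (Zip.cj g⁻¹ K) (coatom_cj _ hK) ((cj_le_iff g).1 hAK) (by
      intro h
      apply hne
      rw [← h, cj_cj_inv])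
    have := sn_cj g h1
    rwa [cj_cj_inv] at this
  nsn := by
    intro h
    apply hD.nsn
    have := sn_cj g⁻¹ h
    rwa [cj_inv_cj, cj_inv_cj] at this
  nz := by
    intro h hh
    rw [mem_nz_iff] at hh
    rw [H2.mem_conj_smul]
    apply hD.nz
    rw [mem_nz_iff]
    exact cj_conj_eq hh
  nzM := by
    intro h hh
    rw [H2.mem_conj_smul]
    apply hD.nzM
    exact cj_conj_eq hh

def Pr (A M A' M' : Subgroup G) : Prop := ∃ g : G, A' = cj g A ∧ M' = cj g M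

theorem Pr.refl (A M : Subgroup G) : Pr A M A M := ⟨1, (cj_one A).symm, (cj_one M).symm⟩

theorem Pr.cj {A M A' M' : Subgroup G} (h : Pr A M A' M') (x : G) :
    Pr A M (cj x A') (cj x M') := by
  obtain ⟨g, rfl, rfl⟩ := h
  exact ⟨x * g, (cj_mul _ _ _).symm, (cj_mul _ _ _).symm⟩

theorem Pr.dat {A M A' M' : Subgroup G} (h : Pr A M A' M') (hD : Dat A M) : Dat A' M' := by
  obtain ⟨g, rfl, rfl⟩ := h
  exact hD.cj g

theorem Pr.card {A M A' M' : Subgroup G} (h : Pr A M A' M') : Nat.card A' = Nat.card A := by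
  obtain ⟨g, rfl, rfl⟩ := h
  exact card_cj g A

theorem Pr_uniq {A M A' M₁ M₂ : Subgroup G} (hD : Dat A M) (h1 : Pr A M A' M₁)
    (h2 : Pr A M A' M₂) : M₁ = M₂ := by
  obtain ⟨g, hg, rfl⟩ := h1
  obtain ⟨h, hh, rfl⟩ := h2
  have e : cj (h⁻¹ * g) A = A := by
    have e1 : Zip.cj (h⁻¹ * g) A = Zip.cj h⁻¹ (Zip.cj g A) := cj_mul _ _ _
    rw [e1, ← hg, hh]
    exact cj_inv_cj h A
  have h3 : h⁻¹ * g ∈ M := hD.nz (mem_nz_iff.2 e)
  have h4 := cj_eq_of_mem h3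
  have h5 : g = h * (h⁻¹ * g) := by group
  rw [h5, cj_mul, h4]

theorem Pr.pf {A M A' M' : Subgroup G} (h : Pr A M A' M') (hPf : Pf A ⊤) : Pf A' ⊤ := by
  obtain ⟨g, rfl, rfl⟩ := h
  have := Pf_cj g hPf
  rwa [cj_top] at this

/-- the inductive hypothesis -/
def IH (A : Subgroup G) : Prop :=
  ∀ B : Subgroup G, Nat.card A < Nat.card B → B ≠ ⊤ → Pf B ⊤ →
    (∃ Y : Subgroup G, Y ≠ ⊤ ∧ ∀ H : Subgroup G, H ≠ ⊤ → Pf B H → H ≤ Y) →
    ∀ M K : Subgroup G, IsCoatom M → IsCoatom K → B ≤ M → B ≤ K → M = K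

variable [Finite G]

theorem pp {A M : Subgroup G} (hD : Dat A M) (hPf : Pf A ⊤) (ih : IH A)
    {A₁ M₁ A₂ M₂ A₃ M₃ K : Subgroup G} (h1 : Pr A M A₁ M₁) (h2 : Pr A M A₂ M₂)
    (h3 : Pr A M A₃ M₃) (hK : IsCoatom K) (h1K : A₁ ≤ K) (hne : K ≠ M₁) (h2a : A₂ ≤ M₁)
    (h2b : A₂ ≤ K) (h3a : A₃ ≤ M₁) (h3b : A₃ ≤ K) (hd : A₂ ≠ A₁ ∨ A₃ ≠ A₁) :
    (M₂ ≠ M₁ ∧ A₁ ≤ M₂ ∧ A₃ ≤ M₂) ∨ (M₃ ≠ M₁ ∧ A₁ ≤ M₃ ∧ A₂ ≤ M₃) := by
  by_contra hcon
  have hD1 := h1.dat hD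
  have hD2 := h2.dat hD
  have hD3 := h3.dat hD
  set T : Subgroup G := A₁ ⊔ A₂ ⊔ A₃ with hT
  have hA1T : A₁ ≤ T := le_sup_left.trans le_sup_left
  have hA2T : A₂ ≤ T := le_sup_right.trans le_sup_left
  have hA3T : A₃ ≤ T := le_sup_right
  have hTK : T ≤ K := sup_le (sup_le h1K h2b) h3b
  have hTM : T ≤ M₁ := sup_le (sup_le hD1.le h2a) h3a
  have hcard : Nat.card A < Nat.card T := by
    rw [← h1.card]
    apply Set.Finite.card_lt_card (Set.toFinite _)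
    refine lt_of_le_of_ne hA1T ?_
    intro he
    have he' : A₁ = T := by
      exact_mod_cast he
    rcases hd with hd | hd
    · apply hd
      apply Subgroup.eq_of_le_of_card_ge (he' ▸ hA2T)
      rw [h1.card, h2.card]
    · apply hd
      apply Subgroup.eq_of_le_of_card_ge (he' ▸ hA3T)
      rw [h1.card, h3.card]
  have hTtop : T ≠ ⊤ := fun h => hK.1 (top_le_iff.1 (h ▸ hTK))
  have hPT : Pf T ⊤ := (h1.pf hPf).mono_left hA1T le_top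
  apply hne
  symm
  refine ih T hcard hTtop hPT ⟨M₁, hD1.co.1, ?_⟩ M₁ K hD1.co hK hTM hTK
  intro H hH hPH
  by_contra hHM
  obtain (h | ⟨L, hL, hHL⟩) := eq_top_or_exists_le_coatom H
  · exact hH h
  have hLM : L ≠ M₁ := by
    rintro rfl
    exact hHM hHL
  have hTL : T ≤ L := hPH.1.trans hHL
  have hs1 := hD1.snK L hL (hA1T.trans hTL) hLM
  by_cases e2 : L = M₂
  · apply hcon
    left
    rw [← e2]
    exact ⟨hLM, hA1T.trans hTL, hA3T.trans hTL⟩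
  by_cases e3 : L = M₃
  · apply hcon
    right
    rw [← e3]
    exact ⟨hLM, hA1T.trans hTL, hA2T.trans hTL⟩
  have hs2 := hD2.snK L hL (hA2T.trans hTL) e2
  have hs3 := hD3.snK L hL (hA3T.trans hTL) e3
  have hsT : sn T L := sn_sup (sup_le (hA1T.trans hTL) (hA2T.trans hTL)) (hA3T.trans hTL)
    (sn_sup (hA1T.trans hTL) (hA2T.trans hTL) hs1 hs2) hs3
  have := hPH.2 T hPH.1 le_rfl (sn_mono hHL hsT)
  exact hHM (this ▸ hTM)

/-- two conjugates with the same attached maximal subgroup in another maximal subgroup agree. -/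
theorem ww {A M : Subgroup G} (hD : Dat A M) (hPf : Pf A ⊤) (ih : IH A)
    {A₁ M₁ A₂ K : Subgroup G} (h1 : Pr A M A₁ M₁) (h2 : Pr A M A₂ M₁) (hK : IsCoatom K)
    (hne : K ≠ M₁) (h1K : A₁ ≤ K) (h2K : A₂ ≤ K) : A₂ = A₁ := by
  by_contra hd
  rcases pp hD hPf ih h1 h2 h2 hK h1K hne (h2.dat hD).le h2K (h2.dat hD).le h2K (Or.inl hd) with
    h | h
  · exact h.1 rfl
  · exact h.1 rfl

theorem one' {A M : Subgroup G} (hD : Dat A M) (hPf : Pf A ⊤) (ih : IH A)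
    {A₁ M₁ A₂ M₂ K : Subgroup G} (h1 : Pr A M A₁ M₁) (h2 : Pr A M A₂ M₂) (hK : IsCoatom K)
    (hne : K ≠ M₁) (h1K : A₁ ≤ K) (h2M : A₂ ≤ M₁) (h2K : A₂ ≤ K) (hd : A₂ ≠ A₁) :
    M₂ ≠ M₁ ∧ A₁ ≤ M₂ := by
  rcases pp hD hPf ih h1 h2 h2 hK h1K hne h2M h2K h2M h2K (Or.inl hd) with h | h
  · exact ⟨h.1, h.2.1⟩
  · exact ⟨h.1, h.2.1⟩

theorem two' {A M : Subgroup G} (hD : Dat A M) (hPf : Pf A ⊤) (ih : IH A)
    {A₁ M₁ A₂ M₂ A₃ M₃ K : Subgroup G} (h1 : Pr A M A₁ M₁) (h2 : Pr A M A₂ M₂)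
    (h3 : Pr A M A₃ M₃) (hK : IsCoatom K)
    (hne : K ≠ M₁) (h1K : A₁ ≤ K) (h2M : A₂ ≤ M₁) (h2K : A₂ ≤ K) (h3M : A₃ ≤ M₁)
    (h3K : A₃ ≤ K) : A₃ ≤ M₂ := by
  by_cases e21 : A₂ = A₁
  · subst e21
    rw [Pr_uniq hD h2 h1]
    exact h3M
  by_cases e31 : A₃ = A₁
  · subst e31
    exact (one' hD hPf ih h1 h2 hK hne h1K h2M h2K e21).2
  by_cases e32 : A₃ = A₂
  · subst e32
    exact (h2.dat hD).le
  rcases pp hD hPf ih h1 h2 h3 hK h1K hne h2M h2K h3M h3K (Or.inl e21) with h | h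
  · exact h.2.2
  · exact (one' hD hPf ih h3 h2 (h1.dat hD).co (Ne.symm h.1) h3M h.2.2 h2M (Ne.symm e32)).2

/-- the intersection normalizes. -/
theorem nrm {A M : Subgroup G} (hD : Dat A M) (hPf : Pf A ⊤) (ih : IH A)
    {A₁ M₁ K : Subgroup G} (h1 : Pr A M A₁ M₁) (hK : IsCoatom K)
    (hne : K ≠ M₁) (h1K : A₁ ≤ K) {e : G} (heM : e ∈ M₁) (heK : e ∈ K) : cj e A₁ = A₁ := by
  have h2 : Pr A M (cj e A₁) M₁ := by
    have := h1.cj e
    rwa [cj_eq_of_mem heM] at this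
  refine ww hD hPf ih h1 h2 hK hne h1K ?_
  have := cj_mono e h1K
  rwa [cj_eq_of_mem heK] at this

end Cfsg.Agent.H25.Zip
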