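import Mathlib
import Cfsg.Agent.H25.Zip2

set_option autoImplicit false

namespace Cfsg.Agent.H25.Zip

open Subgroup

open scoped Pointwise

variable {G : Type*} [Group G] [Finite G]

theorem core {A M : Subgroup G} (hD : Dat A M) (hPf : Pf A ⊤) (ih : IH A)
    (big : ∀ C : Subgroup G, A ≤ C → C ≤ M → sn C M → ∀ K : Subgroup G, IsCoatom K → K ≠ M →
      ¬ C ≤ K) (K₀ : Subgroup G) (hK₀ : IsCoatom K₀) (hA₀ : A ≤ K₀) (hne₀ : K₀ ≠ M) : False := by
  let Λ : Subgroup G → Set (Subgroup G) := fun K =>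
    {A' | (∃ M', Pr A M A' M') ∧ A' ≤ M ∧ A' ≤ K}
  obtain ⟨K, ⟨hK, hAK, hKM⟩, hmax⟩ := Set.exists_max_image
    {K : Subgroup G | IsCoatom K ∧ A ≤ K ∧ K ≠ M} (fun K => Nat.card (sSup (Λ K) : Subgroup G))
    (Set.toFinite _) ⟨K₀, hK₀, hA₀, hne₀⟩
  set V : Subgroup G := sSup (Λ K) with hV
  have hVM : V ≤ M := sSup_le fun A' h => h.2.1
  have hVK : V ≤ K := sSup_le fun A' h => h.2.2
  have hAΛ : A ∈ Λ K := ⟨⟨M, Pr.refl A M⟩, hD.le, hAK⟩
  have hAV : A ≤ V := le_sSup hAΛ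
  have V1 : ∀ L : Subgroup G, IsCoatom L → L ≠ M → V ≤ L → ∀ A' M' : Subgroup G, Pr A M A' M' →
      A' ≤ M → A' ≤ L → A' ≤ V := by
    intro L hL hLM hVL A' M' hA' h1 h2
    have hle : V ≤ sSup (Λ L) := sSup_le fun A'' h => le_sSup ⟨h.1, h.2.1, (le_sSup h).trans hVL⟩
    have hc := hmax L ⟨hL, hAV.trans hVL, hLM⟩
    have he : V = sSup (Λ L) := Subgroup.eq_of_le_of_card_ge hle hc
    rw [he]
    exact le_sSup ⟨⟨M', hA'⟩, h1, h2⟩
  have V2 : ∀ A₁ M₁ : Subgroup G, Pr A M A₁ M₁ → A₁ ≤ M → A₁ ≤ K → V ≤ M₁ := by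
    intro A₁ M₁ h1 h1M h1K
    refine sSup_le fun A' h => ?_
    obtain ⟨⟨M', h'⟩, h'M, h'K⟩ := h
    exact two' hD hPf ih (Pr.refl A M) h1 h' hK hKM hAK h1M h1K h'M h'K
  have V2' : ∀ A₁ M₁ : Subgroup G, Pr A M A₁ M₁ → A₁ ≤ M → A₁ ≤ K → A₁ ≠ A → M₁ ≠ M := by
    intro A₁ M₁ h1 h1M h1K hne
    exact (one' hD hPf ih (Pr.refl A M) h1 hK hKM hAK h1M h1K hne).1
  -- a nontrivial member
  obtain ⟨x, hxK, hx1, hx2, hx3⟩ := exists_conj_rel hAK (hD.snK K hK hAK hKM) (by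
    intro h
    have h1 := h.trans hD.nz
    rcases h1.lt_or_eq with h2 | h2
    · exact hD.co.1 (hK.2 _ h2)
    · exact hKM h2)
  have hPx : Pr A M (cj x A) (cj x M) := (Pr.refl A M).cj x
  have hxM : cj x A ≤ M := hx1.trans hD.nz
  have hxne : cj x A ≠ A := fun h => hx2 h.le
  have hxnM : x ∉ M := fun h => hxne (nrm hD hPf ih (Pr.refl A M) hK hKM hAK h hxK)
  -- `x` normalizes `V`
  have hxV : x ∈ normalizer (V : Set G) := by
    rw [← inv_mem_iff]
    apply mem_nz_of_le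
    apply cj_sSup
    intro A' h'
    obtain ⟨⟨M', h'⟩, h'M, h'K⟩ := h'
    apply le_sSup
    refine ⟨⟨_, h'.cj x⁻¹⟩, ?_, ?_⟩
    · rw [cj_le_iff, inv_inv]
      have := V2 _ _ hPx hxM hx3
      exact (le_sSup (show A' ∈ Λ K from ⟨⟨M', h'⟩, h'M, h'K⟩)).trans this
    · rw [cj_le_iff, inv_inv, cj_eq_of_mem hxK]
      exact h'K
  have hNV : normalizer (V : Set G) ≠ ⊤ := by
    intro h
    have h1 : V.Normal := normalizer_eq_top_iff.1 h
    have h2 := hPf.2 V le_top hAV (sn_top_iff.2 h1.isSubnormal)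
    exact hD.co.1 (top_le_iff.1 (h2 ▸ hVM))
  obtain (h | ⟨L, hL, hNL⟩) := eq_top_or_exists_le_coatom (normalizer (V : Set G))
  · exact hNV h
  have hLM : L ≠ M := by
    rintro rfl
    exact hxnM (hNL hxV)
  have hVL : V ≤ L := le_normalizer.trans hNL
  -- the product of the others
  set C : Subgroup G := sSup {A' | A' ∈ Λ K ∧ A' ≠ A} with hC
  have hCV : C ≤ V := sSup_le fun A' h => le_sSup h.1
  have hCM : C ≤ M := hCV.trans hVM
  have hsC : sn C M := by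
    apply sn_sSup
    · intro A' h; exact h.1.2.1
    · intro A' h
      obtain ⟨⟨⟨M', h'⟩, h'M, h'K⟩, hne⟩ := h
      exact (h'.dat hD).snK M hD.co h'M (Ne.symm (V2' _ _ h' h'M h'K hne))
  have hAC : ¬ A ≤ C := fun h => big C h hCM hsC K hK hKM (hCV.trans hVK)
  have hperm : ∀ h ∈ normalizer (C : Set G), ∀ A₁, A₁ ∈ Λ K ∧ A₁ ≠ A →
      cj h A₁ ∈ Λ K ∧ cj h A₁ ≠ A := by
    intro h hh A₁ hA₁
    have h1 : cj h A₁ ≤ C := by
      have := cj_mono h (show A₁ ≤ C from le_sSup hA₁)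
      rwa [mem_nz_iff.1 hh] at this
    obtain ⟨⟨⟨M', h'⟩, h'M, h'K⟩, hne⟩ := hA₁
    refine ⟨⟨⟨_, h'.cj h⟩, h1.trans hCM, h1.trans (hCV.trans hVK)⟩, ?_⟩
    intro he
    exact hAC (he ▸ h1)
  have hfix : ∀ A₁, A₁ ∈ Λ K ∧ A₁ ≠ A → ∀ a ∈ A, cj a A₁ = A₁ := by
    intro A₁ hA₁ a ha
    obtain ⟨⟨⟨M', h'⟩, h'M, h'K⟩, hne⟩ := hA₁
    exact nrm hD hPf ih h' hD.co (Ne.symm (V2' _ _ h' h'M h'K hne)) h'M
      (V2 _ _ h' h'M h'K (hAV ha)) (hD.le ha)
  have HC : ∀ h ∈ normalizer (C : Set G), h ∈ M → cj h A = A := by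
    intro h hh hhM
    have hle : cj h A ≤ cj x M := by
      intro b hb
      apply (hPx.dat hD).nz
      rw [mem_nz_iff]
      obtain ⟨a, ha, hba⟩ : ∃ a ∈ A, b = h * a * h⁻¹ :=
        ⟨h⁻¹ * b * h, H2.mem_conj_smul.1 hb, by group⟩
      rw [hba, cj_mul, cj_mul]
      have h1 := hperm h⁻¹ (inv_mem hh) (cj x A) ⟨⟨⟨_, hPx⟩, hxM, hx3⟩, hxne⟩
      rw [hfix _ h1 a ha, cj_cj_inv]
    have h2 : Pr A M (cj h A) M := by
      have := (Pr.refl A M).cj h
      rwa [cj_eq_of_mem hhM] at this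
    exact ww hD hPf ih (Pr.refl A M) h2 (hPx.dat hD).co (V2' _ _ hPx hxM hx3 hxne)
      (hAV.trans (V2 _ _ hPx hxM hx3)) hle
  have HV : ∀ h ∈ normalizer (C : Set G), h ∈ M → h ∈ normalizer (V : Set G) := by
    intro h hh hhM
    apply mem_nz_of_le
    apply cj_sSup
    intro A' h'
    by_cases he : A' = A
    · rw [he, HC h hh hhM]; exact hAV
    · exact le_sSup (hperm h hh A' ⟨h', he⟩).1
  obtain ⟨y, hyM, hy1, hy2, hy3⟩ := exists_conj_rel hCM hsC (by
    intro h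
    apply hD.nsn
    apply sn_of_le_nz hD.le
    intro m hm
    rw [mem_nz_iff]
    exact HC m (h hm) hm)
  apply hy2
  rw [hC]
  apply cj_sSup
  intro A₁ hA₁
  have h1 : cj y A₁ ≤ cj y C := cj_mono y (le_sSup hA₁)
  have h2 : cj y A₁ ≤ L := by
    intro b hb
    exact hNL (HV b (hy1 (h1 hb)) (hy3 (h1 hb)))
  apply le_sSup
  obtain ⟨⟨⟨M', h'⟩, h'M, h'K⟩, hne⟩ := hA₁
  have h3 := V1 L hL hLM hVL _ _ (h'.cj y) (h1.trans hy3) h2
  refine ⟨⟨⟨_, h'.cj y⟩, h3.trans hVM, h3.trans hVK⟩, ?_⟩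
  intro he
  apply hD.nsn
  have h4 := sn_cj y ((h'.dat hD).snK M hD.co h'M (Ne.symm (V2' _ _ h' h'M h'K hne)))
  rwa [he, cj_eq_of_mem hyM] at h4

/-- **Main theorem**. -/
theorem main_aux (n : ℕ) : ∀ A : Subgroup G, Nat.card G - Nat.card A ≤ n → A ≠ ⊤ → Pf A ⊤ →
    (∃ Y : Subgroup G, Y ≠ ⊤ ∧ ∀ H : Subgroup G, H ≠ ⊤ → Pf A H → H ≤ Y) →
    ∀ M K : Subgroup G, IsCoatom M → IsCoatom K → A ≤ M → A ≤ K → M = K := by
  induction n with
  | zero =>
    intro A hA hAt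
    exfalso
    apply hAt
    apply Subgroup.eq_top_of_card_eq
    exact le_antisymm (Nat.le_of_dvd Nat.card_pos (Subgroup.card_subgroup_dvd_card _))
      (Nat.sub_eq_zero_iff_le.1 (Nat.le_zero.1 hA))
  | succ n ihn =>
    intro A hA hAt hPf hY M' K' hM' hK' hAM' hAK'
    have ih : IH A := by
      intro B hB hBt hPB hYB
      exact ihn B (by omega) hBt hPB hYB
    by_contra hne
    obtain ⟨Y₀, hY₀, hY₁⟩ := hY
    set Y : Subgroup G := sSup {H | H ≠ ⊤ ∧ Pf A H} with hYd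
    have hYle : Y ≤ Y₀ := sSup_le fun H hH => hY₁ H hH.1 hH.2
    have hYt : Y ≠ ⊤ := fun h => hY₀ (top_le_iff.1 (h ▸ hYle))
    have hPAA : Pf A A := ⟨le_rfl, fun N h1 h2 _ => le_antisymm h1 h2⟩
    have hPY : Pf A Y := Pf_sSup _ ⟨A, hAt, hPAA⟩ fun H hH => hH.2
    have hYmax : ∀ H : Subgroup G, H ≠ ⊤ → Pf A H → H ≤ Y := fun H h1 h2 => le_sSup ⟨h1, h2⟩
    have hYns : ¬ Y.IsSubnormal := fun h =>
      hYt (hPf.2 Y le_top hPY.1 (sn_top_iff.2 h))
    have hYuniq : ∀ M K : Subgroup G, IsCoatom M → IsCoatom K → Y ≤ M → Y ≤ K → M = K := by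
      refine H2.zipper (Nat.card G) Y (Nat.sub_le _ _) ?_ hYns
      intro H hH hYH
      obtain ⟨B, hAB, hBH, hsB, hPB⟩ := exists_closure (hPY.1.trans hYH)
      have hBt : B ≠ ⊤ := fun h => hH (top_le_iff.1 (h ▸ hBH))
      have hBY := hYmax B hBt hPB
      have : B = Y := hPY.2 B hBY hAB (sn_mono hYH hsB)
      rw [← this]; exact hsB
    obtain (h | ⟨M, hM, hYM⟩) := eq_top_or_exists_le_coatom Y
    · exact hYt h
    have hNY : normalizer (Y : Set G) ≤ M := by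
      obtain (h | ⟨L, hL, hNL⟩) := eq_top_or_exists_le_coatom (normalizer (Y : Set G))
      · exact absurd (normalizer_eq_top_iff.1 h).isSubnormal hYns
      · rw [hYuniq M L hM hL hYM (le_normalizer.trans hNL)]
        exact hNL
    obtain ⟨K₀, hK₀, hA₀, hne₀⟩ : ∃ K₀ : Subgroup G, IsCoatom K₀ ∧ A ≤ K₀ ∧ K₀ ≠ M := by
      by_cases h : M' = M
      · exact ⟨K', hK', hAK', fun h' => hne (h.trans h'.symm)⟩
      · exact ⟨M', hM', hAM', h⟩
    have big : ∀ C : Subgroup G, A ≤ C → C ≤ M → sn C M → ∀ K : Subgroup G, IsCoatom K → K ≠ M →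
        ¬ C ≤ K := by
      intro C hAC hCM hsC K hK hKM hCK
      have h1 := hPY.2 (C ⊓ Y) inf_le_right (le_inf hAC hPY.1) (sn_inf hYM hsC)
      have h2 : Y ≤ C := inf_eq_right.1 h1
      exact hKM (hYuniq K M hK hM (h2.trans hCK) hYM)
    have hD : Dat A M := by
      refine ⟨hM, hPY.1.trans hYM, ?_, ?_, ?_, ?_⟩
      · intro K hK hAK hKM
        obtain ⟨B, hAB, hBK, hsB, hPB⟩ := exists_closure hAK
        by_cases hBA : B = A
        · rw [← hBA]; exact hsB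
        exfalso
        have hBt : B ≠ ⊤ := fun h => hK.1 (top_le_iff.1 (h ▸ hBK))
        have hcard : Nat.card A < Nat.card B := by
          apply Set.Finite.card_lt_card (Set.toFinite _)
          refine lt_of_le_of_ne hAB ?_
          intro he
          apply hBA
          symm
          exact_mod_cast he
        apply hKM
        refine ih B hcard hBt (hPf.mono_left hAB le_top) ⟨Y, hYt, fun H h1 h2 =>
          hYmax H h1 (hPB.trans h2)⟩ K M hK hM hBK ((hYmax B hBt hPB).trans hYM)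
      · intro h
        exact big A le_rfl (hPY.1.trans hYM) h K₀ hK₀ hne₀ hA₀
      · intro g hg
        apply hNY
        apply mem_nz_of_le
        apply hYmax
        · intro h
          apply hYt
          rw [← cj_inv_cj g Y, h, cj_top]
        · have := Pf_cj g hPY
          rwa [mem_nz_iff.1 hg] at this
      · intro g hg
        have h1 : normalizer (M : Set G) = M := by
          rcases (le_normalizer (H := M)).lt_or_eq with h2 | h2
          · exfalso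
            have h3 := hM.2 _ h2
            have h4 := hPf.2 M le_top (hPY.1.trans hYM)
              (sn_top_iff.2 (normalizer_eq_top_iff.1 h3).isSubnormal)
            exact hM.1 h4
          · exact h2.symm
        rw [← h1]
        exact mem_nz_iff.2 hg
    exact core hD hPf ih big K₀ hK₀ hA₀ hne₀

omit [Finite G] in
/-- `Pf` from normal closures. -/
theorem Pf_of_normalClosure {A H : Subgroup G} (hAH : A ≤ H)
    (h : Subgroup.normalClosure ((A.subgroupOf H : Subgroup ↥H) : Set ↥H) = ⊤) : Pf A H := by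
  refine ⟨hAH, ?_⟩
  intro N hN hAN hs
  by_contra hne
  have hNt : N.subgroupOf H ≠ ⊤ := by
    intro h1
    apply hne
    exact le_antisymm hN (subgroupOf_eq_top.1 h1)
  -- a proper normal subgroup containing `N`
  obtain ⟨W, hW1, hW2, hW3⟩ := hs.exists_normal_and_le_and_lt_top_of_ne hNt
  apply hW3.ne
  rw [← top_le_iff, ← h]
  apply Subgroup.normalClosure_le_normal
  intro y hy
  exact hW2 (hAN hy)

omit [Finite G] in
/-- normal closures from `Pf`. -/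
theorem normalClosure_of_Pf {A H : Subgroup G} (h : Pf A H) :
    Subgroup.normalClosure ((A.subgroupOf H : Subgroup ↥H) : Set ↥H) = ⊤ := by
  set W : Subgroup ↥H := Subgroup.normalClosure ((A.subgroupOf H : Subgroup ↥H) : Set ↥H) with hW
  have hWn : W.Normal := Subgroup.normalClosure_normal
  have e : (W.map H.subtype).subgroupOf H = W := by
    ext y
    constructor
    · rintro ⟨w, hw, hwy⟩
      have : w = y := Subtype.ext hwy
      rwa [← this]
    · intro hy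
      exact ⟨y, hy, rfl⟩
  have h1 := h.2 (W.map H.subtype) (Subgroup.map_subtype_le W) (by
    intro a ha
    exact ⟨⟨a, h.1 ha⟩, Subgroup.subset_normalClosure ha, rfl⟩) (by
    unfold sn
    rw [e]
    exact hWn.isSubnormal)
  rw [← e, h1, subgroupOf_self]

omit [Finite G] in
theorem Pf_top_of_normalClosure {A : Subgroup G} (h : Subgroup.normalClosure (A : Set G) = ⊤) :
    Pf A ⊤ := by
  refine ⟨le_top, ?_⟩
  intro N _ hAN hs
  by_contra hne
  obtain ⟨W, hW1, hW2, hW3⟩ := (sn_top_iff.1 hs).exists_normal_and_le_and_lt_top_of_ne hne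
  apply hW3.ne
  rw [← top_le_iff, ← h]
  apply Subgroup.normalClosure_le_normal
  intro y hy
  exact hW2 (hAN hy)

/-- S3947. -/
theorem S3947 (A : Subgroup G) (hA : Subgroup.normalClosure (A : Set G) = ⊤) (hAG : A ≠ ⊤) :
    sSup {H : Subgroup G | A ≤ H ∧ H ≠ ⊤ ∧
      Subgroup.normalClosure ((A.subgroupOf H : Subgroup ↥H) : Set ↥H) = ⊤} = ⊤ ∨
      ∃! M : Subgroup G, IsCoatom M ∧ A ≤ M := by
  by_cases h : sSup {H : Subgroup G | A ≤ H ∧ H ≠ ⊤ ∧
      Subgroup.normalClosure ((A.subgroupOf H : Subgroup ↥H) : Set ↥H) = ⊤} = ⊤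
  · exact Or.inl h
  right
  obtain (h1 | ⟨M, hM, hAM⟩) := eq_top_or_exists_le_coatom A
  · exact absurd h1 hAG
  refine ⟨M, ⟨hM, hAM⟩, ?_⟩
  rintro K ⟨hK, hAK⟩
  refine main_aux (Nat.card G) A (Nat.sub_le _ _) hAG (Pf_top_of_normalClosure hA)
    ⟨_, h, ?_⟩ K M hK hM hAK hAM
  intro H hH hPH
  exact le_sSup ⟨hPH.1, hH, normalClosure_of_Pf hPH⟩

end Cfsg.Agent.H25.Zip
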