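import Mathlib
import Cfsg.Agent.H25.Zip3

/-!
# Iterated commutators with an automorphism generate (S3927)
-/

set_option autoImplicit false

namespace Cfsg.Agent.H25.IterComm

open Subgroup

open scoped Pointwise

open Cfsg.Agent.H25.Zip

universe u

/-- `c ↦ c a c⁻¹ a⁻¹`. -/
def kap {Γ : Type*} [Group Γ] (a : Γ) (c : Γ) : Γ := c * a * c⁻¹ * a⁻¹

theorem exists_of_mem_sup {Γ : Type*} [Group Γ] [Finite Γ] {K : Subgroup Γ} {a : Γ}
    (ha : ∀ w ∈ K, a * w * a⁻¹ ∈ K) {x : Γ} (hx : x ∈ K ⊔ zpowers a) :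
    ∃ w ∈ K, ∃ i : ℤ, x = w * a ^ i := by
  have haN : a ∈ normalizer (K : Set Γ) := by
    apply mem_nz_of_le
    rw [H2.conj_smul_le_iff]
    exact ha
  have hi : ∀ i : ℤ, ∀ w ∈ K, a ^ i * w * (a ^ i)⁻¹ ∈ K := fun i w hw =>
    (mem_normalizer_iff.1 (zpow_mem haN i) w).1 hw
  let X : Subgroup Γ :=
    { carrier := {x | ∃ w ∈ K, ∃ i : ℤ, x = w * a ^ i}
      one_mem' := ⟨1, one_mem _, 0, by simp⟩
      mul_mem' := by
        rintro x y ⟨w, hw, i, rfl⟩ ⟨v, hv, j, rfl⟩
        refine ⟨w * (a ^ i * v * (a ^ i)⁻¹), mul_mem hw (hi i v hv), i + j, ?_⟩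
        rw [zpow_add]; group
      inv_mem' := by
        rintro x ⟨w, hw, i, rfl⟩
        refine ⟨a ^ (-i) * w⁻¹ * (a ^ (-i))⁻¹, hi _ _ (inv_mem hw), -i, ?_⟩
        group }
  have hX : K ⊔ zpowers a ≤ X := by
    apply sup_le
    · intro w hw
      exact ⟨w, hw, 0, by simp⟩
    · rw [zpowers_le]
      exact ⟨1, one_mem _, 1, by simp⟩
  exact hX hx

theorem le_of_sup {Γ : Type*} [Group Γ] [Finite Γ] {K N : Subgroup Γ} {a : Γ}
    (ha : ∀ w ∈ K, a * w * a⁻¹ ∈ K) (hKN : K ≤ N) (hd : N ⊓ zpowers a = ⊥)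
    (h : N ≤ K ⊔ zpowers a) : N ≤ K := by
  intro x hx
  obtain ⟨w, hw, i, rfl⟩ := exists_of_mem_sup ha (h hx)
  have h1 : a ^ i ∈ N := by
    have := mul_mem (inv_mem (hKN hw)) hx
    rwa [inv_mul_cancel_left] at this
  have h2 : a ^ i ∈ N ⊓ zpowers a := ⟨h1, zpow_mem (mem_zpowers a) i⟩
  rw [hd, mem_bot] at h2
  rw [h2, mul_one]; exact hw

theorem kap_conj {Γ : Type*} [Group Γ] (a c : Γ) : a * kap a c * a⁻¹ = kap a (a * c * a⁻¹) := by
  unfold kap; group

theorem iter_conj {Γ : Type*} [Group Γ] (a c : Γ) (k : ℕ) :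
    a * (kap a)^[k] c * a⁻¹ = (kap a)^[k] (a * c * a⁻¹) := by
  induction k generalizing c with
  | zero => rfl
  | succ k ih => rw [Function.iterate_succ_apply, Function.iterate_succ_apply, ih, kap_conj]

theorem kap_mem {Γ : Type*} [Group Γ] {N : Subgroup Γ} [hN : N.Normal] (a : Γ) {c : Γ}
    (hc : c ∈ N) : kap a c ∈ N := by
  have : kap a c = c * (a * c⁻¹ * a⁻¹) := by unfold kap; group
  rw [this]
  exact mul_mem hc (hN.conj_mem _ (inv_mem hc) a)

theorem iter_mem {Γ : Type*} [Group Γ] {N : Subgroup Γ} [hN : N.Normal] (a : Γ) (k : ℕ) {c : Γ}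
    (hc : c ∈ N) : (kap a)^[k] c ∈ N := by
  induction k generalizing c with
  | zero => exact hc
  | succ k ih => rw [Function.iterate_succ_apply]; exact ih (kap_mem a hc)

theorem closure_conj {Γ : Type*} [Group Γ] {N : Subgroup Γ} [hN : N.Normal] (a : Γ) (k : ℕ) :
    ∀ w ∈ closure ((kap a)^[k] '' (N : Set Γ)), a * w * a⁻¹ ∈ closure ((kap a)^[k] '' (N : Set Γ)) := by
  intro w hw
  have h1 : (closure ((kap a)^[k] '' (N : Set Γ))).map (MulAut.conj a).toMonoidHom ≤
      closure ((kap a)^[k] '' (N : Set Γ)) := by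
    rw [MonoidHom.map_closure, closure_le]
    rintro _ ⟨_, ⟨c, hc, rfl⟩, rfl⟩
    have : (MulAut.conj a).toMonoidHom ((kap a)^[k] c) = (kap a)^[k] (a * c * a⁻¹) :=
      iter_conj a c k
    rw [this]
    exact subset_closure ⟨_, hN.conj_mem _ hc a, rfl⟩
  exact h1 ⟨w, hw, rfl⟩

/-- the conjugates of `a` are in `[N, a]⟨a⟩`. -/
theorem normalClosure_le_sup {Γ : Type*} [Group Γ] [Finite Γ] {N : Subgroup Γ} [hN : N.Normal]
    {a : Γ} (hs : N ⊔ zpowers a = ⊤) :
    normalClosure ((zpowers a : Subgroup Γ) : Set Γ) ≤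
      closure (kap a '' (N : Set Γ)) ⊔ zpowers a := by
  unfold normalClosure
  rw [closure_le]
  intro y hy
  obtain ⟨s, hs1, hs2⟩ := Group.mem_conjugatesOfSet_iff.1 hy
  obtain ⟨x, hx⟩ := isConj_iff.1 hs2
  obtain ⟨j, rfl⟩ := mem_zpowers_iff.1 hs1
  obtain ⟨n, hn, i, hxi⟩ := exists_of_mem_sup (K := N) (a := a)
    (fun w hw => hN.conj_mem w hw a) (show x ∈ N ⊔ zpowers a by rw [hs]; trivial)
  have h1 : x * a * x⁻¹ = kap a n * a := by
    rw [hxi]; unfold kap; group
  have h2 : y = (kap a n * a) ^ j := by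
    rw [← hx, ← h1, conj_zpow]
  rw [h2]
  apply zpow_mem
  apply mul_mem
  · exact (le_sup_left : closure (kap a '' (N : Set Γ)) ≤ _) (subset_closure ⟨n, hn, rfl⟩)
  · exact (le_sup_right : zpowers a ≤ _) (mem_zpowers a)

theorem main (k : ℕ) (n : ℕ) : ∀ (Γ : Type u) [Group Γ] [Finite Γ], Nat.card Γ ≤ n →
    ∀ (a : Γ) (N : Subgroup Γ) [N.Normal], N ⊔ zpowers a = ⊤ → N ⊓ zpowers a = ⊥ →
      closure (kap a '' (N : Set Γ)) = N → closure ((kap a)^[k] '' (N : Set Γ)) = N := by
  induction n with
  | zero =>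
    intro Γ _ _ h
    exact absurd h (by have := Nat.card_pos (α := Γ); omega)
  | succ n ih =>
    intro Γ _ _ hcard a N hNn hs hd hcl
    set K : Subgroup Γ := closure ((kap a)^[k] '' (N : Set Γ)) with hK
    have hKN : K ≤ N := by
      rw [hK, closure_le]
      rintro _ ⟨c, hc, rfl⟩
      exact iter_mem a k hc
    have hKa : ∀ w ∈ K, a * w * a⁻¹ ∈ K := closure_conj a k
    -- the normal closure of `⟨a⟩`
    have hNC : normalClosure ((zpowers a : Subgroup Γ) : Set Γ) = ⊤ := by
      rw [← top_le_iff, ← hs]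
      have haW : a ∈ normalClosure ((zpowers a : Subgroup Γ) : Set Γ) :=
        subset_normalClosure (mem_zpowers a)
      apply sup_le
      · conv_lhs => rw [← hcl]
        rw [closure_le]
        rintro _ ⟨c, hc, rfl⟩
        exact mul_mem ((normalClosure_normal).conj_mem a haW c) (inv_mem haW)
      · rw [zpowers_le]; exact haW
    by_cases hAt : (zpowers a : Subgroup Γ) = ⊤
    · -- everything is trivial
      rw [hAt, inf_top_eq] at hd
      refine le_antisymm hKN ?_
      rw [hd]; exact bot_le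
    have hPt := Pf_top_of_normalClosure hNC
    -- proper perfect subgroups
    have hperf : ∀ H : Subgroup Γ, H ≠ ⊤ → Pf (zpowers a) H → H ≤ K ⊔ zpowers a := by
      intro H hH hPH
      have haH : a ∈ H := hPH.1 (mem_zpowers a)
      have hnH : ∀ x ∈ H, ∃ m ∈ N, m ∈ H ∧ ∃ i : ℤ, x = m * a ^ i := by
        intro x hx
        obtain ⟨m, hm, i, hxi⟩ := exists_of_mem_sup (K := N) (a := a)
          (fun w hw => hNn.conj_mem w hw a) (show x ∈ N ⊔ zpowers a by rw [hs]; trivial)
        refine ⟨m, hm, ?_, i, hxi⟩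
        have : m = x * (a ^ i)⁻¹ := by rw [hxi]; group
        rw [this]
        exact mul_mem hx (inv_mem (zpow_mem haH i))
      let a' : ↥H := ⟨a, haH⟩
      let N' : Subgroup ↥H := N.subgroupOf H
      have hN' : N'.Normal := hNn.subgroupOf H
      have hs' : N' ⊔ zpowers a' = ⊤ := by
        rw [eq_top_iff]
        rintro ⟨x, hx⟩ _
        obtain ⟨m, hm, hmH, i, rfl⟩ := hnH x hx
        have : (⟨m * a ^ i, hx⟩ : ↥H) = ⟨m, hmH⟩ * a' ^ i := by
          apply Subtype.ext
          simp [a']
        rw [this]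
        exact mul_mem ((le_sup_left : N' ≤ _) (mem_subgroupOf.2 hm))
          ((le_sup_right : zpowers a' ≤ _) (zpow_mem (mem_zpowers a') i))
      have hd' : N' ⊓ zpowers a' = ⊥ := by
        rw [eq_bot_iff]
        rintro x ⟨hx1, hx2⟩
        obtain ⟨i, rfl⟩ := mem_zpowers_iff.1 hx2
        have h1 : a ^ i ∈ N ⊓ zpowers a := by
          refine ⟨?_, zpow_mem (mem_zpowers a) i⟩
          have := mem_subgroupOf.1 hx1
          simpa [a'] using this
        rw [hd, mem_bot] at h1
        rw [mem_bot]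
        apply Subtype.ext
        simpa [a'] using h1
      have hcl' : closure (kap a' '' (N' : Set ↥H)) = N' := by
        refine le_antisymm ?_ ?_
        · rw [closure_le]
          rintro _ ⟨c, hc, rfl⟩
          exact kap_mem a' hc
        · refine le_of_sup (a := a') (closure_conj a' 1) ?_ hd' ?_
          · rw [closure_le]
            rintro _ ⟨c, hc, rfl⟩
            exact kap_mem a' hc
          · have h1 := normalClosure_of_Pf hPH
            have h2 : ((zpowers a).subgroupOf H : Subgroup ↥H) = zpowers a' := by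
              ext ⟨y, hy⟩
              rw [mem_subgroupOf, mem_zpowers_iff, mem_zpowers_iff]
              constructor
              · rintro ⟨i, hi⟩
                refine ⟨i, ?_⟩
                apply Subtype.ext
                simpa [a'] using hi
              · rintro ⟨i, hi⟩
                refine ⟨i, ?_⟩
                have := congrArg Subtype.val hi
                simpa [a'] using this
            rw [h2] at h1
            have h3 := normalClosure_le_sup hs'
            rw [h1] at h3
            exact le_top.trans h3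
      have hcardH : Nat.card ↥H ≤ n := by
        have h1 : Nat.card ↥H < Nat.card Γ := by
          have h2 := Set.Finite.card_lt_card (Set.toFinite ((⊤ : Subgroup Γ) : Set Γ))
            (show (H : Set Γ) ⊂ ((⊤ : Subgroup Γ) : Set Γ) from
              SetLike.coe_ssubset_coe.2 (lt_top_iff_ne_top.2 hH))
          have h3 : Nat.card ↥(⊤ : Subgroup Γ) = Nat.card Γ := Subgroup.card_top
          rw [← h3]
          exact h2
        omega
      have hi := ih ↥H hcardH a' N' hs' hd' hcl'
      intro x hx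
      obtain ⟨m, hm, hmH, i, rfl⟩ := hnH x hx
      refine mul_mem ((le_sup_left : K ≤ _) ?_)
        ((le_sup_right : zpowers a ≤ _) (zpow_mem (mem_zpowers a) i))
      have h1 : (⟨m, hmH⟩ : ↥H) ∈ closure ((kap a')^[k] '' (N' : Set ↥H)) := by
        rw [hi]; exact mem_subgroupOf.2 hm
      have h2 : (closure ((kap a')^[k] '' (N' : Set ↥H))).map H.subtype ≤ K := by
        rw [MonoidHom.map_closure, closure_le]
        rintro _ ⟨_, ⟨c, hc, rfl⟩, rfl⟩
        have h3 : H.subtype ((kap a')^[k] c) = (kap a)^[k] (H.subtype c) := by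
          have hsc : Function.Semiconj H.subtype (kap a') (kap a) := by
            intro y
            simp [kap, a']
          exact (hsc.iterate_right k).eq c
        rw [h3]
        exact subset_closure ⟨_, mem_subgroupOf.1 hc, rfl⟩
      exact h2 ⟨_, h1, rfl⟩
    by_cases hX : K ⊔ zpowers a = ⊤
    · refine le_antisymm hKN ?_
      apply le_of_sup hKa hKN hd
      rw [hX]; exact le_top
    · -- unique maximal subgroup
      exfalso
      have huniq := main_aux (Nat.card Γ) (zpowers a) (Nat.sub_le _ _) hAt hPt ⟨_, hX, hperf⟩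
      obtain (h | ⟨M, hM, hXM⟩) := eq_top_or_exists_le_coatom (K ⊔ zpowers a)
      · exact hX h
      have haM : a ∈ M := hXM ((le_sup_right : zpowers a ≤ _) (mem_zpowers a))
      have hAM : zpowers a ≤ M := by rw [zpowers_le]; exact haM
      have hnM : ¬ M.Normal := by
        intro h
        apply hM.1
        rw [← top_le_iff, ← hNC]
        exact normalClosure_le_normal hAM
      have hstep : ∀ h : Γ, kap a h ∈ M → h ∈ M := by
        intro h hh
        have h1 : h * a * h⁻¹ ∈ M := by
          have := mul_mem hh haM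
          have e : kap a h * a = h * a * h⁻¹ := by unfold kap; group
          rwa [e] at this
        have h2 : zpowers a ≤ cj h⁻¹ M := by
          rw [zpowers_le, H2.mem_conj_smul, inv_inv]
          exact h1
        have h3 := huniq M (cj h⁻¹ M) hM (coatom_cj _ hM) hAM h2
        have h4 : h⁻¹ ∈ normalizer (M : Set Γ) := mem_nz_iff.2 h3.symm
        have h5 : normalizer (M : Set Γ) = M := by
          rcases (le_normalizer (H := M)).lt_or_eq with h2 | h2
          · exfalso
            exact hnM (normalizer_eq_top_iff.1 (hM.2 _ h2))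
          · exact h2.symm
        rw [h5] at h4
        exact inv_mem_iff.1 h4
      have hiter : ∀ j : ℕ, ∀ c : Γ, (kap a)^[j] c ∈ M → c ∈ M := by
        intro j
        induction j with
        | zero => intro c hc; exact hc
        | succ j ihj =>
          intro c hc
          rw [Function.iterate_succ_apply] at hc
          exact hstep c (ihj _ hc)
      apply hM.1
      rw [← top_le_iff, ← hs]
      refine sup_le ?_ hAM
      intro c hc
      apply hiter k
      exact hXM ((le_sup_left : K ≤ _) (subset_closure ⟨c, hc, rfl⟩))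

end Cfsg.Agent.H25.IterComm
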