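import Mathlib
import Cfsg.Agent.S3927

/-!
# The order of `G = [G, α]` is bounded by the number of inverted elements of odd order (S3928)
-/

set_option autoImplicit false

namespace Cfsg.Agent.H25.InvOdd

open Subgroup

open scoped commutatorElement

/-! ## Schur -/

theorem commSet_card_le {G : Type*} [Group G] [Finite G] :
    Nat.card (commutatorSet G) ≤ (center G).index ^ 2 := by
  let f : (G ⧸ center G) × (G ⧸ center G) → G := fun p => ⁅p.1.out, p.2.out⁆
  have h : commutatorSet G ⊆ Set.range f := by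
    rintro x ⟨a, b, rfl⟩
    refine ⟨(QuotientGroup.mk a, QuotientGroup.mk b), ?_⟩
    obtain ⟨z, hz⟩ := QuotientGroup.mk_out_eq_mul (center G) a
    obtain ⟨w, hw⟩ := QuotientGroup.mk_out_eq_mul (center G) b
    show ⁅(QuotientGroup.mk a : G ⧸ center G).out, (QuotientGroup.mk b : G ⧸ center G).out⁆ = ⁅a, b⁆
    rw [hz, hw, commutatorElement_def, commutatorElement_def]
    have hz' := mem_center_iff.1 z.2
    have hw' := mem_center_iff.1 w.2
    clear hz hw
    generalize (z : G) = z at *
    generalize (w : G) = w at *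
    have e1 : a * z * (b * w) * (a * z)⁻¹ * (b * w)⁻¹ =
        a * (z * (b * w) * z⁻¹) * a⁻¹ * (b * w)⁻¹ := by group
    have e2 : z * (b * w) * z⁻¹ = b * w := by
      rw [← hz' (b * w), mul_inv_cancel_right]
    have e3 : a * (b * w) * a⁻¹ * (b * w)⁻¹ = a * b * (w * a⁻¹ * w⁻¹) * b⁻¹ := by group
    have e4 : w * a⁻¹ * w⁻¹ = a⁻¹ := by
      rw [← hw' a⁻¹, mul_inv_cancel_right]
    rw [e1, e2, e3, e4]
  calc Nat.card (commutatorSet G) ≤ Nat.card (Set.range f) :=
        Nat.card_mono (Set.toFinite _) h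
    _ ≤ Nat.card ((G ⧸ center G) × (G ⧸ center G)) := Finite.card_range_le f
    _ = (center G).index ^ 2 := by
        rw [Nat.card_prod, pow_two, Subgroup.index]

theorem schur_bound (k : ℕ) : ∃ B : ℕ, ∀ (G : Type) [Group G] [Finite G],
    (center G).index ≤ k → Nat.card (commutator G) ≤ B := by
  refine ⟨(Finset.range (k ^ 2 + 1)).sup cardCommutatorBound, ?_⟩
  intro G _ _ hk
  refine (card_commutator_le_of_finite_commutatorSet G).trans ?_
  apply Finset.le_sup (f := cardCommutatorBound)
  rw [Finset.mem_range]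
  have := commSet_card_le (G := G)
  have h2 : (center G).index ^ 2 ≤ k ^ 2 := Nat.pow_le_pow_left hk 2
  omega

/-! ## Dietzmann -/

theorem nodup_list {G : Type*} [Group G] {T : Set G} (hT2 : ∀ t ∈ T, t * t = 1)
    (hTc : ∀ t ∈ T, ∀ s ∈ T, t * s * t⁻¹ ∈ T) : ∀ (n : ℕ) (l : List T), l.length ≤ n →
      ∃ l' : List T, l'.Nodup ∧ l'.length ≤ l.length ∧
        (l'.map Subtype.val).prod = (l.map Subtype.val).prod := by
  classical
  intro n
  induction n using Nat.strong_induction_on with
  | _ n ih =>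
  intro l hl
  match l, hl with
  | [], _ => exact ⟨[], List.nodup_nil, le_rfl, rfl⟩
  | t :: l₁, hl =>
    simp only [List.length_cons] at hl
    obtain ⟨l₂, h1, h2, h3⟩ := ih l₁.length (by omega) l₁ le_rfl
    by_cases ht : t ∈ l₂
    · obtain ⟨a, b, rfl⟩ := List.append_of_mem ht
      let cj : T → T := fun s => ⟨(t : G) * s * (t : G)⁻¹, hTc t t.2 s s.2⟩
      have hcj : ∀ a : List T, ((a.map cj).map Subtype.val).prod =
          (t : G) * (a.map Subtype.val).prod * (t : G)⁻¹ := by
        intro a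
        induction a with
        | nil => simp
        | cons s a iha =>
          simp only [List.map_cons, List.prod_cons]
          rw [iha]
          show (t : G) * s * (t : G)⁻¹ * _ = _
          group
      have hlen : ((a.map cj) ++ b).length + 1 = (a ++ t :: b).length := by
        simp [List.length_append]; omega
      have hprod : (((a.map cj) ++ b).map Subtype.val).prod =
          (t : G) * ((a ++ t :: b).map Subtype.val).prod := by
        rw [List.map_append, List.prod_append, hcj, List.map_append, List.prod_append,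
          List.map_cons, List.prod_cons]
        have ht1 : (t : G)⁻¹ = t := inv_eq_of_mul_eq_one_left (hT2 t t.2)
        rw [ht1]
        simp only [mul_assoc]
      obtain ⟨l₃, g1, g2, g3⟩ := ih ((a.map cj) ++ b).length (by omega) ((a.map cj) ++ b) le_rfl
      refine ⟨l₃, g1, ?_, ?_⟩
      · simp only [List.length_cons]; omega
      · rw [g3, hprod, h3, List.map_cons, List.prod_cons]
    · refine ⟨t :: l₂, List.nodup_cons.2 ⟨ht, h1⟩, ?_, ?_⟩
      · simp only [List.length_cons]; omega
      · rw [List.map_cons, List.prod_cons, h3, List.map_cons, List.prod_cons]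

theorem exists_list {G : Type*} [Group G] {T : Set G} (hT2 : ∀ t ∈ T, t * t = 1) {x : G}
    (hx : x ∈ closure T) : ∃ l : List T, (l.map Subtype.val).prod = x := by
  induction hx using closure_induction with
  | mem x hx => exact ⟨[⟨x, hx⟩], by simp⟩
  | one => exact ⟨[], by simp⟩
  | mul x y _ _ hx hy =>
    obtain ⟨l, rfl⟩ := hx
    obtain ⟨l', rfl⟩ := hy
    exact ⟨l ++ l', by simp⟩
  | inv x _ hx =>
    obtain ⟨l, rfl⟩ := hx
    refine ⟨l.reverse, ?_⟩
    rw [List.prod_inv_reverse, List.map_reverse]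
    congr 2
    rw [List.map_map]
    apply List.map_congr_left
    intro t _
    exact (inv_eq_of_mul_eq_one_left (hT2 t t.2)).symm

theorem card_closure_le (b : ℕ) : ∃ L : ℕ, ∀ (G : Type) [Group G] [Finite G] (T : Set G),
    (∀ t ∈ T, t * t = 1) → (∀ t ∈ T, ∀ s ∈ T, t * s * t⁻¹ ∈ T) → Nat.card T ≤ b →
      Nat.card (closure T) ≤ L := by
  classical
  refine ⟨Nat.card {l : List (Fin b) // l.Nodup}, ?_⟩
  intro G _ _ T h2 hc hb
  have hfin : Fintype T := Fintype.ofFinite _
  let f : {l : List T // l.Nodup} → G := fun l => (l.1.map Subtype.val).prod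
  have h : (closure T : Set G) ⊆ Set.range f := by
    intro x hx
    obtain ⟨l, rfl⟩ := exists_list h2 hx
    obtain ⟨l', h1, -, h3⟩ := nodup_list h2 hc l.length l le_rfl
    exact ⟨⟨l', h1⟩, h3⟩
  have e : Nonempty (T ↪ Fin b) := by
    apply Function.Embedding.nonempty_of_card_le
    rw [Fintype.card_fin, ← Nat.card_eq_fintype_card]
    exact hb
  obtain ⟨e⟩ := e
  calc Nat.card (closure T) ≤ Nat.card (Set.range f) :=
        Nat.card_mono (Set.toFinite _) h
    _ ≤ Nat.card {l : List T // l.Nodup} := Finite.card_range_le f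
    _ ≤ Nat.card {l : List (Fin b) // l.Nodup} := by
        apply Nat.card_le_card_of_injective
          (fun l : {l : List T // l.Nodup} =>
            (⟨l.1.map e, l.2.map e.injective⟩ : {l : List (Fin b) // l.Nodup}))
        intro l l' hll
        apply Subtype.ext
        exact List.map_injective_iff.2 e.injective (congrArg Subtype.val hll)

/-! ## Odd parts -/

theorem odd_orderOf_pow {G : Type*} [Group G] [Finite G] (x : G) {j : ℕ} (hj : Nat.card G ≤ j) :
    Odd (orderOf (x ^ (2 ^ j))) := by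
  obtain ⟨e, q, hq, he⟩ := Nat.exists_eq_two_pow_mul_odd (n := orderOf x) (orderOf_pos x).ne'
  have h1 : 2 ^ e ≤ orderOf x := by
    rw [he]; exact Nat.le_mul_of_pos_right _ hq.pos
  have h2 : e < 2 ^ e := Nat.lt_two_pow_self
  have h3 : orderOf x ≤ Nat.card G := orderOf_le_card
  have h4 : e ≤ j := by omega
  have h5 : (x ^ (2 ^ j)) ^ q = 1 := by
    rw [← pow_mul, ← orderOf_dvd_iff_pow_eq_one, he]
    exact Nat.mul_dvd_mul (pow_dvd_pow 2 h4) dvd_rfl
  exact Odd.of_dvd_nat hq (orderOf_dvd_of_pow_eq_one h5)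

/-- `c ↦ c α(c)⁻¹`. -/
def kap {G : Type*} [Group G] (α : MulAut G) (c : G) : G := c * (α c)⁻¹

/-- The elements of odd order inverted by `α`. -/
def I {G : Type*} [Group G] (α : MulAut G) : Set G := {g | Odd (orderOf g) ∧ α g = g⁻¹}

theorem kap_inv {G : Type*} [Group G] {α : MulAut G} (hα : α * α = 1) (c : G) :
    α (kap α c) = (kap α c)⁻¹ := by
  have h : α (α c) = c := by rw [← MulAut.mul_apply, hα, MulAut.one_apply]
  unfold kap
  rw [map_mul, map_inv, h, mul_inv_rev, inv_inv]

theorem pow_mem_I {G : Type*} [Group G] [Finite G] {α : MulAut G} {x : G} (hx : α x = x⁻¹)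
    {j : ℕ} (hj : Nat.card G ≤ j) : x ^ (2 ^ j) ∈ I α :=
  ⟨odd_orderOf_pow x hj, by rw [map_pow, hx, inv_pow]⟩

theorem kap_iter {G : Type*} [Group G] {α : MulAut G} (hα : α * α = 1) (c : G) (j : ℕ) :
    (kap α)^[j + 1] c = (kap α c) ^ (2 ^ j) := by
  induction j with
  | zero => simp
  | succ j ih =>
    rw [Function.iterate_succ_apply', ih]
    have h : α ((kap α c) ^ (2 ^ j)) = ((kap α c) ^ (2 ^ j))⁻¹ := by
      rw [map_pow, kap_inv hα, inv_pow]
    show (kap α c) ^ (2 ^ j) * (α ((kap α c) ^ (2 ^ j)))⁻¹ = _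
    rw [h, inv_inv, ← pow_two, ← pow_mul, pow_succ]

theorem closure_I {G : Type*} [Group G] [Finite G] {α : MulAut G} (hα : α * α = 1)
    (hG : closure (Set.range (kap α)) = ⊤) : closure (I α) = ⊤ := by
  have h := S3927.result α hG (Nat.card G + 1) (by omega)
  rw [eq_top_iff, ← h]
  apply Subgroup.closure_mono
  rintro _ ⟨c, rfl⟩
  have h2 := kap_iter hα c (Nat.card G)
  show (kap α)^[Nat.card G + 1] c ∈ I α
  rw [h2]
  exact pow_mem_I (kap_inv hα c) le_rfl

/-! ## Quotients -/

section quot

variable {G Q : Type*} [Group G] [Group Q] [Finite G] {α : MulAut G} {β : MulAut Q}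
  {π : G →* Q}

omit [Finite G] in
theorem map_I (hc : ∀ g, β (π g) = π (α g)) {g : G} (hg : g ∈ I α) : π g ∈ I β :=
  ⟨Odd.of_dvd_nat hg.1 (orderOf_map_dvd π g), by rw [hc, hg.2, map_inv]⟩

theorem lift_I (hα : α * α = 1) (hπ : Function.Surjective π) (hc : ∀ g, β (π g) = π (α g))
    {q : Q} (hq : q ∈ I β) : ∃ g ∈ I α, π g = q := by
  obtain ⟨k, hk⟩ := hq.1
  have hyy : q ^ (k + 1) * q ^ (k + 1) = q := by
    rw [← pow_add, show k + 1 + (k + 1) = orderOf q + 1 by omega, pow_succ, pow_orderOf_eq_one,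
      one_mul]
  obtain ⟨y, hy⟩ := hπ (q ^ (k + 1))
  have h1 : π (kap α y) = q := by
    unfold kap
    rw [map_mul, map_inv, ← hc, hy, map_pow, hq.2, inv_pow, inv_inv, hyy]
  have hpos : 0 < orderOf q := hq.1.pos
  let j := Nat.totient (orderOf q) * Nat.card G
  have hj : Nat.card G ≤ j := Nat.le_mul_of_pos_left _ (Nat.totient_pos.2 hpos)
  refine ⟨(kap α y) ^ (2 ^ j), pow_mem_I (kap_inv hα y) hj, ?_⟩
  rw [map_pow, h1]
  have h2 : 2 ^ j ≡ 1 [MOD orderOf q] := by
    have := (Nat.ModEq.pow_totient (Nat.coprime_two_left.2 hq.1)).pow (Nat.card G)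
    rwa [one_pow, ← pow_mul] at this
  have h3 := (pow_eq_pow_iff_modEq (x := q)).2 h2
  rw [h3, pow_one]

theorem card_I_le (hα : α * α = 1) (hπ : Function.Surjective π) (hc : ∀ g, β (π g) = π (α g)) :
    Nat.card (I β) ≤ Nat.card (I α) := by
  apply Nat.card_le_card_of_surjective (fun g : I α => (⟨π g, map_I hc g.2⟩ : I β))
  rintro ⟨q, hq⟩
  obtain ⟨g, hg, rfl⟩ := lift_I hα hπ hc hq
  exact ⟨⟨g, hg⟩, rfl⟩

theorem card_I_lt (hα : α * α = 1) (hπ : Function.Surjective π) (hc : ∀ g, β (π g) = π (α g))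
    (hI : closure (I α) = ⊤) {t : G} (htk : π t = 1) (ht : α t = t) (htc : t ∉ center G) :
    Nat.card (I β) < Nat.card (I α) := by
  by_contra hcon
  push Not at hcon
  let f : I α → I β := fun g => ⟨π g, map_I hc g.2⟩
  have hf : Function.Surjective f := by
    rintro ⟨q, hq⟩
    obtain ⟨g, hg, rfl⟩ := lift_I hα hπ hc hq
    exact ⟨⟨g, hg⟩, rfl⟩
  have hb := hf.bijective_of_nat_card_le hcon
  apply htc
  rw [mem_center_iff]
  have h : (⊤ : Subgroup G) ≤ centralizer {t} := by
    rw [← hI, closure_le]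
    intro x hx
    have hx' : t * x * t⁻¹ ∈ I α := by
      refine ⟨?_, ?_⟩
      · have : orderOf (t * x * t⁻¹) = orderOf x := by
          have := MulEquiv.orderOf_eq (MulAut.conj t) x
          rwa [MulAut.conj_apply] at this
        rw [this]; exact hx.1
      · rw [map_mul, map_mul, map_inv, ht, hx.2]; group
    have h1 : f ⟨t * x * t⁻¹, hx'⟩ = f ⟨x, hx⟩ := by
      apply Subtype.ext
      show π (t * x * t⁻¹) = π x
      rw [map_mul, map_mul, map_inv, htk]; simp
    have h2 := congrArg Subtype.val (hb.1 h1)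
    have h3 : t * x * t⁻¹ = x := h2
    show x ∈ centralizer {t}
    rw [mem_centralizer_singleton_iff]
    rw [mul_inv_eq_iff_eq_mul] at h3
    exact h3.symm
  intro g
  exact mem_centralizer_singleton_iff.1 (h (mem_top g))

omit [Finite G] in
theorem kap_closure (hπ : Function.Surjective π) (hc : ∀ g, β (π g) = π (α g))
    (hG : closure (Set.range (kap α)) = ⊤) : closure (Set.range (kap β)) = ⊤ := by
  rw [eq_top_iff, ← (MonoidHom.range_eq_top.2 hπ), MonoidHom.range_eq_map, ← hG,
    MonoidHom.map_closure]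
  apply Subgroup.closure_mono
  rintro _ ⟨_, ⟨c, rfl⟩, rfl⟩
  refine ⟨π c, ?_⟩
  unfold kap
  rw [map_mul, map_inv, hc]

omit [Finite G] in
theorem beta_sq (hα : α * α = 1) (hπ : Function.Surjective π) (hc : ∀ g, β (π g) = π (α g)) :
    β * β = 1 := by
  ext q
  obtain ⟨g, rfl⟩ := hπ q
  have h : α (α g) = g := by rw [← MulAut.mul_apply, hα, MulAut.one_apply]
  rw [MulAut.mul_apply, hc, hc, h, MulAut.one_apply]

end quot

theorem card_abelianization_le {G : Type*} [Group G] [Finite G] {α : MulAut G} (hα : α * α = 1)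
    (hI : closure (I α) = ⊤) : Nat.card (Abelianization G) ≤ Nat.card (I α) := by
  let β : MulAut (Abelianization G) := MulEquiv.abelianizationCongr α
  have hπ : Function.Surjective (Abelianization.of (G := G)) := Quotient.mk_surjective
  have hc : ∀ g, β (Abelianization.of g) = Abelianization.of (α g) := fun g =>
    abelianizationCongr_of α g
  have h := card_I_le (β := β) hα hπ hc
  let S : Subgroup (Abelianization G) :=
    { carrier := I β
      one_mem' := ⟨by simp, by simp⟩
      mul_mem' := by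
        rintro x y hx hy
        refine ⟨?_, ?_⟩
        · have h1 := (Commute.all x y).orderOf_mul_dvd_mul_orderOf
          exact Odd.of_dvd_nat (hx.1.mul hy.1) h1
        · rw [map_mul, hx.2, hy.2, mul_inv]
      inv_mem' := by
        rintro x hx
        refine ⟨by rw [orderOf_inv]; exact hx.1, ?_⟩
        rw [map_inv, hx.2] }
  have hS : S = ⊤ := by
    rw [eq_top_iff, ← (MonoidHom.range_eq_top.2 hπ), MonoidHom.range_eq_map, ← hI,
      MonoidHom.map_closure, closure_le]
    rintro _ ⟨x, hx, rfl⟩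
    exact map_I (β := β) hc hx
  have h2 : I β = Set.univ := by
    rw [Set.eq_univ_iff_forall]
    intro q
    have : q ∈ S := by rw [hS]; exact mem_top q
    exact this
  rw [h2, Nat.card_univ] at h
  exact h

theorem center_quot {G : Type*} [Group G] [Finite G] {α : MulAut G}
    (hI : closure (I α) = ⊤) (t : G ⧸ center G) (ht : t ∈ center (G ⧸ center G))
    (ht2 : t * t = 1) : t = 1 := by
  obtain ⟨z, rfl⟩ := QuotientGroup.mk_surjective t
  have hzz : z * z ∈ center G := by
    rw [← QuotientGroup.eq_one_iff]; exact ht2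
  have hz : z ∈ center G := by
    have h : (⊤ : Subgroup G) ≤ centralizer {z} := by
      rw [← hI, closure_le]
      intro x hx
      have h1 := mem_center_iff.1 ht (QuotientGroup.mk x)
      have hcm : z * x * z⁻¹ * x⁻¹ ∈ center G := by
        rw [← QuotientGroup.eq_one_iff]
        show (QuotientGroup.mk z * QuotientGroup.mk x * (QuotientGroup.mk z)⁻¹ *
          (QuotientGroup.mk x)⁻¹ : G ⧸ center G) = 1
        rw [← h1]; group
      obtain ⟨c, hcdef⟩ : ∃ c, z * x * z⁻¹ * x⁻¹ = c := ⟨_, rfl⟩
      rw [hcdef] at hcm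
      have hcc := mem_center_iff.1 hcm
      have e1 : z * x * z⁻¹ = c * x := by rw [← hcdef]; group
      have e2 : c * c = 1 := by
        have e3 : z * (z * x * z⁻¹) * z⁻¹ = x := by
          have := mem_center_iff.1 hzz x
          calc z * (z * x * z⁻¹) * z⁻¹ = (z * z) * x * (z * z)⁻¹ := by group
            _ = x := by rw [← this, mul_inv_cancel_right]
        rw [e1] at e3
        have e4 : z * (c * x) * z⁻¹ = c * (z * x * z⁻¹) := by
          rw [← mul_assoc, hcc z]; group
        rw [e4, e1, ← mul_assoc] at e3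
        exact mul_eq_right.1 e3
      have e5 : c ^ orderOf x = 1 := by
        have h5 : (z * x * z⁻¹) ^ orderOf x = 1 := by
          rw [conj_pow, pow_orderOf_eq_one]; group
        have hcx : Commute c x := (hcc x).symm
        rw [e1, hcx.mul_pow, pow_orderOf_eq_one, mul_one] at h5
        exact h5
      have hc1 : c = 1 := by
        rw [← orderOf_eq_one_iff]
        have d1 : orderOf c ∣ 2 := orderOf_dvd_of_pow_eq_one (by rw [pow_two]; exact e2)
        have d2 : orderOf c ∣ orderOf x := orderOf_dvd_of_pow_eq_one e5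
        exact Nat.eq_one_of_dvd_coprimes (Nat.coprime_two_left.2 hx.1) d1 d2
      show x ∈ centralizer {z}
      rw [mem_centralizer_singleton_iff]
      rw [hc1, one_mul, mul_inv_eq_iff_eq_mul] at e1
      exact e1.symm
    rw [mem_center_iff]
    intro g
    exact mem_centralizer_singleton_iff.1 (h (mem_top g))
  exact (QuotientGroup.eq_one_iff z).2 hz

end Cfsg.Agent.H25.InvOdd
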