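import Mathlib
import Cfsg.Agent.H25.InvOdd

/-!
# The order of `G = [G, α]` is bounded by the number of inverted elements of odd order (S3928)
-/

set_option autoImplicit false

namespace Cfsg.Agent.H25.InvOdd

open Subgroup

theorem mem_center_of {G : Type*} [Group G] {α : MulAut G} (hI : closure (I α) = ⊤) {z : G}
    (h : ∀ x ∈ I α, z * x = x * z) : z ∈ center G := by
  have h2 : (⊤ : Subgroup G) ≤ centralizer {z} := by
    rw [← hI, closure_le]
    intro x hx
    show x ∈ centralizer {z}
    rw [mem_centralizer_singleton_iff]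
    exact (h x hx).symm
  rw [mem_center_iff]
  intro g
  exact mem_centralizer_singleton_iff.1 (h2 (mem_top g))

/-- The fixed points of `α`. -/
def C {G : Type*} [Group G] (α : MulAut G) : Subgroup G where
  carrier := {g | α g = g}
  one_mem' := map_one α
  mul_mem' := by
    intro x y hx hy
    show α (x * y) = x * y
    rw [map_mul, show α x = x from hx, show α y = y from hy]
  inv_mem' := by
    intro x hx
    show α x⁻¹ = x⁻¹
    rw [map_inv, show α x = x from hx]

theorem mem_C {G : Type*} [Group G] {α : MulAut G} {g : G} : g ∈ C α ↔ α g = g := Iff.rfl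

theorem conj_mem_I {G : Type*} [Group G] {α : MulAut G} {c x : G} (hc : α c = c) (hx : x ∈ I α) :
    c * x * c⁻¹ ∈ I α := by
  refine ⟨?_, ?_⟩
  · have : orderOf (c * x * c⁻¹) = orderOf x := by
      have := MulEquiv.orderOf_eq (MulAut.conj c) x
      rwa [MulAut.conj_apply] at this
    rw [this]; exact hx.1
  · rw [map_mul, map_mul, map_inv, hc, hx.2]; group

/-- Conjugation on the inverted elements. -/
@[reducible] def actI {G : Type*} [Group G] (α : MulAut G) : MulAction (C α) (I α) where
  smul c x := ⟨(c : G) * x * (c : G)⁻¹, conj_mem_I c.2 x.2⟩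
  one_smul := by
    intro x
    apply Subtype.ext
    show ((1 : C α) : G) * x * ((1 : C α) : G)⁻¹ = x
    simp
  mul_smul := by
    intro c d x
    apply Subtype.ext
    show ((c * d : C α) : G) * x * ((c * d : C α) : G)⁻¹ = c * (d * x * (d : G)⁻¹) * (c : G)⁻¹
    push_cast
    group

/-- Conjugation on the inverted elements, as a homomorphism. -/
def phi {G : Type*} [Group G] (α : MulAut G) : C α →* Equiv.Perm (I α) :=
  @MulAction.toPermHom (C α) (I α) _ (actI α)

theorem phi_apply {G : Type*} [Group G] (α : MulAut G) (c : C α) (x : I α) :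
    ((phi α c x : I α) : G) = (c : G) * x * (c : G)⁻¹ := rfl

theorem center_of_phi {G : Type*} [Group G] {α : MulAut G} (hI : closure (I α) = ⊤)
    {c : C α} (hc : phi α c = 1) : (c : G) ∈ center G := by
  apply mem_center_of hI
  intro x hx
  have h : ((phi α c ⟨x, hx⟩ : I α) : G) = x := by rw [hc]; rfl
  rw [phi_apply] at h
  rwa [mul_inv_eq_iff_eq_mul] at h

theorem index_center_le {G : Type*} [Group G] [Finite G] {α : MulAut G}
    (hI : closure (I α) = ⊤) {k : ℕ} (h : Nat.card G ≤ k * Nat.card (C α)) :
    (center G).index ≤ k * (Nat.card (I α)).factorial := by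
  have h1 : Nat.card (phi α).ker * (phi α).ker.index = Nat.card (C α) := card_mul_index _
  rw [index_ker] at h1
  have h2 : Nat.card (phi α).range ≤ (Nat.card (I α)).factorial := by
    rw [← Nat.card_perm]
    exact Nat.card_le_card_of_injective _ (Subtype.val_injective)
  have h3 : Nat.card (phi α).ker ≤ Nat.card (center G) := by
    apply Nat.card_le_card_of_injective
      (fun c : (phi α).ker => (⟨(c : C α), center_of_phi hI (MonoidHom.mem_ker.1 c.2)⟩ : center G))
    intro c d hcd
    apply Subtype.ext
    apply Subtype.ext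
    have h := congrArg (fun z : center G => (z : G)) hcd
    exact h
  have h4 : Nat.card (center G) * (center G).index = Nat.card G := card_mul_index _
  have hpos : 0 < Nat.card (center G) := Nat.card_pos
  have h5 : Nat.card (center G) * (center G).index ≤
      Nat.card (center G) * (k * (Nat.card (I α)).factorial) := by
    rw [h4]
    calc Nat.card G ≤ k * (Nat.card (phi α).ker * Nat.card (phi α).range) := by rw [h1]; exact h
      _ ≤ k * (Nat.card (center G) * (Nat.card (I α)).factorial) :=
        Nat.mul_le_mul_left _ (Nat.mul_le_mul h3 h2)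
      _ = _ := by ring
  exact Nat.le_of_mul_le_mul_left h5 hpos

/-- The involutions fixed by `α`. -/
def Inv {G : Type*} [Group G] (α : MulAut G) : Set G := {t | α t = t ∧ t * t = 1 ∧ t ≠ 1}

theorem card_Inv_le {G : Type*} [Group G] [Finite G] {α : MulAut G}
    (hI : closure (I α) = ⊤) (hz : ∀ t ∈ center G, t * t = 1 → t = 1) :
    Nat.card (Inv α) ≤ (Nat.card (I α)).factorial := by
  rw [← Nat.card_perm]
  apply Nat.card_le_card_of_injective (fun t : Inv α => phi α ⟨t, t.2.1⟩)
  rintro ⟨s, hs⟩ ⟨t, ht⟩ hst
  apply Subtype.ext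
  show s = t
  have h1 : phi α ((⟨t, ht.1⟩ : C α)⁻¹ * ⟨s, hs.1⟩) = 1 := by
    rw [map_mul, map_inv]
    have : phi α ⟨s, hs.1⟩ = phi α ⟨t, ht.1⟩ := hst
    rw [this, inv_mul_cancel]
  have h2 := center_of_phi hI h1
  have h3 : t⁻¹ * s ∈ center G := h2
  have h4 : (t⁻¹ * s) * (t⁻¹ * s) = 1 := by
    have h5 := mem_center_iff.1 h3 t⁻¹
    have h6 : t⁻¹ = t := inv_eq_of_mul_eq_one_left ht.2.1
    calc (t⁻¹ * s) * (t⁻¹ * s) = ((t⁻¹ * s) * t⁻¹) * s := by group
      _ = (t⁻¹ * (t⁻¹ * s)) * s := by rw [h5]
      _ = (t * t)⁻¹ * (s * s) := by group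
      _ = 1 := by rw [ht.2.1, hs.2.1]; simp
  have h5 := hz _ h3 h4
  rwa [inv_mul_eq_one, eq_comm] at h5

theorem fiber_le {G : Type*} [Group G] [Fintype G] {p : G → Prop} [DecidablePred p]
    {D : Subgroup G} (h : ∀ g g' : G, p g → p g' → g⁻¹ * g' ∈ D) :
    (Finset.univ.filter p).card ≤ Nat.card D := by
  classical
  by_cases hne : ∃ g, p g
  · obtain ⟨g, hg⟩ := hne
    rw [← Fintype.card_subtype, ← Nat.card_eq_fintype_card]
    apply Nat.card_le_card_of_injective
      (fun x : {x // p x} => (⟨g⁻¹ * x.1, h g x.1 hg x.2⟩ : D))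
    intro x y hxy
    apply Subtype.ext
    exact mul_left_cancel (congrArg Subtype.val hxy)
  · rw [Finset.filter_false_of_mem]
    · simp
    · intro x _ hx; exact hne ⟨x, hx⟩

theorem fiber_le' {G : Type*} [Group G] [Fintype G] {p : G → Prop} [DecidablePred p]
    {D : Subgroup G} (h : ∀ g g' : G, p g → p g' → g * g'⁻¹ ∈ D) :
    (Finset.univ.filter p).card ≤ Nat.card D := by
  classical
  by_cases hne : ∃ g, p g
  · obtain ⟨g, hg⟩ := hne
    rw [← Fintype.card_subtype, ← Nat.card_eq_fintype_card]
    apply Nat.card_le_card_of_injective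
      (fun x : {x // p x} => (⟨g * x.1⁻¹, h g x.1 hg x.2⟩ : D))
    intro x y hxy
    apply Subtype.ext
    exact inv_injective (mul_left_cancel (congrArg Subtype.val hxy))
  · rw [Finset.filter_false_of_mem]
    · simp
    · intro x _ hx; exact hne ⟨x, hx⟩

theorem count {G : Type*} [Group G] [Finite G] {α : MulAut G} (hα : α * α = 1) {k : ℕ}
    (hk : ∀ t ∈ Inv α, Nat.card (centralizer {t}) ≤ k) :
    Nat.card G ≤ Nat.card (I α) * Nat.card (C α) + Nat.card (Inv α) * Nat.card (Inv α) * k := by
  classical
  have : Fintype G := Fintype.ofFinite G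
  let IF : Finset G := Finset.univ.filter (fun x => x ∈ I α)
  let VF : Finset G := Finset.univ.filter (fun x => x ∈ Inv α)
  have hIF : IF.card = Nat.card (I α) := by
    rw [← Fintype.card_subtype, ← Nat.card_eq_fintype_card]
  have hVF : VF.card = Nat.card (Inv α) := by
    rw [← Fintype.card_subtype, ← Nat.card_eq_fintype_card]
  let A : Finset G := IF.biUnion (fun x => Finset.univ.filter (fun g => kap α g = x))
  let B : Finset G := (VF ×ˢ VF).biUnion
    (fun p => Finset.univ.filter (fun g => g⁻¹ * p.1 * g = p.2))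
  have hA : A.card ≤ IF.card * Nat.card (C α) := by
    apply Finset.card_biUnion_le_card_mul
    intro x _
    apply fiber_le
    intro g g' hg hg'
    rw [mem_C, map_mul, map_inv]
    have h1 : g * (α g)⁻¹ = g' * (α g')⁻¹ := hg.trans hg'.symm
    have h2 : g' = g * (α g)⁻¹ * α g' := by rw [h1]; group
    conv_rhs => rw [h2]
    group
  have hB : B.card ≤ (VF ×ˢ VF).card * k := by
    apply Finset.card_biUnion_le_card_mul
    rintro ⟨s, t⟩ hst
    rw [Finset.mem_product] at hst
    have hs : s ∈ Inv α := (Finset.mem_filter.1 hst.1).2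
    refine le_trans (fiber_le' (D := centralizer {s}) ?_) (hk s hs)
    intro g g' hg hg'
    rw [mem_centralizer_singleton_iff]
    have h1 : g⁻¹ * s * g = g'⁻¹ * s * g' := hg.trans hg'.symm
    have h2 : s * (g * g'⁻¹) = g * (g⁻¹ * s * g) * g'⁻¹ := by group
    rw [h2, h1]; group
  have hU : (Finset.univ : Finset G) ⊆ A ∪ B := by
    intro g _
    rw [Finset.mem_union]
    by_cases ho : Odd (orderOf (kap α g))
    · left
      rw [Finset.mem_biUnion]
      exact ⟨kap α g, Finset.mem_filter.2 ⟨Finset.mem_univ _, ho, kap_inv hα g⟩,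
        Finset.mem_filter.2 ⟨Finset.mem_univ _, rfl⟩⟩
    · right
      rw [Nat.not_odd_iff_even] at ho
      obtain ⟨r, hr⟩ := ho
      have hpos : 0 < orderOf (kap α g) := orderOf_pos _
      let t := (kap α g) ^ r
      have ht2 : t * t = 1 := by
        show (kap α g) ^ r * (kap α g) ^ r = 1
        rw [← pow_add, ← hr, pow_orderOf_eq_one]
      have ht1 : t ≠ 1 := by
        intro h
        have := orderOf_dvd_of_pow_eq_one h
        have := Nat.le_of_dvd (by omega) this
        omega
      have htα : α t = t := by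
        show α ((kap α g) ^ r) = (kap α g) ^ r
        rw [map_pow, kap_inv hα, inv_pow]
        exact inv_eq_of_mul_eq_one_left ht2
      have hcomm : t * kap α g = kap α g * t := ((Commute.refl (kap α g)).pow_left r)
      have h3 : α (g⁻¹ * t * g) = g⁻¹ * t * g := by
        rw [map_mul, map_mul, map_inv, htα]
        have h4 : kap α g = g * (α g)⁻¹ := rfl
        have h5 : g⁻¹ * kap α g = (α g)⁻¹ := by rw [h4]; group
        have h6 : (kap α g)⁻¹ * g = α g := by rw [h4]; group
        rw [← h5]
        conv_lhs => rw [← h6]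
        calc g⁻¹ * kap α g * t * ((kap α g)⁻¹ * g)
            = g⁻¹ * (kap α g * t) * (kap α g)⁻¹ * g := by group
          _ = g⁻¹ * (t * kap α g) * (kap α g)⁻¹ * g := by rw [hcomm]
          _ = g⁻¹ * t * g := by group
      have h7 : (g⁻¹ * t * g) * (g⁻¹ * t * g) = 1 := by
        calc (g⁻¹ * t * g) * (g⁻¹ * t * g) = g⁻¹ * (t * t) * g := by group
          _ = 1 := by rw [ht2]; group
      have h8 : g⁻¹ * t * g ≠ 1 := by
        intro h
        apply ht1
        calc t = g * (g⁻¹ * t * g) * g⁻¹ := by group
          _ = 1 := by rw [h]; group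
      rw [Finset.mem_biUnion]
      refine ⟨(t, g⁻¹ * t * g), Finset.mem_product.2 ⟨?_, ?_⟩,
        Finset.mem_filter.2 ⟨Finset.mem_univ _, rfl⟩⟩
      · exact Finset.mem_filter.2 ⟨Finset.mem_univ _, htα, ht2, ht1⟩
      · exact Finset.mem_filter.2 ⟨Finset.mem_univ _, h3, h7, h8⟩
  have h1 : Nat.card G ≤ A.card + B.card := by
    rw [Nat.card_eq_fintype_card, ← Finset.card_univ]
    exact (Finset.card_le_card hU).trans (Finset.card_union_le A B)
  rw [hIF] at hA
  rw [Finset.card_product, hVF] at hB
  omega

theorem dichotomy {G : Type*} [Group G] [Finite G] {α : MulAut G} (hα : α * α = 1) {m M : ℕ}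
    (hm : Nat.card (I α) ≤ m) (hM : Nat.card (Inv α) ≤ M) :
    Nat.card G ≤ 2 * m * Nat.card (C α) ∨
      ∃ t ∈ Inv α, Nat.card G ≤ 2 * (M * M) * Nat.card (centralizer {t}) := by
  classical
  by_cases hne : (Inv α).Nonempty
  · obtain ⟨t, ht, hmax⟩ := Set.exists_max_image (Inv α)
      (fun t => Nat.card (centralizer {t})) (Set.toFinite _) hne
    have h := count hα hmax
    have h1 : Nat.card (I α) * Nat.card (C α) ≤ m * Nat.card (C α) := Nat.mul_le_mul_right _ hm
    have h2 : Nat.card (Inv α) * Nat.card (Inv α) * Nat.card (centralizer {t}) ≤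
        M * M * Nat.card (centralizer {t}) := Nat.mul_le_mul_right _ (Nat.mul_le_mul hM hM)
    by_cases h3 : Nat.card G ≤ 2 * m * Nat.card (C α)
    · exact Or.inl h3
    · right
      refine ⟨t, ht, ?_⟩
      have h4 : 2 * m * Nat.card (C α) = 2 * (m * Nat.card (C α)) := by ring
      have h5 : 2 * (M * M) * Nat.card (centralizer {t}) =
        2 * (M * M * Nat.card (centralizer {t})) := by ring
      rw [h4] at h3
      rw [h5]
      omega
  · left
    rw [Set.not_nonempty_iff_eq_empty] at hne
    have h := count hα (k := 0) (by rw [hne]; simp)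
    have h1 : Nat.card (I α) * Nat.card (C α) ≤ m * Nat.card (C α) := Nat.mul_le_mul_right _ hm
    have h4 : 2 * m * Nat.card (C α) = 2 * (m * Nat.card (C α)) := by ring
    rw [h4]
    omega

theorem card_conj_le {G : Type*} [Group G] [Finite G] {t : G} {k : ℕ}
    (h : Nat.card G ≤ k * Nat.card (centralizer {t})) :
    Nat.card (Group.conjugatesOfSet {t}) ≤ k := by
  let f : G ⧸ centralizer {t} → G := fun q => q.out * t * q.out⁻¹
  have hsub : Group.conjugatesOfSet {t} ⊆ Set.range f := by
    intro s hs
    rw [Group.mem_conjugatesOfSet_iff] at hs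
    obtain ⟨u, hu, hc⟩ := hs
    rw [Set.mem_singleton_iff] at hu
    rw [hu] at hc
    obtain ⟨c, rfl⟩ := isConj_iff.1 hc
    refine ⟨QuotientGroup.mk c, ?_⟩
    obtain ⟨z, hz⟩ := QuotientGroup.mk_out_eq_mul (centralizer {t}) c
    show (QuotientGroup.mk c : G ⧸ centralizer {t}).out * t *
      (QuotientGroup.mk c : G ⧸ centralizer {t}).out⁻¹ = c * t * c⁻¹
    rw [hz]
    have h1 := mem_centralizer_singleton_iff.1 z.2
    generalize (z : G) = z at *
    calc c * z * t * (c * z)⁻¹ = c * (z * t) * z⁻¹ * c⁻¹ := by group
      _ = c * t * c⁻¹ := by rw [h1]; group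
  have h1 : Nat.card (Group.conjugatesOfSet {t}) ≤ (centralizer {t}).index :=
    (Nat.card_mono (Set.toFinite _) hsub).trans (Finite.card_range_le f)
  refine h1.trans ?_
  have h2 : Nat.card (centralizer {t}) * (centralizer {t}).index = Nat.card G :=
    card_mul_index _
  have hpos : 0 < Nat.card (centralizer {t}) := Nat.card_pos
  rw [← h2, mul_comm k] at h
  exact Nat.le_of_mul_le_mul_left h hpos

theorem main (m : ℕ) : ∃ F : ℕ, ∀ (G : Type) [Group G] [Finite G] (α : MulAut G), α * α = 1 →
    closure (Set.range (kap α)) = ⊤ → Nat.card (I α) ≤ m → Nat.card G ≤ F := by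
  induction m with
  | zero =>
    refine ⟨0, ?_⟩
    intro G _ _ α _ _ h
    exfalso
    have : Nat.card (I α) ≠ 0 := by
      have : Nonempty (I α) := ⟨⟨1, by simp, by simp⟩⟩
      exact Nat.card_pos.ne'
    omega
  | succ m ih =>
    obtain ⟨F, hF⟩ := ih
    obtain ⟨B, hB⟩ := schur_bound (2 * (m + 1) * (m + 1).factorial)
    obtain ⟨L, hL⟩ := card_closure_le (2 * ((m + 1).factorial * (m + 1).factorial))
    -- groups without central involutions
    have key : ∀ (G : Type) [Group G] [Finite G] (α : MulAut G), α * α = 1 →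
        closure (Set.range (kap α)) = ⊤ → Nat.card (I α) ≤ m + 1 →
        (∀ t ∈ center G, t * t = 1 → t = 1) → Nat.card G ≤ B * (m + 1) + L * F := by
      intro G _ _ α hα hG hm hz
      have hI := closure_I hα hG
      have hfac : (Nat.card (I α)).factorial ≤ (m + 1).factorial := Nat.factorial_le hm
      rcases dichotomy hα hm ((card_Inv_le hI hz).trans hfac) with h | ⟨t, ht, h⟩
      · have h1 : (center G).index ≤ 2 * (m + 1) * (m + 1).factorial :=
          (index_center_le hI h).trans (Nat.mul_le_mul_left _ hfac)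
        have h2 := hB G h1
        have h3 := (card_abelianization_le hα hI).trans hm
        have h4 : Nat.card G = Nat.card (commutator G) * Nat.card (Abelianization G) := by
          rw [← card_mul_index (commutator G)]; rfl
        have h5 : Nat.card (commutator G) * Nat.card (Abelianization G) ≤ B * (m + 1) :=
          Nat.mul_le_mul h2 h3
        omega
      · let N : Subgroup G := normalClosure {t}
        have hN : N.map α.toMonoidHom = N := by
          show (normalClosure {t}).map α.toMonoidHom = normalClosure {t}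
          rw [map_normalClosure _ _ α.surjective]
          congr 1
          rw [Set.image_singleton]
          congr 1
          exact ht.1
        have hNle : Nat.card N ≤ L := by
          apply hL G (Group.conjugatesOfSet {t})
          · intro s hs
            rw [Group.mem_conjugatesOfSet_iff] at hs
            obtain ⟨u, hu, hc⟩ := hs
            rw [Set.mem_singleton_iff] at hu
            rw [hu] at hc
            obtain ⟨c, rfl⟩ := isConj_iff.1 hc
            have h9 := ht.2.1
            calc c * t * c⁻¹ * (c * t * c⁻¹) = c * (t * t) * c⁻¹ := by group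
              _ = 1 := by rw [h9]; group
          · intro s _ r hr
            exact Group.conj_mem_conjugatesOfSet hr
          · exact card_conj_le h
        let β : MulAut (G ⧸ N) := QuotientGroup.congr N N α hN
        let π : G →* G ⧸ N := QuotientGroup.mk' N
        have hπ : Function.Surjective π := QuotientGroup.mk'_surjective N
        have hc : ∀ g, β (π g) = π (α g) := fun g => rfl
        have htk : π t = 1 :=
          (QuotientGroup.eq_one_iff t).2 (subset_normalClosure (Set.mem_singleton t))
        have hlt := card_I_lt hα hπ hc hI htk ht.1 (fun hcen => ht.2.2 (hz t hcen ht.2.1))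
        have h2 := hF (G ⧸ N) β (beta_sq hα hπ hc) (kap_closure hπ hc hG) (by omega)
        have h3 : Nat.card G = Nat.card N * Nat.card (G ⧸ N) := by
          rw [← card_mul_index N]; rfl
        have h4 : Nat.card N * Nat.card (G ⧸ N) ≤ L * F := Nat.mul_le_mul hNle h2
        omega
    obtain ⟨B2, hB2⟩ := schur_bound (B * (m + 1) + L * F)
    refine ⟨B2 * (m + 1), ?_⟩
    intro G _ _ α hα hG hm
    have hI := closure_I hα hG
    have hN : (center G).map α.toMonoidHom = center G :=
      characteristic_iff_map_eq.1 inferInstance α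
    let β : MulAut (G ⧸ center G) := QuotientGroup.congr (center G) (center G) α hN
    let π : G →* G ⧸ center G := QuotientGroup.mk' (center G)
    have hπ : Function.Surjective π := QuotientGroup.mk'_surjective _
    have hc : ∀ g, β (π g) = π (α g) := fun g => rfl
    have h2 := key (G ⧸ center G) β (beta_sq hα hπ hc) (kap_closure hπ hc hG)
      ((card_I_le hα hπ hc).trans hm) (fun t ht h2 => center_quot hI t ht h2)
    have h3 : Nat.card (commutator G) ≤ B2 := hB2 G h2
    have h4 := (card_abelianization_le hα hI).trans hm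
    have h5 : Nat.card G = Nat.card (commutator G) * Nat.card (Abelianization G) := by
      rw [← card_mul_index (commutator G)]; rfl
    rw [h5]
    exact Nat.mul_le_mul h3 h4

end Cfsg.Agent.H25.InvOdd
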