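import Cfsg.Agent.H25.FrobSum
import Mathlib

/-!
# No exponent-`p` Sylow over a nontrivial `p`-core
-/

set_option autoImplicit false
set_option linter.style.haveILetI false

namespace Cfsg.Agent.H25

open Subgroup

theorem coe_prod_range {V : Type*} [Group V] (W : Subgroup V) [W.Normal] [hW : IsMulCommutative W] (w : W) (u : V) (n : ℕ) :
    letI : CommGroup W := { (inferInstance : Group W) with mul_comm := hW.1.1 }
    ((∏ i ∈ Finset.range n, (MulAut.conjNormal (u ^ i) : MulAut W) w : W) : V) =
      ((List.range n).map (fun i => u ^ i * (w : V) * (u ^ i)⁻¹)).prod := by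
  letI : CommGroup W := { (inferInstance : Group W) with mul_comm := hW.1.1 }
  induction n with
  | zero => simp
  | succ n ih =>
    rw [Finset.prod_range_succ, List.range_succ, List.map_append, List.prod_append, ← ih]
    simp only [List.map_cons, List.map_nil, List.prod_cons, List.prod_nil, mul_one]
    rfl

theorem false_of_core {V : Type*} [Group V] [Finite V] {p : ℕ} [Fact p.Prime]
    (hexp : ∀ v : V, (∃ k : ℕ, v ^ p ^ k = 1) → v ^ p = 1)
    (hcen : ∀ a b : V, a ≠ 1 → (∃ k : ℕ, a ^ p ^ k = 1) → (orderOf b).Coprime p → a * b = b * a → b = 1)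
    (K : Subgroup V) [K.Normal] (hKp : ¬ IsPGroup p K) (hK : p ∣ K.index)
    (L : Subgroup V) [hLn : L.Normal] (hL : IsPGroup p L) (hL1 : L ≠ ⊥) : False := by
  have hpp : p.Prime := Fact.out
  -- the centre of L
  set W : Subgroup V := L ⊓ centralizer (L : Set V) with hWdef
  haveI hWn : W.Normal := by
    haveI : (centralizer (L : Set V)).Normal := inferInstance
    infer_instance
  haveI hWc : IsMulCommutative W := ⟨⟨by
    rintro ⟨a, ha⟩ ⟨b, hb⟩
    apply Subtype.ext
    exact mem_centralizer_iff.1 hb.2 a ha.1⟩⟩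
  have hW1 : W ≠ ⊥ := by
    haveI : Nontrivial L := (Subgroup.nontrivial_iff_ne_bot L).2 hL1
    haveI := hL.center_nontrivial
    obtain ⟨z, hz⟩ := exists_ne (1 : center L)
    intro h
    apply hz
    have h1 : ((z : L) : V) ∈ W := by
      refine ⟨(z : L).2, mem_centralizer_iff.2 ?_⟩
      intro x hx
      have := mem_center_iff.1 z.2 ⟨x, hx⟩
      exact congrArg Subtype.val this
    rw [h, mem_bot] at h1
    exact Subtype.ext (Subtype.ext h1)
  have hWp : IsPGroup p W := hL.to_le inf_le_left
  -- a prime r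
  obtain ⟨r, hr, hrp, hrK⟩ : ∃ r : ℕ, r.Prime ∧ r ≠ p ∧ r ∣ Nat.card K := by
    by_contra hcon
    push Not at hcon
    apply hKp
    rw [IsPGroup.iff_card]
    refine ⟨_, Nat.eq_prime_pow_of_unique_prime_dvd Nat.card_pos.ne' (fun {d} hd hdK => ?_)⟩
    by_contra hdp
    exact hcon d hd hdp hdK
  haveI : Fact r.Prime := ⟨hr⟩
  obtain ⟨R⟩ : Nonempty (Sylow r K) := inferInstance
  set RG : Subgroup V := (R : Subgroup K).map K.subtype with hRG
  have hRr : IsPGroup r RG := R.isPGroup'.map _
  have hR1 : RG ≠ ⊥ := by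
    intro h
    have h1 : Nat.card (R : Subgroup K) = 1 := by
      have h0 : Nat.card RG = Nat.card (R : Subgroup K) := Subgroup.card_map_of_injective K.subtype_injective
      rw [← h0, h, Subgroup.card_bot]
    have h2 : r ∣ Nat.card (R : Subgroup K) := by
      rw [R.card_eq_multiplicity]
      apply dvd_pow_self
      exact (hr.factorization_pos_of_dvd Nat.card_pos.ne' hrK).ne'
    rw [h1] at h2
    exact hr.one_lt.ne' (Nat.dvd_one.1 h2)
  have hfr : normalizer (RG : Set V) ⊔ K = ⊤ := Sylow.normalizer_sup_eq_top R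
  have hpN : p ∣ Nat.card (normalizer (RG : Set V)) := by
    have h1 : K.index = K.relIndex (normalizer (RG : Set V)) := by
      rw [← Subgroup.relIndex_sup_right, hfr, relIndex_top_right]
    rw [h1] at hK
    exact hK.trans (Subgroup.index_dvd_card _)
  obtain ⟨⟨u, huN⟩, hu⟩ := exists_prime_orderOf_dvd_card' p hpN
  rw [Subgroup.orderOf_mk] at hu
  -- p'-elements in RG
  have hRcop : ∀ h ∈ RG, (orderOf h).Coprime p := by
    intro h hh
    obtain ⟨k, hk⟩ := hRr ⟨h, hh⟩
    have h1 : h ^ r ^ k = 1 := congrArg Subtype.val hk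
    exact Nat.Coprime.coprime_dvd_left (orderOf_dvd_of_pow_eq_one h1) (Nat.Coprime.pow_left k ((Nat.coprime_primes hr hpp).2 hrp))
  letI : CommGroup W := { (inferInstance : Group W) with mul_comm := hWc.1.1 }
  have key : ∀ w : W, w = 1 := by
    intro w
    refine eq_one_of_norm (MulAut.conjNormal : V →* MulAut W) RG u hpp.pos ?_ ?_ ?_ ?_ ?_ w
    · intro i h hh
      exact (mem_normalizer_iff.1 ((normalizer (RG : Set V)).pow_mem huN i) h).1 hh
    · intro i hi hip h hh hcomm
      refine hcen (u ^ i) h ?_ ⟨1, ?_⟩ (hRcop h hh) hcomm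
      · intro h1
        have := orderOf_dvd_of_pow_eq_one h1
        rw [hu] at this
        exact absurd (Nat.le_of_dvd hi this) (by omega)
      · rw [pow_one, ← pow_mul, mul_comm, pow_mul, ← hu, pow_orderOf_eq_one, one_pow]
    · intro x hx
      by_contra hx1
      obtain ⟨h, hh, hh1⟩ : ∃ h ∈ RG, h ≠ 1 := by
        by_contra hcon
        push Not at hcon
        exact hR1 ((eq_bot_iff_forall _).2 hcon)
      apply hh1
      refine hcen (x : V) h (fun h0 => hx1 (Subtype.ext h0)) ?_ (hRcop h hh) ?_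
      · obtain ⟨k, hk⟩ := hWp x
        exact ⟨k, congrArg Subtype.val hk⟩
      · have h2 : h * (x : V) * h⁻¹ = x := congrArg Subtype.val (hx h hh)
        calc (x : V) * h = (h * (x : V) * h⁻¹) * h := by rw [h2]
          _ = h * x := by group
    · intro x
      apply Subtype.ext
      rw [coe_prod_range W x u p]
      have h1 : ((x : V) * u) ^ p = 1 := by
        apply hexp
        have hup : IsPGroup p (zpowers u) := IsPGroup.of_card (n := 1) (by rw [Nat.card_zpowers, hu, pow_one])
        have h2 : IsPGroup p ((zpowers u ⊔ L : Subgroup V)) := IsPGroup.to_sup_of_normal_right hup hL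
        have h3 : (x : V) * u ∈ (zpowers u ⊔ L : Subgroup V) :=
          mul_mem (mem_sup_right x.2.1) (mem_sup_left (mem_zpowers u))
        obtain ⟨k, hk⟩ := h2 ⟨_, h3⟩
        exact ⟨k, congrArg Subtype.val hk⟩
      rw [mul_pow_eq, ← hu, pow_orderOf_eq_one, mul_one, hu] at h1
      exact h1
    · obtain ⟨a, ha⟩ := IsPGroup.iff_card.1 hRr
      obtain ⟨b, hb⟩ := IsPGroup.iff_card.1 hWp
      rw [ha, hb]
      exact Nat.Coprime.pow _ _ ((Nat.coprime_primes hr hpp).2 hrp)
  apply hW1
  rw [eq_bot_iff_forall]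
  intro x hx
  exact congrArg Subtype.val (key ⟨x, hx⟩)

end Cfsg.Agent.H25
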