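import Cfsg.Agent.H25.MaxCentA
import Cfsg.Agent.S0117
import Cfsg.Agent.S0083
import Cfsg.Agent.H32.SqCC
import Cfsg.Agent.Frob.Complement
import Cfsg.Agent.Solv.Core
import Cfsg.Agent.Transfer.Frobenius

/-!
# The self-normalizing exponent-`p` Sylow subgroup has order `p`
-/

set_option autoImplicit false
set_option linter.style.haveILetI false

namespace Cfsg.Agent.H25

open Subgroup Cfsg Cfsg.Agent Cfsg.Agent.Solv

theorem hasNPC_of_self_normalizing {X : Type*} [Group X] [Finite X] {p : ℕ} [Fact p.Prime] (P : Sylow p X)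
    (hP : ∀ a ∈ (P : Subgroup X), ∀ b ∈ (P : Subgroup X), a * b = b * a)
    (hN : normalizer ((P : Subgroup X) : Set X) = P) : HasNormalPComplement p X := by
  have hPc : IsMulCommutative P := ⟨⟨fun a b => Subtype.ext (hP a a.2 b b.2)⟩⟩
  refine (S0083.result P hPc).2 ⟨⊥, bot_le, by simp, ?_⟩
  rw [bot_sup_eq]; exact hN.symm

/-- passing to a normal subgroup from a normal `p`-complement in the quotient -/
theorem card_sylow_eq {V : Type*} [Group V] [Finite V] {p : ℕ} [Fact p.Prime] (P : Sylow p V)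
    (hexp : ∀ v ∈ (P : Subgroup V), v ^ p = 1)
    (hcen : ∀ a b : V, a ≠ 1 → (∃ k : ℕ, a ^ p ^ k = 1) → (orderOf b).Coprime p → a * b = b * a → b = 1)
    (hPn : ¬ (P : Subgroup V).Normal)
    (h : HasNormalPComplement p (V ⧸ pCore p V)) : Nat.card P = p := by
  have hpp : p.Prime := Fact.out
  have hexp' : ∀ v : V, (∃ k : ℕ, v ^ p ^ k = 1) → v ^ p = 1 := by
    rintro v ⟨k, hk⟩
    have hv : IsPGroup p (zpowers v) := by
      rw [IsPGroup.iff_card]
      obtain ⟨a, -, ha⟩ := (Nat.dvd_prime_pow hpp).1 (orderOf_dvd_of_pow_eq_one hk)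
      exact ⟨a, by rw [Nat.card_zpowers, ha]⟩
    obtain ⟨Q, hQ⟩ := hv.exists_le_sylow
    obtain ⟨g, hg⟩ := MulAction.exists_smul_eq V Q P
    have h1 : g * v * g⁻¹ ∈ (P : Subgroup V) := by
      rw [← hg]
      exact ⟨v, hQ (mem_zpowers v), rfl⟩
    have h2 := hexp _ h1
    rw [conj_pow] at h2
    exact conj_eq_one_iff.1 h2
  set L := pCore p V with hL
  obtain ⟨P1, K1, hK1n, hK1⟩ := h
  have hLp : IsPGroup p L := pCore_isPGroup p
  have hLP : L ≤ (P : Subgroup V) := pCore_le_sylow P
  haveI : K1.Normal := hK1n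
  set K : Subgroup V := K1.comap (QuotientGroup.mk' L) with hK
  haveI hKn : K.Normal := Subgroup.Normal.comap hK1n _
  have hKidx : K.index = Nat.card P1 := by
    rw [hK, Subgroup.index_comap_of_surjective _ (QuotientGroup.mk'_surjective L)]
    exact hK1.symm.index_eq_card
  have hPL : (P : Subgroup V) ≠ L := fun h => hPn (h ▸ inferInstance)
  have hP1 : Nat.card P1 ≠ 1 := by
    intro h1
    have h2 : ((P.mapSurjective (QuotientGroup.mk'_surjective L) : Sylow p (V ⧸ L)) : Subgroup (V ⧸ L)) = ⊥ := by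
      rw [← Subgroup.card_eq_one, ← h1]
      exact Nat.card_congr (Sylow.equiv _ P1).toEquiv
    rw [Sylow.coe_mapSurjective] at h2
    apply hPL
    apply le_antisymm _ hLP
    have h3 := (Subgroup.map_eq_bot_iff _).1 h2
    rwa [QuotientGroup.ker_mk'] at h3
  have hpK : p ∣ K.index := by
    rw [hKidx]
    obtain ⟨k, hk⟩ := IsPGroup.iff_card.1 P1.isPGroup'
    rw [hk] at hP1 ⊢
    apply dvd_pow_self
    rintro rfl
    exact hP1 (pow_zero p)
  have hKp : ¬ IsPGroup p K := by
    intro h1
    have h2 : K ≤ L := le_pCore hKn h1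
    have h3 : K1 = ⊥ := by
      rw [eq_bot_iff_forall]
      intro x hx
      obtain ⟨v, rfl⟩ := QuotientGroup.mk'_surjective L x
      have : v ∈ K := hx
      exact (QuotientGroup.eq_one_iff v).2 (h2 this)
    rw [h3, Subgroup.isComplement'_bot_left] at hK1
    -- P1 = top so V is a p-group
    have h4 : IsPGroup p (V ⧸ L) := by
      have := P1.isPGroup'
      rw [hK1] at this
      exact this.of_equiv Subgroup.topEquiv
    have h5 : IsPGroup p V := by
      rw [IsPGroup.iff_card] at h4 hLp ⊢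
      obtain ⟨a, ha⟩ := h4
      obtain ⟨b, hb⟩ := hLp
      exact ⟨a + b, by rw [Subgroup.card_eq_card_quotient_mul_card_subgroup L, ha, hb, pow_add]⟩
    apply hPn
    have h6 : (P : Subgroup V) = ⊤ := by
      have h7 : IsPGroup p (⊤ : Subgroup V) := h5.to_subgroup _
      exact (P.is_maximal' h7 le_top).symm
    rw [h6]; infer_instance
  have hL1 : L = ⊥ := by
    by_contra hne
    exact false_of_core hexp' hcen K hKp hpK L hLp hne
  -- K is a normal complement to P
  have hidx : K.index = Nat.card P := by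
    rw [hKidx, P1.card_eq_multiplicity, P.card_eq_multiplicity]
    have h1 : Nat.card (V ⧸ L) = Nat.card V := by
      rw [Subgroup.card_eq_card_quotient_mul_card_subgroup L, hL1, Subgroup.card_bot, mul_one]
    rw [h1]
  have hKcard : Nat.card K = (P : Subgroup V).index := by
    have h1 := K.card_mul_index
    rw [hidx, ← (P : Subgroup V).card_mul_index, mul_comm] at h1
    exact Nat.eq_of_mul_eq_mul_left Nat.card_pos h1
  have hKcop : (Nat.card K).Coprime p := by
    rw [hKcard, Nat.coprime_comm, hpp.coprime_iff_not_dvd]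
    exact P.not_dvd_index
  have hKP : IsComplement' K (P : Subgroup V) := by
    apply Subgroup.isComplement'_of_coprime
    · rw [← hidx]; exact K.card_mul_index
    · rw [P.card_eq_multiplicity]; exact Nat.Coprime.pow_right _ hKcop
  have hK1' : K ≠ ⊥ := fun h => hKp (h ▸ IsPGroup.of_bot)
  have hPb : (P : Subgroup V) ≠ ⊥ := fun h => hPL (h.trans hL1.symm)
  have hfpf : ∀ h ∈ (P : Subgroup V), h ≠ 1 → K ⊓ centralizer {h} = ⊥ := by
    intro h hh h1
    rw [eq_bot_iff_forall]
    rintro x ⟨hx, hxc⟩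
    refine hcen h x h1 ⟨1, by rw [pow_one]; exact hexp h hh⟩ ?_ ?_
    · exact Nat.Coprime.coprime_dvd_left (K.orderOf_dvd_natCard hx) hKcop
    · have := mem_centralizer_iff.1 hxc h rfl
      exact this
  have hmod := Frob.hasFPFModule_of_fpf hKP hK1' hfpf
  have hordP : ∀ y : P, y ≠ 1 → orderOf y = p := by
    intro y hy
    apply orderOf_eq_prime _ hy
    exact Subtype.ext (hexp y y.2)
  obtain ⟨x, hx, hx1⟩ : ∃ x ∈ (P : Subgroup V), x ≠ 1 := by
    by_contra hcon
    push Not at hcon
    exact hPb ((eq_bot_iff_forall _).2 hcon)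
  have hx1' : (⟨x, hx⟩ : P) ≠ 1 := fun h => hx1 (congrArg Subtype.val h)
  have htop : (⊤ : Subgroup P) = zpowers (⟨x, hx⟩ : P) := by
    symm
    rw [eq_top_iff]
    intro y _
    by_cases hy : y = 1
    · rw [hy]; exact one_mem _
    · have := hmod.unique_subgroup_of_isPGroup P.isPGroup' (zpowers (⟨x, hx⟩ : P)) (zpowers y)
        (by rw [Nat.card_zpowers, hordP _ hx1']) (by rw [Nat.card_zpowers, hordP _ hy])
      rw [this]
      exact mem_zpowers y
  rw [← Subgroup.card_top (G := P), htop, Nat.card_zpowers, hordP _ hx1']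

theorem card_sylow_eq_of_action {V : Type*} [Group V] [Finite V] {Γ : Type*} [Group Γ] (φ : Γ →* MulAut V)
    (hin : ∀ v : V, ∃ γ : Γ, φ γ = MulAut.conj v) {p : ℕ} [Fact p.Prime] (P : Sylow p V)
    (hexp : ∀ v ∈ (P : Subgroup V), v ^ p = 1)
    (hcen : ∀ a b : V, a ≠ 1 → (∃ k : ℕ, a ^ p ^ k = 1) → (orderOf b).Coprime p → a * b = b * a → b = 1)
    (hself : normalizer ((P : Subgroup V) : Set V) = P)
    (hmax : ∀ K : Subgroup Γ, (∀ γ : Γ, (∀ x : V, φ γ x ∈ (P : Subgroup V) ↔ x ∈ (P : Subgroup V)) → γ ∈ K) →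
      K = ⊤ ∨ ∀ γ ∈ K, ∀ x : V, φ γ x ∈ (P : Subgroup V) ↔ x ∈ (P : Subgroup V))
    (hnt : ∃ γ : Γ, ¬ ∀ x : V, φ γ x ∈ (P : Subgroup V) ↔ x ∈ (P : Subgroup V)) : Nat.card P = p := by
  have hpp : p.Prime := Fact.out
  set L := pCore p V with hL
  have hLP : L ≤ (P : Subgroup V) := pCore_le_sylow P
  have hLmap : ∀ e : MulAut V, L.map e.toMonoidHom = L := fun e => Solv.map_pCore p e
  have hLmem : ∀ (e : MulAut V) (x : V), e x ∈ L ↔ x ∈ L := by
    intro e x
    have h1 : e x ∈ L.map e.toMonoidHom ↔ x ∈ L := by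
      constructor
      · rintro ⟨y, hy, hyx⟩
        have : y = x := e.injective hyx
        exact this ▸ hy
      · intro hx; exact ⟨x, hx, rfl⟩
    rw [hLmap] at h1
    exact h1
  have hPL : (P : Subgroup V) ≠ L := by
    intro h
    obtain ⟨γ, hγ⟩ := hnt
    apply hγ
    intro x
    rw [h]
    exact hLmem (φ γ) x
  have hPn : ¬ (P : Subgroup V).Normal := by
    intro h
    exact hPL (le_antisymm (le_pCore h P.isPGroup') hLP)
  refine card_sylow_eq P hexp hcen hPn ?_
  have hs := QuotientGroup.mk'_surjective L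
  set f := QuotientGroup.mk' L with hf
  set P1 : Sylow p (V ⧸ L) := P.mapSurjective hs with hP1
  have hP1mem : ∀ v : V, f v ∈ (P1 : Subgroup (V ⧸ L)) ↔ v ∈ (P : Subgroup V) := by
    intro v
    rw [hP1, Sylow.coe_mapSurjective]
    constructor
    · rintro ⟨x, hx, hxv⟩
      have h1 : x⁻¹ * v ∈ L := by
        rw [← QuotientGroup.eq]
        exact hxv
      have : v = x * (x⁻¹ * v) := by group
      rw [this]
      exact mul_mem hx (hLP h1)
    · intro hv; exact ⟨v, hv, rfl⟩
  have hself1 : normalizer ((P1 : Subgroup (V ⧸ L)) : Set (V ⧸ L)) ≤ (P1 : Subgroup (V ⧸ L)) := by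
    intro y hy
    obtain ⟨v, rfl⟩ := hs y
    rw [hP1mem, ← hself, mem_normalizer_iff]
    intro x
    have h1 := (mem_normalizer_iff.1 hy) (f x)
    rw [← map_inv, ← map_mul, ← map_mul] at h1
    exact ((hP1mem x).symm.trans h1).trans (hP1mem _)
  rcases eq_or_ne p 2 with hp2 | hp2
  · refine hasNPC_of_self_normalizing P1 ?_ (le_antisymm hself1 le_normalizer)
    have h1 : ∀ a ∈ (P1 : Subgroup (V ⧸ L)), a * a = 1 := by
      intro a ha
      obtain ⟨v, rfl⟩ := hs a
      have h2 := hexp v ((hP1mem v).1 ha)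
      rw [hp2, pow_two] at h2
      rw [← map_mul, h2, map_one]
    intro a ha b hb
    have h2 := h1 (a * b) (mul_mem ha hb)
    have ha' := h1 a ha
    have hb' := h1 b hb
    calc a * b = a * b * ((a * b) * (a * b))⁻¹ := by rw [h2]; group
      _ = (a * b)⁻¹ := by group
      _ = b⁻¹ * a⁻¹ := by group
      _ = b * a := by rw [inv_eq_of_mul_eq_one_left ha', inv_eq_of_mul_eq_one_left hb']
  · set W1 := centerThompsonOf p (P1 : Subgroup (V ⧸ L)) with hW1
    have hW1P : W1 ≤ (P1 : Subgroup (V ⧸ L)) := ZJ.centerThompsonOf_le p _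
    have hW1n : P1.1 ≠ ⊥ := by
      intro h
      apply hPL
      apply le_antisymm _ hLP
      intro v hv
      have h1 : f v ∈ (P1 : Subgroup (V ⧸ L)) := (hP1mem v).2 hv
      have h2 : f v = 1 := by
        have : f v ∈ (⊥ : Subgroup (V ⧸ L)) := h ▸ h1
        exact this
      exact (QuotientGroup.eq_one_iff v).1 h2
    have hW1b : W1 ≠ ⊥ := H32.SqAct.ZJ_ne_bot P1.isPGroup' hW1n
    -- the stabilizer
    let K : Subgroup Γ :=
      { carrier := {γ | ∀ x : V, f (φ γ x) ∈ W1 ↔ f x ∈ W1}
        one_mem' := fun x => by rw [map_one]; rfl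
        mul_mem' := by
          intro a b ha hb x
          rw [map_mul, MulAut.mul_apply, ha, hb]
        inv_mem' := by
          intro a ha x
          have := ha ((φ a)⁻¹ x)
          rw [← MulAut.mul_apply, mul_inv_cancel, MulAut.one_apply] at this
          rw [map_inv]
          exact this.symm }
    have hK : ∀ γ : Γ, (∀ x : V, φ γ x ∈ (P : Subgroup V) ↔ x ∈ (P : Subgroup V)) → γ ∈ K := by
      intro γ hγ x
      let e : (V ⧸ L) ≃* (V ⧸ L) := QuotientGroup.congr L L (φ γ) (hLmap (φ γ))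
      have he : ∀ v : V, e (f v) = f (φ γ v) := fun v => rfl
      have h1 : (P1 : Subgroup (V ⧸ L)).map e.toMonoidHom = P1 := by
        ext y
        constructor
        · rintro ⟨z, hz, rfl⟩
          obtain ⟨v, rfl⟩ := hs z
          change e (f v) ∈ (P1 : Subgroup (V ⧸ L))
          rw [he, hP1mem, hγ]
          exact (hP1mem v).1 hz
        · intro hy
          obtain ⟨v, rfl⟩ := hs y
          refine ⟨f ((φ γ)⁻¹ v), ?_, ?_⟩
          · have h2 := hγ ((φ γ)⁻¹ v)
            rw [← MulAut.mul_apply, mul_inv_cancel, MulAut.one_apply] at h2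
            exact (hP1mem _).2 (h2.1 ((hP1mem v).1 hy))
          · change e (f ((φ γ)⁻¹ v)) = f v
            rw [he, ← MulAut.mul_apply, mul_inv_cancel, MulAut.one_apply]
      have h2 := H32.SqAct.centerThompsonOf_map_equiv p e (P1 : Subgroup (V ⧸ L))
      rw [h1, ← hW1] at h2
      change f (φ γ x) ∈ W1 ↔ f x ∈ W1
      rw [← he]
      constructor
      · intro hx
        rw [← h2] at hx
        obtain ⟨z, hz, hzx⟩ := hx
        have : z = f x := e.injective hzx
        exact this ▸ hz
      · intro hx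
        rw [← h2]
        exact ⟨f x, hx, rfl⟩
    have hN : normalizer (W1 : Set (V ⧸ L)) ≤ (P1 : Subgroup (V ⧸ L)) := by
      rcases hmax K hK with h | h
      · exfalso
        apply hW1b
        have hn2 : (W1.comap f).Normal := by
          constructor
          intro x hx g
          obtain ⟨γ, hγ⟩ := hin g
          have h1 : γ ∈ K := h ▸ mem_top γ
          have h2 := (h1 x).2 hx
          rw [hγ] at h2
          exact h2
        have hp2 : IsPGroup p (W1.comap f) := by
          apply P.isPGroup'.to_le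
          intro v hv
          exact (hP1mem v).1 (hW1P hv)
        have h1 := le_pCore hn2 hp2
        rw [eq_bot_iff_forall]
        intro y hy
        obtain ⟨v, rfl⟩ := hs y
        exact (QuotientGroup.eq_one_iff v).2 (h1 hy)
      · intro y hy
        obtain ⟨v, rfl⟩ := hs y
        obtain ⟨γ, hγ⟩ := hin v
        have h1 : γ ∈ K := by
          intro x
          have h2 := (mem_normalizer_iff.1 hy) (f x)
          rw [← map_inv, ← map_mul, ← map_mul] at h2
          rw [hγ]
          exact h2.symm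
        rw [hP1mem, ← hself, mem_normalizer_iff]
        intro x
        have h2 := h γ h1 x
        rw [hγ] at h2
        exact h2.symm
    refine (S0117.result hp2 P1).2 ?_
    have hNp : IsPGroup p (normalizer (W1 : Set (V ⧸ L))) := P1.isPGroup'.to_le hN
    exact Transfer.hasNPC_of_isNilpotent hNp.isNilpotent

end Cfsg.Agent.H25
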