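import Cfsg.Agent.H25.MaxCentB
import Cfsg.Agent.Frob.Kernel

/-!
# Groups all of whose noncentral centralizers are maximal (relative version)

`Y` is a normal subgroup of `G` (through an embedding `ι`), and for every noncentral `y : Y` the
centralizer `cen ι y` of `ι y` in `G` is maximal.
-/

set_option autoImplicit false
set_option linter.style.haveILetI false
set_option linter.unusedSectionVars false

namespace Cfsg.Agent.H25

open Subgroup Cfsg Cfsg.Agent

/-- a self-normalizing `p`-subgroup is a Sylow subgroup -/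
theorem exists_sylow_eq {V : Type*} [Group V] [Finite V] {p : ℕ} [Fact p.Prime] {P : Subgroup V} (hP : IsPGroup p P)
    (hN : normalizer (P : Set V) ≤ P) : ∃ S : Sylow p V, (S : Subgroup V) = P := by
  obtain ⟨S, hS⟩ := hP.exists_le_sylow
  refine ⟨S, le_antisymm ?_ hS⟩
  by_contra hne
  have hnil : Group.IsNilpotent S := S.isPGroup'.isNilpotent
  have h1 : P.subgroupOf S < ⊤ := by
    rw [lt_top_iff_ne_top]
    intro h
    exact hne (subgroupOf_eq_top.1 h)
  have h2 := Group.normalizerCondition_of_isNilpotent (G := S) _ h1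
  obtain ⟨s, hs, hs'⟩ := SetLike.exists_of_lt h2
  apply hs'
  change (s : V) ∈ P
  apply hN
  rw [mem_normalizer_iff]
  intro x
  rw [mem_normalizer_iff] at hs
  constructor
  · intro hx
    exact (hs ⟨x, hS hx⟩).1 hx
  · intro hx
    have hxS : x ∈ (S : Subgroup V) := by
      have h3 : (s : V)⁻¹ * ((s : V) * x * (s : V)⁻¹) * s ∈ (S : Subgroup V) :=
        mul_mem (mul_mem (inv_mem s.2) (hS hx)) s.2
      have h4 : (s : V)⁻¹ * ((s : V) * x * (s : V)⁻¹) * s = x := by group
      rwa [h4] at h3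
    exact (hs ⟨x, hxS⟩).2 hx

theorem index_prime_of_coatom {G : Type*} [Group G] [Finite G] (M : Subgroup G) [M.Normal] (hM : IsCoatom M) :
    M.index.Prime := by
  have h1 : M.index ≠ 1 := fun h => hM.1 (Subgroup.index_eq_one.1 h)
  obtain ⟨p, hp, hpd⟩ := Nat.exists_prime_and_dvd h1
  haveI : Fact p.Prime := ⟨hp⟩
  rw [Subgroup.index_eq_card] at hpd
  obtain ⟨x, hx⟩ := exists_prime_orderOf_dvd_card' p hpd
  have h2 : (zpowers x).comap (QuotientGroup.mk' M) = ⊤ := by
    obtain ⟨g, rfl⟩ := QuotientGroup.mk'_surjective M x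
    apply hM.2
    rw [SetLike.lt_iff_le_and_exists]
    refine ⟨?_, g, mem_zpowers _, ?_⟩
    · intro m hm
      have : QuotientGroup.mk' M m = 1 := (QuotientGroup.eq_one_iff m).2 hm
      rw [mem_comap, this]; exact one_mem _
    · intro hg
      have : QuotientGroup.mk' M g = 1 := (QuotientGroup.eq_one_iff g).2 hg
      rw [this, orderOf_one] at hx
      exact hp.one_lt.ne hx
  have h3 : zpowers x = ⊤ := by
    have := Subgroup.map_comap_eq_self_of_surjective (QuotientGroup.mk'_surjective M) (zpowers x)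
    rw [h2, Subgroup.map_top_of_surjective _ (QuotientGroup.mk'_surjective M)] at this
    exact this.symm
  rw [Subgroup.index_eq_card, ← Subgroup.card_top, ← h3, Nat.card_zpowers, hx]
  exact hp

section

variable {G Y : Type*} [Group G] [Group Y] [Finite G] [Finite Y]

/-- the centralizer in `G` of `ι y` -/
def cen (ι : Y →* G) (y : Y) : Subgroup G := centralizer {ι y}

structure MaxCen (ι : Y →* G) (act : G →* MulAut Y) : Prop where
  inj : Function.Injective ι
  conj : ∀ (g : G) (y : Y), ι (act g y) = g * ι y * g⁻¹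
  max : ∀ y : Y, y ∉ center Y → IsCoatom (cen ι y)

variable {ι : Y →* G} {act : G →* MulAut Y}

theorem mem_cen {y : Y} {g : G} : g ∈ cen ι y ↔ g * ι y = ι y * g := by
  rw [cen, mem_centralizer_singleton_iff]

namespace MaxCen

variable (h : MaxCen ι act)
include h

theorem mem_cen_iff {y : Y} {g : G} : g ∈ cen ι y ↔ act g y = y := by
  rw [mem_cen]
  constructor
  · intro hg
    apply h.inj
    rw [h.conj, hg, mul_inv_cancel_right]
  · intro hg
    have h1 := h.conj g y
    rw [hg] at h1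
    calc g * ι y = (g * ι y * g⁻¹) * g := by group
      _ = ι y * g := by rw [← h1]

theorem act_ι (x y : Y) : act (ι x) y = x * y * x⁻¹ := by
  apply h.inj
  rw [h.conj, map_mul, map_mul, map_inv]

theorem ι_mem_cen {x y : Y} : ι x ∈ cen ι y ↔ x * y = y * x := by
  rw [mem_cen, ← map_mul, ← map_mul, h.inj.eq_iff]

theorem normal_map (K : Subgroup Y) (hK : ∀ g : G, ∀ x ∈ K, act g x ∈ K) : (K.map ι).Normal := by
  constructor
  rintro _ ⟨x, hx, rfl⟩ g
  exact ⟨act g x, hK g x hx, h.conj g x⟩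

theorem act_mem_center {g : G} {z : Y} (hz : z ∈ center Y) : act g z ∈ center Y := by
  have : (center Y).map (act g).toMonoidHom = center Y := by
    have hc : (center Y).Characteristic := inferInstance
    exact (Subgroup.characteristic_iff_map_eq.1 hc) (act g)
  rw [← this]
  exact ⟨z, hz, rfl⟩

theorem act_mem_center_iff {g : G} {z : Y} : act g z ∈ center Y ↔ z ∈ center Y := by
  refine ⟨fun hz => ?_, h.act_mem_center⟩
  have h1 := h.act_mem_center (g := g⁻¹) hz
  rw [map_inv, ← MulAut.mul_apply, inv_mul_cancel, MulAut.one_apply] at h1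
  exact h1

/-- decomposition over a maximal centralizer -/
theorem exists_mul {x : Y} (hx : x ∉ center Y) (K : Subgroup Y) (hK : ∀ g : G, ∀ k ∈ K, act g k ∈ K)
    (hKx : ∃ k ∈ K, k * x ≠ x * k) (g : G) : ∃ c ∈ cen ι x, ∃ k ∈ K, g = c * ι k := by
  haveI := h.normal_map K hK
  have h1 : cen ι x ⊔ K.map ι = ⊤ := by
    apply (h.max x hx).2
    rw [left_lt_sup]
    intro hle
    obtain ⟨k, hk, hkx⟩ := hKx
    exact hkx (h.ι_mem_cen.1 (hle ⟨k, hk, rfl⟩))
  have h2 : g ∈ cen ι x ⊔ K.map ι := h1 ▸ mem_top g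
  obtain ⟨c, hc, _, ⟨k, hk, rfl⟩, hck⟩ := mem_sup_of_normal_right.1 h2
  exact ⟨c, hc, k, hk, hck.symm⟩

theorem exists_mul' {x : Y} (hx : x ∉ center Y) (K : Subgroup Y) (hK : ∀ g : G, ∀ k ∈ K, act g k ∈ K)
    (hKx : ∃ k ∈ K, k * x ≠ x * k) (y : Y) : ∃ c : Y, c * x = x * c ∧ ∃ k ∈ K, y = c * k := by
  obtain ⟨c, hc, k, hk, hy⟩ := h.exists_mul hx K hK hKx (ι y)
  refine ⟨y * k⁻¹, ?_, k, hk, by group⟩
  rw [← h.ι_mem_cen]
  have : ι (y * k⁻¹) = c := by rw [map_mul, map_inv, hy]; group
  rw [this]; exact hc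

/-! ### all centralizers normal -/

theorem comm_of_normal (hn : ∀ x : Y, x ∉ center Y → ∀ (g : G) (y : Y), y * x = x * y → act g y * x = x * act g y)
    (n y : Y) : n * y * n⁻¹ * y⁻¹ ∈ center Y := by
  rw [mem_center_iff]
  intro x
  by_cases hx : x ∈ center Y
  · exact ((mem_center_iff.1 hx) _).symm
  have hD : ∀ (u v : Y), u * x = x * u → (v * u * v⁻¹) * x = x * (v * u * v⁻¹) := by
    intro u v hu
    rw [← h.act_ι]
    exact hn x hx (ι v) u hu
  by_cases hy : y * x = x * y
  · have h1 := hD y n hy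
    have h2 : Commute (n * y * n⁻¹) x := h1
    have h3 : Commute y x := hy
    exact (h2.mul_left h3.inv_left).eq.symm
  · have hyc : y ∉ center Y := fun hc => hy ((mem_center_iff.1 hc) x).symm
    -- n = c * d, c commutes with x, d commutes with y
    let K : Subgroup Y := centralizer {y}
    have hK : ∀ g : G, ∀ k ∈ K, act g k ∈ K := by
      intro g k hk
      rw [mem_centralizer_singleton_iff] at hk ⊢
      exact hn y hyc g k hk
    obtain ⟨c, hc, d, hd, rfl⟩ := h.exists_mul' hx K hK ⟨y, by rw [mem_centralizer_singleton_iff], hy⟩ n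
    rw [mem_centralizer_singleton_iff] at hd
    have h1 : c * d * y * (c * d)⁻¹ * y⁻¹ = c * (y * c⁻¹ * y⁻¹) := by
      calc c * d * y * (c * d)⁻¹ * y⁻¹ = c * (d * y) * d⁻¹ * c⁻¹ * y⁻¹ := by group
        _ = c * (y * d) * d⁻¹ * c⁻¹ * y⁻¹ := by rw [hd]
        _ = _ := by group
    rw [h1]
    have h2 : Commute c x := hc
    have h3 : Commute (y * c⁻¹ * y⁻¹) x := hD c⁻¹ y h2.inv_left.eq
    exact (h2.mul_left h3).eq.symm

theorem exists_prime_pow (hn : ∀ x : Y, x ∉ center Y → ∀ (g : G) (y : Y), y * x = x * y → act g y * x = x * act g y)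
    {x : Y} (hx : x ∉ center Y) : ∃ p : ℕ, p.Prime ∧ x ^ p ∈ center Y := by
  have hcomm := h.comm_of_normal hn
  set D : Subgroup Y := centralizer {x} with hD
  have hDn : D.Normal := by
    constructor
    intro u hu v
    rw [mem_centralizer_singleton_iff] at hu ⊢
    rw [← h.act_ι]
    exact hn x hx (ι v) u hu
  have hZD : center Y ≤ D := by
    intro z hz
    rw [mem_centralizer_singleton_iff]
    exact ((mem_center_iff.1 hz) x).symm
  have hDtop : D ≠ ⊤ := by
    intro htop
    apply hx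
    rw [mem_center_iff]
    intro y
    have : y ∈ D := htop ▸ mem_top y
    rwa [mem_centralizer_singleton_iff] at this
  -- Q = Y / D
  obtain ⟨p, hp, hpd⟩ := Nat.exists_prime_and_dvd (show D.index ≠ 1 from fun h => hDtop (Subgroup.index_eq_one.1 h))
  haveI : Fact p.Prime := ⟨hp⟩
  rw [Subgroup.index_eq_card] at hpd
  obtain ⟨q, hq⟩ := exists_prime_orderOf_dvd_card' p hpd
  obtain ⟨y0, rfl⟩ := QuotientGroup.mk'_surjective D q
  have hQc : ∀ a b : Y, (QuotientGroup.mk' D a) * (QuotientGroup.mk' D b) = (QuotientGroup.mk' D b) * (QuotientGroup.mk' D a) := by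
    intro a b
    rw [← map_mul, ← map_mul]
    apply QuotientGroup.eq.2
    have h1 := hZD (hcomm (b⁻¹) (a⁻¹))
    have h2 : (a * b)⁻¹ * (b * a) = b⁻¹ * a⁻¹ * (b⁻¹)⁻¹ * (a⁻¹)⁻¹ := by group
    rw [h2]
    exact h1
  let K : Subgroup Y :=
    { carrier := {y | y ^ p ∈ D}
      one_mem' := by simp [one_mem]
      mul_mem' := by
        intro a b ha hb
        have ha' : (QuotientGroup.mk' D a) ^ p = 1 := by rw [← map_pow]; exact (QuotientGroup.eq_one_iff _).2 ha
        have hb' : (QuotientGroup.mk' D b) ^ p = 1 := by rw [← map_pow]; exact (QuotientGroup.eq_one_iff _).2 hb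
        have h1 : (QuotientGroup.mk' D (a * b)) ^ p = 1 := by
          rw [map_mul, Commute.mul_pow (hQc a b), ha', hb', one_mul]
        rw [← map_pow] at h1
        exact (QuotientGroup.eq_one_iff _).1 h1
      inv_mem' := by
        intro a ha
        change (a⁻¹) ^ p ∈ D
        rw [inv_pow]; exact inv_mem ha }
  have hDK : ∀ u : Y, u * x = x * u → u ∈ K := by
    intro u hu
    have : u ∈ D := by rw [mem_centralizer_singleton_iff]; exact hu
    exact pow_mem this p
  have hK : ∀ g : G, ∀ k ∈ K, act g k ∈ K := by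
    intro g k hk
    change (act g k) ^ p ∈ D
    rw [← map_pow, mem_centralizer_singleton_iff]
    exact hn x hx g _ (mem_centralizer_singleton_iff.1 hk)
  have hy0K : y0 ∈ K := by
    change y0 ^ p ∈ D
    rw [← QuotientGroup.eq_one_iff]
    have : (QuotientGroup.mk' D y0) ^ p = 1 := by rw [← hq, pow_orderOf_eq_one]
    rw [← map_pow] at this
    exact this
  have hy0 : y0 * x ≠ x * y0 := by
    intro hc
    have h1 : y0 ∈ D := by rw [mem_centralizer_singleton_iff]; exact hc
    have h2 : QuotientGroup.mk' D y0 = 1 := (QuotientGroup.eq_one_iff _).2 h1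
    rw [h2, orderOf_one] at hq
    exact hp.one_lt.ne hq
  have hall : ∀ y : Y, y ∈ K := by
    intro y
    obtain ⟨c, hc, k, hk, rfl⟩ := h.exists_mul' hx K hK ⟨y0, hy0K, hy0⟩ y
    exact mul_mem (hDK c hc) hk
  refine ⟨p, hp, ?_⟩
  rw [mem_center_iff]
  intro n
  -- z = n⁻¹ x n x⁻¹ central
  have hz := hcomm n⁻¹ x
  rw [inv_inv] at hz
  set z := n⁻¹ * x * n * x⁻¹ with hzdef
  have h1 : n⁻¹ * x * n = z * x := by rw [hzdef]; group
  have h2 : x * n * x⁻¹ = n * z := by rw [hzdef]; group
  have hzp : z ^ p = 1 := by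
    have h3 : (x * n * x⁻¹) ^ p = n ^ p * z ^ p := by
      rw [h2]
      exact Commute.mul_pow ((mem_center_iff.1 hz) n) p
    have h4 : (x * n * x⁻¹) ^ p = n ^ p := by
      rw [conj_pow]
      have h5 : n ^ p ∈ D := hall n
      rw [mem_centralizer_singleton_iff] at h5
      rw [← h5]; group
    rw [h4] at h3
    exact (mul_eq_left.1 h3.symm)
  have h6 : n⁻¹ * x ^ p * n = x ^ p := by
    have h7 : (n⁻¹ * x * n) ^ p = n⁻¹ * x ^ p * n := by
      have := conj_pow (i := p) (a := n⁻¹) (b := x)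
      rwa [inv_inv] at this
    rw [← h7, h1, Commute.mul_pow ((mem_center_iff.1 hz) x).symm, hzp, one_mul]
  calc n * x ^ p = n * (n⁻¹ * x ^ p * n) := by rw [h6]
    _ = x ^ p * n := by group

theorem elementary_of_normal (hn : ∀ x : Y, x ∉ center Y → ∀ (g : G) (y : Y), y * x = x * y → act g y * x = x * act g y) :
    ∃ p : ℕ, p.Prime ∧ IsElementaryAbelian p (⊤ : Subgroup (Y ⧸ center Y)) := by
  have hcomm := h.comm_of_normal hn
  have hVc : ∀ a b : Y ⧸ center Y, a * b = b * a := by
    intro a b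
    obtain ⟨a, rfl⟩ := QuotientGroup.mk'_surjective _ a
    obtain ⟨b, rfl⟩ := QuotientGroup.mk'_surjective _ b
    rw [← map_mul, ← map_mul]
    apply QuotientGroup.eq.2
    have h1 := (hcomm (b⁻¹) (a⁻¹))
    have h2 : (a * b)⁻¹ * (b * a) = b⁻¹ * a⁻¹ * (b⁻¹)⁻¹ * (a⁻¹)⁻¹ := by group
    rw [h2]
    exact h1
  have hpr : ∀ v : Y ⧸ center Y, v ≠ 1 → (orderOf v).Prime := by
    intro v hv
    obtain ⟨x, rfl⟩ := QuotientGroup.mk'_surjective _ v
    have hx : x ∉ center Y := fun hc => hv ((QuotientGroup.eq_one_iff _).2 hc)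
    obtain ⟨p, hp, hxp⟩ := h.exists_prime_pow hn hx
    haveI : Fact p.Prime := ⟨hp⟩
    rw [orderOf_eq_prime (p := p) _ hv]
    · exact hp
    · rw [← map_pow]; exact (QuotientGroup.eq_one_iff _).2 hxp
  by_cases htriv : ∀ v : Y ⧸ center Y, v = 1
  · refine ⟨2, Nat.prime_two, ⟨⟨fun a b => Subtype.ext (hVc a b)⟩⟩, ?_⟩
    intro a _
    rw [htriv a, one_pow]
  · push Not at htriv
    obtain ⟨v0, hv0⟩ := htriv
    refine ⟨orderOf v0, hpr v0 hv0, ⟨⟨fun a b => Subtype.ext (hVc a b)⟩⟩, ?_⟩
    intro w _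
    by_cases hw : w = 1
    · rw [hw, one_pow]
    by_contra hne
    have hpp := hpr v0 hv0
    have hqp := hpr w hw
    have hpq : orderOf v0 ≠ orderOf w := by
      intro h1; apply hne; rw [h1, pow_orderOf_eq_one]
    have hcop : (orderOf v0).Coprime (orderOf w) := (Nat.coprime_primes hpp hqp).2 hpq
    have h1 : orderOf (v0 * w) = orderOf v0 * orderOf w := Commute.orderOf_mul_eq_mul_orderOf_of_coprime (hVc v0 w) hcop
    have h2 : v0 * w ≠ 1 := by
      intro h3
      rw [h3, orderOf_one] at h1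
      exact hpp.one_lt.ne' (Nat.eq_one_of_mul_eq_one_right h1.symm)
    have h3 := hpr _ h2
    rw [h1] at h3
    exact Nat.not_prime_mul hpp.one_lt.ne' hqp.one_lt.ne' h3

end MaxCen

end

end Cfsg.Agent.H25
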