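import Cfsg.Agent.H25.MaxCentC

set_option autoImplicit false
set_option linter.style.haveILetI false
set_option linter.unusedSectionVars false

namespace Cfsg.Agent.H25

open Subgroup Cfsg Cfsg.Agent

section

variable {G Y : Type*} [Group G] [Group Y] [Finite G] [Finite Y] {ι : Y →* G} {act : G →* MulAut Y}

namespace MaxCen

variable (h : MaxCen ι act)
include h

theorem eq_of_le {x y : Y} (hx : x ∉ center Y) (hy : y ∉ center Y) (hle : cen ι x ≤ cen ι y) : cen ι x = cen ι y := by
  by_contra hne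
  exact (h.max y hy).1 ((h.max x hx).2 _ (lt_of_le_of_ne hle hne))

/-- the stabilizer of the centralizer in `Y` -/
def stab (_h : MaxCen ι act) (x : Y) : Subgroup G where
  carrier := {g | ∀ y : Y, act g y * x = x * act g y ↔ y * x = x * y}
  one_mem' := fun y => by rw [map_one]; rfl
  mul_mem' := by
    intro a b ha hb y
    rw [map_mul, MulAut.mul_apply, ha, hb]
  inv_mem' := by
    intro a ha y
    have := ha ((act a)⁻¹ y)
    rw [← MulAut.mul_apply, mul_inv_cancel, MulAut.one_apply] at this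
    rw [map_inv]
    exact this.symm

theorem cen_le_stab (x : Y) : cen ι x ≤ h.stab x := by
  intro g hg y
  have hgx := h.mem_cen_iff.1 hg
  constructor
  · intro hy
    apply (act g).injective
    rw [map_mul, map_mul, hgx, hy]
  · intro hy
    have := congrArg (act g) hy
    rwa [map_mul, map_mul, hgx] at this

theorem stab_eq {x : Y} (hx : x ∉ center Y)
    (hnn : ¬ ∀ (g : G) (y : Y), y * x = x * y → act g y * x = x * act g y) : h.stab x = cen ι x := by
  by_contra hne
  have h1 : h.stab x = ⊤ := (h.max x hx).2 _ (lt_of_le_of_ne (h.cen_le_stab x) (Ne.symm hne))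
  apply hnn
  intro g y hy
  have h2 : g ∈ h.stab x := h1 ▸ mem_top g
  exact (h2 y).2 hy

theorem cen_pow {w : Y} {k : ℕ} (hw : w ^ k ∉ center Y) : cen ι (w ^ k) = cen ι w := by
  have hw' : w ∉ center Y := fun hc => hw (pow_mem hc k)
  symm
  apply h.eq_of_le hw' hw
  intro g hg
  rw [h.mem_cen_iff] at hg ⊢
  rw [map_pow, hg]

theorem act_center {x : Y} (hx : x ∉ center Y)
    (hnn : ¬ ∀ (g : G) (y : Y), y * x = x * y → act g y * x = x * act g y) {z : Y} (hz : z ∈ center Y) (g : G) :
    act g z = z := by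
  have hcomm : ∀ y : Y, y * (x * z) = (x * z) * y ↔ y * x = x * y := by
    intro y
    have h1 : y * (x * z) = (y * x) * z := by group
    have h2 : (x * z) * y = (x * y) * z := by rw [mul_assoc, ← (mem_center_iff.1 hz) y]; group
    rw [h1, h2]
    exact mul_left_inj z
  have hxz : x * z ∉ center Y := by
    intro hc
    apply hx
    have := mul_mem hc (inv_mem hz)
    rwa [mul_inv_cancel_right] at this
  have h1 : cen ι (x * z) = cen ι x := by
    apply h.eq_of_le hxz hx
    rw [← h.stab_eq hx hnn]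
    intro g hg y
    have := (h.cen_le_stab (x * z) hg) y
    rw [hcomm, hcomm] at this
    exact this
  have h2 : ∀ c ∈ cen ι x, act c z = z := by
    intro c hc
    have h3 : c ∈ cen ι (x * z) := h1 ▸ hc
    rw [h.mem_cen_iff] at hc h3
    rw [map_mul, hc] at h3
    exact mul_left_cancel h3
  obtain ⟨y0, hy0⟩ : ∃ y0 : Y, y0 * x ≠ x * y0 := by
    by_contra hcon
    push Not at hcon
    exact hx (mem_center_iff.2 hcon)
  obtain ⟨c, hc, k, -, rfl⟩ := h.exists_mul hx ⊤ (fun _ _ _ => mem_top _) ⟨y0, mem_top _, hy0⟩ g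
  rw [map_mul, MulAut.mul_apply, h.act_ι, (mem_center_iff.1 hz) k, mul_inv_cancel_right]
  exact h2 c hc

theorem cen_mul_center (hc : ∀ z ∈ center Y, ∀ g : G, act g z = z) {x z : Y} (hz : z ∈ center Y) :
    cen ι (x * z) = cen ι x := by
  ext g
  rw [h.mem_cen_iff, h.mem_cen_iff, map_mul, hc z hz g]
  exact mul_left_inj z

theorem orderOf_dvd_aux (hc : ∀ z ∈ center Y, ∀ g : G, act g z = z) {u y : Y} (hu : u ∉ center Y) (hy : y ∉ center Y)
    (huy : Commute (QuotientGroup.mk' (center Y) u) (QuotientGroup.mk' (center Y) y)) (hne : cen ι u ≠ cen ι y) :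
    orderOf (QuotientGroup.mk' (center Y) y) ∣ orderOf (QuotientGroup.mk' (center Y) u) := by
  set a := orderOf (QuotientGroup.mk' (center Y) u) with ha
  apply orderOf_dvd_of_pow_eq_one
  rw [← map_pow]
  by_contra hcon
  have hya : y ^ a ∉ center Y := fun hc' => hcon ((QuotientGroup.eq_one_iff _).2 hc')
  have h1 : QuotientGroup.mk' (center Y) ((u * y) ^ a) = QuotientGroup.mk' (center Y) (y ^ a) := by
    rw [map_pow, map_mul, huy.mul_pow, ha, pow_orderOf_eq_one, one_mul, ← map_pow]
  have h2 : (u * y) ^ a ∉ center Y := by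
    intro hc'
    have h3 : QuotientGroup.mk' (center Y) ((u * y) ^ a) = 1 := (QuotientGroup.eq_one_iff _).2 hc'
    rw [h3] at h1
    exact hcon h1.symm
  have h3 : ∃ z ∈ center Y, (u * y) ^ a = y ^ a * z := by
    refine ⟨(y ^ a)⁻¹ * (u * y) ^ a, ?_, by group⟩
    exact QuotientGroup.eq.1 h1.symm
  obtain ⟨z, hz, hz'⟩ := h3
  have h4 : cen ι (u * y) = cen ι y := by
    rw [← h.cen_pow h2, hz', h.cen_mul_center hc hz, h.cen_pow hya]
  apply hne
  symm
  apply h.eq_of_le hy hu
  intro g hg
  have h5 : g ∈ cen ι (u * y) := h4 ▸ hg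
  rw [h.mem_cen_iff] at h5 hg ⊢
  rw [map_mul, hg] at h5
  exact mul_right_cancel h5

theorem orderOf_eq (hc : ∀ z ∈ center Y, ∀ g : G, act g z = z) {u y : Y} (hu : u ∉ center Y) (hy : y ∉ center Y)
    (huy : Commute (QuotientGroup.mk' (center Y) u) (QuotientGroup.mk' (center Y) y)) (hne : cen ι u ≠ cen ι y) :
    orderOf (QuotientGroup.mk' (center Y) u) = orderOf (QuotientGroup.mk' (center Y) y) :=
  Nat.dvd_antisymm (h.orderOf_dvd_aux hc hy hu huy.symm (Ne.symm hne)) (h.orderOf_dvd_aux hc hu hy huy hne)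

theorem orderOf_prime (hc : ∀ z ∈ center Y, ∀ g : G, act g z = z) {u y : Y} (hu : u ∉ center Y) (hy : y ∉ center Y)
    (huy : Commute (QuotientGroup.mk' (center Y) u) (QuotientGroup.mk' (center Y) y)) (hne : cen ι u ≠ cen ι y) :
    (orderOf (QuotientGroup.mk' (center Y) u)).Prime := by
  set π := QuotientGroup.mk' (center Y)
  have hu1 : π u ≠ 1 := fun h1 => hu ((QuotientGroup.eq_one_iff _).1 h1)
  have h1 : orderOf (π u) ≠ 1 := fun h1 => hu1 (orderOf_eq_one_iff.1 h1)
  obtain ⟨q, hq, hqd⟩ := Nat.exists_prime_and_dvd h1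
  by_cases hqa : orderOf (π u) = q
  · rw [hqa]; exact hq
  exfalso
  have h2 : u ^ q ∉ center Y := by
    intro hc'
    have h3 : π (u ^ q) = 1 := (QuotientGroup.eq_one_iff _).2 hc'
    rw [map_pow] at h3
    exact hqa (Nat.dvd_antisymm (orderOf_dvd_of_pow_eq_one h3) hqd)
  have h3 : cen ι (u ^ q) ≠ cen ι y := by rw [h.cen_pow h2]; exact hne
  have h4 : orderOf (π (u ^ q)) = orderOf (π y) := h.orderOf_eq hc h2 hy (by rw [map_pow]; exact huy.pow_left q) h3
  have h5 : orderOf (π u) = orderOf (π y) := h.orderOf_eq hc hu hy huy hne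
  rw [map_pow, orderOf_pow, ← h5, Nat.gcd_eq_right hqd] at h4
  have h6 : 0 < orderOf (π u) := orderOf_pos _
  have h7 := Nat.div_lt_self h6 hq.one_lt
  omega

/-- the induced action on `Y / Z(Y)` -/
def qact (_h : MaxCen ι act) : G →* MulAut (Y ⧸ center Y) where
  toFun g := QuotientGroup.congr (center Y) (center Y) (act g)
    (Subgroup.characteristic_iff_map_eq.1 (inferInstance : (center Y).Characteristic) (act g))
  map_one' := by
    ext v
    obtain ⟨x, rfl⟩ := QuotientGroup.mk'_surjective _ v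
    change QuotientGroup.mk' _ (act 1 x) = _
    rw [map_one]; rfl
  map_mul' := by
    intro a b
    ext v
    obtain ⟨x, rfl⟩ := QuotientGroup.mk'_surjective _ v
    change QuotientGroup.mk' _ (act (a * b) x) = QuotientGroup.mk' _ (act a (act b x))
    rw [map_mul]; rfl

theorem qact_mk (g : G) (x : Y) : h.qact g (QuotientGroup.mk' (center Y) x) = QuotientGroup.mk' (center Y) (act g x) := rfl

omit h in
theorem mk_mem_map {x y : Y} : QuotientGroup.mk' (center Y) y ∈ (centralizer {x} : Subgroup Y).map (QuotientGroup.mk' (center Y)) ↔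
    y * x = x * y := by
  constructor
  · rintro ⟨d, hd, hdy⟩
    rw [SetLike.mem_coe, mem_centralizer_singleton_iff] at hd
    have h1 : d⁻¹ * y ∈ center Y := QuotientGroup.eq.1 hdy
    have h2 : y = d * (d⁻¹ * y) := by group
    have h3 : Commute d x := hd
    have h4 : Commute (d⁻¹ * y) x := ((mem_center_iff.1 h1) x).symm
    rw [h2]
    exact (h3.mul_left h4).eq
  · intro hy
    exact ⟨y, by rw [SetLike.mem_coe, mem_centralizer_singleton_iff]; exact hy, rfl⟩

/-- case (ii) is impossible -/
theorem cen_eq_of_comm {x : Y} (hx : x ∉ center Y)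
    (hnn : ¬ ∀ (g : G) (y : Y), y * x = x * y → act g y * x = x * act g y) {y : Y} (hy : y ∉ center Y)
    (hyx : y * x = x * y) : cen ι y = cen ι x := by
  by_contra hne
  have hc : ∀ z ∈ center Y, ∀ g : G, act g z = z := fun z hz g => h.act_center hx hnn hz g
  set π := QuotientGroup.mk' (center Y) with hπ
  have hpi1 : ∀ {v : Y}, v ∉ center Y → π v ≠ 1 := fun hv h1 => hv ((QuotientGroup.eq_one_iff _).1 h1)
  set p := orderOf (π y) with hp
  have hpp : p.Prime := h.orderOf_prime hc hy hx (by rw [Commute, SemiconjBy, ← map_mul, hyx, map_mul]) hne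
  haveI : Fact p.Prime := ⟨hpp⟩
  have hxp : orderOf (π x) = p := (h.orderOf_eq hc hy hx (by rw [Commute, SemiconjBy, ← map_mul, hyx, map_mul]) hne).symm
  -- exponent p
  have hexp0 : ∀ w : Y, w * x = x * w → π w ^ p = 1 := by
    intro w hw
    by_cases hwc : w ∈ center Y
    · rw [(QuotientGroup.eq_one_iff w).2 hwc |> (fun e => (show π w = 1 from e)), one_pow]
    by_cases hwx : cen ι w = cen ι x
    · have h1 : y * w = w * y := by
        have h2 : ι y ∈ cen ι x := h.ι_mem_cen.2 hyx
        rw [← hwx] at h2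
        exact h.ι_mem_cen.1 h2
      have h3 := h.orderOf_eq hc hy hwc (by rw [Commute, SemiconjBy, ← map_mul, h1, map_mul]) (by rw [hwx]; exact hne)
      have h4 : p = orderOf (π w) := h3
      rw [h4, pow_orderOf_eq_one]
    · have h3 := h.orderOf_eq hc hwc hx (by rw [Commute, SemiconjBy, ← map_mul, hw, map_mul]) hwx
      have h4 : orderOf (π w) = p := h3.trans hxp
      rw [← h4, pow_orderOf_eq_one]
  set P0 : Subgroup (Y ⧸ center Y) := (centralizer {x} : Subgroup Y).map π with hP0
  have hP0mem : ∀ w : Y, π w ∈ P0 ↔ w * x = x * w := fun w => mk_mem_map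
  have hexp1 : ∀ v ∈ P0, v ^ p = 1 := by
    intro v hv
    obtain ⟨w, rfl⟩ := QuotientGroup.mk'_surjective _ v
    exact hexp0 w ((hP0mem w).1 hv)
  have hPp : IsPGroup p P0 := by
    rintro ⟨v, hv⟩
    exact ⟨1, Subtype.ext (by rw [pow_one]; exact hexp1 v hv)⟩
  have hstab := h.stab_eq hx hnn
  have hself : normalizer (P0 : Set (Y ⧸ center Y)) ≤ P0 := by
    intro v hv
    obtain ⟨n, rfl⟩ := QuotientGroup.mk'_surjective _ v
    rw [hP0mem, ← h.ι_mem_cen, ← hstab]
    intro w
    rw [h.act_ι, ← hP0mem, ← hP0mem, map_mul, map_mul, map_inv]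
    exact ((mem_normalizer_iff.1 hv) (π w)).symm
  obtain ⟨P, hP⟩ := exists_sylow_eq hPp hself
  have hcard : Nat.card P = p := by
    refine card_sylow_eq_of_action h.qact ?_ P ?_ ?_ ?_ ?_ ?_
    · intro v
      obtain ⟨n, rfl⟩ := QuotientGroup.mk'_surjective _ v
      refine ⟨ι n, ?_⟩
      ext w
      obtain ⟨w, rfl⟩ := QuotientGroup.mk'_surjective _ w
      rw [h.qact_mk, h.act_ι, MulAut.conj_apply, map_mul, map_mul, map_inv]
    · rw [hP]; exact hexp1
    · intro a b ha ⟨k, hak⟩ hb hab
      by_contra hb1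
      obtain ⟨u, rfl⟩ := QuotientGroup.mk'_surjective _ a
      obtain ⟨w, rfl⟩ := QuotientGroup.mk'_surjective _ b
      have huc : u ∉ center Y := fun hc' => ha ((QuotientGroup.eq_one_iff _).2 hc')
      have hwc : w ∉ center Y := fun hc' => hb1 ((QuotientGroup.eq_one_iff _).2 hc')
      have hpu : p ∣ orderOf (π u) := by
        obtain ⟨j, -, hj⟩ := (Nat.dvd_prime_pow hpp).1 (orderOf_dvd_of_pow_eq_one hak)
        rw [hj]
        apply dvd_pow_self
        rintro rfl
        rw [pow_zero] at hj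
        exact ha (orderOf_eq_one_iff.1 hj)
      by_cases huw : cen ι u = cen ι w
      · -- conjugate into P
        have hzp : IsPGroup p (zpowers (π u)) := by
          rw [IsPGroup.iff_card]
          obtain ⟨j, -, hj⟩ := (Nat.dvd_prime_pow hpp).1 (orderOf_dvd_of_pow_eq_one hak)
          exact ⟨j, by rw [Nat.card_zpowers]; exact hj⟩
        obtain ⟨Q, hQ⟩ := hzp.exists_le_sylow
        obtain ⟨g, hg⟩ := MulAction.exists_smul_eq (Y ⧸ center Y) Q P
        obtain ⟨n, rfl⟩ := QuotientGroup.mk'_surjective _ g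
        have h1 : π n * π u * (π n)⁻¹ ∈ (P : Subgroup (Y ⧸ center Y)) := by
          rw [← hg]
          exact ⟨π u, hQ (mem_zpowers _), rfl⟩
        rw [hP, ← map_inv, ← map_mul, ← map_mul, hP0mem] at h1
        -- n u n⁻¹ commutes with x
        have h2 : ι (n⁻¹ * x * n) ∈ cen ι u := by
          rw [h.ι_mem_cen]
          calc n⁻¹ * x * n * u = n⁻¹ * (x * (n * u * n⁻¹)) * n := by group
            _ = n⁻¹ * ((n * u * n⁻¹) * x) * n := by rw [h1]
            _ = u * (n⁻¹ * x * n) := by group
        rw [huw, h.ι_mem_cen] at h2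
        have h3 : (n * w * n⁻¹) * x = x * (n * w * n⁻¹) := by
          calc (n * w * n⁻¹) * x = n * (w * (n⁻¹ * x * n)) * n⁻¹ := by group
            _ = n * ((n⁻¹ * x * n) * w) * n⁻¹ := by rw [h2]
            _ = _ := by group
        have h4 := hexp0 _ h3
        rw [map_mul, map_mul, map_inv, conj_pow, conj_eq_one_iff] at h4
        have h5 : orderOf (π w) ∣ p := orderOf_dvd_of_pow_eq_one h4
        have h6 : orderOf (π w) = 1 := Nat.Coprime.eq_one_of_dvd hb h5
        exact hb1 (orderOf_eq_one_iff.1 h6)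
      · have h3 : orderOf (π u) = orderOf (π w) := h.orderOf_eq hc huc hwc hab huw
        rw [h3] at hpu
        have := Nat.Coprime.eq_one_of_dvd hb.symm hpu
        exact hpp.one_lt.ne' this
    · rw [hP]; exact le_antisymm hself le_normalizer
    · intro K hK
      have h1 : cen ι x ≤ K := by
        intro g hg
        apply hK
        intro v
        obtain ⟨w, rfl⟩ := QuotientGroup.mk'_surjective _ v
        rw [h.qact_mk, hP, hP0mem, hP0mem]
        exact (h.cen_le_stab x hg) w
      rcases eq_or_lt_of_le h1 with h2 | h2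
      · right
        rw [← h2]
        intro g hg v
        obtain ⟨w, rfl⟩ := QuotientGroup.mk'_surjective _ v
        rw [h.qact_mk, hP, hP0mem, hP0mem]
        exact (h.cen_le_stab x hg) w
      · left
        exact (h.max x hx).2 _ h2
    · by_contra hcon
      push Not at hcon
      apply hnn
      intro g w hw
      have h1 := hcon g (π w)
      rw [h.qact_mk, hP, hP0mem, hP0mem] at h1
      exact h1.2 hw
  -- so y is a power of x
  have hcard' : Nat.card P0 = p := by rw [← hP]; exact hcard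
  have hxP : π x ∈ P0 := (hP0mem x).2 rfl
  have hyP : π y ∈ P0 := (hP0mem y).2 hyx
  have hz : zpowers (π x) = P0 := by
    apply Subgroup.eq_of_le_of_card_ge (by rwa [zpowers_le])
    rw [Nat.card_zpowers, hxp, hcard']
  rw [← hz] at hyP
  obtain ⟨k, hk⟩ := hyP
  have h1 : x ^ k * ((x ^ k)⁻¹ * y) = y := by group
  have h2 : (x ^ k)⁻¹ * y ∈ center Y := by
    apply QuotientGroup.eq.1
    have h3 : π (x ^ k) = π y := by rw [map_zpow]; exact hk
    exact h3
  apply hne
  symm
  apply h.eq_of_le hx hy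
  intro g hg
  rw [h.mem_cen_iff] at hg ⊢
  rw [← h1, map_mul, map_zpow, hg, hc _ h2]

end MaxCen

end

end Cfsg.Agent.H25
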