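import Cfsg.Agent.H25.MaxCentD

set_option autoImplicit false
set_option linter.style.haveILetI false
set_option linter.unusedSectionVars false

namespace Cfsg.Agent.H25

open Subgroup Cfsg Cfsg.Agent

/-- elements commuting with a nonidentity element of a normal Frobenius kernel lie in the kernel -/
theorem mem_kernel_of_comm {V : Type*} [Group V] [Finite V] {Q K : Subgroup V} [K.Normal] (hQ : IsFrobeniusComplement Q)
    (hK : (K : Set V) = frobeniusKernel Q) {a b : V} (ha : a ∈ K) (ha1 : a ≠ 1) (hab : a * b = b * a) : b ∈ K := by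
  by_contra hb
  have hb' : b ∉ frobeniusKernel Q := fun h => hb (by rw [← hK] at h; exact h)
  rw [Frob.not_mem_frobeniusKernel_iff] at hb'
  obtain ⟨hb1, g, hg⟩ := hb'
  have h1 : g⁻¹ * b * g ≠ 1 := by
    intro h1
    apply hb1
    calc b = g * (g⁻¹ * b * g) * g⁻¹ := by group
      _ = 1 := by rw [h1]; group
  have h2 : (g⁻¹ * a * g) * (g⁻¹ * b * g) * (g⁻¹ * a * g)⁻¹ ∈ Q := by
    have : (g⁻¹ * a * g) * (g⁻¹ * b * g) * (g⁻¹ * a * g)⁻¹ = g⁻¹ * (a * b * a⁻¹) * g := by group
    rw [this, hab, mul_inv_cancel_right]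
    exact hg
  have h3 : g⁻¹ * a * g ∈ Q := Frob.mem_of_conj_mem hQ hg h1 h2
  have h4 : g⁻¹ * a * g ∈ K := by
    have := (inferInstance : K.Normal).conj_mem a ha g⁻¹
    rwa [inv_inv] at this
  have h5 : g⁻¹ * a * g ∈ frobeniusKernel Q := by rw [← hK]; exact h4
  have h6 := Frob.frobeniusKernel_inter h5 h3
  apply ha1
  calc a = g * (g⁻¹ * a * g) * g⁻¹ := by group
    _ = 1 := by rw [h6]; group

section

variable {G Y : Type*} [Group G] [Group Y] [Finite G] [Finite Y] {ι : Y →* G} {act : G →* MulAut Y}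

namespace MaxCen

variable (h : MaxCen ι act)
include h

theorem frobenius {x : Y} (hx : x ∉ center Y)
    (hnn : ¬ ∀ (g : G) (y : Y), y * x = x * y → act g y * x = x * act g y) :
    IsFrobeniusComplement ((centralizer {x} : Subgroup Y).map (QuotientGroup.mk' (center Y))) := by
  set π := QuotientGroup.mk' (center Y) with hπ
  have hP0mem : ∀ w : Y, π w ∈ (centralizer {x} : Subgroup Y).map π ↔ w * x = x * w := fun w => mk_mem_map
  rw [Frob.isFrobeniusComplement_iff]
  refine ⟨?_, ?_, ?_⟩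
  · intro hb
    have h1 : π x ∈ (centralizer {x} : Subgroup Y).map π := (hP0mem x).2 rfl
    rw [hb, mem_bot] at h1
    exact hx ((QuotientGroup.eq_one_iff _).1 h1)
  · intro ht
    apply hx
    rw [mem_center_iff]
    intro y
    rw [← hP0mem, ht]
    exact mem_top _
  · intro g v hv hv1 hg
    obtain ⟨n, rfl⟩ := QuotientGroup.mk'_surjective _ g
    obtain ⟨w, rfl⟩ := QuotientGroup.mk'_surjective _ v
    have hwc : w ∉ center Y := fun hc' => hv1 ((QuotientGroup.eq_one_iff _).2 hc')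
    have hw := (hP0mem w).1 hv
    rw [← map_inv, ← map_mul, ← map_mul] at hg
    have hg' := (hP0mem _).1 hg
    have hwc' : n * w * n⁻¹ ∉ center Y := by
      intro hc'
      apply hwc
      have := (inferInstance : (center Y).Normal).conj_mem _ hc' n⁻¹
      have h2 : n⁻¹ * (n * w * n⁻¹) * n⁻¹⁻¹ = w := by group
      rwa [h2] at this
    have h1 := h.cen_eq_of_comm hx hnn hwc hw
    have h2 := h.cen_eq_of_comm hx hnn hwc' hg'
    change π n ∈ (centralizer {x} : Subgroup Y).map π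
    rw [hP0mem, ← h.ι_mem_cen, ← h.stab_eq hx hnn]
    -- n stabilizes
    have key : ∀ y : Y, y * x = x * y ↔ y * w = w * y := by
      intro y; rw [← h.ι_mem_cen, ← h.ι_mem_cen, h1]
    have key2 : ∀ y : Y, y * x = x * y ↔ y * (n * w * n⁻¹) = (n * w * n⁻¹) * y := by
      intro y; rw [← h.ι_mem_cen, ← h.ι_mem_cen, h2]
    intro y
    rw [h.act_ι, key2, key y]
    constructor
    · intro he
      calc y * w = n⁻¹ * ((n * y * n⁻¹) * (n * w * n⁻¹)) * n := by group
        _ = n⁻¹ * ((n * w * n⁻¹) * (n * y * n⁻¹)) * n := by rw [he]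
        _ = w * y := by group
    · intro he
      calc (n * y * n⁻¹) * (n * w * n⁻¹) = n * (y * w) * n⁻¹ := by group
        _ = n * (w * y) * n⁻¹ := by rw [he]
        _ = _ := by group

theorem frobenius_full {x : Y} (hx : x ∉ center Y)
    (hnn : ¬ ∀ (g : G) (y : Y), y * x = x * y → act g y * x = x * act g y) :
    (Nat.card ((centralizer {x} : Subgroup Y).map (QuotientGroup.mk' (center Y)))).Prime ∧
    ∃ (K : Subgroup (Y ⧸ center Y)) (p : ℕ), p.Prime ∧ K.Normal ∧
      (K : Set (Y ⧸ center Y)) = frobeniusKernel ((centralizer {x} : Subgroup Y).map (QuotientGroup.mk' (center Y))) ∧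
      IsElementaryAbelian p K ∧ IsComplement' K ((centralizer {x} : Subgroup Y).map (QuotientGroup.mk' (center Y))) := by
  have hQ := h.frobenius hx hnn
  have hc : ∀ z ∈ center Y, ∀ g : G, act g z = z := fun z hz g => h.act_center hx hnn hz g
  set π := QuotientGroup.mk' (center Y) with hπ
  have hs := QuotientGroup.mk'_surjective (center Y)
  have hpi : ∀ v : Y, π v = 1 ↔ v ∈ center Y := fun v => QuotientGroup.eq_one_iff v
  set Q := (centralizer {x} : Subgroup Y).map π with hQdef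
  have hQmem : ∀ w : Y, π w ∈ Q ↔ w * x = x * w := fun w => mk_mem_map
  obtain ⟨K, hKs, hKn, hKc⟩ := Frob.exists_normal_complement hQ
  haveI : K.Normal := hKn
  have hKQ : ∀ v : Y ⧸ center Y, v ∈ K → v ∈ Q → v = 1 := fun v h1 h2 =>
    Frob.frobeniusKernel_inter (by rw [← hKs]; exact h1) h2
  have hcardQ : K.index = Nat.card Q := hKc.symm.index_eq_card
  have hcardK : Q.index = Nat.card K := hKc.index_eq_card
  have hcop : (Nat.card Q).Coprime (Nat.card K) := by
    rw [← hcardK]; exact Frob.coprime_card_index hQ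
  have hKpow : ∀ v : Y ⧸ center Y, v ∈ K ↔ v ^ Nat.card K = 1 := by
    intro v
    constructor
    · intro hv
      exact orderOf_dvd_iff_pow_eq_one.1 (K.orderOf_dvd_natCard hv)
    · intro hv
      rw [← QuotientGroup.eq_one_iff]
      have h1 : orderOf (v : (Y ⧸ center Y) ⧸ K) ∣ Nat.card K := by
        apply orderOf_dvd_of_pow_eq_one
        rw [← QuotientGroup.mk_pow, hv]; rfl
      have h2 : orderOf (v : (Y ⧸ center Y) ⧸ K) ∣ Nat.card Q := by
        rw [← hcardQ, Subgroup.index_eq_card]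
        exact orderOf_dvd_natCard _
      have h3 := Nat.dvd_gcd h2 h1
      rw [hcop.gcd_eq_one] at h3
      exact orderOf_eq_one_iff.1 (Nat.dvd_one.1 h3)
  set K0 : Subgroup Y := K.comap π with hK0def
  have hK0mem : ∀ w : Y, w ∈ K0 ↔ π w ∈ K := fun w => Iff.rfl
  have hK0 : ∀ g : G, ∀ k ∈ K0, act g k ∈ K0 := by
    intro g k hk
    rw [hK0mem, hKpow] at hk ⊢
    have h1 : h.qact g (π k) = π (act g k) := rfl
    rw [← h1, ← map_pow, hk, map_one]
  have hK0x : ∀ k ∈ K0, k ∉ center Y → k * x ≠ x * k := by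
    intro k hk hkc hkx
    exact hkc ((hpi k).1 (hKQ _ hk ((hQmem k).2 hkx)))
  -- y ∈ K0: centralizer inside K0
  have hD : ∀ y ∈ K0, y ∉ center Y → ∀ c : Y, c * y = y * c → c ∈ K0 := by
    intro y hy hyc c hcy
    refine mem_kernel_of_comm (a := π y) (b := π c) hQ hKs hy (fun h1 => hyc ((hpi y).1 h1)) ?_
    rw [← map_mul, ← map_mul, hcy]
  have hK0c : ∀ y ∈ K0, y ∉ center Y → ∀ k ∈ K0, k * y = y * k := by
    intro y hy hyc k hk
    by_contra hne
    have hall : ∀ n : Y, n ∈ K0 := by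
      intro n
      obtain ⟨c, hcy, k', hk', rfl⟩ := h.exists_mul' hyc K0 hK0 ⟨k, hk, hne⟩ n
      exact mul_mem (hD y hy hyc c hcy) hk'
    apply hQ.1
    rw [eq_bot_iff_forall]
    intro v hv
    obtain ⟨w, rfl⟩ := hs v
    exact hKQ _ (hall w) hv
  have hK0comm : ∀ a ∈ K0, ∀ b ∈ K0, a * b = b * a := by
    intro a ha b hb
    by_cases hbc : b ∈ center Y
    · exact (mem_center_iff.1 hbc) a
    · exact hK0c b hb hbc a ha
  have hKne : K ≠ ⊥ := by
    intro hb
    rw [hb, Subgroup.isComplement'_bot_left] at hKc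
    exact (Frob.isFrobeniusComplement_iff.1 hQ).2.1 hKc
  obtain ⟨y, hyK, hyc⟩ : ∃ y ∈ K0, y ∉ center Y := by
    by_contra hcon
    push Not at hcon
    apply hKne
    rw [eq_bot_iff_forall]
    intro v hv
    obtain ⟨w, rfl⟩ := hs v
    exact (hpi w).2 (hcon w hv)
  have hyx := hK0x y hyK hyc
  -- cen y is normal
  have hnorm : (cen ι y).Normal := by
    have hle : cen ι y ≤ normalizer (cen ι y : Set G) := le_normalizer
    have hxm : ι x ∈ normalizer (cen ι y : Set G) := by
      have key : ∀ q : Y, q * x = x * q → ∀ g ∈ cen ι y, ι q * g * (ι q)⁻¹ ∈ cen ι y := by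
        intro q hq g hg
        obtain ⟨m, hm, k, hk, rfl⟩ := h.exists_mul hx K0 hK0 ⟨y, hyK, hyx⟩ g
        have hmq : m * ι q = ι q * m := by
          by_cases hqc : q ∈ center Y
          · rw [← mem_cen, h.mem_cen_iff]; exact hc q hqc m
          · rw [← mem_cen, h.cen_eq_of_comm hx hnn hqc hq]; exact hm
        have h1 : ι q * (m * ι k) * (ι q)⁻¹ = m * ι (q * k * q⁻¹) := by
          calc ι q * (m * ι k) * (ι q)⁻¹ = (ι q * m) * ι k * (ι q)⁻¹ := by group
            _ = (m * ι q) * ι k * (ι q)⁻¹ := by rw [hmq]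
            _ = m * ι (q * k * q⁻¹) := by rw [map_mul, map_mul, map_inv]; group
        rw [h1]
        have h2 : ∀ k' ∈ K0, ι k' ∈ cen ι y := fun k' hk' => h.ι_mem_cen.2 (hK0c y hyK hyc k' hk')
        have h3 : m ∈ cen ι y := by
          have := mul_mem hg (inv_mem (h2 k hk))
          rwa [mul_inv_cancel_right] at this
        refine mul_mem h3 (h2 _ ?_)
        have := hK0 (ι q) k hk
        rwa [h.act_ι] at this
      rw [mem_normalizer_iff]
      intro g
      constructor
      · exact key x rfl g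
      · intro hg
        have h1 := key x⁻¹ (by group) _ hg
        have h2 : ι x⁻¹ * (ι x * g * (ι x)⁻¹) * (ι x⁻¹)⁻¹ = g := by rw [map_inv]; group
        rwa [h2] at h1
    have htop : normalizer (cen ι y : Set G) = ⊤ := by
      apply (h.max y hyc).2
      refine lt_of_le_of_ne hle ?_
      intro heq
      have h1 : ι x ∈ cen ι y := heq ▸ hxm
      rw [h.ι_mem_cen] at h1
      exact hyx h1.symm
    exact Subgroup.normalizer_eq_top_iff.1 htop
  haveI := hnorm
  have hprime := index_prime_of_coatom (cen ι y) (h.max y hyc)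
  have hidx : (cen ι y).index = Nat.card Q := by
    have h1 : K0.index = K.index := Subgroup.index_comap_of_surjective _ hs
    have h2 : (cen ι y).comap ι = K0 := by
      ext c
      rw [mem_comap, h.ι_mem_cen]
      exact ⟨fun hcy => hD y hyK hyc c hcy, fun hc' => hK0c y hyK hyc c hc'⟩
    rw [← hcardQ, ← h1, ← h2, Subgroup.index_comap, ← Subgroup.relIndex_sup_right]
    have h3 : ι.range ⊔ cen ι y = ⊤ := by
      rw [sup_comm]
      apply (h.max y hyc).2
      rw [left_lt_sup]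
      intro hle
      have h4 : ι x ∈ cen ι y := hle ⟨x, rfl⟩
      rw [h.ι_mem_cen] at h4
      exact hyx h4.symm
    rw [h3, relIndex_top_right]
  refine ⟨hidx ▸ hprime, ?_⟩
  -- K elementary abelian
  have hKc1 : Nat.card K ≠ 1 := fun h1 => hKne (Subgroup.card_eq_one.1 h1)
  obtain ⟨p, hp, hpd⟩ := Nat.exists_prime_and_dvd hKc1
  haveI : Fact p.Prime := ⟨hp⟩
  obtain ⟨⟨v, hvK⟩, hv⟩ := exists_prime_orderOf_dvd_card' p hpd
  rw [Subgroup.orderOf_mk] at hv
  obtain ⟨k1, rfl⟩ := hs v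
  let K1 : Subgroup Y :=
    { carrier := {k | k ∈ K0 ∧ k ^ p ∈ center Y}
      one_mem' := ⟨one_mem _, by rw [one_pow]; exact one_mem _⟩
      mul_mem' := by
        rintro a b ⟨ha, ha'⟩ ⟨hb, hb'⟩
        refine ⟨mul_mem ha hb, ?_⟩
        rw [Commute.mul_pow (hK0comm a ha b hb)]
        exact mul_mem ha' hb'
      inv_mem' := by
        rintro a ⟨ha, ha'⟩
        refine ⟨inv_mem ha, ?_⟩
        rw [inv_pow]; exact inv_mem ha' }
  have hK1 : ∀ g : G, ∀ k ∈ K1, act g k ∈ K1 := by
    rintro g k ⟨hk, hk'⟩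
    exact ⟨hK0 g k hk, by rw [← map_pow]; exact h.act_mem_center hk'⟩
  have hk1c : k1 ∉ center Y := by
    intro hc'
    rw [(hpi k1).2 hc', orderOf_one] at hv
    exact hp.one_lt.ne hv
  have hk1K : k1 ∈ K1 := ⟨hvK, by rw [← hpi, map_pow, ← hv, pow_orderOf_eq_one]⟩
  have hall : ∀ k ∈ K0, k ^ p ∈ center Y := by
    intro k hk
    obtain ⟨c, hcx, k', hk', rfl⟩ := h.exists_mul' hx K1 hK1 ⟨k1, hk1K, hK0x k1 hvK hk1c⟩ k
    have h1 : c ∈ K0 := by
      have := mul_mem hk (inv_mem hk'.1)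
      rwa [mul_inv_cancel_right] at this
    have h2 : c ∈ center Y := (hpi c).1 (hKQ _ h1 ((hQmem c).2 hcx))
    rw [Commute.mul_pow (hK0comm c h1 k' hk'.1)]
    exact mul_mem (pow_mem h2 p) hk'.2
  refine ⟨K, p, hp, hKn, hKs, ⟨⟨⟨?_⟩⟩, ?_⟩, hKc⟩
  · rintro ⟨a, ha⟩ ⟨b, hb⟩
    obtain ⟨a, rfl⟩ := hs a
    obtain ⟨b, rfl⟩ := hs b
    apply Subtype.ext
    change π a * π b = π b * π a
    rw [← map_mul, ← map_mul, hK0comm a ha b hb]
  · intro a ha
    obtain ⟨a, rfl⟩ := hs a
    rw [← map_pow, hpi]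
    exact hall a ha

end MaxCen

end

end Cfsg.Agent.H25
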