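import Cfsg.Agent.H25.MaxCentE
import Cfsg.Agent.Solv.Frattini

set_option autoImplicit false
set_option linter.style.haveILetI false

namespace Cfsg.Agent.H25

open Subgroup Cfsg Cfsg.Agent

theorem minimal_nonabelian {V : Type*} [Group V] [Finite V] (Q K : Subgroup V) (p : ℕ) (hp : p.Prime) (hKn : K.Normal)
    (hKe : IsElementaryAbelian p K) (hq : (Nat.card Q).Prime) (hQ : IsFrobeniusComplement Q)
    (hKQ : IsComplement' K Q) (hQmax : IsCoatom Q) :
    ¬ IsMulCommutative V ∧ (∀ H : Subgroup V, H ≠ ⊤ → IsMulCommutative ↥H) ∧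
      ∃ p q a : ℕ, p.Prime ∧ q.Prime ∧ p ≠ q ∧ Nat.card V = p ^ a * q ∧
        ∀ P : Subgroup V, Nat.card ↥P = p ^ a → P.Normal := by
  haveI : K.Normal := hKn
  haveI : Fact p.Prime := ⟨hp⟩
  have hQ' := Frob.isFrobeniusComplement_iff.1 hQ
  have hKidx : K.index = Nat.card Q := hKQ.symm.index_eq_card
  have hQidx : Q.index = Nat.card K := hKQ.index_eq_card
  have hcop : (Nat.card Q).Coprime (Nat.card K) := by
    rw [← hQidx]; exact Frob.coprime_card_index hQ
  have hKp : IsPGroup p K := by
    rintro ⟨a, ha⟩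
    exact ⟨1, Subtype.ext (by rw [pow_one]; exact hKe.2 a ha)⟩
  have hKcomm : ∀ a ∈ K, ∀ b ∈ K, a * b = b * a := fun a ha b hb =>
    congrArg Subtype.val (hKe.1.1.1 ⟨a, ha⟩ ⟨b, hb⟩)
  have hKbot : K ≠ ⊥ := by
    intro hb
    rw [hb, Subgroup.isComplement'_bot_left] at hKQ
    exact hQ'.2.1 hKQ
  refine ⟨?_, ?_, ?_⟩
  · intro hcomm
    apply hQ'.2.1
    rw [eq_top_iff]
    intro g _
    obtain ⟨v, hv, hv1⟩ : ∃ v ∈ Q, v ≠ 1 := by
      by_contra hcon
      push Not at hcon
      exact hQ'.1 ((eq_bot_iff_forall _).2 hcon)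
    apply hQ'.2.2 g v hv hv1
    have : g * v = v * g := hcomm.1.1 g v
    rw [this, mul_inv_cancel_right]; exact hv
  · intro H hH
    haveI : Fact (Nat.card Q).Prime := ⟨hq⟩
    have hcomK : commutator V ≤ K := Solv.commutator_le_of_index_prime K hKidx
    by_cases hHK : H ≤ K
    · exact ⟨⟨fun a b => Subtype.ext (hKcomm a (hHK a.2) b (hHK b.2))⟩⟩
    · have hsup : H ⊔ K = ⊤ := by
        have h1 : (H ⊔ K).index ∣ K.index := Subgroup.index_dvd_of_le le_sup_right
        rw [hKidx] at h1
        rcases (Nat.dvd_prime hq).1 h1 with h2 | h2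
        · exact Subgroup.index_eq_one.1 h2
        · exfalso
          apply hHK
          have h3 : K = H ⊔ K := by
            apply Subgroup.eq_of_le_of_card_ge le_sup_right
            have e1 := (H ⊔ K).card_mul_index
            have e2 := K.card_mul_index
            rw [h2] at e1
            rw [hKidx, ← e1] at e2
            exact (Nat.eq_of_mul_eq_mul_right hq.pos e2).ge
          rw [h3]; exact le_sup_left
      have hnorm : (H ⊓ K).Normal := by
        rw [← Subgroup.normalizer_eq_top_iff, eq_top_iff, ← hsup, sup_le_iff]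
        constructor
        · intro g hg
          rw [mem_normalizer_iff]
          intro v
          constructor
          · rintro ⟨h1, h2⟩
            exact ⟨H.mul_mem (H.mul_mem hg h1) (H.inv_mem hg), hKn.conj_mem v h2 g⟩
          · rintro ⟨h1, h2⟩
            have e : v = g⁻¹ * (g * v * g⁻¹) * g⁻¹⁻¹ := by group
            rw [e]
            exact ⟨H.mul_mem (H.mul_mem (H.inv_mem hg) h1) (H.inv_mem (H.inv_mem hg)), hKn.conj_mem _ h2 g⁻¹⟩
        · intro g hg
          rw [mem_normalizer_iff]
          intro v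
          constructor
          · rintro hv
            have : g * v * g⁻¹ = v := by rw [hKcomm g hg v hv.2, mul_inv_cancel_right]
            rw [this]; exact hv
          · rintro hv
            have h2 : v ∈ K := by
              have e : v = g⁻¹ * (g * v * g⁻¹) * g⁻¹⁻¹ := by group
              rw [e]; exact hKn.conj_mem _ hv.2 g⁻¹
            have : g * v * g⁻¹ = v := by rw [hKcomm g hg v h2, mul_inv_cancel_right]
            rwa [this] at hv
      haveI := hnorm
      have hle : H ⊓ K ≤ Q := by
        by_contra hnle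
        have h1 : Q ⊔ (H ⊓ K) = ⊤ := hQmax.2 _ (left_lt_sup.2 hnle)
        apply hH
        have hKH : K ≤ H := by
          intro k hk
          have h2 : k ∈ Q ⊔ (H ⊓ K) := h1 ▸ mem_top k
          obtain ⟨u, hu, w, hw, rfl⟩ := mem_sup_of_normal_right.1 h2
          have h3 : u ∈ K := by
            have := mul_mem hk (inv_mem hw.2)
            rwa [mul_inv_cancel_right] at this
          have h4 : u = 1 := Subgroup.disjoint_def.1 hKQ.disjoint h3 hu
          rw [h4, one_mul]; exact hw.1
        rw [← hsup]; exact (sup_eq_left.2 hKH).symm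
      have hHK1 : ∀ v, v ∈ H → v ∈ K → v = 1 := fun v h1 h2 =>
        Subgroup.disjoint_def.1 hKQ.disjoint h2 (hle ⟨h1, h2⟩)
      refine ⟨⟨?_⟩⟩
      rintro ⟨a, ha⟩ ⟨b, hb⟩
      apply Subtype.ext
      change a * b = b * a
      have h1 : a * b * a⁻¹ * b⁻¹ = 1 := by
        apply hHK1
        · exact mul_mem (mul_mem (mul_mem ha hb) (inv_mem ha)) (inv_mem hb)
        · exact hcomK (commutator_mem_commutator (mem_top a) (mem_top b))
      calc a * b = (a * b * a⁻¹ * b⁻¹) * (b * a) := by group
        _ = b * a := by rw [h1, one_mul]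
  · obtain ⟨a, ha⟩ := IsPGroup.iff_card.1 hKp
    refine ⟨p, Nat.card Q, a, hp, hq, ?_, ?_, ?_⟩
    · intro hpq
      rw [ha, ← hpq] at hcop
      have h1 : a = 0 := by
        by_contra h0
        have := Nat.Coprime.eq_one_of_dvd hcop (dvd_pow_self p h0)
        exact hp.one_lt.ne' this
      apply hKbot
      rw [← Subgroup.card_eq_one, ha, h1, pow_zero]
    · rw [← ha, ← hKidx]; exact K.card_mul_index.symm
    · intro P hP
      have h1 : P = K := by
        apply Subgroup.eq_of_le_of_card_ge _ (by rw [hP, ha])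
        intro v hv
        rw [← QuotientGroup.eq_one_iff]
        have h1 : orderOf (v : V ⧸ K) ∣ Nat.card K := by
          apply orderOf_dvd_of_pow_eq_one
          rw [← QuotientGroup.mk_pow]
          have : v ^ Nat.card K = 1 := by
            rw [ha, ← hP]
            exact orderOf_dvd_iff_pow_eq_one.1 (P.orderOf_dvd_natCard hv)
          rw [this]; rfl
        have h2 : orderOf (v : V ⧸ K) ∣ Nat.card Q := by
          rw [← hKidx, Subgroup.index_eq_card]
          exact orderOf_dvd_natCard _
        have h3 := Nat.dvd_gcd h2 h1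
        rw [hcop.gcd_eq_one] at h3
        exact orderOf_eq_one_iff.1 (Nat.dvd_one.1 h3)
      rw [h1]; exact hKn

end Cfsg.Agent.H25
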