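import Mathlib

/-! Modules of `A₅ × A₅` over `F₅` without fixed points of the factors and of the twisted diagonals. -/

set_option autoImplicit false

namespace Cfsg.Agent.H25.PairZero

open Equiv

/-- the alternating group of degree 5 -/
abbrev A5 : Type := alternatingGroup (Fin 5)

theorem mem_alt {p : Perm (Fin 5)} (h : Perm.sign p = 1) : p ∈ alternatingGroup (Fin 5) :=
  Equiv.Perm.mem_alternatingGroup.mpr h

theorem words : ∀ p : Perm (Fin 5), Perm.sign p = 1 → p 4 = 4 → ∃ i j : Fin 2, ∃ k : Fin 3,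
    p = (swap 0 1 * swap 2 3) ^ (i : ℕ) * ((swap 0 2 * swap 1 3) ^ (j : ℕ) *
      (swap 0 1 * swap 1 2) ^ (k : ℕ)) := by
  decide +kernel

theorem reps : ∀ i : Fin 5, ∃ p : Perm (Fin 5), Perm.sign p = 1 ∧ p 4 = i := by
  decide +kernel

/-- induction over the stabiliser of the letter `4` -/
theorem stab_ind (a b c : A5) (ha : (a : Perm (Fin 5)) = swap 0 1 * swap 2 3)
    (hb : (b : Perm (Fin 5)) = swap 0 2 * swap 1 3) (hc : (c : Perm (Fin 5)) = swap 0 1 * swap 1 2)
    (P : A5 → Prop) (h1 : P 1) (hPa : ∀ x, P x → P (a * x)) (hPb : ∀ x, P x → P (b * x))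
    (hPc : ∀ x, P x → P (c * x)) (p : A5) (hp : (p : Perm (Fin 5)) 4 = 4) : P p := by
  obtain ⟨i, j, k, h⟩ := words p (Equiv.Perm.mem_alternatingGroup.mp p.2) hp
  have hpow : ∀ (e : A5) (he : ∀ x, P x → P (e * x)) (n : ℕ) (x : A5), P x → P (e ^ n * x) := by
    intro e he n x hx
    induction n with
    | zero => rw [pow_zero, one_mul]; exact hx
    | succ n ih => rw [pow_succ', mul_assoc]; exact he _ ih
  have h2 : p = a ^ (i : ℕ) * (b ^ (j : ℕ) * (c ^ (k : ℕ) * 1)) := by
    apply Subtype.ext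
    rw [mul_one]
    change (p : Perm (Fin 5)) = (a : Perm (Fin 5)) ^ (i : ℕ) * ((b : Perm (Fin 5)) ^ (j : ℕ) *
      (c : Perm (Fin 5)) ^ (k : ℕ))
    rw [h, ha, hb, hc]
  rw [h2]
  exact hpow a hPa i _ (hpow b hPb j _ (hpow c hPc k _ h1))

variable {V : Type*} [AddCommGroup V] (rho : (A5 × A5) →* AddMonoid.End V)

theorem rmul (g h g' h' : A5) (v : V) : rho (g, h) (rho (g', h') v) = rho (g * g', h * h') v := by
  rw [← Prod.mk_mul_mk, map_mul]; rfl

theorem rone (v : V) : rho (1, 1) v = v := by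
  have : ((1, 1) : A5 × A5) = 1 := rfl
  rw [this, map_one]; rfl

theorem exists_perm (i k j l : Fin 5) (hik : i ≠ k) (hjl : j ≠ l) :
    ∃ s : Perm (Fin 5), s i = j ∧ s k = l := by
  refine ⟨swap (swap i j k) l * swap i j, ?_, ?_⟩
  · rw [Perm.mul_apply, swap_apply_left, swap_apply_of_ne_of_ne _ hjl]
    intro h
    apply hik
    have h2 := congrArg (swap i j) h
    rw [swap_apply_self, swap_apply_right] at h2
    exact h2
  · rw [Perm.mul_apply, swap_apply_left]

/-- Step 1 -/
theorem step1 (h1 : ∀ v, (∀ g, rho (g, 1) v = v) → v = 0)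
    (h2 : ∀ v, (∀ g, rho (1, g) v = v) → v = 0)
    (hd : ∀ s : Perm (Fin 5), ∀ v, (∀ g h : A5, (h : Perm (Fin 5)) = s * g * s⁻¹ →
      rho (g, h) v = v) → v = 0)
    (v : V) (hv : ∀ p q : A5, (p : Perm (Fin 5)) 4 = 4 → (q : Perm (Fin 5)) 4 = 4 →
      rho (p, q) v = v) : v = 0 := by
  choose r hrs hr4 using reps
  let R : Fin 5 → A5 := fun i => ⟨r i, mem_alt (hrs i)⟩
  have hR : ∀ i, (R i : Perm (Fin 5)) 4 = i := hr4
  let f : Fin 5 → Fin 5 → V := fun i j => rho (R i, R j) v
  have hf : ∀ p q : A5, rho (p, q) v = f ((p : Perm (Fin 5)) 4) ((q : Perm (Fin 5)) 4) := by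
    intro p q
    have e1 : ((R ((p : Perm (Fin 5)) 4))⁻¹ * p : A5).1 4 = 4 := by
      change ((R ((p : Perm (Fin 5)) 4) : Perm (Fin 5))⁻¹ * (p : Perm (Fin 5))) 4 = 4
      rw [Perm.mul_apply, Perm.inv_eq_iff_eq, hR]
    have e2 : ((R ((q : Perm (Fin 5)) 4))⁻¹ * q : A5).1 4 = 4 := by
      change ((R ((q : Perm (Fin 5)) 4) : Perm (Fin 5))⁻¹ * (q : Perm (Fin 5))) 4 = 4
      rw [Perm.mul_apply, Perm.inv_eq_iff_eq, hR]
    change rho (p, q) v = rho (R ((p : Perm (Fin 5)) 4), R ((q : Perm (Fin 5)) 4)) v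
    nth_rewrite 2 [← hv _ _ e1 e2]
    rw [rmul, mul_inv_cancel_left, mul_inv_cancel_left]
  have hact : ∀ (g h : A5) (i j : Fin 5), rho (g, h) (f i j) =
      f ((g : Perm (Fin 5)) i) ((h : Perm (Fin 5)) j) := by
    intro g h i j
    change rho (g, h) (rho (R i, R j) v) = _
    rw [rmul, hf]
    change f (((g : Perm (Fin 5)) * (R i : Perm (Fin 5))) 4)
      (((h : Perm (Fin 5)) * (R j : Perm (Fin 5))) 4) = _
    rw [Perm.mul_apply, Perm.mul_apply, hR, hR]
  have hsum : ∀ s : Perm (Fin 5), ∑ m, f m (s m) = 0 := by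
    intro s
    apply hd s
    intro g h hgh
    rw [map_sum, ← Equiv.sum_comp (g : Perm (Fin 5)) (fun m => f m (s m))]
    refine Finset.sum_congr rfl fun m _ => ?_
    rw [hact, hgh]
    simp
  have hfour : ∀ i k j l : Fin 5, i ≠ k → j ≠ l → f i j - f k j = f i l - f k l := by
    intro i k j l hik hjl
    obtain ⟨s, hs1, hs2⟩ := exists_perm i k j l hik hjl
    have e1 := hsum s
    have e2 := hsum (s * swap i k)
    have e3 : ∑ m, (f m (s m) - f m ((s * swap i k) m)) = 0 := by
      rw [Finset.sum_sub_distrib, e1, e2, sub_zero]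
    rw [Finset.sum_eq_add i k hik (by
      intro m _ hm
      rw [Perm.mul_apply, swap_apply_of_ne_of_ne hm.1 hm.2, sub_self]) (by simp) (by simp)] at e3
    rw [Perm.mul_apply, Perm.mul_apply, swap_apply_left, swap_apply_right, hs1, hs2] at e3
    rw [sub_eq_sub_iff_add_eq_add]
    rw [sub_add_sub_comm, sub_eq_zero] at e3
    rw [e3, add_comm]
  have hcol : ∀ i k j : Fin 5, f i j = f k j := by
    intro i k j
    by_cases hik : i = k
    · rw [hik]
    rw [← sub_eq_zero]
    apply h2
    intro g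
    rw [map_sub, hact, hact]
    change f i ((g : Perm (Fin 5)) j) - f k ((g : Perm (Fin 5)) j) = _
    by_cases hj : (g : Perm (Fin 5)) j = j
    · rw [hj]
    · exact hfour i k _ _ hik hj
  have hz : f 4 4 = 0 := by
    apply h1
    intro g
    rw [hact]
    exact hcol _ _ _
  rw [← hz]
  have := hf 1 1
  rw [rone] at this
  exact this

theorem pair_zero (h5 : ∀ v : V, 5 • v = 0)
    (h1 : ∀ v, (∀ g, rho (g, 1) v = v) → v = 0)
    (h2 : ∀ v, (∀ g, rho (1, g) v = v) → v = 0)
    (hd : ∀ s : Perm (Fin 5), ∀ v, (∀ g h : A5, (h : Perm (Fin 5)) = s * g * s⁻¹ →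
      rho (g, h) v = v) → v = 0)
    (a b c : A5) (ha : (a : Perm (Fin 5)) = swap 0 1 * swap 2 3)
    (hb : (b : Perm (Fin 5)) = swap 0 2 * swap 1 3) (hc : (c : Perm (Fin 5)) = swap 0 1 * swap 1 2)
    (v : V) (va : rho (a, 1) v = v) (vb : rho (b, 1) v = v) (va' : rho (1, a) v = v)
    (vb' : rho (1, b) v = v) (vc : rho (c, c) v = v) : v = 0 := by
  obtain ⟨g, hg⟩ : ∃ g : A5, (g : Perm (Fin 5)) = swap 3 4 * swap 0 1 :=
    ⟨⟨swap 3 4 * swap 0 1, mem_alt (by decide)⟩, rfl⟩
  have haa : a * a = 1 := by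
    apply Subtype.ext
    simp only [Subgroup.coe_mul, ha]; decide
  have hbb : b * b = 1 := by
    apply Subtype.ext
    simp only [Subgroup.coe_mul, hb]; decide
  have hba : b * a = a * b := by
    apply Subtype.ext
    simp only [Subgroup.coe_mul, ha, hb]; decide
  have hca : c * a = a * (b * c) := by
    apply Subtype.ext
    simp only [Subgroup.coe_mul, ha, hb, hc]; decide
  have hcb : c * b = a * c := by
    apply Subtype.ext
    simp only [Subgroup.coe_mul, ha, hb, hc]; decide
  have hcg : c * g = g * c⁻¹ := by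
    apply Subtype.ext
    simp only [Subgroup.coe_mul, Subgroup.coe_inv, hg, hc]; decide
  have hc3 : c * (c * c) = 1 := by
    apply Subtype.ext
    simp only [Subgroup.coe_mul, hc]; decide
  have raa : ∀ x, a * (a * x) = x := fun x => by rw [← mul_assoc, haa, one_mul]
  have rbb : ∀ x, b * (b * x) = x := fun x => by rw [← mul_assoc, hbb, one_mul]
  have rba : ∀ x, b * (a * x) = a * (b * x) := fun x => by rw [← mul_assoc, hba, mul_assoc]
  have rca : ∀ x, c * (a * x) = a * (b * (c * x)) := fun x => by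
    rw [← mul_assoc, hca, mul_assoc, mul_assoc]
  have rcb : ∀ x, c * (b * x) = a * (c * x) := fun x => by
    rw [← mul_assoc, hcb, mul_assoc]
  -- the diagonal sum
  have hdiag : ∀ w : V, rho (a, 1) w = w → rho (b, 1) w = w → rho (1, a) w = w →
      rho (1, b) w = w → rho (c, c) w = w →
      w + rho (g, g) w + rho (a * g, a * g) w + rho (b * g, b * g) w +
        rho (a * (b * g), a * (b * g)) w = 0 := by
    intro w wa wb wa' wb' wc
    choose r hrs hr4 using reps
    let R : Fin 5 → A5 := fun i => ⟨r i, mem_alt (hrs i)⟩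
    have hR : ∀ i, (R i : Perm (Fin 5)) 4 = i := hr4
    let f : Fin 5 → V := fun i => rho (R i, R i) w
    have waa : rho (a, a) w = w := by
      have := rmul rho a 1 1 a w
      rw [wa', wa, mul_one, one_mul] at this
      exact this.symm
    have wbb : rho (b, b) w = w := by
      have := rmul rho b 1 1 b w
      rw [wb', wb, mul_one, one_mul] at this
      exact this.symm
    have hst : ∀ p : A5, (p : Perm (Fin 5)) 4 = 4 → rho (p, p) w = w :=
      stab_ind a b c ha hb hc (fun p => rho (p, p) w = w) (rone rho w)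
        (fun x hx => by change rho (a * x, a * x) w = w; rw [← rmul, hx, waa])
        (fun x hx => by change rho (b * x, b * x) w = w; rw [← rmul, hx, wbb])
        (fun x hx => by change rho (c * x, c * x) w = w; rw [← rmul, hx, wc])
    have hf : ∀ p : A5, rho (p, p) w = f ((p : Perm (Fin 5)) 4) := by
      intro p
      have e1 : ((R ((p : Perm (Fin 5)) 4))⁻¹ * p : A5).1 4 = 4 := by
        change ((R ((p : Perm (Fin 5)) 4) : Perm (Fin 5))⁻¹ * (p : Perm (Fin 5))) 4 = 4
        rw [Perm.mul_apply, Perm.inv_eq_iff_eq, hR]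
      change rho (p, p) w = rho (R ((p : Perm (Fin 5)) 4), R ((p : Perm (Fin 5)) 4)) w
      nth_rewrite 2 [← hst _ e1]
      rw [rmul, mul_inv_cancel_left]
    have hs : ∑ m, f m = 0 := by
      apply hd 1
      intro x y hxy
      have hxy' : y = x := by
        apply Subtype.ext
        rw [hxy]; group
      subst hxy'
      rw [map_sum, ← Equiv.sum_comp (y : Perm (Fin 5)) f]
      refine Finset.sum_congr rfl fun m _ => ?_
      change rho (y, y) (rho (R m, R m) w) = _
      rw [rmul, hf]
      change f (((y : Perm (Fin 5)) * (R m : Perm (Fin 5))) 4) = _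
      rw [Perm.mul_apply, hR]
    rw [Fin.sum_univ_five] at hs
    have k4 : w = f 4 := by
      have := hf 1
      rw [rone] at this
      exact this
    have k3 : rho (g, g) w = f 3 := by
      have e : (g : Perm (Fin 5)) 4 = 3 := by rw [hg]; decide
      rw [hf, e]
    have k2 : rho (a * g, a * g) w = f 2 := by
      have e : ((a * g : A5) : Perm (Fin 5)) 4 = 2 := by rw [Subgroup.coe_mul, ha, hg]; decide
      rw [hf, e]
    have k1 : rho (b * g, b * g) w = f 1 := by
      have e : ((b * g : A5) : Perm (Fin 5)) 4 = 1 := by rw [Subgroup.coe_mul, hb, hg]; decide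
      rw [hf, e]
    have k0 : rho (a * (b * g), a * (b * g)) w = f 0 := by
      have e : ((a * (b * g) : A5) : Perm (Fin 5)) 4 = 0 := by
        rw [Subgroup.coe_mul, Subgroup.coe_mul, ha, hb, hg]; decide
      rw [hf, e]
    rw [k0, k1, k2, k3]
    nth_rewrite 1 [k4]
    rw [← hs]
    abel
  let N4 : (A5 → V) → V := fun F => F g + F (a * g) + F (b * g) + F (a * (b * g))
  let Z : V → V := fun w => N4 (fun y => N4 (fun x => rho (x, y) w))
  have hE : ∀ w : V, rho (a, 1) w = w → rho (b, 1) w = w → rho (1, a) w = w →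
      rho (1, b) w = w → rho (c, c) w = w → 4 • w + Z w = 0 := by
    intro w wa wb wa' wb' wc
    have hD := hdiag w wa wb wa' wb' wc
    have e1 := congrArg (fun u => u + rho (a, 1) u + rho (b, 1) u + rho (a * b, 1) u) hD
    simp only [map_zero, add_zero, map_add, rmul, one_mul, mul_assoc, raa, rbb, rba, wa, wb] at e1
    have wab : rho (a * b, 1) w = w := by
      have := rmul rho a 1 b 1 w
      rw [wb, wa, mul_one] at this
      exact this.symm
    rw [wab] at e1
    rw [← e1]
    simp only [Z, N4]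
    module
  have hZ : ∀ w : V, rho (c, 1) (Z w) = Z (rho (c⁻¹, 1) w) := by
    intro w
    simp only [Z, N4, map_add, rmul, one_mul, mul_one, mul_assoc, rca, rcb, hcg, raa, rbb, rba]
    abel
  have vab : rho (a * b, 1) v = v := by
    have := rmul rho a 1 b 1 v
    rw [vb, va, mul_one] at this
    exact this.symm
  have q1 : a * c⁻¹ = c⁻¹ * (a * b) := by
    rw [mul_inv_eq_iff_eq_mul, mul_assoc, mul_assoc, ← hca, inv_mul_cancel_left]
  have q2 : b * c⁻¹ = c⁻¹ * a := by
    rw [mul_inv_eq_iff_eq_mul, mul_assoc, ← hcb, inv_mul_cancel_left]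
  have E1 := hE v va vb va' vb' vc
  have E2 := hE (rho (c⁻¹, 1) v)
    (by
      rw [rmul, mul_one, q1]
      have := rmul rho c⁻¹ 1 (a * b) 1 v
      rw [vab, mul_one] at this
      exact this.symm)
    (by
      rw [rmul, mul_one, q2]
      have := rmul rho c⁻¹ 1 a 1 v
      rw [va, mul_one] at this
      exact this.symm)
    (by
      rw [rmul, mul_one, one_mul]
      have := rmul rho c⁻¹ 1 1 a v
      rw [va', mul_one, one_mul] at this
      exact this.symm)
    (by
      rw [rmul, mul_one, one_mul]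
      have := rmul rho c⁻¹ 1 1 b v
      rw [vb', mul_one, one_mul] at this
      exact this.symm)
    (by
      rw [rmul, mul_one, mul_inv_cancel]
      have := rmul rho c⁻¹ 1 c c v
      rw [vc, inv_mul_cancel, one_mul] at this
      exact this.symm)
  have E3 := congrArg (rho (c, 1)) E1
  rw [map_add, map_nsmul, hZ, map_zero] at E3
  have E4 : rho (c, 1) v = rho (c⁻¹, 1) v := by
    have e : 4 • (rho (c, 1) v - rho (c⁻¹, 1) v) = 0 := by
      linear_combination (norm := module) E3 - E2
    have e2 : rho (c, 1) v - rho (c⁻¹, 1) v = 5 • (rho (c, 1) v - rho (c⁻¹, 1) v) -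
        4 • (rho (c, 1) v - rho (c⁻¹, 1) v) := by module
    rw [e, h5, sub_zero] at e2
    exact sub_eq_zero.mp e2
  have E5 : rho (c, 1) v = v := by
    have e := congrArg (rho (c⁻¹, 1)) E4
    rw [rmul, rmul, inv_mul_cancel, mul_one, rone] at e
    have hcc : c⁻¹ * c⁻¹ = c := by
      rw [← mul_inv_rev, inv_eq_iff_mul_eq_one, mul_assoc]; exact hc3
    rw [hcc] at e
    exact e.symm
  have E6 : rho (1, c) v = v := by
    have e := rmul rho 1 c c 1 v
    rw [E5, one_mul, mul_one, vc] at e
    exact e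
  apply step1 rho h1 h2 hd v
  intro p q hp hq
  have e1 : rho (1, q) v = v :=
    stab_ind a b c ha hb hc (fun p => rho (1, p) v = v) (rone rho v)
      (fun x hx => by
        have e := rmul rho 1 a 1 x v
        rw [hx, va', one_mul] at e; exact e.symm)
      (fun x hx => by
        have e := rmul rho 1 b 1 x v
        rw [hx, vb', one_mul] at e; exact e.symm)
      (fun x hx => by
        have e := rmul rho 1 c 1 x v
        rw [hx, E6, one_mul] at e; exact e.symm) q hq
  have e2 : rho (p, 1) v = v :=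
    stab_ind a b c ha hb hc (fun p => rho (p, 1) v = v) (rone rho v)
      (fun x hx => by
        have e := rmul rho a 1 x 1 v
        rw [hx, va, one_mul] at e; exact e.symm)
      (fun x hx => by
        have e := rmul rho b 1 x 1 v
        rw [hx, vb, one_mul] at e; exact e.symm)
      (fun x hx => by
        have e := rmul rho c 1 x 1 v
        rw [hx, E5, one_mul] at e; exact e.symm) p hp
  have e3 := rmul rho p 1 1 q v
  rw [e1, e2, mul_one, one_mul] at e3
  exact e3.symm

/-- the same with an action given by functions -/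
theorem pair_zero' (h5 : ∀ v : V, 5 • v = 0) (act : A5 × A5 → V → V) (hone : ∀ v, act 1 v = v)
    (hmul : ∀ g h v, act (g * h) v = act g (act h v))
    (hadd : ∀ g v w, act g (v + w) = act g v + act g w)
    (h1 : ∀ v, (∀ g, act (g, 1) v = v) → v = 0)
    (h2 : ∀ v, (∀ g, act (1, g) v = v) → v = 0)
    (hd : ∀ s : Perm (Fin 5), ∀ v, (∀ g h : A5, (h : Perm (Fin 5)) = s * g * s⁻¹ →
      act (g, h) v = v) → v = 0)
    (a b c : A5) (ha : (a : Perm (Fin 5)) = swap 0 1 * swap 2 3)
    (hb : (b : Perm (Fin 5)) = swap 0 2 * swap 1 3) (hc : (c : Perm (Fin 5)) = swap 0 1 * swap 1 2)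
    (v : V) (va : act (a, 1) v = v) (vb : act (b, 1) v = v) (va' : act (1, a) v = v)
    (vb' : act (1, b) v = v) (vc : act (c, c) v = v) : v = 0 := by
  have hzero : ∀ g, act g 0 = 0 := by
    intro g
    have h1 := hadd g 0 0
    rw [add_zero] at h1
    exact left_eq_add.mp h1
  let r : (A5 × A5) →* AddMonoid.End V :=
    { toFun := fun g => { toFun := act g, map_zero' := hzero g, map_add' := hadd g }
      map_one' := by ext v; exact hone v
      map_mul' := by intro g h; ext v; exact hmul g h v }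
  exact pair_zero r h5 h1 h2 hd a b c ha hb hc v va vb va' vb' vc

end Cfsg.Agent.H25.PairZero
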