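import Cfsg.Agent.H25.PalDef

set_option autoImplicit false

namespace Cfsg.Agent.H25.PalA1

open scoped Pointwise

universe u v

theorem count_gen {H W : Type*} [Group H] [Finite H] [Group W] [Finite W] (a : H →* MulAut W) (p : ℕ) [Fact p.Prime]
    (hF : ∀ w : W, w ≠ 1 → ∃ P : Sylow p H, (∀ x ∈ P, a x w = w) ∧ ∀ h : H, a h w = w → ∀ x ∈ P, h * x * h⁻¹ ∈ P)
    (P₀ : Sylow p H) :
    Nat.card W = Nat.card (Sylow p H) * (Nat.card {w : W // ∀ x ∈ P₀, a x w = w} - 1) + 1 := by
  classical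
  -- uniqueness
  have huniq : ∀ (w : W), w ≠ 1 → ∀ P Q : Sylow p H, (∀ x ∈ P, a x w = w) → (∀ x ∈ Q, a x w = w) → P = Q := by
    intro w hw
    obtain ⟨R, hR, hn⟩ := hF w hw
    have key : ∀ P : Sylow p H, (∀ x ∈ P, a x w = w) → P = R := by
      intro P hP
      have h1 : (P : Subgroup H) ≤ Subgroup.normalizer ((R : Subgroup H) : Set H) := by
        intro x hx
        rw [Subgroup.mem_normalizer_iff]
        intro y
        constructor
        · intro hy
          exact hn x (hP x hx) y hy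
        · intro hy
          have h2 := hn x⁻¹ (hP x⁻¹ (inv_mem hx)) _ hy
          have h4 : x⁻¹ * (x * y * x⁻¹) * x⁻¹⁻¹ = y := by group
          rw [h4] at h2
          exact h2
      have h2 : (P : Subgroup H) ⊓ Subgroup.normalizer ((R : Subgroup H) : Set H) = (P : Subgroup H) ⊓ (R : Subgroup H) := P.2.inf_normalizer_sylow R
      rw [inf_eq_left.2 h1] at h2
      have h3 : (P : Subgroup H) ≤ R := by
        rw [h2]
        exact inf_le_right
      exact (Sylow.ext (P.is_maximal' R.2 h3)).symm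
    intro P Q hP hQ
    rw [key P hP, key Q hQ]
  -- the pairs
  let F : Sylow p H → Type _ := fun P => {w : W // w ≠ 1 ∧ ∀ x ∈ P, a x w = w}
  have e1 : (Σ P : Sylow p H, F P) ≃ {w : W // w ≠ 1} := by
    refine Equiv.ofBijective (fun s => ⟨s.2.1, s.2.2.1⟩) ⟨?_, ?_⟩
    · rintro ⟨P, w, hw, hP⟩ ⟨Q, w', hw', hQ⟩ h
      have h1 : w = w' := congrArg Subtype.val h
      subst h1
      have h2 := huniq w hw P Q hP hQ
      subst h2
      rfl
    · rintro ⟨w, hw⟩
      obtain ⟨R, hR, -⟩ := hF w hw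
      exact ⟨⟨R, w, hw, hR⟩, rfl⟩
  have h1 : Nat.card {w : W // w ≠ 1} = Nat.card W - 1 := by
    have h4 : Nat.card {w : W // w ≠ 1} = ({1}ᶜ : Set W).ncard := by
      rw [← Nat.card_coe_set_eq]
      rfl
    rw [h4, Set.ncard_compl, Set.ncard_singleton]
  have h2 : ∀ P : Sylow p H, Nat.card (F P) = Nat.card (F P₀) := by
    intro P
    obtain ⟨g, hg⟩ := MulAction.exists_smul_eq H P₀ P
    have hm : ∀ x, x ∈ P ↔ g⁻¹ * x * g ∈ P₀ := by
      intro x
      rw [← hg]
      have h3 : x ∈ (g • P₀ : Sylow p H) ↔ x ∈ MulAut.conj g • (P₀ : Subgroup H) := Iff.rfl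
      rw [h3, Subgroup.mem_pointwise_smul_iff_inv_smul_mem]
      rw [← map_inv, MulAut.smul_def, MulAut.conj_apply, inv_inv]
      rfl
    refine Nat.card_congr ⟨fun w => ⟨a g⁻¹ w.1, ?_, ?_⟩, fun w => ⟨a g w.1, ?_, ?_⟩, ?_, ?_⟩
    · intro h
      exact w.2.1 ((map_eq_one_iff _ (a g⁻¹).injective).1 h)
    · intro x hx
      have h3 : g * x * g⁻¹ ∈ P := by
        rw [hm]
        have h4 : g⁻¹ * (g * x * g⁻¹) * g = x := by group
        rwa [h4]
      have h4 := w.2.2 _ h3
      have h5 : a (x * g⁻¹) w.1 = a (g⁻¹ * (g * x * g⁻¹)) w.1 := by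
        congr 2
        group
      rw [map_mul, map_mul, MulAut.mul_apply, MulAut.mul_apply, h4] at h5
      exact h5
    · intro h
      exact w.2.1 ((map_eq_one_iff _ (a g).injective).1 h)
    · intro x hx
      have h3 := (hm x).1 hx
      have h4 := w.2.2 _ h3
      have h5 : a (x * g) w.1 = a (g * (g⁻¹ * x * g)) w.1 := by
        congr 2
        group
      rw [map_mul, map_mul, MulAut.mul_apply, MulAut.mul_apply, h4] at h5
      exact h5
    · intro w
      apply Subtype.ext
      change a g (a g⁻¹ w.1) = w.1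
      rw [← MulAut.mul_apply, ← map_mul, mul_inv_cancel, map_one, MulAut.one_apply]
    · intro w
      apply Subtype.ext
      change a g⁻¹ (a g w.1) = w.1
      rw [← MulAut.mul_apply, ← map_mul, inv_mul_cancel, map_one, MulAut.one_apply]
  have h3 : Nat.card (F P₀) = Nat.card {w : W // ∀ x ∈ P₀, a x w = w} - 1 := by
    have h4 : Nat.card (F P₀) = ({w : W | ∀ x ∈ P₀, a x w = w} \ {1}).ncard := by
      rw [← Nat.card_coe_set_eq]
      refine Nat.card_congr (Equiv.subtypeEquivRight ?_)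
      intro w
      constructor
      · rintro ⟨h5, h6⟩
        exact ⟨h6, h5⟩
      · rintro ⟨h5, h6⟩
        exact ⟨h6, h5⟩
    rw [h4, Set.ncard_diff_singleton_of_mem, ← Nat.card_coe_set_eq]
    · rfl
    · intro x _
      exact map_one _
  haveI : Fintype (Sylow p H) := Fintype.ofFinite _
  have h5 : Nat.card (Σ P : Sylow p H, F P) = Nat.card (Sylow p H) * Nat.card (F P₀) := by
    rw [Nat.card_sigma, Finset.sum_congr rfl (fun P _ => h2 P), Finset.sum_const, Finset.card_univ, smul_eq_mul,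
      Nat.card_eq_fintype_card (α := Sylow p H)]
  rw [Nat.card_congr e1, h1, h3] at h5
  have h6 : 0 < Nat.card W := Nat.card_pos
  omega

open Cfsg.Agent.H25.Pal in
/-- (A1) -/
theorem count {H : Type u} {W : Type v} [Group H] [Finite H] [Group W] [Finite W] (a : H →* MulAut W)
    {p : ℕ} [Fact p.Prime] (h : FixP a p) (P : Sylow p H) :
    Nat.card W - 1 = Nat.card (Sylow p H) * (Nat.card {w : W // ∀ x ∈ (P : Subgroup H), a x w = w} - 1) := by
  have h1 := count_gen a p (fun w hw => by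
    obtain ⟨R, hR⟩ := h w hw
    refine ⟨hR.syl.1.toSylow hR.syl.2, ?_, ?_⟩
    · intro x hx
      exact hR.fx x hx
    · intro g hg x hx
      exact hR.nrm g hg x hx) P
  have h2 : Nat.card {w : W // ∀ x ∈ P, a x w = w} = Nat.card {w : W // ∀ x ∈ (P : Subgroup H), a x w = w} := rfl
  rw [h2] at h1
  omega

end Cfsg.Agent.H25.PalA1
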