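import Cfsg.Agent.H25.PalDef
import Cfsg.Agent.Solv.MinNormal

set_option autoImplicit false
set_option linter.style.haveILetI false

namespace Cfsg.Agent.H25.PalA4

open Cfsg Cfsg.Agent.H25.Pal

universe u

/-- A subgroup `Syl p P` as a Mathlib Sylow subgroup. -/
theorem exists_sylow_eq {H : Type u} [Group H] [Finite H] {p : ℕ} [Fact p.Prime] {P : Subgroup H}
    (hP : Syl p P) : ∃ S : Sylow p H, (S : Subgroup H) = P :=
  ⟨hP.1.toSylow hP.2, rfl⟩

/-- solvable `X` without normal `{p,q}'`-subgroups, with commuting abelian Sylow `p`- and `q`-subgroups: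
`P` is normal. -/
theorem normal_of {X : Type u} [Group X] [Finite X] (hs : Group.IsSolvable X) {p q : ℕ}
    (hp : p.Prime) (hq : q.Prime) (hpq : p ≠ q) {P Q : Subgroup X} (hP : Syl p P) (hQ : Syl q Q)
    (hPab : ∀ x ∈ P, ∀ y ∈ P, x * y = y * x) (hQab : ∀ x ∈ Q, ∀ y ∈ Q, x * y = y * x)
    (hPQ : ∀ x ∈ P, ∀ y ∈ Q, x * y = y * x)
    (hO : ∀ N : Subgroup X, N.Normal → (Nat.card N).Coprime (p * q) → N = ⊥) :
    pCore p X = P ∧ pCore q X = Q := by
  classical
  haveI : Fact p.Prime := ⟨hp⟩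
  haveI : Fact q.Prime := ⟨hq⟩
  haveI := hs
  obtain ⟨S, hS⟩ := exists_sylow_eq hP
  obtain ⟨T, hT⟩ := exists_sylow_eq hQ
  have hpP : pCore p X ≤ P := by rw [← hS]; exact Solv.pCore_le_sylow S
  have hqQ : pCore q X ≤ Q := by rw [← hT]; exact Solv.pCore_le_sylow T
  -- Fitting subgroup
  have hF : fittingSubgroup X ≤ pCore p X ⊔ pCore q X := by
    rw [Solv.fitting_eq_iSup_pCore]
    apply iSup_le
    intro r
    haveI : Fact (Nat.Prime (r : ℕ)) := ⟨r.2⟩
    by_cases h1 : (r : ℕ) = p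
    · rw [h1]; exact le_sup_left
    by_cases h2 : (r : ℕ) = q
    · rw [h2]; exact le_sup_right
    have h3 : pCore (r : ℕ) X = ⊥ := by
      apply hO _ inferInstance
      obtain ⟨n, hn⟩ := IsPGroup.iff_card.mp (Solv.pCore_isPGroup (G := X) (r : ℕ))
      rw [hn]
      apply Nat.Coprime.pow_left
      exact Nat.Coprime.mul_right ((Nat.coprime_primes r.2 hp).mpr h1)
        ((Nat.coprime_primes r.2 hq).mpr h2)
    rw [h3]; exact bot_le
  have hPc : ∀ x ∈ P ⊔ Q, ∀ y ∈ P ⊔ Q, x * y = y * x := by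
    have h1 : P ⊔ Q ≤ Subgroup.centralizer ((P ⊔ Q : Subgroup X) : Set X) := by
      rw [Subgroup.le_centralizer_iff]
      have hP' : P ≤ Subgroup.centralizer ((P ⊔ Q : Subgroup X) : Set X) := by
        rw [Subgroup.le_centralizer_iff]
        apply sup_le
        · intro x hx
          refine Subgroup.mem_centralizer_iff.mpr ?_
          intro y hy
          exact hPab y hy x hx
        · intro x hx
          refine Subgroup.mem_centralizer_iff.mpr ?_
          intro y hy
          exact hPQ y hy x hx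
      have hQ' : Q ≤ Subgroup.centralizer ((P ⊔ Q : Subgroup X) : Set X) := by
        rw [Subgroup.le_centralizer_iff]
        apply sup_le
        · intro x hx
          refine Subgroup.mem_centralizer_iff.mpr ?_
          intro y hy
          exact (hPQ x hx y hy).symm
        · intro x hx
          refine Subgroup.mem_centralizer_iff.mpr ?_
          intro y hy
          exact hQab y hy x hx
      exact sup_le hP' hQ'
    intro x hx y hy
    exact ((Subgroup.mem_centralizer_iff.mp (h1 hx)) y hy).symm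
  have hPF : P ⊔ Q ≤ fittingSubgroup X := by
    refine le_trans ?_ Solv.centralizer_fitting_le
    intro x hx
    refine Subgroup.mem_centralizer_iff.mpr ?_
    intro y hy
    exact hPc y ((hF.trans (sup_le_sup hpP hqQ)) hy) x hx
  have hdisj : ∀ x, x ∈ P → x ∈ Q → x = 1 := by
    intro x hxP hxQ
    have hd := IsPGroup.disjoint_of_ne p q hpq P Q hP.1 hQ.1
    exact Subgroup.mem_bot.mp (hd.le_bot ⟨hxP, hxQ⟩)
  have hle : P ≤ pCore p X := by
    intro x hx
    have h1 : x ∈ pCore p X ⊔ pCore q X := hF (hPF ((le_sup_left : P ≤ P ⊔ Q) hx))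
    obtain ⟨a, ha, b, hb, hab⟩ := Subgroup.mem_sup_of_normal_left.mp h1
    have hbP : b ∈ P := by
      have : b = a⁻¹ * x := by rw [← hab]; group
      rw [this]
      exact P.mul_mem (P.inv_mem (hpP ha)) hx
    have hb1 := hdisj b hbP (hqQ hb)
    rw [← hab, hb1, mul_one]; exact ha
  have hle' : Q ≤ pCore q X := by
    intro x hx
    have h1 : x ∈ pCore p X ⊔ pCore q X := hF (hPF ((le_sup_right : Q ≤ P ⊔ Q) hx))
    obtain ⟨a, ha, b, hb, hab⟩ := Subgroup.mem_sup_of_normal_left.mp h1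
    have haQ : a ∈ Q := by
      have : a = x * b⁻¹ := by rw [← hab]; group
      rw [this]
      exact Q.mul_mem hx (Q.inv_mem (hqQ hb))
    have ha1 := hdisj a (hpP ha) haQ
    rw [← hab, ha1, one_mul]; exact hb
  exact ⟨le_antisymm hpP hle, le_antisymm hqQ hle'⟩

/-- the number of Sylow subgroups divides the order of `L` when `P L` is normal. -/
theorem card_sylow_dvd {H : Type u} [Group H] [Finite H] {p : ℕ} [Fact p.Prime]
    (S : Sylow p H) (L : Subgroup H) [L.Normal] (hn : ((S : Subgroup H) ⊔ L).Normal) :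
    Nat.card (Sylow p H) ∣ Nat.card L := by
  classical
  have h1 : Subgroup.normalizer (S : Set H) ⊔ ((S : Subgroup H) ⊔ L) = ⊤ :=
    S.normalizer_sup_eq_top' le_sup_left
  have h2 : Subgroup.normalizer (S : Set H) ⊔ L = ⊤ := by
    have h0 : (S : Subgroup H) ≤ Subgroup.normalizer (S : Set H) := Subgroup.le_normalizer
    rw [← sup_assoc, sup_eq_left.mpr h0] at h1
    exact h1
  have h3 := Solv.mul_card_sup_of_normal (Subgroup.normalizer (S : Set H)) L
  rw [h2, Subgroup.card_top] at h3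
  have h4 : Nat.card (Sylow p H) = (Subgroup.normalizer (S : Set H)).index := by
    have := S.card_eq_index_normalizer
    exact this
  have h5 := (Subgroup.normalizer (S : Set H)).card_mul_index
  rw [← h5, mul_assoc] at h3
  have h6 : 0 < Nat.card (Subgroup.normalizer (S : Set H)) := Nat.card_pos
  have h7 := Nat.eq_of_mul_eq_mul_left h6 h3
  rw [h4]
  exact ⟨_, h7.symm⟩

theorem exists_LM {H : Type u} [Group H] [Finite H] (hs : Group.IsSolvable H) {p q : ℕ}
    (hp : p.Prime) (hq : q.Prime) (hpq : p ≠ q) {P Q : Subgroup H} (hP : Syl p P) (hQ : Syl q Q)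
    (hPab : ∀ x ∈ P, ∀ y ∈ P, x * y = y * x) (hQab : ∀ x ∈ Q, ∀ y ∈ Q, x * y = y * x)
    (hPQ : ∀ x ∈ P, ∀ y ∈ Q, x * y = y * x) :
    ∃ L M : Subgroup H, L.Normal ∧ M.Normal ∧ L ≤ M ∧ (∀ a ∈ M, ∀ b ∈ M, a * b * a⁻¹ * b⁻¹ ∈ L) ∧
      P ≤ M ∧ Q ≤ M ∧ ¬ p ∣ Nat.card L ∧ ¬ q ∣ Nat.card L ∧
      (∀ P' : Sylow p H, Nat.card (Sylow p H) ∣ Nat.card L) ∧
      (∀ Q' : Sylow q H, Nat.card (Sylow q H) ∣ Nat.card L) := by
  classical
  haveI : Fact p.Prime := ⟨hp⟩
  haveI : Fact q.Prime := ⟨hq⟩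
  haveI := hs
  set 𝒮 : Set (Subgroup H) := {N | N.Normal ∧ (Nat.card N).Coprime (p * q)} with h𝒮
  obtain ⟨hLn, hLc⟩ := Solv.coprime_card_sSup (p * q) 𝒮 (fun N h => h)
  set L : Subgroup H := sSup 𝒮 with hL
  haveI := hLn
  let f : H →* H ⧸ L := QuotientGroup.mk' L
  have hfk : f.ker = L := QuotientGroup.ker_mk' L
  have hfs : Function.Surjective f := QuotientGroup.mk'_surjective L
  haveI hXs : Group.IsSolvable (H ⧸ L) := Group.isSolvable_of_surjective hfs
  have hmem : ∀ x : H, f x = 1 ↔ x ∈ L := by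
    intro x
    exact QuotientGroup.eq_one_iff x
  have hP' : Syl p (P.map f) :=
    ⟨hP.1.map f, fun h => hP.2 (h.trans (Subgroup.index_map_dvd P hfs))⟩
  have hQ' : Syl q (Q.map f) :=
    ⟨hQ.1.map f, fun h => hQ.2 (h.trans (Subgroup.index_map_dvd Q hfs))⟩
  have hO : ∀ N : Subgroup (H ⧸ L), N.Normal → (Nat.card N).Coprime (p * q) → N = ⊥ := by
    intro N hN hc
    have h1 : N.comap f ∈ 𝒮 := by
      refine ⟨hN.comap f, ?_⟩
      have h2 : Nat.card (N.comap f) = Nat.card L * Nat.card N := by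
        have h3 : L ≤ N.comap f := by
          intro x hx
          show f x ∈ N
          rw [(hmem x).mpr hx]; exact N.one_mem
        have h4 : Nat.card (N.comap f) = Nat.card L * L.relIndex (N.comap f) := by
          rw [← Subgroup.relIndex_bot_left (N.comap f), ← Subgroup.relIndex_bot_left L,
            Subgroup.relIndex_mul_relIndex _ _ _ bot_le h3]
        have h5 : L.relIndex (N.comap f) = Nat.card N := by
          have h6 := Subgroup.relIndex_ker (N.comap f) f
          rw [Subgroup.map_comap_eq_self_of_surjective hfs] at h6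
          have h7 : f.ker.relIndex (N.comap f) = L.relIndex (N.comap f) := by rw [hfk]
          rw [← h7, h6]
        rw [h4, h5]
      rw [h2]
      exact Nat.Coprime.mul_left hLc hc
    have h2 : N.comap f ≤ L := le_sSup h1
    rw [eq_bot_iff]
    intro x hx
    obtain ⟨y, rfl⟩ := hfs x
    rw [Subgroup.mem_bot, hmem]
    exact h2 hx
  obtain ⟨hPc, hQc⟩ := normal_of hXs hp hq hpq hP' hQ' (by
      rintro _ ⟨x, hx, rfl⟩ _ ⟨y, hy, rfl⟩
      rw [← map_mul, hPab x hx y hy, map_mul]) (by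
      rintro _ ⟨x, hx, rfl⟩ _ ⟨y, hy, rfl⟩
      rw [← map_mul, hQab x hx y hy, map_mul]) (by
      rintro _ ⟨x, hx, rfl⟩ _ ⟨y, hy, rfl⟩
      rw [← map_mul, hPQ x hx y hy, map_mul]) hO
  have hPn : (P.map f).Normal := by rw [← hPc]; infer_instance
  have hQn : (Q.map f).Normal := by rw [← hQc]; infer_instance
  have hcomap : ∀ K : Subgroup H, (K.map f).comap f = K ⊔ L := by
    intro K
    rw [Subgroup.comap_map_eq, hfk]
  have hcop := Nat.Coprime.coprime_mul_right_right hLc
  have hcoq := Nat.Coprime.coprime_mul_left_right hLc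
  have hpL : ¬ p ∣ Nat.card L := fun h => by
    have := Nat.Coprime.eq_one_of_dvd (Nat.Coprime.symm hcop) h
    exact hp.one_lt.ne' this
  have hqL : ¬ q ∣ Nat.card L := fun h => by
    have := Nat.Coprime.eq_one_of_dvd (Nat.Coprime.symm hcoq) h
    exact hq.one_lt.ne' this
  refine ⟨L, (P.map f ⊔ Q.map f).comap f, hLn, ?_, ?_, ?_, ?_, ?_, hpL, hqL, ?_, ?_⟩
  · haveI := hPn
    haveI := hQn
    exact Subgroup.Normal.comap inferInstance f
  · intro x hx
    show f x ∈ P.map f ⊔ Q.map f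
    rw [(hmem x).mpr hx]; exact Subgroup.one_mem _
  · intro a ha b hb
    rw [← hmem, map_mul, map_mul, map_mul, map_inv, map_inv]
    haveI := hPn
    haveI := hQn
    have hcomm : ∀ x ∈ P.map f ⊔ Q.map f, ∀ y ∈ P.map f ⊔ Q.map f, x * y = y * x := by
      have hcl : ∀ x ∈ P.map f ⊔ Q.map f, ∃ a b : H, a ∈ P ∧ b ∈ Q ∧ x = f (a * b) := by
        intro x hx
        obtain ⟨_, ⟨a, ha, rfl⟩, _, ⟨b, hb, rfl⟩, h⟩ := Subgroup.mem_sup_of_normal_left.mp hx
        exact ⟨a, b, ha, hb, by rw [map_mul]; exact h.symm⟩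
      intro x hx y hy
      obtain ⟨a, b, ha, hb, rfl⟩ := hcl x hx
      obtain ⟨c, d, hc, hd, rfl⟩ := hcl y hy
      rw [← map_mul, ← map_mul]
      congr 1
      calc a * b * (c * d) = a * (b * c) * d := by group
        _ = a * (c * b) * d := by rw [(hPQ c hc b hb)]
        _ = (a * c) * (b * d) := by group
        _ = (c * a) * (d * b) := by rw [hPab a ha c hc, hQab b hb d hd]
        _ = c * (a * d) * b := by group
        _ = c * (d * a) * b := by rw [hPQ a ha d hd]
        _ = c * d * (a * b) := by group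
    rw [hcomm _ ha _ hb]
    group
  · intro x hx
    exact (le_sup_left : P.map f ≤ _) ⟨x, hx, rfl⟩
  · intro x hx
    exact (le_sup_right : Q.map f ≤ _) ⟨x, hx, rfl⟩
  · intro _
    obtain ⟨S, hS⟩ := exists_sylow_eq hP
    apply card_sylow_dvd S L
    rw [hS, ← hcomap]
    exact hPn.comap f
  · intro _
    obtain ⟨S, hS⟩ := exists_sylow_eq hQ
    apply card_sylow_dvd S L
    rw [hS, ← hcomap]
    exact hQn.comap f

end Cfsg.Agent.H25.PalA4
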