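import Cfsg.Agent.H25.PalA4

set_option autoImplicit false
set_option linter.style.haveILetI false

namespace Cfsg.Agent.H25.PalA5

open Cfsg Cfsg.Agent.CharBase Cfsg.Agent.H25.Pal

universe u v

/-- image of `FixP` under a factorisation through a surjection. -/
theorem fixP_factor {H X : Type u} {W : Type v} [Group H] [Group X] [Group W] (a : H →* MulAut W)
    (f : H →* X) (hf : Function.Surjective f) (b : X →* MulAut W) (hb : ∀ h, b (f h) = a h) {p : ℕ}
    (h : FixP a p) : FixP b p := by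
  intro w hw
  obtain ⟨P, hP⟩ := h w hw
  refine ⟨P.map f, ?_, ?_, ?_, ?_⟩
  · exact ⟨hP.syl.1.map f, fun h => hP.syl.2 (h.trans (Subgroup.index_map_dvd P hf))⟩
  · rintro _ ⟨x, hx, rfl⟩ _ ⟨y, hy, rfl⟩
    rw [← map_mul, hP.ab x hx y hy, map_mul]
  · rintro _ ⟨x, hx, rfl⟩
    rw [hb]
    exact hP.fx x hx
  · intro g hg
    obtain ⟨g, rfl⟩ := hf g
    rw [hb] at hg
    rintro _ ⟨x, hx, rfl⟩
    exact ⟨g * x * g⁻¹, hP.nrm g hg x hx, by simp⟩

/-- a normal Sylow subgroup of the image gives one of `H`. -/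
theorem nsyl_of_image {H X : Type u} {W : Type v} [Group H] [Finite H] [Group X] [Group W]
    (a : H →* MulAut W)
    (f : H →* X) (hf : Function.Surjective f) (hk : ∀ h, f h = 1 → a h = 1) {p : ℕ} (hp : p.Prime)
    (h : FixP a p) (hW : ∃ w : W, w ≠ 1) (hX : NSyl X p) : NSyl H p := by
  classical
  haveI : Fact p.Prime := ⟨hp⟩
  obtain ⟨w, hw⟩ := hW
  obtain ⟨P, hP⟩ := h w hw
  obtain ⟨N, hNn, hN⟩ := hX
  haveI : Finite X := Finite.of_surjective f hf
  obtain ⟨S, hS⟩ := PalA4.exists_sylow_eq hP.syl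
  obtain ⟨T, hT⟩ := PalA4.exists_sylow_eq hN
  have hP' : Syl p (P.map f) :=
    ⟨hP.syl.1.map f, fun h => hP.syl.2 (h.trans (Subgroup.index_map_dvd P hf))⟩
  obtain ⟨S', hS'⟩ := PalA4.exists_sylow_eq hP'
  -- P̄ = N
  have hTn : (T : Subgroup X).Normal := by rw [hT]; exact hNn
  have hST : (S' : Subgroup X) = T := by
    haveI := Sylow.unique_of_normal T hTn
    have : S' = T := Subsingleton.elim _ _
    rw [this]
  have hPN : P.map f = N := by rw [← hS', hST, hT]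
  refine ⟨P, ⟨fun x hx g => ?_⟩, hP.syl⟩
  -- g x g⁻¹ ∈ P ⊔ ker f
  have h1 : g * x * g⁻¹ ∈ (P.map f).comap f := by
    show f (g * x * g⁻¹) ∈ P.map f
    rw [hPN, map_mul, map_mul, map_inv]
    refine hNn.conj_mem _ ?_ _
    rw [← hPN]
    exact ⟨x, hx, rfl⟩
  have h2 : ∀ y ∈ (P.map f).comap f, ∀ z ∈ P, y * z * y⁻¹ ∈ P := by
    intro y hy z hz
    obtain ⟨c, hc, hcy⟩ := hy
    apply hP.nrm y _ z hz
    have h3 : a (c⁻¹ * y) = 1 := by
      apply hk
      rw [map_mul, map_inv, hcy]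
      group
    have h4 : a y = a c := by
      have h5 : y = c * (c⁻¹ * y) := by group
      rw [h5, map_mul, h3, mul_one]
    rw [h4]
    exact hP.fx c hc
  -- the cyclic group generated by g x g⁻¹
  have hpg : IsPGroup p (P.map (MulAut.conj g).toMonoidHom) := hP.syl.1.map _
  have hy : g * x * g⁻¹ ∈ P.map (MulAut.conj g).toMonoidHom := ⟨x, hx, rfl⟩
  have hyn : g * x * g⁻¹ ∈ Subgroup.normalizer (S : Set H) := by
    have hSc : (S : Set H) = (P : Set H) := congrArg (fun K : Subgroup H => (K : Set H)) hS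
    rw [hSc, Subgroup.mem_normalizer_iff]
    intro z
    constructor
    · intro hz
      exact h2 _ h1 z hz
    · intro hz
      have h5 := h2 _ (Subgroup.inv_mem _ h1) _ hz
      have h6 : (g * x * g⁻¹)⁻¹ * (g * x * g⁻¹ * z * (g * x * g⁻¹)⁻¹) * (g * x * g⁻¹)⁻¹⁻¹ = z := by
        group
      rw [h6] at h5
      exact h5
  have h7 := hpg.inf_normalizer_sylow S
  have h8 : g * x * g⁻¹ ∈ P.map (MulAut.conj g).toMonoidHom ⊓ (S : Subgroup H) := by
    rw [← h7]
    exact ⟨hy, hyn⟩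
  rw [← hS]
  exact h8.2

theorem X_general_of
    (Xf : ∀ {H : Type u} {W : Type v} [Group H] [Finite H] (_ : Group.IsSolvable H) [Group W]
      [Finite W] (a : H →* MulAut W) (_ : Function.Injective a) {s n p q : ℕ} (_ : s.Prime)
      (_ : p.Prime) (_ : q.Prime) (_ : p ≠ q) (_ : Nat.card W = s ^ n) (_ : FixP a p)
      (_ : FixP a q) (_ : ¬ NSyl H p) (_ : ¬ NSyl H q),
      ∃ χ : IrrCharacter H, p * q ∣ charDegree (χ : H → ℂ))
    {H : Type u} {W : Type v} [Group H] [Finite H] (hs : Group.IsSolvable H) [Group W] [Finite W]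
    (a : H →* MulAut W) {s n p q : ℕ} (hsp : s.Prime) (hp : p.Prime) (hq : q.Prime)
    (hpq : p ≠ q) (hW : Nat.card W = s ^ n) (hW1 : 1 < Nat.card W) (hP : FixP a p) (hQ : FixP a q)
    (hnP : ¬ NSyl H p) (hnQ : ¬ NSyl H q) :
    ∃ χ : IrrCharacter H, p * q ∣ charDegree (χ : H → ℂ) := by
  classical
  let f : H →* H ⧸ a.ker := QuotientGroup.mk' a.ker
  have hfs : Function.Surjective f := QuotientGroup.mk'_surjective _
  let b : H ⧸ a.ker →* MulAut W := QuotientGroup.kerLift a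
  have hb : ∀ h, b (f h) = a h := fun h => rfl
  have hbi : Function.Injective b := QuotientGroup.kerLift_injective a
  haveI := hs
  have hXs : Group.IsSolvable (H ⧸ a.ker) := Group.isSolvable_of_surjective hfs
  haveI : Nontrivial W := Finite.one_lt_card_iff_nontrivial.mp hW1
  have hw : ∃ w : W, w ≠ 1 := exists_ne 1
  have hk : ∀ h, f h = 1 → a h = 1 := by
    intro h hh
    rw [← hb, hh, map_one]
  obtain ⟨χ, hχ⟩ := Xf hXs b hbi hsp hp hq hpq hW (fixP_factor a f hfs b hb hP)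
    (fixP_factor a f hfs b hb hQ)
    (fun h => hnP (nsyl_of_image a f hfs hk hp hP hw h))
    (fun h => hnQ (nsyl_of_image a f hfs hk hq hQ hw h))
  refine ⟨⟨(χ : H ⧸ a.ker → ℂ) ∘ f, isIrrCharacter_comp_surjective χ.2 f hfs⟩, ?_⟩
  have h1 : charDegree ((χ : H ⧸ a.ker → ℂ) ∘ f) = charDegree (χ : H ⧸ a.ker → ℂ) := by
    show ⌊((χ : H ⧸ a.ker → ℂ) (f 1)).re⌋₊ = ⌊((χ : H ⧸ a.ker → ℂ) 1).re⌋₊
    rw [map_one]
  show p * q ∣ charDegree ((χ : H ⧸ a.ker → ℂ) ∘ f)
  rw [h1]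
  exact hχ

end Cfsg.Agent.H25.PalA5
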