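import Mathlib

/-! Three primes theorem: the exceptional case `|W| = 64` (piece A7 of S4847). -/

set_option autoImplicit false
set_option linter.style.haveILetI false

namespace Cfsg.Agent.H25.PalA7

open Subgroup

universe u v

variable {H : Type u} {W : Type v} [Group H] [Group W]

/-- the action of `S` on an invariant set -/
@[reducible] def act (a : H →* MulAut W) (S : Subgroup H) (U : Set W) (hU : ∀ x ∈ S, ∀ w ∈ U, a x w ∈ U) :
    MulAction S U where
  smul x w := ⟨a x w, hU x x.2 w w.2⟩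
  one_smul w := by
    apply Subtype.ext
    change a ((1 : S) : H) (w : W) = w
    rw [OneMemClass.coe_one, map_one]; rfl
  mul_smul x y w := by
    apply Subtype.ext
    change a ((x * y : S) : H) (w : W) = a x (a y w)
    rw [Subgroup.coe_mul, map_mul]; rfl

/-- fixed points -/
def Fix (a : H →* MulAut W) (S : Subgroup H) : Subgroup W where
  carrier := {w | ∀ x ∈ S, a x w = w}
  one_mem' := fun x _ => map_one _
  mul_mem' := by
    intro v w hv hw x hx
    rw [map_mul, hv x hx, hw x hx]
  inv_mem' := by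
    intro v hv x hx
    rw [map_inv, hv x hx]

theorem mem_Fix {a : H →* MulAut W} {S : Subgroup H} {w : W} : w ∈ Fix a S ↔ ∀ x ∈ S, a x w = w := Iff.rfl

variable [Finite H] [Finite W]

theorem card_modEq (a : H →* MulAut W) {r : ℕ} [Fact r.Prime] (S : Subgroup H) (hS : IsPGroup r S) (U : Subgroup W)
    (hU : ∀ x ∈ S, ∀ w ∈ U, a x w ∈ U) : Nat.card U ≡ Nat.card ↥(U ⊓ Fix a S) [MOD r] := by
  letI := act a S (U : Set W) hU
  have h := hS.card_modEq_card_fixedPoints (U : Set W)
  have h2 : Nat.card (MulAction.fixedPoints S (U : Set W)) = Nat.card ↥(U ⊓ Fix a S) := by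
    refine Nat.card_congr ⟨fun w => ⟨(w : (U : Set W)), (w : (U : Set W)).2, fun x hx => ?_⟩,
      fun w => ⟨⟨w, w.2.1⟩, fun x => ?_⟩, fun w => rfl, fun w => rfl⟩
    · exact congrArg Subtype.val (w.2 ⟨x, hx⟩)
    · apply Subtype.ext
      exact w.2.2 x x.2
  rw [h2] at h
  exact h

theorem card_cases (U : Subgroup W) (hW : Nat.card W = 64) :
    Nat.card U = 1 ∨ Nat.card U = 2 ∨ Nat.card U = 4 ∨ Nat.card U = 8 ∨ Nat.card U = 16 ∨ Nat.card U = 32 ∨
      Nat.card U = 64 := by
  have h : Nat.card U ∣ 2 ^ 6 := by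
    have := Subgroup.card_subgroup_dvd_card U
    rw [hW] at this
    exact this
  obtain ⟨i, hi, h⟩ := (Nat.dvd_prime_pow Nat.prime_two).1 h
  rw [h]
  interval_cases i <;> norm_num

theorem eq_bot_of_Fix (a : H →* MulAut W) (hf : Function.Injective a) (S : Subgroup H) (h : Fix a S = ⊤) : S = ⊥ := by
  rw [eq_bot_iff]
  intro x hx
  rw [mem_bot]
  apply hf
  rw [map_one]
  apply MulEquiv.ext
  intro w
  have : w ∈ Fix a S := by rw [h]; exact mem_top w
  exact this x hx

theorem Fix_card_seven (a : H →* MulAut W) (hf : Function.Injective a) (hW : Nat.card W = 64) (S : Subgroup H)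
    (hS : IsPGroup 7 S) {w : W} (hw : w ∈ Fix a S) (hw1 : w ≠ 1) : Nat.card (Fix a S) = 8 ∨ S = ⊥ := by
  haveI : Fact (Nat.Prime 7) := ⟨by norm_num⟩
  have h1 := card_modEq a S hS ⊤ (fun _ _ _ _ => mem_top _)
  rw [top_inf_eq, Subgroup.card_top, hW] at h1
  have h2 : Nat.card (Fix a S) ≠ 1 := by
    intro h0
    rw [Subgroup.card_eq_one] at h0
    rw [h0, mem_bot] at hw
    exact hw1 hw
  unfold Nat.ModEq at h1
  rcases card_cases (Fix a S) hW with h | h | h | h | h | h | h
  · exact absurd h h2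
  · rw [h] at h1; omega
  · rw [h] at h1; omega
  · exact Or.inl h
  · rw [h] at h1; omega
  · rw [h] at h1; omega
  · right
    apply eq_bot_of_Fix a hf
    apply Subgroup.eq_top_of_card_eq
    rw [h, hW]

/-- free actions -/
theorem card_dvd_of_free {S X : Type*} [Group S] [Finite S] [Finite X] [MulAction S X]
    (h : ∀ x : X, MulAction.stabilizer S x = ⊥) : Nat.card S ∣ Nat.card X := by
  classical
  haveI := Fintype.ofFinite X
  haveI := Fintype.ofFinite S
  haveI : Fintype (Quotient (MulAction.orbitRel S X)) := Fintype.ofFinite _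
  rw [Nat.card_congr (MulAction.selfEquivSigmaOrbitsQuotientStabilizer S X), Nat.card_sigma]
  apply Finset.dvd_sum
  intro ω _
  have : Nat.card (S ⧸ MulAction.stabilizer S ω.out) = Nat.card S := by
    have h1 := Subgroup.card_eq_card_quotient_mul_card_subgroup (MulAction.stabilizer S ω.out)
    rw [h ω.out, Subgroup.card_bot, mul_one] at h1
    rw [h ω.out]; exact h1.symm
  rw [this]

theorem pow_seven_le {S : Type*} [Group S] [Finite S] (hS : IsPGroup 7 S) {n : ℕ} (h : Nat.card S ∣ n) (hn : 0 < n)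
    (hn2 : n < 343) (h49 : ¬ 49 ∣ n) : Nat.card S ≤ 7 := by
  haveI : Fact (Nat.Prime 7) := ⟨by norm_num⟩
  obtain ⟨i, hi⟩ := hS.exists_card_eq
  rw [hi] at h ⊢
  by_contra hcon
  have : 2 ≤ i := by
    by_contra h0
    have : i ≤ 1 := by omega
    have := Nat.pow_le_pow_right (n := 7) (by norm_num) this
    omega
  exact h49 (dvd_trans (pow_dvd_pow 7 this) h)

/-- a 7-group acting faithfully on a group of order 64 has order at most 343 -/
theorem card_le (a : H →* MulAut W) (hf : Function.Injective a) (hW : Nat.card W = 64) (T : Subgroup H)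
    (hT : IsPGroup 7 T) : Nat.card T ≤ 343 := by
  classical
  haveI : Fact (Nat.Prime 7) := ⟨by norm_num⟩
  haveI : Nontrivial W := by
    rw [← Finite.one_lt_card_iff_nontrivial, hW]; norm_num
  obtain ⟨w, hw1⟩ := exists_ne (1 : W)
  letI A := act a T (Set.univ) (fun _ _ _ _ => Set.mem_univ _)
  let w' : (Set.univ : Set W) := ⟨w, Set.mem_univ _⟩
  -- the stabilizer
  let Sw : Subgroup H := (MulAction.stabilizer T w').map T.subtype
  have hmem : ∀ x ∈ Sw, a x w = w := by
    rintro _ ⟨x, hx, rfl⟩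
    exact congrArg Subtype.val (MulAction.mem_stabilizer_iff.1 hx)
  have hmem' : ∀ x ∈ T, a x w = w → x ∈ Sw := by
    intro x hx h
    refine ⟨⟨x, hx⟩, ?_, rfl⟩
    apply MulAction.mem_stabilizer_iff.2
    apply Subtype.ext
    exact h
  have hSwT : Sw ≤ T := by
    rintro _ ⟨x, -, rfl⟩
    exact x.2
  have hSw : IsPGroup 7 Sw := hT.to_le hSwT
  have hcSw : Nat.card Sw = Nat.card (MulAction.stabilizer T w') :=
    (Nat.card_congr ((MulAction.stabilizer T w').equivMapOfInjective _ T.subtype_injective).toEquiv).symm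
  have horb : Nat.card (MulAction.orbit T w') * Nat.card (MulAction.stabilizer T w') = Nat.card T := by
    rw [← Nat.card_prod]
    exact Nat.card_congr (MulAction.orbitProdStabilizerEquivGroup T w')
  -- the orbit
  have ho : Nat.card (MulAction.orbit T w') ≤ 49 := by
    obtain ⟨i, hi⟩ := hT.card_orbit w'
    have h1 : Nat.card (MulAction.orbit T w') < 64 := by
      have h2 : Nat.card (MulAction.orbit T w') < Nat.card (Set.univ : Set W) := by
        refine Finite.card_subtype_lt (x := (⟨1, Set.mem_univ _⟩ : (Set.univ : Set W))) ?_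
        rintro ⟨x, hx⟩
        have h3 : a x w = 1 := congrArg Subtype.val hx
        exact hw1 ((map_eq_one_iff _ (a x).injective).1 h3)
      rw [Nat.card_congr (Equiv.Set.univ W), hW] at h2
      exact h2
    rw [hi] at h1 ⊢
    have : i ≤ 2 := by
      by_contra h0
      have := Nat.pow_le_pow_right (n := 7) (by norm_num) (show 3 ≤ i by omega)
      omega
    exact Nat.pow_le_pow_right (n := 7) (by norm_num) this
  -- the stabilizer has order at most 7
  have hs : Nat.card Sw ≤ 7 := by
    rcases Fix_card_seven a hf hW Sw hSw (w := w) hmem hw1 with h8 | h8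
    · let X : Set W := {v | v ∉ Fix a Sw}
      have hX : ∀ x ∈ Sw, ∀ v ∈ X, a x v ∈ X := by
        intro x hx v hv hc
        apply hv
        intro y hy
        have h1 : a (y * x) v = a x v := by rw [map_mul]; exact hc y hy
        have h2 : a (x⁻¹ * y * x) v = v := by
          rw [mul_assoc, map_mul, MulAut.mul_apply, h1, ← MulAut.mul_apply, ← map_mul, inv_mul_cancel, map_one]; rfl
        -- use closure under conjugation
        have h3 : a x v = v := by
          have h4 := hc x⁻¹ (inv_mem hx)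
          rw [← MulAut.mul_apply, ← map_mul, inv_mul_cancel, map_one] at h4
          exact h4.symm
        rw [← h3]; exact hc y hy |>.trans rfl
      letI B := act a Sw X hX
      have hfree : ∀ v : X, MulAction.stabilizer Sw v = ⊥ := by
        rintro ⟨v, hv⟩
        let Q : Subgroup H := (MulAction.stabilizer Sw (⟨v, hv⟩ : X)).map Sw.subtype
        have hQS : Q ≤ Sw := by
          rintro _ ⟨x, -, rfl⟩
          exact x.2
        have hQw : w ∈ Fix a Q := fun x hx => hmem x (hQS hx)
        have hQv : v ∈ Fix a Q := by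
          rintro _ ⟨x, hx, rfl⟩
          exact congrArg Subtype.val (MulAction.mem_stabilizer_iff.1 hx)
        have hle : Fix a Sw ≤ Fix a Q := fun u hu x hx => hu x (hQS hx)
        rcases Fix_card_seven a hf hW Q (hSw.to_le hQS) hQw hw1 with h9 | h9
        · exfalso
          apply hv
          have : Fix a Sw = Fix a Q := Subgroup.eq_of_le_of_card_ge hle (by rw [h8, h9])
          rw [this]; exact hQv
        · rw [eq_bot_iff]
          intro x hx
          have : (x : H) ∈ Q := ⟨x, hx, rfl⟩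
          rw [h9, mem_bot] at this
          rw [mem_bot]; exact Subtype.ext this
      have hd := card_dvd_of_free (S := Sw) (X := X) hfree
      have hXc : Nat.card X = 56 := by
        have h1 : Nat.card X + Nat.card (Fix a Sw) = Nat.card W := by
          have := Nat.card_congr (Equiv.Set.sumCompl ((Fix a Sw : Subgroup W) : Set W))
          rw [Nat.card_sum] at this
          rw [← this, add_comm]
          rfl
        rw [h8, hW] at h1
        omega
      rw [hXc] at hd
      exact pow_seven_le hSw hd (by norm_num) (by norm_num) (by norm_num)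
    · rw [h8, Subgroup.card_bot]; norm_num
  rw [← horb, ← hcSw]
  calc _ ≤ 49 * 7 := Nat.mul_le_mul ho hs
    _ = 343 := by norm_num

theorem card_Fix_x (a : H →* MulAut W) (hf : Function.Injective a) (hW : Nat.card W = 64)
    {p : ℕ} (hp : p = 5 ∨ p = 31) {x : H} (ox : orderOf x = p) (hfx : ∃ w : W, w ≠ 1 ∧ a x w = w) :
    (p = 5 ∧ Nat.card (Fix a (zpowers x)) = 4) ∨ (p = 31 ∧ Nat.card (Fix a (zpowers x)) = 2) := by
  haveI hpp : Fact p.Prime := ⟨by rcases hp with rfl | rfl <;> norm_num⟩
  have hX : IsPGroup p (zpowers x) := IsPGroup.of_card (n := 1) (by rw [Nat.card_zpowers, ox, pow_one])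
  have h1 := card_modEq a (zpowers x) hX ⊤ (fun _ _ _ _ => mem_top _)
  rw [top_inf_eq, Subgroup.card_top, hW] at h1
  obtain ⟨w, hw1, hw⟩ := hfx
  have hwF : w ∈ Fix a (zpowers x) := by
    intro y hy
    obtain ⟨k, rfl⟩ := mem_zpowers_iff.1 hy
    have h3 : x ∈ (MulAction.stabilizer (MulAut W) w).comap a := by
      rw [mem_comap, MulAction.mem_stabilizer_iff]; exact hw
    have h4 := (mem_comap.1 (Subgroup.zpow_mem _ h3 k))
    exact MulAction.mem_stabilizer_iff.1 h4
  have h2 : Nat.card (Fix a (zpowers x)) ≠ 1 := by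
    intro h0
    rw [Subgroup.card_eq_one] at h0
    rw [h0, mem_bot] at hwF
    exact hw1 hwF
  have h64 : Nat.card (Fix a (zpowers x)) ≠ 64 := by
    intro h0
    have h3 := eq_bot_of_Fix a hf _ (Subgroup.eq_top_of_card_eq _ (by rw [h0, hW]))
    rw [zpowers_eq_bot] at h3
    rw [h3, orderOf_one] at ox
    rcases hp with rfl | rfl <;> omega
  unfold Nat.ModEq at h1
  rcases hp with rfl | rfl
  · left
    refine ⟨rfl, ?_⟩
    rcases card_cases (Fix a (zpowers x)) hW with h | h | h | h | h | h | h <;> rw [h] at h1 <;> omega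
  · right
    refine ⟨rfl, ?_⟩
    rcases card_cases (Fix a (zpowers x)) hW with h | h | h | h | h | h | h <;> rw [h] at h1 <;> omega

theorem no_seven (a : H →* MulAut W) (hf : Function.Injective a) (hW : Nat.card W = 64)
    {p : ℕ} (hp : p = 5 ∨ p = 31) {x : H} (ox : orderOf x = p) (hfx : ∃ w : W, w ≠ 1 ∧ a x w = w)
    {z : H} (oz : orderOf z = 7) (hxz : x * z = z * x) : False := by
  haveI hpp : Fact p.Prime := ⟨by rcases hp with rfl | rfl <;> norm_num⟩
  haveI : Fact (Nat.Prime 7) := ⟨by norm_num⟩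
  have hX : IsPGroup p (zpowers x) := IsPGroup.of_card (n := 1) (by rw [Nat.card_zpowers, ox, pow_one])
  have hZ : IsPGroup 7 (zpowers z) := IsPGroup.of_card (n := 1) (by rw [Nat.card_zpowers, oz, pow_one])
  have hcx := card_Fix_x a hf hW hp ox hfx
  have hcomm : ∀ y ∈ zpowers x, ∀ u ∈ zpowers z, y * u = u * y := by
    intro y hy u hu
    obtain ⟨i, rfl⟩ := mem_zpowers_iff.1 hy
    obtain ⟨j, rfl⟩ := mem_zpowers_iff.1 hu
    exact ((show Commute x z from hxz).zpow_zpow i j)
  have hinvX : ∀ u ∈ zpowers z, ∀ w ∈ Fix a (zpowers x), a u w ∈ Fix a (zpowers x) := by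
    intro u hu w hw y hy
    rw [← MulAut.mul_apply, ← map_mul, hcomm y hy u hu, map_mul, MulAut.mul_apply, hw y hy]
  have hinvZ : ∀ y ∈ zpowers x, ∀ w ∈ Fix a (zpowers z), a y w ∈ Fix a (zpowers z) := by
    intro y hy w hw u hu
    rw [← MulAut.mul_apply, ← map_mul, ← hcomm y hy u hu, map_mul, MulAut.mul_apply, hw u hu]
  have h1 := card_modEq a (zpowers z) hZ (Fix a (zpowers x)) hinvX
  have h2 := card_modEq a (zpowers x) hX (Fix a (zpowers z)) hinvZ
  have hle : Nat.card ↥(Fix a (zpowers x) ⊓ Fix a (zpowers z)) ≤ Nat.card (Fix a (zpowers x)) :=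
    Nat.le_of_dvd Nat.card_pos (Subgroup.card_dvd_of_le inf_le_left)
  have hpos : 0 < Nat.card ↥(Fix a (zpowers x) ⊓ Fix a (zpowers z)) := Nat.card_pos
  have heq : Nat.card ↥(Fix a (zpowers x) ⊓ Fix a (zpowers z)) = Nat.card (Fix a (zpowers x)) := by
    unfold Nat.ModEq at h1
    rcases hcx with ⟨-, h⟩ | ⟨-, h⟩ <;> rw [h] at h1 hle ⊢ <;> omega
  have hsub : Fix a (zpowers x) ⊓ Fix a (zpowers z) = Fix a (zpowers x) :=
    Subgroup.eq_of_le_of_card_ge inf_le_left heq.ge
  obtain ⟨w, hw1, hw⟩ := hfx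
  have hwF : w ∈ Fix a (zpowers x) := by
    intro y hy
    obtain ⟨k, rfl⟩ := mem_zpowers_iff.1 hy
    have h3 : x ∈ (MulAction.stabilizer (MulAut W) w).comap a := by
      rw [mem_comap, MulAction.mem_stabilizer_iff]; exact hw
    have h4 := (mem_comap.1 (Subgroup.zpow_mem _ h3 k))
    exact MulAction.mem_stabilizer_iff.1 h4
  have hwZ : w ∈ Fix a (zpowers z) := (inf_eq_left.1 hsub) hwF
  rcases Fix_card_seven a hf hW _ hZ hwZ hw1 with h8 | h8
  · rw [inf_comm, hsub, h8] at h2
    unfold Nat.ModEq at h2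
    rcases hcx with ⟨rfl, h⟩ | ⟨rfl, h⟩ <;> rw [h] at h2 <;> omega
  · rw [zpowers_eq_bot] at h8
    rw [h8, orderOf_one] at oz
    omega

theorem exists_seven {T : Subgroup H} (hT : IsPGroup 7 T) {y : H} (hy : y ∈ T) (hy1 : y ≠ 1) :
    ∃ k : ℕ, orderOf (y ^ k) = 7 := by
  obtain ⟨m, hm⟩ := hT ⟨y, hy⟩
  have hm' : y ^ 7 ^ m = 1 := congrArg Subtype.val hm
  obtain ⟨i, -, hi⟩ := (Nat.dvd_prime_pow (by norm_num : Nat.Prime 7)).1 (orderOf_dvd_of_pow_eq_one hm')
  have hi0 : i ≠ 0 := by
    rintro rfl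
    rw [pow_zero, orderOf_eq_one_iff] at hi
    exact hy1 hi
  obtain ⟨j, rfl⟩ := Nat.exists_eq_succ_of_ne_zero hi0
  refine ⟨7 ^ j, ?_⟩
  rw [orderOf_pow, hi, Nat.gcd_eq_right (pow_dvd_pow 7 (Nat.le_succ j)), pow_succ]
  exact Nat.mul_div_cancel_left _ (by positivity)

theorem exceptional {H : Type u} {W : Type v} [Group H] [Finite H] [Group W] [Finite W]
    (a : H →* MulAut W) (hf : Function.Injective a) (hW : Nat.card W = 64) {L : Subgroup H} (hL : L.Normal)
    {p : ℕ} (hp : p = 5 ∨ p = 31) {x : H} (ox : orderOf x = p) (hpL : ¬ p ∣ Nat.card L) (h7 : 7 ∣ Nat.card L)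
    (hfx : ∃ w : W, w ≠ 1 ∧ a x w = w) : False := by
  haveI hpp : Fact p.Prime := ⟨by rcases hp with rfl | rfl <;> norm_num⟩
  haveI : Fact (Nat.Prime 7) := ⟨by norm_num⟩
  have hX : IsPGroup p (zpowers x) := IsPGroup.of_card (n := 1) (by rw [Nat.card_zpowers, ox, pow_one])
  obtain ⟨P⟩ : Nonempty (Sylow 7 L) := inferInstance
  set P1 : Subgroup H := (P : Subgroup L).map L.subtype with hP1
  have hsup := Sylow.normalizer_sup_eq_top P
  rw [← hP1] at hsup
  set N : Subgroup H := normalizer (P1 : Set H) with hN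
  have hNi : N.index ∣ Nat.card L := by
    have h1 : L.relIndex (L ⊔ N) = L.relIndex N := Subgroup.relIndex_sup_left N L
    rw [sup_comm, hsup, Subgroup.relIndex_top_right] at h1
    have h2 : (L ⊓ N).relIndex N * N.index = (L ⊓ N).index := Subgroup.relIndex_mul_index inf_le_right
    have h3 : (L ⊓ N).relIndex L * L.index = (L ⊓ N).index := Subgroup.relIndex_mul_index inf_le_left
    rw [Subgroup.inf_relIndex_right, ← h1] at h2
    rw [Subgroup.inf_relIndex_left, ← h2, mul_comm] at h3
    have h4 : N.relIndex L = N.index :=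
      Nat.eq_of_mul_eq_mul_left (Nat.pos_of_ne_zero L.index_ne_zero_of_finite) h3
    rw [← h4]
    exact Subgroup.relIndex_dvd_card N L
  have hpN : ¬ p ∣ N.index := fun h => hpL (h.trans hNi)
  haveI : Finite (H ⧸ N) := inferInstance
  obtain ⟨g', hg'⟩ := hX.nonempty_fixed_point_of_prime_not_dvd_card (H ⧸ N) (by
    rw [← Subgroup.index_eq_card]; exact hpN)
  obtain ⟨g, rfl⟩ := QuotientGroup.mk_surjective g'
  have hgx : g⁻¹ * x * g ∈ N := by
    have h1 := hg' ⟨x, mem_zpowers x⟩
    have h2 : ((x * g : H) : H ⧸ N) = (g : H ⧸ N) := h1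
    have h3 := QuotientGroup.eq.1 h2.symm
    rw [← mul_assoc] at h3
    exact h3
  set T : Subgroup H := P1.map (MulAut.conj g).toMonoidHom with hTdef
  have hT : IsPGroup 7 T := (P.2.map _).map _
  have hTx : ∀ y ∈ zpowers x, ∀ w ∈ T, MulAut.conj y w ∈ T := by
    have key : ∀ w ∈ T, x * w * x⁻¹ ∈ T := by
      rintro _ ⟨w, hw, rfl⟩
      refine ⟨(g⁻¹ * x * g) * w * (g⁻¹ * x * g)⁻¹, (mem_normalizer_iff.1 hgx w).1 hw, ?_⟩
      change g * ((g⁻¹ * x * g) * w * (g⁻¹ * x * g)⁻¹) * g⁻¹ = x * (g * w * g⁻¹) * x⁻¹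
      group
    have h2 : x ∈ normalizer (T : Set H) := by
      have h3 : T.map (MulAut.conj x).toMonoidHom ≤ T := by
        rintro _ ⟨w, hw, rfl⟩
        exact key w hw
      have h4 : T.map (MulAut.conj x).toMonoidHom = T :=
        Subgroup.eq_of_le_of_card_ge h3
          (Nat.card_congr (T.equivMapOfInjective _ (MulAut.conj x).injective).toEquiv).le
      rw [mem_normalizer_iff]
      intro w
      constructor
      · exact key w
      · intro hw
        rw [← h4] at hw
        obtain ⟨v, hv, hvw⟩ := hw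
        have h5 : x * v * x⁻¹ = x * w * x⁻¹ := hvw
        have h6 : v = w := mul_left_cancel (mul_right_cancel h5)
        rw [← h6]; exact hv
    intro y hy w hw
    obtain ⟨k, rfl⟩ := mem_zpowers_iff.1 hy
    exact (mem_normalizer_iff.1 (zpow_mem h2 k) w).1 hw
  have hmod := card_modEq (MulAut.conj : H →* MulAut H) (zpowers x) hX T hTx
  have hbot : T ⊓ Fix (MulAut.conj : H →* MulAut H) (zpowers x) = ⊥ := by
    rw [eq_bot_iff]
    intro y hy
    rw [mem_bot]
    by_contra hy1
    obtain ⟨k, hk⟩ := exists_seven hT hy.1 hy1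
    have h1 : x * y * x⁻¹ = y := hy.2 x (mem_zpowers x)
    have h2 : Commute x y := by
      rw [mul_inv_eq_iff_eq_mul] at h1
      exact h1
    exact no_seven a hf hW hp ox hfx hk (h2.pow_right k).eq
  rw [hbot, Subgroup.card_bot] at hmod
  have hTc : Nat.card T = Nat.card P := by
    rw [hTdef, hP1, ← Nat.card_congr (P1.equivMapOfInjective _ (MulAut.conj g).injective).toEquiv,
      ← Nat.card_congr ((P : Subgroup L).equivMapOfInjective _ L.subtype_injective).toEquiv]
  have h7P : 7 ∣ Nat.card P := P.dvd_card_of_dvd_card h7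
  have hle := card_le a hf hW T hT
  obtain ⟨j, hj⟩ := hT.exists_card_eq
  rw [← hTc, hj] at h7P
  rw [hj] at hle hmod
  have hj4 : j < 4 := by
    by_contra h0
    have := Nat.pow_le_pow_right (n := 7) (by norm_num) (show 4 ≤ j by omega)
    omega
  have hj0 : j ≠ 0 := by
    rintro rfl
    rw [pow_zero] at h7P
    omega
  unfold Nat.ModEq at hmod
  rcases hp with rfl | rfl <;> interval_cases j <;> omega

end Cfsg.Agent.H25.PalA7
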