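
import Cfsg.Agent.S4493

/-!
# Three primes theorem for solvable groups: interface (owner: helper25)
-/

set_option autoImplicit false

namespace Cfsg.Agent.H25.Pal

open Cfsg Cfsg.Agent.CharBase Cfsg.Agent.Char Cfsg.Agent.H75

universe u v

/-- `p` divides some irreducible degree -/
def Rho (G : Type u) [Group G] (p : ℕ) : Prop :=
  ∃ χ : IrrCharacter G, p ∣ charDegree (χ : G → ℂ)

/-- `P` is a Sylow `p`-subgroup of `H` (as a subgroup) -/
def Syl {H : Type u} [Group H] (p : ℕ) (P : Subgroup H) : Prop := IsPGroup p P ∧ ¬ p ∣ P.index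

/-- `H` has a normal Sylow `p`-subgroup -/
def NSyl (H : Type u) [Group H] (p : ℕ) : Prop := ∃ P : Subgroup H, P.Normal ∧ Syl p P

/-- `H` acts on `W` through `a`; `P` is an abelian Sylow `p`-subgroup of `H` fixing `w`, and it is normal in
the stabilizer of `w`. -/
structure FixAt {H : Type u} {W : Type v} [Group H] [Group W] (a : H →* MulAut W) (p : ℕ) (w : W)
    (P : Subgroup H) : Prop where
  syl : Syl p P
  ab : ∀ x ∈ P, ∀ y ∈ P, x * y = y * x
  fx : ∀ x ∈ P, a x w = w
  nrm : ∀ g : H, a g w = w → ∀ x ∈ P, g * x * g⁻¹ ∈ P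

def FixP {H : Type u} {W : Type v} [Group H] [Group W] (a : H →* MulAut W) (p : ℕ) : Prop :=
  ∀ w : W, w ≠ 1 → ∃ P : Subgroup H, FixAt a p w P

/-- automorphism group, with the multiplication taken from the group structure -/
abbrev MAut (W : Type v) [Group W] : Type v := MulAut W

/-- the action of a subgroup `H` of `G` on the linear characters of a normal subgroup `N`:
`(h • φ) n = φ (h⁻¹ n h)` -/
def dualAct {G : Type u} [Group G] (N : Subgroup G) [hN : N.Normal] (H : Subgroup G) :
    H →* MAut (N →* ℂˣ) where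
  toFun h :=
    { toFun := fun φ => φ.comp (MulAut.conjNormal (h : G)⁻¹).toMonoidHom
      invFun := fun φ => φ.comp (MulAut.conjNormal (h : G)).toMonoidHom
      left_inv := by
        intro φ; ext n
        simp
      right_inv := by
        intro φ; ext n
        simp
      map_mul' := by
        intro φ ψ; ext n; rfl }
  map_one' := by
    ext φ n
    simp
  map_mul' := by
    intro h k
    ext φ n
    simp

theorem dualAct_apply {G : Type u} [Group G] (N : Subgroup G) [hN : N.Normal] (H : Subgroup G) (h : H)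
    (φ : N →* ℂˣ) (n : N) :
    dualAct N H h φ n = φ ⟨(h : G)⁻¹ * n * h, by simpa using hN.conj_mem n n.2 (h : G)⁻¹⟩ := by
  show φ (MulAut.conjNormal (h : G)⁻¹ n) = _
  congr 1
  apply Subtype.ext
  simp

end Cfsg.Agent.H25.Pal
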