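import Cfsg.Agent.H25.PalDef

set_option autoImplicit false

namespace Cfsg.Agent.H25.PalX

open Cfsg Cfsg.Agent.CharBase Cfsg.Agent.Char Cfsg.Agent.H75 Cfsg.Agent.H25.Pal

universe u v

variable {H : Type u} {W : Type v} [Group H] [Finite H] [Group W] [Finite W]

/-- the fixed points of a subgroup -/
def fixSub (a : H →* MulAut W) (P : Subgroup H) : Subgroup W where
  carrier := {w | ∀ x ∈ P, a x w = w}
  mul_mem' := by
    intro u v hu hv x hx
    rw [map_mul, hu x hx, hv x hx]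
  one_mem' := by
    intro x _
    exact map_one _
  inv_mem' := by
    intro u hu x hx
    rw [map_inv, hu x hx]

theorem mem_fixSub (a : H →* MulAut W) (P : Subgroup H) (w : W) :
    w ∈ fixSub a P ↔ ∀ x ∈ P, a x w = w := Iff.rfl

theorem card_pow {s n : ℕ} (hsp : s.Prime) (hW : Nat.card W = s ^ n) (C : Subgroup W) :
    ∃ j ≤ n, Nat.card C = s ^ j := by
  have h := Subgroup.card_subgroup_dvd_card C
  rw [hW] at h
  exact (Nat.dvd_prime_pow hsp).mp h

/-- key fixed point argument -/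
theorem fp_key (a : H →* MulAut W) (hf : Function.Injective a) {s n t : ℕ} (hsp : s.Prime)
    (ht : t.Prime) (hW : Nat.card W = s ^ n) (hts : ¬ t ∣ s) (hzs : ∀ i, 0 < i → i < n → ¬ t ∣ s ^ i - 1)
    {x z : H} (oz : orderOf z = t) (hx1 : x ≠ 1) (hxz : x * z = z * x) {w0 : W} (hw0 : w0 ≠ 1)
    (hxw : a x w0 = w0) : False := by
  classical
  haveI : Fact t.Prime := ⟨ht⟩
  have hs1 : 1 < s := hsp.one_lt
  -- action of zpowers z on a z-invariant subgroup C of W
  have hcount : ∀ C : Subgroup W, (∀ w ∈ C, a z w ∈ C) →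
      Nat.card C ≡ Nat.card ↥(C ⊓ fixSub a (Subgroup.zpowers z)) [MOD t] := by
    intro C hC
    have hCp : ∀ g ∈ Subgroup.zpowers z, ∀ w ∈ C, a g w ∈ C := by
      intro g hg
      have hfin : z ∈ (Subgroup.zpowers z) := Subgroup.mem_zpowers z
      obtain ⟨k, rfl⟩ := (mem_powers_iff_mem_zpowers.mpr hg : g ∈ Submonoid.powers z)
      clear hg
      induction k with
      | zero => intro w hw; simpa using hw
      | succ k ih =>
        intro w hw
        have : a (z ^ (k + 1)) w = a (z ^ k) (a z w) := by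
          rw [pow_succ, map_mul]; rfl
        show a (z ^ (k+1)) w ∈ C
        rw [this]
        exact ih _ (hC w hw)
    letI : MulAction (Subgroup.zpowers z) C :=
      { smul := fun g w => ⟨a g w, hCp g g.2 w w.2⟩
        one_smul := by
          intro w; apply Subtype.ext; show a ((1 : Subgroup.zpowers z) : H) w = w; simp
        mul_smul := by
          intro g h w; apply Subtype.ext
          show a ((g * h : Subgroup.zpowers z) : H) w = a g (a h w)
          rw [Subgroup.coe_mul, map_mul]; rfl }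
    have hpg : IsPGroup t (Subgroup.zpowers z) := by
      apply IsPGroup.of_card (n := 1)
      rw [Nat.card_zpowers, oz, pow_one]
    have h1 := hpg.card_modEq_card_fixedPoints (C)
    refine h1.trans ?_
    have h2 : Nat.card (MulAction.fixedPoints (Subgroup.zpowers z) C) =
        Nat.card ↥(C ⊓ fixSub a (Subgroup.zpowers z)) := by
      apply Nat.card_congr
      refine ⟨fun w => ⟨(w.1 : W), w.1.2, fun g hg => ?_⟩, fun w => ⟨⟨w.1, w.2.1⟩, fun g => ?_⟩, ?_, ?_⟩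
      · exact congrArg Subtype.val (w.2 ⟨g, hg⟩)
      · apply Subtype.ext
        exact w.2.2 g g.2
      · intro w; rfl
      · intro w; rfl
    rw [h2]
  -- W^z trivial
  have hWz : fixSub a (Subgroup.zpowers z) = ⊥ := by
    have h1 := hcount ⊤ (fun w _ => Subgroup.mem_top _)
    rw [top_inf_eq, Subgroup.card_top, hW] at h1
    obtain ⟨i, hi, hci⟩ := card_pow hsp hW (fixSub a (Subgroup.zpowers z))
    rw [hci] at h1
    have h2 : t ∣ s ^ n - s ^ i := (Nat.modEq_iff_dvd' (Nat.pow_le_pow_right hs1.le hi)).mp h1.symm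
    have h3 : s ^ n - s ^ i = s ^ i * (s ^ (n - i) - 1) := by
      rw [Nat.mul_sub, ← pow_add, Nat.add_sub_cancel' hi, mul_one]
    rw [h3] at h2
    have h4 : t ∣ s ^ (n - i) - 1 := by
      rcases ht.dvd_mul.mp h2 with h | h
      · exact absurd (ht.dvd_of_dvd_pow h) hts
      · exact h
    rcases Nat.eq_zero_or_pos i with h5 | h5
    · subst h5
      rw [pow_zero] at hci
      exact Subgroup.eq_bot_of_card_eq _ hci
    rcases Nat.lt_or_ge i n with h6 | h6
    · exact absurd h4 (hzs (n - i) (by omega) (by omega))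
    · exfalso
      have h7 : i = n := le_antisymm hi h6
      have h8 : fixSub a (Subgroup.zpowers z) = ⊤ := by
        apply Subgroup.eq_top_of_card_eq
        rw [hci, hW, h7]
      have h9 : z = 1 := by
        apply hf
        rw [map_one]
        ext w
        have : w ∈ fixSub a (Subgroup.zpowers z) := by rw [h8]; trivial
        exact this z (Subgroup.mem_zpowers z)
      rw [h9, orderOf_one] at oz
      exact ht.one_lt.ne oz
  have hC := hcount (fixSub a (Subgroup.zpowers x)) ?_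
  · rw [hWz, inf_bot_eq, Subgroup.card_bot] at hC
    obtain ⟨j, hj, hcj⟩ := card_pow hsp hW (fixSub a (Subgroup.zpowers x))
    rw [hcj] at hC
    have h2 : t ∣ s ^ j - 1 := (Nat.modEq_iff_dvd' (Nat.one_le_pow _ _ hsp.pos)).mp hC.symm
    have hw0C : w0 ∈ fixSub a (Subgroup.zpowers x) := by
      intro g hg
      obtain ⟨k, rfl⟩ := (mem_powers_iff_mem_zpowers.mpr hg : g ∈ Submonoid.powers x)
      clear hg
      show a (x ^ k) w0 = w0
      induction k with
      | zero => simp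
      | succ k ih =>
        rw [pow_succ, map_mul]
        show a (x ^ k) (a x w0) = w0
        rw [hxw, ih]
    rcases Nat.eq_zero_or_pos j with h5 | h5
    · subst h5
      rw [pow_zero] at hcj
      have := Subgroup.eq_bot_of_card_eq _ hcj
      rw [this, Subgroup.mem_bot] at hw0C
      exact hw0 hw0C
    rcases Nat.lt_or_ge j n with h6 | h6
    · exact hzs j h5 h6 h2
    · have h7 : j = n := le_antisymm hj h6
      have h8 : fixSub a (Subgroup.zpowers x) = ⊤ := by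
        apply Subgroup.eq_top_of_card_eq
        rw [hcj, hW, h7]
      apply hx1
      apply hf
      rw [map_one]
      ext w
      have : w ∈ fixSub a (Subgroup.zpowers x) := by rw [h8]; trivial
      exact this x (Subgroup.mem_zpowers x)
  · intro w hw g hg
    obtain ⟨k, rfl⟩ := (mem_powers_iff_mem_zpowers.mpr hg : g ∈ Submonoid.powers x)
    have h1 : (x ^ k) * z = z * (x ^ k) := (Commute.pow_left (show Commute x z from hxz) k).eq
    show a (x ^ k) (a z w) = a z w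
    have h2 : a (x ^ k) (a z w) = a ((x ^ k) * z) w := by rw [map_mul]; rfl
    rw [h2, h1, map_mul]
    show a z (a (x ^ k) w) = a z w
    rw [hw _ hg]

/-- statements of the pieces used by `X_faithful` -/
def Count : Prop :=
  ∀ {H : Type u} {W : Type v} [Group H] [Finite H] [Group W] [Finite W] (a : H →* MulAut W)
    {p : ℕ} [Fact p.Prime] (_ : FixP a p) (P : Sylow p H),
    Nat.card W - 1 = Nat.card (Sylow p H) * (Nat.card {w : W // ∀ x ∈ (P : Subgroup H), a x w = w} - 1)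

def Num : Prop :=
  ∀ {s n p q k l a b : ℕ} (_ : s.Prime) (_ : p.Prime) (_ : q.Prime) (_ : p ≠ q)
    (_ : 0 < k) (_ : k < n) (_ : 0 < l) (_ : l < n)
    (_ : s ^ n - 1 = a * (s ^ k - 1)) (_ : s ^ n - 1 = b * (s ^ l - 1))
    (_ : a ≡ 1 [MOD p]) (_ : b ≡ 1 [MOD q]),
    (∃ t : ℕ, t.Prime ∧ t ∣ a ∧ ¬ t ∣ s ∧ ∀ i, 0 < i → i < n → ¬ t ∣ s ^ i - 1) ∨
      (s = 2 ∧ n = 6 ∧ (7 ∣ a ∧ (p = 5 ∨ p = 31) ∨ 7 ∣ b ∧ (q = 5 ∨ q = 31)))

def AdjM : Prop :=
  ∀ {H : Type u} [Group H] [Finite H] (L M : Subgroup H) (_ : L.Normal) (_ : M.Normal)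
    (_ : L ≤ M) (_ : ∀ a ∈ M, ∀ b ∈ M, a * b * a⁻¹ * b⁻¹ ∈ L) {p q t : ℕ}
    (_ : p.Prime) (_ : q.Prime) (_ : t.Prime) (_ : p ≠ q)
    (_ : ¬ p ∣ Nat.card L) (_ : ¬ q ∣ Nat.card L) {x y : H} (_ : x ∈ M) (_ : y ∈ M)
    (_ : orderOf x = p) (_ : orderOf y = q) (_ : x * y = y * x) (_ : t ∣ Nat.card L)
    (_ : ∀ z ∈ L, orderOf z = t → x * z ≠ z * x) (_ : ∀ z ∈ L, orderOf z = t → y * z ≠ z * y),
    ∃ χ : IrrCharacter H, p * q ∣ charDegree (χ : H → ℂ)

def ExLM : Prop :=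
  ∀ {H : Type u} [Group H] [Finite H] (_ : Group.IsSolvable H) {p q : ℕ}
    (_ : p.Prime) (_ : q.Prime) (_ : p ≠ q) {P Q : Subgroup H} (_ : Syl p P) (_ : Syl q Q)
    (_ : ∀ x ∈ P, ∀ y ∈ P, x * y = y * x) (_ : ∀ x ∈ Q, ∀ y ∈ Q, x * y = y * x)
    (_ : ∀ x ∈ P, ∀ y ∈ Q, x * y = y * x),
    ∃ L M : Subgroup H, L.Normal ∧ M.Normal ∧ L ≤ M ∧ (∀ a ∈ M, ∀ b ∈ M, a * b * a⁻¹ * b⁻¹ ∈ L) ∧
      P ≤ M ∧ Q ≤ M ∧ ¬ p ∣ Nat.card L ∧ ¬ q ∣ Nat.card L ∧
      (∀ _ : Sylow p H, Nat.card (Sylow p H) ∣ Nat.card L) ∧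
      (∀ _ : Sylow q H, Nat.card (Sylow q H) ∣ Nat.card L)

def Exc : Prop :=
  ∀ {H : Type u} {W : Type v} [Group H] [Finite H] [Group W] [Finite W]
    (a : H →* MulAut W) (_ : Function.Injective a) (_ : Nat.card W = 64) {L : Subgroup H} (_ : L.Normal)
    {p : ℕ} (_ : p = 5 ∨ p = 31) {x : H} (_ : orderOf x = p) (_ : ¬ p ∣ Nat.card L) (_ : 7 ∣ Nat.card L)
    (_ : ∃ w : W, w ≠ 1 ∧ a x w = w), False

/-- Sylow subgroup from `Syl` -/
theorem exists_sylow {p : ℕ} [Fact p.Prime] {P : Subgroup H} (h : Syl p P) :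
    ∃ P' : Sylow p H, (P' : Subgroup H) = P := by
  obtain ⟨P', hP'⟩ := h.1.exists_le_sylow
  refine ⟨P', ?_⟩
  have h1 : P.relIndex (P' : Subgroup H) = 1 := by
    obtain ⟨k, hk⟩ := (IsPGroup.iff_card.mp P'.2)
    have h2 : P.relIndex (P' : Subgroup H) ∣ p ^ k := by
      rw [← hk]; exact Subgroup.relIndex_dvd_card P _
    obtain ⟨j, -, hj⟩ := (Nat.dvd_prime_pow Fact.out).mp h2
    rcases Nat.eq_zero_or_pos j with h3 | h3
    · rw [hj, h3, pow_zero]
    · exfalso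
      apply h.2
      have h4 : p ∣ P.relIndex (P' : Subgroup H) := by rw [hj]; exact dvd_pow_self p h3.ne'
      exact h4.trans (Subgroup.relIndex_dvd_index_of_le hP')
  exact le_antisymm (Subgroup.relIndex_eq_one.mp h1) hP'

theorem nsyl_of_bot {p : ℕ} (h : Syl p (⊥ : Subgroup H)) : NSyl H p := ⟨⊥, inferInstance, h⟩

/-- one prime: count -/
theorem one_prime (hcount : Count.{u, v}) (a : H →* MulAut W) {s n p : ℕ} [Fact p.Prime] (hsp : s.Prime)
    (hW : Nat.card W = s ^ n) (hP : FixP a p) (hnP : ¬ NSyl H p) {w0 : W} (hw0 : w0 ≠ 1) (P : Sylow p H)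
    (hPw : ∀ x ∈ (P : Subgroup H), a x w0 = w0) :
    ∃ k, 0 < k ∧ k < n ∧ s ^ n - 1 = Nat.card (Sylow p H) * (s ^ k - 1) := by
  have h1 := hcount a hP P
  obtain ⟨k, hkn, hk⟩ := card_pow hsp hW (fixSub a (P : Subgroup H))
  have h2 : Nat.card {w : W // ∀ x ∈ (P : Subgroup H), a x w = w} = s ^ k := hk
  rw [h2, hW] at h1
  have hk0 : 0 < k := by
    rcases Nat.eq_zero_or_pos k with h | h
    · exfalso
      rw [h, pow_zero] at hk
      have h3 := Subgroup.eq_bot_of_card_eq _ hk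
      have h4 : w0 ∈ fixSub a (P : Subgroup H) := hPw
      rw [h3, Subgroup.mem_bot] at h4
      exact hw0 h4
    · exact h
  refine ⟨k, hk0, lt_of_le_of_ne hkn ?_, h1⟩
  intro hkn'
  rw [hkn'] at h1
  have h5 : 1 < s ^ n := by
    rw [← hkn']
    exact Nat.one_lt_pow hk0.ne' hsp.one_lt
  have h6 : Nat.card (Sylow p H) = 1 := by
    have h7 : (s ^ n - 1) * 1 = (s ^ n - 1) * Nat.card (Sylow p H) := by
      rw [mul_one, mul_comm]; exact h1
    exact (Nat.eq_of_mul_eq_mul_left (by omega) h7).symm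
  apply hnP
  have h8 : Subsingleton (Sylow p H) := (Nat.card_eq_one_iff_unique.mp h6).1
  exact ⟨P, Sylow.normal_of_subsingleton P, P.2, P.not_dvd_index⟩

theorem X_faithful_of (hcount : Count.{u, v}) (hnum : Num) (hadj : AdjM.{u}) (hlm : ExLM.{u}) (hexc : Exc.{u, v})
    (hs : Group.IsSolvable H)
    (a : H →* MulAut W) (hf : Function.Injective a) {s n p q : ℕ} (hsp : s.Prime) (hp : p.Prime) (hq : q.Prime)
    (hpq : p ≠ q) (hW : Nat.card W = s ^ n) (hP : FixP a p) (hQ : FixP a q)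
    (hnP : ¬ NSyl H p) (hnQ : ¬ NSyl H q) : ∃ χ : IrrCharacter H, p * q ∣ charDegree (χ : H → ℂ) := by
  classical
  haveI : Fact p.Prime := ⟨hp⟩
  haveI : Fact q.Prime := ⟨hq⟩
  -- W is nontrivial
  have hW1 : ∃ w0 : W, w0 ≠ 1 := by
    by_contra hcon
    push Not at hcon
    apply hnP
    have hsub : ∀ h : H, h = 1 := by
      intro h
      apply hf
      rw [map_one]
      ext w
      rw [hcon w, map_one, map_one]
    refine nsyl_of_bot ⟨IsPGroup.of_bot, ?_⟩
    rw [Subgroup.index_bot]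
    haveI : Subsingleton H := ⟨fun x y => by rw [hsub x, hsub y]⟩
    rw [Nat.card_of_subsingleton (1 : H)]
    exact fun h => hp.one_lt.ne' (Nat.dvd_one.mp h)
  obtain ⟨w0, hw0⟩ := hW1
  obtain ⟨P0, hP0⟩ := hP w0 hw0
  obtain ⟨Q0, hQ0⟩ := hQ w0 hw0
  obtain ⟨P, hPe⟩ := exists_sylow hP0.syl
  obtain ⟨Q, hQe⟩ := exists_sylow hQ0.syl
  -- commuting
  have hdisj : ∀ g : H, g ∈ P0 → g ∈ Q0 → g = 1 := by
    intro g h1 h2
    obtain ⟨i, hi⟩ := hP0.syl.1 ⟨g, h1⟩
    obtain ⟨j, hj⟩ := hQ0.syl.1 ⟨g, h2⟩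
    have h3 : g ^ p ^ i = 1 := congrArg Subtype.val hi
    have h4 : g ^ q ^ j = 1 := congrArg Subtype.val hj
    have h5 : orderOf g ∣ Nat.gcd (p ^ i) (q ^ j) :=
      Nat.dvd_gcd (orderOf_dvd_of_pow_eq_one h3) (orderOf_dvd_of_pow_eq_one h4)
    rw [Nat.Coprime.gcd_eq_one (Nat.Coprime.pow i j ((Nat.coprime_primes hp hq).mpr hpq)), Nat.dvd_one] at h5
    exact orderOf_eq_one_iff.mp h5
  have hcomm : ∀ x ∈ P0, ∀ y ∈ Q0, x * y = y * x := by
    intro x hx y hy
    have h1 : x * y * x⁻¹ ∈ Q0 := hQ0.nrm x (hP0.fx x hx) y hy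
    have h2 : y * x⁻¹ * y⁻¹ ∈ P0 := hP0.nrm y (hQ0.fx y hy) x⁻¹ (P0.inv_mem hx)
    have h3 : x * y * x⁻¹ * y⁻¹ = 1 := by
      apply hdisj
      · have h4 := P0.mul_mem hx h2
        have h5 : x * (y * x⁻¹ * y⁻¹) = x * y * x⁻¹ * y⁻¹ := by group
        rwa [h5] at h4
      · exact Q0.mul_mem h1 (Q0.inv_mem hy)
    have h6 : x * y = x * y * x⁻¹ * y⁻¹ * (y * x) := by group
    rw [h6, h3, one_mul]
  obtain ⟨k, hk0, hkn, hka⟩ := one_prime hcount a hsp hW hP hnP hw0 P (by rw [hPe]; exact hP0.fx)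
  obtain ⟨l, hl0, hln, hlb⟩ := one_prime hcount a hsp hW hQ hnQ hw0 Q (by rw [hQe]; exact hQ0.fx)
  obtain ⟨L, M, hL, hM, hLM, hab, hPM, hQM, hpL, hqL, hnpL, hnqL⟩ :=
    hlm hs hp hq hpq hP0.syl hQ0.syl hP0.ab hQ0.ab hcomm
  have hnpL := hnpL P
  have hnqL := hnqL Q
  -- elements of prime order
  have hex : ∀ {r : ℕ} [Fact r.Prime] (R : Subgroup H), Syl r R → ¬ NSyl H r → ∃ x ∈ R, orderOf x = r := by
    intro r hr R hR hn
    have h1 : r ∣ Nat.card R := by
      by_contra h2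
      apply hn
      have h3 : Nat.card R = 1 := by
        obtain ⟨i, hi⟩ := IsPGroup.iff_card.mp hR.1
        rcases Nat.eq_zero_or_pos i with h4 | h4
        · rw [hi, h4, pow_zero]
        · exfalso
          apply h2
          rw [hi]
          exact dvd_pow_self r h4.ne'
      have h4 : R = ⊥ := Subgroup.eq_bot_of_card_eq _ h3
      rw [h4] at hR
      exact nsyl_of_bot hR
    obtain ⟨x, hx⟩ := exists_prime_orderOf_dvd_card' (G := R) r h1
    exact ⟨x, x.2, by rw [Subgroup.orderOf_coe]; exact hx⟩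
  obtain ⟨x, hxP, ox⟩ := hex P0 hP0.syl hnP
  obtain ⟨y, hyQ, oy⟩ := hex Q0 hQ0.syl hnQ
  have hx1 : x ≠ 1 := by
    rintro rfl
    rw [orderOf_one] at ox
    exact hp.one_lt.ne ox
  have hy1 : y ≠ 1 := by
    rintro rfl
    rw [orderOf_one] at oy
    exact hq.one_lt.ne oy
  rcases hnum hsp hp hq hpq hk0 hkn hl0 hln hka hlb (card_sylow_modEq_one p H) (card_sylow_modEq_one q H) with
    ⟨t, ht, hta, hts, hti⟩ | ⟨hs2, hn6, hcase⟩
  · refine hadj L M hL hM hLM hab hp hq ht hpq hpL hqL (hPM hxP) (hQM hyQ) ox oy (hcomm x hxP y hyQ)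
      (hta.trans hnpL) ?_ ?_
    · intro z _ oz hxz
      exact fp_key a hf hsp ht hW hts hti oz hx1 hxz hw0 (hP0.fx x hxP)
    · intro z _ oz hxz
      exact fp_key a hf hsp ht hW hts hti oz hy1 hxz hw0 (hQ0.fx y hyQ)
  · exfalso
    have hW64 : Nat.card W = 64 := by rw [hW, hs2, hn6]; norm_num
    rcases hcase with ⟨h7, h5⟩ | ⟨h7, h5⟩
    · exact hexc a hf hW64 hL h5 ox hpL (h7.trans hnpL) ⟨w0, hw0, hP0.fx x hxP⟩
    · exact hexc a hf hW64 hL h5 oy hqL (h7.trans hnqL) ⟨w0, hw0, hQ0.fx y hyQ⟩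

end Cfsg.Agent.H25.PalX
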