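import Cfsg.Agent.H25.PGroupCenter
import Mathlib.GroupTheory.QuotientGroup.Basic
import Mathlib.Tactic

set_option autoImplicit false
set_option linter.style.haveILetI false

namespace Cfsg.Agent.H25

/-- A finite nilpotent group has a self-centralizing abelian normal subgroup. -/
theorem exists_scn_of_nilpotent {G : Type*} [Group G] [Finite G] [Group.IsNilpotent G] :
    ∃ A : Subgroup G, A.Normal ∧ IsMulCommutative A ∧ Subgroup.centralizer (A : Set G) = A := by
  classical
  obtain ⟨A, hA, hmax⟩ : ∃ A : Subgroup G, (A.Normal ∧ IsMulCommutative A) ∧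
      ∀ B : Subgroup G, (B.Normal ∧ IsMulCommutative B) → A ≤ B → B ≤ A := by
    have hfin : Set.Finite {A : Subgroup G | A.Normal ∧ IsMulCommutative A} := Set.toFinite _
    have hne : Set.Nonempty {A : Subgroup G | A.Normal ∧ IsMulCommutative A} :=
      ⟨⊥, inferInstance, inferInstance⟩
    obtain ⟨A, hA⟩ := hfin.exists_maximal hne
    exact ⟨A, hA.1, fun B hB h => hA.2 hB h⟩
  obtain ⟨hAn, hAc⟩ := hA
  refine ⟨A, hAn, hAc, ?_⟩
  have hAC : A ≤ Subgroup.centralizer (A : Set G) := Subgroup.le_centralizer A
  by_contra hne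
  have hlt : A < Subgroup.centralizer (A : Set G) := lt_of_le_of_ne hAC (Ne.symm hne)
  set C := Subgroup.centralizer (A : Set G) with hC
  haveI hCn : C.Normal := by
    rw [hC]; infer_instance
  -- pass to the quotient
  let π := QuotientGroup.mk' A
  have hCbar : C.map π ≠ ⊥ := by
    intro h
    rw [Subgroup.map_eq_bot_iff, QuotientGroup.ker_mk'] at h
    exact absurd h (not_le_of_gt hlt)
  haveI : (C.map π).Normal := hCn.map π (QuotientGroup.mk'_surjective A)
  have hint : C.map π ⊓ Subgroup.center (G ⧸ A) ≠ ⊥ :=
    inf_center_ne_bot_of_nilpotent (C.map π) hCbar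
  obtain ⟨⟨y, hyC, hyZ⟩, hy1⟩ := Subgroup.ne_bot_iff_exists_ne_one.1 hint
  obtain ⟨x, hxC, rfl⟩ := hyC
  have hxA : x ∉ A := by
    intro h
    apply hy1
    apply Subtype.ext
    show π x = 1
    exact (QuotientGroup.eq_one_iff x).2 h
  -- B = A ⊔ ⟨x⟩
  let B : Subgroup G := A ⊔ Subgroup.zpowers x
  have hcomm : ∀ g : G, g * x * g⁻¹ ∈ B := by
    intro g
    have h1 : π (g * x * g⁻¹ * x⁻¹) = 1 := by
      have := Subgroup.mem_center_iff.1 hyZ (π g)
      rw [map_mul, map_mul, map_mul, map_inv, map_inv, this]
      group
    have h2 : g * x * g⁻¹ * x⁻¹ ∈ A := (QuotientGroup.eq_one_iff _).1 h1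
    have h3 : g * x * g⁻¹ = (g * x * g⁻¹ * x⁻¹) * x := by group
    rw [h3]
    exact B.mul_mem (le_sup_left (a := A) h2) (le_sup_right (a := A) (Subgroup.mem_zpowers x))
  have hBn : B.Normal := by
    constructor
    intro b hb g
    have hle : B ≤ B.comap (MulAut.conj g).toMonoidHom := by
      apply sup_le
      · intro a ha
        show g * a * g⁻¹ ∈ B
        exact le_sup_left (a := A) (hAn.conj_mem a ha g)
      · rw [Subgroup.zpowers_le]
        exact hcomm g
    exact hle hb
  have hBc : IsMulCommutative B := by
    have hxa : ∀ a ∈ A, a * x = x * a := fun a ha => (Subgroup.mem_centralizer_iff.1 hxC) a ha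
    have hB1 : B ≤ Subgroup.centralizer (B : Set G) := by
      have hx : x ∈ Subgroup.centralizer (B : Set G) := by
        have hle : B ≤ Subgroup.centralizer ({x} : Set G) := by
          apply sup_le
          · intro a ha
            exact Subgroup.mem_centralizer_singleton_iff.2 (hxa a ha)
          · rw [Subgroup.zpowers_le]
            exact Subgroup.mem_centralizer_singleton_iff.2 rfl
        rw [Subgroup.mem_centralizer_iff]
        intro b hb
        exact Subgroup.mem_centralizer_singleton_iff.1 (hle hb)
      have hA' : A ≤ Subgroup.centralizer (B : Set G) := by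
        intro a ha
        have hle : B ≤ Subgroup.centralizer ({a} : Set G) := by
          apply sup_le
          · intro a' ha'
            exact Subgroup.mem_centralizer_singleton_iff.2
              ((Subgroup.mem_centralizer_iff.1 (hAC ha)) a' ha')
          · rw [Subgroup.zpowers_le]
            exact Subgroup.mem_centralizer_singleton_iff.2 (hxa a ha).symm
        rw [Subgroup.mem_centralizer_iff]
        intro b hb
        exact Subgroup.mem_centralizer_singleton_iff.1 (hle hb)
      exact sup_le hA' (by rw [Subgroup.zpowers_le]; exact hx)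
    exact Subgroup.le_centralizer_iff_isMulCommutative.1 hB1
  exact hxA (hmax B ⟨hBn, hBc⟩ le_sup_left (le_sup_right (a := A) (Subgroup.mem_zpowers x)))

end Cfsg.Agent.H25
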