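import Cfsg.Agent.H25.PuigRel
import Cfsg.Agent.H25.QuadCore
import Cfsg.Agent.H25.SZ
import Cfsg.Agent.Transfer.Fusion
import Cfsg.Agent.Hall.Hall
import Cfsg.Agent.S1465
import Cfsg.Agent.S1466
import Cfsg.Agent.H63.PLen

/-!
Puig's theorem for solvable groups of odd order (Bender--Glauberman, Appendix B).
-/

set_option autoImplicit false
set_option linter.style.haveILetI false
set_option linter.unusedSimpArgs false
set_option linter.unusedVariables false
set_option linter.unusedSectionVars false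

open Cfsg

namespace Cfsg.Agent.H25

section

variable {G : Type*} [Group G] [Finite G]

theorem inf_centralizer_pSeq_le {p : ℕ} [Fact p.Prime] {T : Subgroup G} (hT : IsPGroup p T) {i : ℕ}
    (hi : 0 < i) : T ⊓ Subgroup.centralizer (pSeq T i : Set G) ≤ pSeq T i := by
  rintro x ⟨hx, hxc⟩
  rcases subsingleton_or_nontrivial T with hs | hs
  · have h1 : (⟨x, hx⟩ : T) = 1 := Subsingleton.elim _ _
    have h2 : x = 1 := congrArg Subtype.val h1
    rw [h2]; exact Subgroup.one_mem _
  · have h1 := ((S1466.result p hT).1 i hi).2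
    have h2 : (⟨x, hx⟩ : T) ∈ Subgroup.centralizer ((puigSeq T i : Subgroup T) : Set T) := by
      rw [Subgroup.mem_centralizer_iff]
      intro h hh
      apply Subtype.ext
      refine (Subgroup.mem_centralizer_iff.mp hxc) (h : G) ?_
      rw [pSeq_eq]
      exact ⟨h, hh, rfl⟩
    rw [pSeq_eq]
    exact ⟨_, h1 h2, rfl⟩

theorem inf_centralizer_pLow_le {p : ℕ} [Fact p.Prime] {T : Subgroup G} (hT : IsPGroup p T) :
    T ⊓ Subgroup.centralizer (pLow T : Set G) ≤ pLow T := by
  rintro x ⟨hx, hxc⟩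
  rcases subsingleton_or_nontrivial T with hs | hs
  · have h1 : (⟨x, hx⟩ : T) = 1 := Subsingleton.elim _ _
    have h2 : x = 1 := congrArg Subtype.val h1
    rw [h2]; exact Subgroup.one_mem _
  · have h1 := (S1466.result p hT).2.1.2
    have h2 : (⟨x, hx⟩ : T) ∈ Subgroup.centralizer ((puigLower T : Subgroup T) : Set T) := by
      rw [Subgroup.mem_centralizer_iff]
      intro h hh
      apply Subtype.ext
      refine (Subgroup.mem_centralizer_iff.mp hxc) (h : G) ?_
      rw [pLow_eq]
      exact ⟨h, hh, rfl⟩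
    rw [pLow_eq]
    exact ⟨_, h1 h2, rfl⟩

theorem puig_comparison [Group.IsSolvable G] (hodd : Odd (Nat.card G)) {p : ℕ} [Fact p.Prime]
    (hp : p ≠ 2) (hO : pPrimeCore p G = ⊥) (S : Sylow p G) (n : ℕ) :
    pSeq (S : Subgroup G) (2 * n) ≤ pSeq (pCore p G) (2 * n) ∧
      pSeq (pCore p G) (2 * n + 1) ≤ pSeq (S : Subgroup G) (2 * n + 1) := by
  have hTS : pCore p G ≤ (S : Subgroup G) := Solv.pCore_le_sylow S
  induction n with
  | zero =>
    refine ⟨le_rfl, ?_⟩
    rw [show 2 * 0 + 1 = 1 from rfl, pSeq_one, pSeq_one]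
    exact hTS
  | succ n ih =>
    have hPn : (pSeq (pCore p G) (2 * n + 1)).Normal := by
      rw [← Subgroup.normalizer_eq_top_iff, eq_top_iff]
      refine le_trans ?_ (normalizer_le_normalizer_pSeq _ _)
      rw [Subgroup.normalizer_eq_top]
    have h1 := (S1465.result hodd p hp (pSeq (pCore p G) (2 * n + 1))
      ((Solv.pCore_isPGroup p).to_le (pSeq_le _ _))
      {A : Subgroup G | A ≤ (S : Subgroup G) ∧ IsMulCommutative A ∧
        pSeq (S : Subgroup G) (2 * n + 1) ≤ Subgroup.normalizer (A : Set G)} (by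
          rintro B ⟨hB1, hB2, hB3⟩
          exact ⟨hB2, S.isPGroup'.to_le hB1, ih.2.trans hB3⟩)).2 hO
          (inf_centralizer_pSeq_le (Solv.pCore_isPGroup p) (by omega))
    have h2 : pSeq (S : Subgroup G) (2 * (n + 1)) ≤ pCore p G := h1
    have h3 : pSeq (S : Subgroup G) (2 * (n + 1)) ≤ pSeq (pCore p G) (2 * (n + 1)) := by
      rw [show 2 * (n + 1) = (2 * n + 1) + 1 from rfl, pSeq_succ _ (2 * n + 1),
        pSeq_succ _ (2 * n + 1), pStep_le_iff]
      intro A hA1 hA2 hA3
      refine le_pStep ?_ hA2 (ih.2.trans hA3)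
      refine le_trans ?_ h2
      rw [show 2 * (n + 1) = (2 * n + 1) + 1 from rfl, pSeq_succ _ (2 * n + 1)]
      exact le_pStep hA1 hA2 hA3
    refine ⟨h3, ?_⟩
    rw [pSeq_succ, pSeq_succ, pStep_le_iff]
    intro A hA1 hA2 hA3
    exact le_pStep (hA1.trans hTS) hA2 (h3.trans hA3)

theorem pLow_sylow_le [Group.IsSolvable G] (hodd : Odd (Nat.card G)) {p : ℕ} [Fact p.Prime]
    (hp : p ≠ 2) (hO : pPrimeCore p G = ⊥) (S : Sylow p G) :
    pLow (S : Subgroup G) ≤ pLow (pCore p G) ∧ pUp (pCore p G) ≤ pUp (S : Subgroup G) :=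
  ⟨iSup_mono (fun n => (puig_comparison hodd hp hO S n).1),
    iInf_mono (fun n => (puig_comparison hodd hp hO S n).2)⟩

/-- Puig's theorem: the center of `L(S)` is normal when `O_{p'}(G) = 1`. -/
theorem puig_center_normal [Group.IsSolvable G] (hodd : Odd (Nat.card G)) {p : ℕ} [Fact p.Prime]
    (hp : p ≠ 2) (hO : pPrimeCore p G = ⊥) (S : Sylow p G) : (cZ (pUp (S : Subgroup G))).Normal := by
  have hTS : pCore p G ≤ (S : Subgroup G) := Solv.pCore_le_sylow S
  obtain ⟨hlow, hup⟩ := pLow_sylow_le hodd hp hO S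
  set V := cZ (pUp (pCore p G)) with hV
  have hVn : V.Normal := by
    rw [← Subgroup.normalizer_eq_top_iff, eq_top_iff]
    refine le_trans ?_ (normalizer_le_normalizer_cZ _)
    refine le_trans ?_ (normalizer_le_normalizer_pUp _)
    rw [Subgroup.normalizer_eq_top]
  have hVT : V ≤ pCore p G := (cZ_le _).trans (pUp_le _)
  have hVp : IsPGroup p V := (Solv.pCore_isPGroup p).to_le hVT
  have hZV : cZ (pUp (S : Subgroup G)) ≤ V := by
    rintro x ⟨hx1, hx2⟩
    have h1 : x ∈ pLow (S : Subgroup G) := by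
      apply inf_centralizer_pLow_le S.isPGroup'
      refine ⟨pUp_le _ hx1, ?_⟩
      exact Subgroup.centralizer_le (pLow_le_pUp _) hx2
    refine ⟨pLow_le_pUp _ (hlow h1), ?_⟩
    exact Subgroup.centralizer_le hup hx2
  have hVlow : V ≤ pLow (S : Subgroup G) :=
    le_pLow_of_abelian (hVT.trans hTS) (cZ_comm _) (by rw [Subgroup.normalizer_eq_top]; exact le_top)
  set D := Subgroup.centralizer (V : Set G) with hD
  have hDn : D.Normal := inferInstance
  set K := (pCore p (G ⧸ D)).comap (QuotientGroup.mk' D) with hK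
  have hKn : K.Normal := inferInstance
  have hDK : D ≤ K := by
    intro x hx
    rw [hK, Subgroup.mem_comap]
    have : QuotientGroup.mk' D x = 1 := (QuotientGroup.eq_one_iff x).mpr hx
    rw [this]; exact Subgroup.one_mem _
  have hLK : pUp (S : Subgroup G) ≤ K := by
    rw [← pStep_pLow, pStep_le_iff]
    intro A hA1 hA2 hA3
    rw [hK, ← Subgroup.map_le_iff_le_comap]
    refine quad_subgroup_le_pCore hp hodd V hVp D ?_ A ?_
    · intro k hk
      rw [hD, Subgroup.mem_centralizer_iff]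
      intro u hu
      exact (hk u hu).symm
    · have h2 : ⁅V, A⁆ ≤ A := by
        rw [← Subgroup.le_normalizer_iff_commutator_le_right]
        exact hVlow.trans hA3
      refine le_bot_iff.mp ((Subgroup.commutator_mono h2 le_rfl).trans ?_)
      rw [Subgroup.commutator_le]
      intro a ha b hb
      rw [Subgroup.mem_bot, commutatorElement_eq_one_iff_mul_comm]
      exact congrArg Subtype.val (hA2.is_comm.comm (⟨a, ha⟩ : A) ⟨b, hb⟩)
  -- `K = D (S ∩ K)`
  have hKeq : D ⊔ ((S : Subgroup G) ⊓ K) = K := by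
    apply le_antisymm (sup_le hDK inf_le_right)
    rw [← Subgroup.relIndex_eq_one]
    have h1 : (D ⊔ ((S : Subgroup G) ⊓ K)).relIndex K ∣ D.relIndex K :=
      Subgroup.relIndex_dvd_of_le_left _ le_sup_left
    have h2 : (D ⊔ ((S : Subgroup G) ⊓ K)).relIndex K ∣ ((S : Subgroup G) ⊓ K).relIndex K :=
      Subgroup.relIndex_dvd_of_le_left _ le_sup_right
    have h3 : D.relIndex K = Nat.card (pCore p (G ⧸ D)) := H63.relIndex_comap_mk' _ _
    obtain ⟨n, hn⟩ := IsPGroup.iff_card.mp (Solv.pCore_isPGroup (G := G ⧸ D) p)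
    have h4 : ((S : Subgroup G) ⊓ K).relIndex K = (Transfer.sylowInf S K : Subgroup K).index := by
      rw [Transfer.sylowInf_coe, Subgroup.inf_relIndex_right]
      rfl
    have h5 : (((S : Subgroup G) ⊓ K).relIndex K).Coprime p := by
      rw [h4]
      exact ((Nat.Prime.coprime_iff_not_dvd Fact.out).mpr (Transfer.sylowInf S K).not_dvd_index).symm
    rw [h3, hn] at h1
    exact Nat.eq_one_of_dvd_coprimes (Nat.Coprime.pow_right n h5) h2 h1
  have hfr : Subgroup.normalizer (((S : Subgroup G) ⊓ K : Subgroup G) : Set G) ⊔ K = ⊤ := by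
    have := (Transfer.sylowInf S K).normalizer_sup_eq_top
    rwa [Transfer.sylowInf_map] at this
  have hle1 : Subgroup.normalizer (((S : Subgroup G) ⊓ K : Subgroup G) : Set G) ≤
      Subgroup.normalizer (cZ (pUp (S : Subgroup G)) : Set G) := by
    have h1 : pUp ((S : Subgroup G) ⊓ K) = pUp (S : Subgroup G) :=
      pUp_eq_of_le (le_inf (pUp_le _) hLK) inf_le_left
    rw [← h1]
    exact (normalizer_le_normalizer_pUp _).trans (normalizer_le_normalizer_cZ _)
  have hle2 : D ≤ Subgroup.normalizer (cZ (pUp (S : Subgroup G)) : Set G) := by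
    refine le_trans ?_ (Subgroup.centralizer_le_normalizer _)
    exact Subgroup.centralizer_le hZV
  rw [← Subgroup.normalizer_eq_top_iff, eq_top_iff, ← hfr]
  exact sup_le hle1 (hKeq.symm.le.trans (sup_le hle2 (Subgroup.le_normalizer.trans hle1)))

/-- Puig's theorem, general form. -/
theorem puig_factorization [Group.IsSolvable G] (hodd : Odd (Nat.card G)) {p : ℕ} [Fact p.Prime]
    (hp : p ≠ 2) (S : Sylow p G) :
    pPrimeCore p G ⊔ Subgroup.normalizer (cZ (pUp (S : Subgroup G)) : Set G) = ⊤ := by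
  set K := pPrimeCore p G with hK
  set Z := cZ (pUp (S : Subgroup G)) with hZ
  set π := QuotientGroup.mk' K with hπ
  have hodd' : Odd (Nat.card (G ⧸ K)) := hodd.of_dvd_nat (Subgroup.card_quotient_dvd_card _)
  have hKS : K ⊓ (S : Subgroup G) = ⊥ := by
    refine Subgroup.inf_eq_bot_of_coprime ?_
    obtain ⟨n, hn⟩ := IsPGroup.iff_card.mp S.isPGroup'
    rw [hn]
    exact (Solv.pPrimeCore_card_coprime p).pow_right n
  have hinj : ∀ H : Subgroup G, H ≤ (S : Subgroup G) → Function.Injective (π.comp H.subtype) := by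
    intro H hH
    rw [← MonoidHom.ker_eq_bot_iff, eq_bot_iff]
    rintro ⟨x, hx⟩ hxk
    rw [MonoidHom.mem_ker] at hxk
    have h1 : x ∈ K ⊓ (S : Subgroup G) := ⟨(QuotientGroup.eq_one_iff x).mp hxk, hH hx⟩
    rw [hKS, Subgroup.mem_bot] at h1
    rw [Subgroup.mem_bot]
    exact Subtype.ext h1
  have h1 := puig_center_normal hodd' hp (Solv.pPrimeCore_quotient_pPrimeCore (G := G) p)
    (S.mapSurjective (QuotientGroup.mk'_surjective K))
  have h2 : ((S.mapSurjective (QuotientGroup.mk'_surjective K) : Sylow p (G ⧸ K)) :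
      Subgroup (G ⧸ K)) = (S : Subgroup G).map π := rfl
  have h3 : cZ (pUp ((S.mapSurjective (QuotientGroup.mk'_surjective K) : Sylow p (G ⧸ K)) :
      Subgroup (G ⧸ K))) = Z.map π := by
    rw [h2, ← pUp_map_of_injOn π _ (hinj _ le_rfl), hZ, map_cZ π _ (hinj _ (pUp_le _))]
  have h4 : (Z.map π).Normal := by rw [← h3]; exact h1
  have h5 : ((Z.map π).comap π).Normal := inferInstance
  rw [hπ, QuotientGroup.comap_map_mk'] at h5
  have hZS : Z ≤ (S : Subgroup G) := (cZ_le _).trans (pUp_le _)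
  have hZp : IsPGroup p Z := S.isPGroup'.to_le hZS
  obtain ⟨n, hn⟩ := IsPGroup.iff_card.mp hZp
  have h7 : Z.relIndex (K ⊔ Z) = Nat.card K := by
    have h8 := card_sup_of_le_normalizer K Z (by rw [Subgroup.normalizer_eq_top]; exact le_top)
      (le_bot_iff.mp ((inf_le_inf_left K hZS).trans hKS.le))
    have h9 := Subgroup.relIndex_mul_relIndex ⊥ Z (K ⊔ Z) bot_le le_sup_right
    rw [Subgroup.relIndex_bot_left, Subgroup.relIndex_bot_left, h8, mul_comm] at h9
    exact Nat.eq_of_mul_eq_mul_right Nat.card_pos h9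
  have h6 := Hall.frattini_hall (K ⊔ Z) inferInstance Z le_sup_right (by
    rw [h7, hn]
    exact (Solv.pPrimeCore_card_coprime p).symm.pow_left n)
  rw [eq_top_iff, ← h6]
  exact sup_le (sup_le le_sup_left (Subgroup.le_normalizer.trans le_sup_right)) le_sup_right

end

end Cfsg.Agent.H25
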