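import Mathlib
import Cfsg.Prelude.Def_Blocks
import Cfsg.Agent.H25.Clif
import Cfsg.Agent.H75.Inflate
import Cfsg.Agent.Coh.FrobKer
import Cfsg.Agent.Char.Linear

/-!
# Odd degree (real valued) characters, basic counting (owner helper25)
-/

set_option autoImplicit false
set_option linter.unusedSectionVars false
set_option linter.style.haveILetI false

namespace Cfsg.Agent.H25

open scoped ComplexConjugate BigOperators
open Cfsg Cfsg.Agent.CharBase Cfsg.Agent.Char

universe u

/-- irreducible characters of odd degree; real valued if `flag`. -/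
def RO (flag : Prop) (G : Type u) [Group G] : Set (G → ℂ) :=
  {χ | IsIrrCharacter G χ ∧ (∃ n : ℕ, Odd n ∧ χ 1 = n) ∧ (flag → ∀ g, conj (χ g) = χ g)}

variable {flag : Prop} {G : Type u} [Group G]

theorem RO_comp {H : Type u} [Group H] {χ : G → ℂ} (hχ : χ ∈ RO flag G) (f : H →* G)
    (hf : Function.Surjective f) : (fun h => χ (f h)) ∈ RO flag H := by
  obtain ⟨h1, ⟨n, hn, h2⟩, h3⟩ := hχ
  exact ⟨isIrrCharacter_comp_surjective h1 f hf, ⟨n, hn, by change χ (f 1) = n; rw [map_one]; exact h2⟩, fun hf g => h3 hf (f g)⟩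

/-- transport along an isomorphism. -/
theorem card_RO_equiv {H : Type u} [Group H] (e : G ≃* H) : Nat.card (RO flag G) = Nat.card (RO flag H) := by
  refine Nat.card_congr
    { toFun := fun χ => ⟨fun h => (χ : G → ℂ) (e.symm h), RO_comp χ.2 e.symm.toMonoidHom e.symm.surjective⟩
      invFun := fun χ => ⟨fun g => (χ : H → ℂ) (e g), RO_comp χ.2 e.toMonoidHom e.surjective⟩
      left_inv := fun χ => ?_
      right_inv := fun χ => ?_ }
  · apply Subtype.ext; funext g; simp
  · apply Subtype.ext; funext g; simp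

/-- characters with `N` in the kernel. -/
theorem card_RO_quot [Finite G] (N : Subgroup G) [N.Normal] :
    Nat.card {χ : G → ℂ // χ ∈ RO flag G ∧ ∀ n ∈ N, χ n = χ 1} = Nat.card (RO flag (G ⧸ N)) := by
  symm
  refine Nat.card_congr (Equiv.ofBijective (fun χ => ⟨fun g => (χ : G ⧸ N → ℂ) (QuotientGroup.mk g),
    RO_comp χ.2 (QuotientGroup.mk' N) (QuotientGroup.mk'_surjective N), H75.inflate_ker N χ⟩) ⟨?_, ?_⟩)
  · intro χ ψ h
    apply Subtype.ext
    funext x
    obtain ⟨g, rfl⟩ := QuotientGroup.mk_surjective x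
    exact congrFun (congrArg Subtype.val h) g
  · rintro ⟨χ, ⟨h1, ⟨n, hn, h2⟩, h3⟩, hk⟩
    obtain ⟨χ', hχ', he⟩ := H75.exists_deflate_irr N h1 hk
    refine ⟨⟨χ', hχ', ⟨n, hn, ?_⟩, ?_⟩, ?_⟩
    · rw [← h2, ← he 1]; rfl
    · intro hf x
      obtain ⟨g, rfl⟩ := QuotientGroup.mk_surjective x
      rw [he]; exact h3 hf g
    · apply Subtype.ext
      funext g
      exact he g

/-- a character of odd degree (real if `flag`) has a constituent of odd degree (real if `flag`). -/
theorem exists_RO_constituent [Fintype G] {φ : G → ℂ} (hφ : IsCharacter G φ) {n : ℕ} (hn : φ 1 = n) (hodd : Odd n)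
    (hreal : flag → ∀ g, conj (φ g) = φ g) : ∃ ξ ∈ RO flag G, classInner φ ξ ≠ 0 := by
  classical
  have : Fintype (IrrCharacter G) := Fintype.ofFinite _
  obtain ⟨k, hk, hsum⟩ := exists_mult_of_isCharacter hφ
  by_contra hcon
  push Not at hcon
  have hk0 : ∀ ξ : IrrCharacter G, (ξ : G → ℂ) ∈ RO flag G → k ξ = 0 := by
    intro ξ hξ
    have h1 := hcon ξ hξ
    rw [hk ξ] at h1
    exact_mod_cast h1
  have hN : n = ∑ ξ : IrrCharacter G, k ξ * H75.deg ξ := by
    have h1 := congrFun hsum 1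
    rw [Finset.sum_apply, hn] at h1
    have h2 : (n : ℂ) = ((∑ ξ : IrrCharacter G, k ξ * H75.deg ξ : ℕ) : ℂ) := by
      rw [h1]; push_cast
      refine Finset.sum_congr rfl fun ξ _ => ?_
      rw [Pi.smul_apply, H75.deg_spec, nsmul_eq_mul]
    exact_mod_cast h2
  have hZ : ((n : ℕ) : ZMod 2) = 0 := by
    rw [hN]
    push_cast
    by_cases hf : flag
    · refine Finset.sum_involution (fun ξ _ => (⟨fun g => conj ((ξ : G → ℂ) g), isIrrCharacter_conj ξ.2⟩ : IrrCharacter G))
        ?_ ?_ ?_ ?_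
      · intro ξ _
        have h1 : k (⟨fun g => conj ((ξ : G → ℂ) g), isIrrCharacter_conj ξ.2⟩ : IrrCharacter G) = k ξ := by
          have e1 := hk ⟨fun g => conj ((ξ : G → ℂ) g), isIrrCharacter_conj ξ.2⟩
          have e2 : classInner φ (fun g => conj ((ξ : G → ℂ) g)) = conj (classInner φ (ξ : G → ℂ)) := by
            rw [← Coh.classInner_conjFun]
            congr 1
            funext g
            exact (hreal hf g).symm
          have e3 : ((k (⟨fun g => conj ((ξ : G → ℂ) g), isIrrCharacter_conj ξ.2⟩ : IrrCharacter G) : ℕ) : ℂ) = k ξ := by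
            rw [← e1, e2, hk ξ, Complex.conj_natCast]
          exact_mod_cast e3
        have h2 : H75.deg (⟨fun g => conj ((ξ : G → ℂ) g), isIrrCharacter_conj ξ.2⟩ : IrrCharacter G) = H75.deg ξ := by
          have e1 := H75.deg_spec (⟨fun g => conj ((ξ : G → ℂ) g), isIrrCharacter_conj ξ.2⟩ : IrrCharacter G)
          have e2 : ((H75.deg (⟨fun g => conj ((ξ : G → ℂ) g), isIrrCharacter_conj ξ.2⟩ : IrrCharacter G) : ℕ) : ℂ) =
              H75.deg ξ := by
            rw [← e1]
            simp only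
            rw [H75.deg_spec, Complex.conj_natCast]
          exact_mod_cast e2
        rw [h1, h2]
        exact CharTwo.add_self_eq_zero _
      · intro ξ _ hne he
        apply hne
        have hξ : ∀ g, conj ((ξ : G → ℂ) g) = (ξ : G → ℂ) g := fun g => congrFun (congrArg Subtype.val he) g
        rcases Nat.even_or_odd (H75.deg ξ) with h1 | h1
        · have : ((H75.deg ξ : ℕ) : ZMod 2) = 0 := by
            rw [ZMod.natCast_eq_zero_iff]; exact h1.two_dvd
          rw [this, mul_zero]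
        · rw [hk0 ξ ⟨ξ.2, ⟨_, h1, H75.deg_spec ξ⟩, fun _ => hξ⟩]
          simp
      · intro ξ _; exact Finset.mem_univ _
      · intro ξ _
        apply Subtype.ext
        funext g
        exact Complex.conj_conj _
    · refine Finset.sum_eq_zero fun ξ _ => ?_
      rcases Nat.even_or_odd (H75.deg ξ) with h1 | h1
      · have : ((H75.deg ξ : ℕ) : ZMod 2) = 0 := by
          rw [ZMod.natCast_eq_zero_iff]; exact h1.two_dvd
        rw [this, mul_zero]
      · rw [hk0 ξ ⟨ξ.2, ⟨_, h1, H75.deg_spec ξ⟩, fun h => absurd h hf⟩]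
        simp
  rw [ZMod.natCast_eq_zero_iff] at hZ
  exact (Nat.not_even_iff_odd.mpr hodd) (even_iff_two_dvd.mpr hZ)

/-- an odd degree irreducible character of a `2`-group is linear. -/
theorem RO_linear_of_two_group [Finite G] (hG : IsPGroup 2 G) {ξ : G → ℂ} (hξ : ξ ∈ RO flag G) : ξ 1 = 1 := by
  classical
  have := Fintype.ofFinite G
  obtain ⟨h1, ⟨n, hn, h2⟩, -⟩ := hξ
  obtain ⟨m, hm⟩ := (IsPGroup.iff_card).mp hG
  have h3 : n ∣ Nat.card G := degree_dvd_card h1 h2
  rw [hm] at h3
  obtain ⟨j, -, hj⟩ := (Nat.dvd_prime_pow Nat.prime_two).mp h3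
  rcases Nat.eq_zero_or_pos j with rfl | hj0
  · rw [h2, hj]; simp
  · exfalso
    rw [hj] at hn
    exact (Nat.not_even_iff_odd.mpr hn) ((Nat.even_pow.mpr ⟨even_two, hj0.ne'⟩))

end Cfsg.Agent.H25
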