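import Cfsg.Agent.H25.ROdd
import Cfsg.Agent.Char.CliffordCorr

/-!
# Odd degree (real valued) characters over a normal 2-subgroup (owner helper25)
-/

set_option autoImplicit false
set_option linter.unusedSectionVars false
set_option linter.style.haveILetI false

namespace Cfsg.Agent.H25

open scoped ComplexConjugate BigOperators Pointwise
open Cfsg Cfsg.Agent.CharBase Cfsg.Agent.Char

universe u

variable {flag : Prop} {G : Type u} [Group G]

/-- constituents invariant under a Sylow subgroup are conjugate under its normalizer. -/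
theorem conj_of_inv_constituents {p : ℕ} [Fact p.Prime] [Fintype G] (K : Subgroup G) [K.Normal] [Fintype K]
    (P : Sylow p G) {χ : G → ℂ} (hχ : IsIrrCharacter G χ) {l m : K → ℂ} (hl : IsIrrCharacter K l)
    (hm : IsIrrCharacter K m) (h1 : classInner (fun n : K => χ n) l ≠ 0) (h2 : classInner (fun n : K => χ n) m ≠ 0)
    (hPl : ∀ x ∈ P, cj K x l = l) (hPm : ∀ x ∈ P, cj K x m = m) :
    ∃ g ∈ Subgroup.normalizer ((P : Subgroup G) : Set G), cj K g l = m := by
  obtain ⟨g, hg⟩ := exists_conj_of_constituents K hχ hl hm h1 h2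
  set I := inertia K l with hI
  have hPI : (P : Subgroup G) ≤ I := hPl
  have hPI' : ((g • P : Sylow p G) : Subgroup G) ≤ I := by
    intro y hy
    rw [Sylow.coe_subgroup_smul, Subgroup.mem_pointwise_smul_iff_inv_smul_mem] at hy
    rw [hI, mem_inertia]
    have hy' : g⁻¹ * y * g ∈ P := by
      have := hy
      rwa [← map_inv, MulAut.smul_def, MulAut.conj_apply, inv_inv] at this
    have e : y = g * (g⁻¹ * y * g) * g⁻¹ := by group
    rw [e, cj_mul, cj_mul, hg, hPm _ hy', ← hg, cj_inv_cj]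
  obtain ⟨t, ht⟩ := MulAction.exists_smul_eq I ((g • P).subtype hPI') (P.subtype hPI)
  rw [Sylow.smul_subtype] at ht
  have h3 := Sylow.subtype_injective ht
  refine ⟨(t : G) * g, ?_, ?_⟩
  · have h4 : ((t : G) * g) • P = P := by rw [mul_smul]; exact h3
    exact Sylow.smul_eq_iff_mem_normalizer.mp h4
  · rw [cj_mul, (mem_inertia K).mp t.2, hg]

theorem isIrr_lin_mul [Fintype G] {lam χ : G → ℂ} (hl : IsCharacter G lam) (hl1 : lam 1 = 1)
    (hχ : IsIrrCharacter G χ) : IsIrrCharacter G (lam * χ) := by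
  classical
  rw [isIrrCharacter_iff (isCharacter_mul hl (isCharacter_of_isIrr hχ))]
  have h1 := (isIrrCharacter_iff (isCharacter_of_isIrr hχ)).mp hχ
  rw [← h1]
  unfold classInner
  congr 1
  refine Finset.sum_congr rfl fun g _ => ?_
  have h2 := linChar_mul_conj hl hl1 g
  simp only [Pi.mul_apply, map_mul]
  calc lam g * χ g * (conj (lam g) * conj (χ g)) = (lam g * conj (lam g)) * (χ g * conj (χ g)) := by
        ring
    _ = χ g * conj (χ g) := by rw [h2, one_mul]

/-- the constituent condition for a Clifford correspondent. -/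
theorem classInner_indFun_ne_zero [Fintype G] (N : Subgroup G) [hN : N.Normal] [Fintype N] (T : Subgroup G)
    [Fintype T] (hNT : N ≤ T) {θ : N → ℂ} (hθ : IsIrrCharacter N θ) {ψ : T → ℂ} (hψ : IsIrrCharacter T ψ) {f : ℕ}
    (hf0 : f ≠ 0) (hf : ∀ n : N, ψ ⟨n, hNT n.2⟩ = f * θ n) (hχ : IsIrrCharacter G (indFun T ψ)) :
    classInner (fun n : N => indFun T ψ n) θ ≠ 0 := by
  classical
  set χ := indFun T ψ with hχdef
  have hχc := isCharacter_of_isIrr hχ
  have hψc := isCharacter_of_isIrr hψ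
  have hχT : IsCharacter T (fun t : T => χ t) := isCharacter_restrict hχc T
  have h1 : classInner (fun t : T => χ t) ψ ≠ 0 := by
    rw [← classInner_comm_of_isCharacter hψc hχT,
      ← frobenius_reciprocity T ψ χ (isClassFunction_of_isCharacter hχc), ← hχdef,
      classInner_self_of_irr hχ]
    exact one_ne_zero
  have h2 := CC.isCharacter_sub_of_constituent hχT hψ h1
  obtain ⟨m, hm⟩ := classInner_natCast (isCharacter_incl N T hNT h2) (isCharacter_of_isIrr hθ)
  have h3 : classInner (fun n : N => χ n) θ = ((m + f : ℕ) : ℂ) := by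
    have h4 : (fun n : N => χ n) = (fun n : N => ((fun t : T => χ t) - ψ) ⟨n, hNT n.2⟩) +
        (fun n : N => ψ ⟨n, hNT n.2⟩) := by
      funext n
      simp
    rw [h4, classInner_add_left, hm, classInner_restrict_of_ov N T hNT hθ hf]
    push_cast; ring
  rw [h3]
  have : m + f ≠ 0 := by omega
  exact_mod_cast this

theorem odd_of_mul_eq {a b c : ℕ} (h : a = b * c) (ha : Odd a) : Odd c := by
  rw [h] at ha
  exact (Nat.odd_mul.mp ha).2

/-- the Clifford correspondence for odd degree (real) characters over an extendible linear character. -/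
theorem card_RO_over [Fintype G] (K : Subgroup G) [K.Normal] [Fintype K] {l : K → ℂ} (hl : IsIrrCharacter K l)
    (hl1 : l 1 = 1) (hlr : flag → ∀ k, conj (l k) = l k) (T : Subgroup G) (hT : inertia K l = T) (hKT : K ≤ T)
    (hodd : Odd T.index) {nu : T → ℂ} (hnu : IsCharacter T nu) (hnu1 : nu 1 = 1)
    (hnur : flag → ∀ t, conj (nu t) = nu t) (hext : ∀ k : K, nu ⟨k, hKT k.2⟩ = l k) :
    Nat.card {χ : G → ℂ // χ ∈ RO flag G ∧ classInner (fun n : K => χ n) l ≠ 0} =
      Nat.card (RO flag (T ⧸ K.subgroupOf T)) := by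
  classical
  have : Fintype T := Fintype.ofFinite _
  rw [← card_RO_quot]
  symm
  -- properties of `nu * β`
  have key : ∀ β : T → ℂ, β ∈ RO flag T → (∀ n ∈ K.subgroupOf T, β n = β 1) →
      ∃ f : ℕ, Odd f ∧ β 1 = f ∧ IsIrrCharacter T (nu * β) ∧ (∀ n : K, (nu * β) ⟨n, hKT n.2⟩ = f * l n) ∧
        (flag → ∀ t, conj ((nu * β) t) = (nu * β) t) := by
    rintro β ⟨h1, ⟨f, hf, h2⟩, h3⟩ h4
    refine ⟨f, hf, h2, isIrr_lin_mul hnu hnu1 h1, ?_, ?_⟩
    · intro n
      rw [Pi.mul_apply, hext, h4 ⟨n, hKT n.2⟩ (Subgroup.mem_subgroupOf.mpr n.2), h2, mul_comm]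
    · intro hf t
      rw [Pi.mul_apply, map_mul, hnur hf, h3 hf]
  refine Nat.card_congr (Equiv.ofBijective (fun β => ⟨indFun T (nu * (β : T → ℂ)), ?_, ?_⟩) ⟨?_, ?_⟩)
  · obtain ⟨f, hf, hf1, hirr, hov, hre⟩ := key β β.2.1 β.2.2
    refine ⟨isIrr_indFun_of_ov K T hKT hl hT hirr (by rintro rfl; simp at hf) hov, ⟨T.index * f, hodd.mul hf, ?_⟩, ?_⟩
    · rw [indFun_one_apply, Pi.mul_apply, hnu1, one_mul, hf1]; push_cast; ring
    · intro h g
      rw [← indFun_conjC]
      congr 1
      funext t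
      exact hre h t
  · obtain ⟨f, hf, hf1, hirr, hov, hre⟩ := key β β.2.1 β.2.2
    have hf0 : f ≠ 0 := by rintro rfl; simp at hf
    exact classInner_indFun_ne_zero K T hKT hl hirr hf0 hov (isIrr_indFun_of_ov K T hKT hl hT hirr hf0 hov)
  · intro β γ he
    obtain ⟨f, hf, hf1, hirr, hov, hre⟩ := key β β.2.1 β.2.2
    obtain ⟨f', hf', hf1', hirr', hov', hre'⟩ := key γ γ.2.1 γ.2.2
    have h1 := eq_of_indFun_eq K T hKT hl hT hirr hirr' (by rintro rfl; simp at hf) (by rintro rfl; simp at hf')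
      hov hov' (congrArg Subtype.val he)
    apply Subtype.ext
    funext t
    have h2 := congrFun h1 t
    simp only [Pi.mul_apply] at h2
    exact mul_left_cancel₀ (linChar_ne_zero hnu hnu1 t) h2
  · rintro ⟨χ, ⟨h1, ⟨n, hn, h2⟩, h3⟩, h4⟩
    subst hT
    obtain ⟨ψ, hψ, hind, f, hf0, hf⟩ := CC.exists_indFun_inertia K h1 hl h4
    have hψr : flag → ∀ t, conj (ψ t) = ψ t := by
      intro h
      have h5 : (fun t => conj (ψ t)) = ψ := by
        apply eq_of_indFun_eq K (inertia K l) hKT hl rfl (isIrrCharacter_conj hψ) hψ hf0 hf0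
        · intro k
          rw [hf k, map_mul, hlr h, Complex.conj_natCast]
        · exact hf
        · funext g
          rw [indFun_conjC, hind, h3 h]
      exact fun t => congrFun h5 t
    have hψ1 : ψ 1 = f := by
      have := hf 1
      rw [hl1, mul_one] at this
      exact this
    have hfo : Odd f := by
      have h5 : (n : ℂ) = (((inertia K l).index * f : ℕ) : ℂ) := by
        rw [← h2, ← hind, indFun_one_apply, hψ1]; push_cast; ring
      exact odd_of_mul_eq (by exact_mod_cast h5) hn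
    -- `β = nu⁻¹ ψ`
    have hnuc := isCharacter_of_isIrr (isIrrCharacter_conj (linChar_isIrr hnu hnu1))
    have hnuc1 : (fun t => conj (nu t)) 1 = 1 := by simp [hnu1]
    refine ⟨⟨(fun t => conj (nu t)) * ψ, ⟨isIrr_lin_mul hnuc hnuc1 hψ, ⟨f, hfo, ?_⟩, ?_⟩, ?_⟩, ?_⟩
    · rw [Pi.mul_apply, hnu1, map_one, one_mul, hψ1]
    · intro h t
      simp only [Pi.mul_apply, map_mul]
      rw [hnur h, hψr h, hnur h]
    · intro k hk
      have hk' := Subgroup.mem_subgroupOf.mp hk
      have e1 : nu k = l ⟨k, hk'⟩ := hext ⟨k, hk'⟩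
      have e2 : ψ k = f * l ⟨k, hk'⟩ := hf ⟨k, hk'⟩
      rw [Pi.mul_apply, Pi.mul_apply, hnu1, map_one, one_mul, hψ1, e2, ← e1]
      have := linChar_mul_conj hnu hnu1 k
      linear_combination (f : ℂ) * this
    · apply Subtype.ext
      simp only
      rw [← hind]
      congr 1
      funext t
      simp only [Pi.mul_apply]
      have := linChar_mul_conj hnu hnu1 t
      linear_combination (ψ t) * this

/-- a linear constituent in the 2-subgroup `P` extends the linear character `l` of `K`. -/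
theorem exists_ext_of_RO_over [Fintype G] (K P : Subgroup G) [K.Normal] [Fintype K] (hKP : K ≤ P) (hP : IsPGroup 2 P)
    {l : K → ℂ} (hl : IsIrrCharacter K l)
    (hl1 : l 1 = 1) (hlr : flag → ∀ k, conj (l k) = l k) (hPl : ∀ x ∈ P, cj K x l = l)
    {χ : G → ℂ} (hχ : χ ∈ RO flag G) (h4 : classInner (fun n : K => χ n) l ≠ 0) :
    ∃ mu : P → ℂ, IsCharacter P mu ∧ mu 1 = 1 ∧ (flag → ∀ x, conj (mu x) = mu x) ∧
      ∀ k : K, mu ⟨k, hKP k.2⟩ = l k := by
  classical
  obtain ⟨h1, ⟨n, hn, h2⟩, h3⟩ := hχ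
  have hKT : K ≤ inertia K l := le_inertia K (isClassFunction_of_isCharacter (isCharacter_of_isIrr hl))
  have hPT : P ≤ inertia K l := hPl
  have : Fintype P := Fintype.ofFinite _
  have : Fintype (inertia K l) := Fintype.ofFinite _
  obtain ⟨ψ, hψ, hind, f, hf0, hf⟩ := CC.exists_indFun_inertia K h1 hl h4
  have hψr : flag → ∀ t, conj (ψ t) = ψ t := by
    intro h
    have h5 : (fun t => conj (ψ t)) = ψ := by
      apply eq_of_indFun_eq K (inertia K l) hKT hl rfl (isIrrCharacter_conj hψ) hψ hf0 hf0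
      · intro k
        rw [hf k, map_mul, hlr h, Complex.conj_natCast]
      · exact hf
      · funext g
        rw [indFun_conjC, hind, h3 h]
    exact fun t => congrFun h5 t
  have hψ1 : ψ 1 = f := by
    have := hf 1
    rw [hl1, mul_one] at this
    exact this
  have hfo : Odd f := by
    have h5 : (n : ℂ) = (((inertia K l).index * f : ℕ) : ℂ) := by
      rw [← h2, ← hind, indFun_one_apply, hψ1]; push_cast; ring
    exact odd_of_mul_eq (by exact_mod_cast h5) hn
  -- restrict to `P`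
  have hres : IsCharacter P (fun x : P => ψ ⟨x, hPT x.2⟩) :=
    isCharacter_comp (isCharacter_of_isIrr hψ) (Subgroup.inclusion hPT)
  obtain ⟨ξ, hξ, hξc⟩ := exists_RO_constituent (flag := flag) hres (n := f) hψ1 hfo (fun h x => hψr h _)
  have hξ1 := RO_linear_of_two_group hP hξ
  refine ⟨ξ, isCharacter_of_isIrr hξ.1, hξ1, hξ.2.2, ?_⟩
  have h5 := CC.isCharacter_sub_of_constituent hres hξ.1 hξc
  -- compare on `K`
  have hξK : IsCharacter K (fun k : K => ξ ⟨k, hKP k.2⟩) :=
    isCharacter_comp (isCharacter_of_isIrr hξ.1) (Subgroup.inclusion hKP)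
  have hξKi : IsIrrCharacter K (fun k : K => ξ ⟨k, hKP k.2⟩) := linChar_isIrr hξK (by exact hξ1)
  by_contra hcon
  have hne : (fun k : K => ξ ⟨k, hKP k.2⟩) ≠ l := by
    intro h
    apply hcon
    intro k
    exact congrFun h k
  have h6 : classInner (fun k : K => ψ ⟨k, hKT k.2⟩) (fun k : K => ξ ⟨k, hKP k.2⟩) = 0 := by
    have : (fun k : K => ψ ⟨k, hKT k.2⟩) = (f : ℂ) • l := by
      funext k
      rw [hf k]; rfl
    rw [this, classInner_smul_left, classInner_eq_zero_of_irr_ne hl hξKi hne.symm, mul_zero]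
  obtain ⟨m, hm⟩ := classInner_natCast (isCharacter_comp h5 (Subgroup.inclusion hKP)) hξK
  have h7 : (fun k : K => ψ ⟨k, hKT k.2⟩) =
      ((((fun x : P => ψ ⟨x, hPT x.2⟩) - ξ)) ∘ (Subgroup.inclusion hKP)) + (fun k : K => ξ ⟨k, hKP k.2⟩) := by
    funext k
    simp only [Pi.add_apply, Function.comp, Pi.sub_apply]
    have : ξ (Subgroup.inclusion hKP k) = ξ ⟨k, hKP k.2⟩ := rfl
    rw [this]
    simp
  rw [h7, classInner_add_left, hm, classInner_self_of_irr hξKi] at h6
  have : ((m + 1 : ℕ) : ℂ) = 0 := by push_cast; exact h6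
  have : m + 1 = 0 := by exact_mod_cast this
  omega

end Cfsg.Agent.H25
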