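import Mathlib
import Cfsg.Agent.H25.ROddB

/-!
# Extending linear characters by transfer (owner helper25)
-/

set_option autoImplicit false
set_option linter.unusedSectionVars false
set_option linter.style.haveILetI false

namespace Cfsg.Agent.H25

open scoped ComplexConjugate BigOperators Pointwise
open Cfsg Cfsg.Agent.CharBase Cfsg.Agent.Char

universe u

theorem transfer_normal {T : Type u} [Group T] [Finite T] {P : Subgroup T} {A : Type*} [CommGroup A] (φ : P →* A)
    {k : T} (hk : ∀ t : T, t⁻¹ * k * t ∈ P) {c : A} (hinv : ∀ t : T, φ ⟨t⁻¹ * k * t, hk t⟩ = c) :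
    MonoidHom.transfer φ k = c ^ P.index := by
  classical
  rw [MonoidHom.transfer_def φ default k]
  unfold Subgroup.leftTransversals.diff
  simp only
  let _ := P.fintypeQuotientOfFiniteIndex
  rw [Finset.prod_congr rfl (g := fun _ => c)]
  · rw [Finset.prod_const, Finset.card_univ, Subgroup.index_eq_card, Nat.card_eq_fintype_card]
  · intro q _
    have h1 : k⁻¹ • q = q := by
      obtain ⟨t, rfl⟩ := QuotientGroup.mk_surjective q
      change (QuotientGroup.mk (k⁻¹ * t) : T ⧸ P) = QuotientGroup.mk t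
      rw [QuotientGroup.eq]
      have := hk t
      have e : (k⁻¹ * t)⁻¹ * t = t⁻¹ * k * t := by group
      rw [e]; exact this
    rw [← hinv ((default : P.LeftTransversal).2.leftQuotientEquiv q : T)]
    congr 1
    apply Subtype.ext
    simp only
    rw [Subgroup.smul_apply_eq_smul_apply_inv_smul, h1, smul_eq_mul, mul_assoc]

theorem transfer_pow {T : Type u} [Group T] [Finite T] {P : Subgroup T} {A : Type*} [CommGroup A] (φ : P →* A)
    {n : ℕ} (h : ∀ x, φ x ^ n = 1) (g : T) : MonoidHom.transfer φ g ^ n = 1 := by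
  classical
  rw [MonoidHom.transfer_def φ default g]
  unfold Subgroup.leftTransversals.diff
  simp only
  rw [← Finset.prod_pow]
  exact Finset.prod_eq_one fun q _ => h _

theorem exists_odd_inv {n m : ℕ} (hn : Odd n) : ∃ j : ℕ, Odd j ∧ ∀ c : ℂ, c ^ (2 ^ m) = 1 → c ^ (n * j) = c := by
  have h1 : Nat.Coprime n (2 ^ (m + 1)) := (Nat.coprime_two_right.mpr hn).pow_right _
  obtain ⟨j, -, hj⟩ := Nat.exists_mul_mod_eq_one_of_coprime h1 (Nat.one_lt_pow (by omega) (by omega))
  refine ⟨j, ?_, ?_⟩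
  · rcases Nat.even_or_odd j with h | h
    · exfalso
      have h2 : 2 ∣ n * j % 2 ^ (m + 1) := (Nat.dvd_mod_iff (dvd_pow_self 2 (by omega))).mpr (h.two_dvd.mul_left n)
      rw [hj] at h2
      omega
    · exact h
  · intro c hc
    have h2 : c ^ (2 ^ (m + 1)) = 1 := by rw [pow_succ, pow_mul, hc, one_pow]
    rw [← Nat.div_add_mod (n * j) (2 ^ (m + 1)), pow_add, pow_mul, h2, one_pow, one_mul, hj, pow_one]

/-- a linear character of a 2-subgroup `P` of odd index which is invariant on the normal subgroup `K ≤ P` agrees on `K`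
with a linear character of the whole group. -/
theorem exists_linear_ext {flag : Prop} {T : Type u} [Group T] [Fintype T] (K P : Subgroup T) [hKn : K.Normal]
    (hKP : K ≤ P) (hP : IsPGroup 2 P) (hodd : Odd P.index) {mu : P → ℂ} (hmu : IsCharacter P mu) (hmu1 : mu 1 = 1)
    (hmur : flag → ∀ x, conj (mu x) = mu x) (hinv : ∀ t : T, cj K t (fun k : K => mu ⟨k, hKP k.2⟩) =
      fun k : K => mu ⟨k, hKP k.2⟩) :
    ∃ nu : T → ℂ, IsCharacter T nu ∧ nu 1 = 1 ∧ (flag → ∀ t, conj (nu t) = nu t) ∧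
      ∀ k : K, nu (k : T) = mu ⟨k, hKP k.2⟩ := by
  classical
  obtain ⟨m, hm⟩ := (IsPGroup.iff_card).mp hP
  obtain ⟨j, hj, hjc⟩ := exists_odd_inv (n := P.index) (m := m) hodd
  let φ : P →* ℂˣ := (linHom hmu hmu1).toHomUnits
  have hφ : ∀ x, ((φ x : ℂˣ) : ℂ) = mu x := fun x => rfl
  let V : T →* ℂˣ := MonoidHom.transfer φ
  refine ⟨fun t => ((V t ^ j : ℂˣ) : ℂ), ?_, by simp, ?_, ?_⟩
  · have := isCharacter_of_hom ((Units.coeHom ℂ).comp ((powMonoidHom j).comp V))
    exact this
  · intro hf t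
    have h1 : ∀ x, φ x ^ 2 = 1 := by
      intro x
      apply Units.ext
      rw [Units.val_pow_eq_pow_val, hφ, Units.val_one, pow_two]
      have := linChar_mul_conj hmu hmu1 x
      rwa [hmur hf] at this
    have h2 : V t ^ 2 = 1 := transfer_pow φ h1 t
    have h3 : ((V t : ℂˣ) : ℂ) * V t = 1 := by
      rw [← pow_two, ← Units.val_pow_eq_pow_val, h2, Units.val_one]
    have h4 : ((V t : ℂˣ) : ℂ) = 1 ∨ ((V t : ℂˣ) : ℂ) = -1 := mul_self_eq_one_iff.mp h3
    simp only [Units.val_pow_eq_pow_val]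
    rcases h4 with h4 | h4 <;> rw [h4] <;> simp
  · intro k
    have hk : ∀ t : T, t⁻¹ * k * t ∈ P := by
      intro t
      have := hKn.conj_mem k k.2 t⁻¹
      rw [inv_inv] at this
      exact hKP this
    have h1 : V (k : T) = φ ⟨k, hKP k.2⟩ ^ P.index := by
      apply transfer_normal φ hk
      intro t
      apply Units.ext
      rw [hφ, hφ]
      have h2 := congrFun (hinv t⁻¹) k
      rw [cj_apply] at h2
      rw [← h2]
      congr 1
      apply Subtype.ext
      simp
    simp only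
    rw [h1, ← pow_mul, Units.val_pow_eq_pow_val, hφ]
    apply hjc
    rw [← hm]
    exact linChar_pow_card hmu hmu1 _

/-- normalizers of Sylow subgroups in quotients. -/
theorem mem_normalizer_map_iff {Γ : Type u} [Group Γ] [Finite Γ] {p : ℕ} [Fact p.Prime] (K : Subgroup Γ) [hK : K.Normal]
    (P : Sylow p Γ) {x : Γ ⧸ K} : x ∈ Subgroup.normalizer ((((P : Subgroup Γ).map (QuotientGroup.mk' K)) : Subgroup (Γ ⧸ K)) : Set (Γ ⧸ K)) ↔
      ∃ n ∈ Subgroup.normalizer ((P : Subgroup Γ) : Set Γ), (QuotientGroup.mk n : Γ ⧸ K) = x := by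
  constructor
  · intro hx
    obtain ⟨g, rfl⟩ := QuotientGroup.mk_surjective x
    -- `g` normalizes `P K`
    set L := (P : Subgroup Γ) ⊔ K with hL
    have hgL : ∀ y, y ∈ L ↔ g * y * g⁻¹ ∈ L := by
      have h1 : ∀ y : Γ, y ∈ L ↔ (QuotientGroup.mk' K y) ∈ (P : Subgroup Γ).map (QuotientGroup.mk' K) := by
        intro y
        rw [← Subgroup.mem_comap, Subgroup.comap_map_eq, QuotientGroup.ker_mk']
      intro y
      rw [h1, h1, map_mul, map_mul, map_inv]
      exact Subgroup.mem_normalizer_iff.mp hx (QuotientGroup.mk' K y)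
    have hPL : (P : Subgroup Γ) ≤ L := le_sup_left
    have hPL' : ((g • P : Sylow p Γ) : Subgroup Γ) ≤ L := by
      intro y hy
      rw [Sylow.coe_subgroup_smul, Subgroup.mem_pointwise_smul_iff_inv_smul_mem] at hy
      have hy' : g⁻¹ * y * g ∈ (P : Subgroup Γ) := by
        have := hy
        rwa [← map_inv, MulAut.smul_def, MulAut.conj_apply, inv_inv] at this
      have h2 := (hgL _).mp (hPL hy')
      have e : g * (g⁻¹ * y * g) * g⁻¹ = y := by group
      rwa [e] at h2
    obtain ⟨t, ht⟩ := MulAction.exists_smul_eq L ((g • P).subtype hPL') (P.subtype hPL)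
    rw [Sylow.smul_subtype] at ht
    have h3 := Sylow.subtype_injective ht
    have h4 : ((t : Γ) * g) • P = P := by rw [mul_smul]; exact h3
    have h5 := Sylow.smul_eq_iff_mem_normalizer.mp h4
    -- `t = p k`
    have ht2 : (t : Γ) ∈ (P : Subgroup Γ) ⊔ K := t.2
    rw [Subgroup.mem_sup_of_normal_right] at ht2
    obtain ⟨a, ha, k, hk, hak⟩ := ht2
    have h6 : a⁻¹ * ((t : Γ) * g) ∈ Subgroup.normalizer ((P : Subgroup Γ) : Set Γ) :=
      (Subgroup.normalizer _).mul_mem (Subgroup.le_normalizer ((P : Subgroup Γ).inv_mem ha)) h5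
    refine ⟨_, h6, ?_⟩
    rw [← hak]
    have e : a⁻¹ * (a * k * g) = g * (g⁻¹ * k * g) := by group
    rw [e, QuotientGroup.mk_mul]
    have : (QuotientGroup.mk (g⁻¹ * k * g) : Γ ⧸ K) = 1 := by
      rw [QuotientGroup.eq_one_iff]
      have := hK.conj_mem k hk g⁻¹
      rwa [inv_inv] at this
    rw [this, mul_one]
  · rintro ⟨n, hn, rfl⟩
    rw [Subgroup.mem_normalizer_iff]
    intro y
    constructor
    · rintro ⟨a, ha, rfl⟩
      exact ⟨n * a * n⁻¹, (Subgroup.mem_normalizer_iff.mp hn a).mp ha, by simp⟩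
    · rintro ⟨a, ha, hy⟩
      refine ⟨n⁻¹ * a * n, ?_, ?_⟩
      · have := (Subgroup.mem_normalizer_iff.mp ((Subgroup.normalizer _).inv_mem hn) a).mp ha
        rwa [inv_inv] at this
      · simp only [map_mul, map_inv, hy]
        change (QuotientGroup.mk n)⁻¹ * (QuotientGroup.mk n * y * (QuotientGroup.mk n)⁻¹) * (QuotientGroup.mk n) = y
        group

end Cfsg.Agent.H25
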