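import Mathlib
import Cfsg.Agent.H25.ROddC
import Cfsg.Agent.Char.CentralChar
import Cfsg.Agent.H30.Carter
import Cfsg.Agent.H72.Basic
import Cfsg.Agent.H91.CoprimeAb

/-!
# Counting odd degree (real valued) characters of solvable groups (owner helper25)
-/

set_option autoImplicit false
set_option linter.unusedSectionVars false
set_option linter.style.haveILetI false

namespace Cfsg.Agent.H25

open scoped ComplexConjugate BigOperators Pointwise commutatorElement
open Cfsg Cfsg.Agent.CharBase Cfsg.Agent.Char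

universe u

variable {flag : Prop}

/-- if the principal character is a constituent of the restriction to a normal subgroup, this lies in the kernel. -/
theorem ker_of_one_constituent {G : Type u} [Group G] [Fintype G] (N : Subgroup G) [N.Normal] [Fintype N] {χ : G → ℂ}
    (hχ : IsIrrCharacter G χ) (h : classInner (fun n : N => χ n) (fun _ => 1) ≠ 0) : ∀ n ∈ N, χ n = χ 1 := by
  have h1 := restrict_eq_smul_of_invariant N hχ Char.isIrrCharacter_one h (fun g => rfl)
  intro n hn
  have e1 := congrFun h1 ⟨n, hn⟩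
  have e2 := congrFun h1 1
  simp only [Pi.smul_apply] at e1 e2
  rw [e1]
  exact e2.symm

theorem RO_odd_normal_ker {G : Type u} [Group G] [Fintype G] (P : Sylow 2 G)
    (hfl : flag ∨ Subgroup.normalizer ((P : Subgroup G) : Set G) = P) (N : Subgroup G) [hN : N.Normal]
    (hodd : Odd (Nat.card N)) (hab : IsMulCommutative N) {χ : G → ℂ} (hχ : χ ∈ RO flag G) : ∀ n ∈ N, χ n = χ 1 := by
  classical
  have : Fintype N := Fintype.ofFinite _
  obtain ⟨h1, ⟨d, hd, h2⟩, h3⟩ := hχ
  by_cases hf : flag
  · obtain ⟨ξ, hξ, hξc⟩ := exists_RO_constituent (flag := flag)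
      (isCharacter_restrict (isCharacter_of_isIrr h1) N) (n := d) h2 hd (fun h x => h3 h x)
    have h4 : ξ = fun _ => 1 := Coh.eq_one_of_real hodd hξ.1 (funext fun x => hξ.2.2 hf x)
    rw [h4] at hξc
    exact ker_of_one_constituent N h1 hξc
  · have hNP := hfl.resolve_left hf
    have hne : χ 1 ≠ 0 := irr_one_ne_zero h1
    obtain ⟨θ, hθ, hθc⟩ := exists_constituent_restrict N (isCharacter_of_isIrr h1) hne
    have hdeg := clifford_degree N h1 hθ hθc
    obtain ⟨e, he⟩ := classInner_natCast (isCharacter_restrict (isCharacter_of_isIrr h1) N) (isCharacter_of_isIrr hθ)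
    obtain ⟨dθ, hdθ⟩ := exists_nat_degree (isCharacter_of_isIrr hθ)
    have hidx : Odd (inertia N θ).index := by
      rw [he, hdθ, h2] at hdeg
      have : d = e * ((inertia N θ).index * dθ) := by exact_mod_cast hdeg
      rw [this] at hd
      exact (Nat.odd_mul.mp (Nat.odd_mul.mp hd).2).1
    obtain ⟨Q, hQ⟩ := H72.exists_sylow_le_of_not_dvd_index (p := 2) (inertia N θ)
      (fun h => (Nat.not_even_iff_odd.mpr hidx) (even_iff_two_dvd.mpr h))
    obtain ⟨g, hg⟩ := MulAction.exists_smul_eq G P Q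
    -- `θ' = cj g θ` is `P`-invariant
    have hinv : ∀ x ∈ P, cj N x (cj N g θ) = cj N g θ := by
      intro x hx
      have h5 : g * x * g⁻¹ ∈ Q := by
        rw [← hg]
        change g * x * g⁻¹ ∈ ((g • P : Sylow 2 G) : Subgroup G)
        rw [Sylow.coe_subgroup_smul, Subgroup.mem_pointwise_smul_iff_inv_smul_mem, ← map_inv, MulAut.smul_def,
          MulAut.conj_apply]
        have : g⁻¹ * (g * x * g⁻¹) * g⁻¹⁻¹ = x := by group
        rw [this]; exact hx
      have h6 := (mem_inertia N).mp (hQ h5)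
      rw [← cj_mul]
      conv_rhs => rw [← h6, ← cj_mul]
      congr 1
      group
    have hirr := isIrrCharacter_cj N g hθ
    have hc : classInner (fun n : N => χ n) (cj N g θ) ≠ 0 := by
      rw [classInner_restrict_cj N (isClassFunction_of_isCharacter (isCharacter_of_isIrr h1))]
      exact hθc
    -- linear
    have hlin : (cj N g θ) 1 = 1 := by
      apply CC.degree_one_of_commutator hirr
      intro x y
      have : ⁅x, y⁆ = 1 := commutatorElement_eq_one_iff_mul_comm.mpr (mul_comm' x y)
      rw [this]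
    have hcop : (Nat.card (P : Subgroup G)).Coprime (Nat.card N) := by
      obtain ⟨m, hm⟩ := (IsPGroup.iff_card).mp P.2
      rw [hm]
      exact ((Nat.coprime_two_left.mpr hodd)).pow_left _
    have hPN : (P : Subgroup G) ≤ Subgroup.normalizer (N : Set G) := by
      rw [Subgroup.normalizer_eq_top]; exact le_top
    obtain ⟨-, hdec⟩ := H91.abelian_decomp (P : Subgroup G) N hPN hcop
    have hCN : N ⊓ Subgroup.centralizer ((P : Subgroup G) : Set G) = ⊥ := by
      rw [eq_bot_iff]
      intro c hc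
      have h5 : c ∈ Subgroup.normalizer ((P : Subgroup G) : Set G) :=
        Subgroup.centralizer_le_normalizer _ hc.2
      rw [hNP] at h5
      have h6 : (P : Subgroup G) ⊓ N = ⊥ := (Subgroup.disjoint_of_coprime_natCard hcop).eq_bot
      rw [← h6]
      exact ⟨h5, hc.1⟩
    rw [hCN, bot_sup_eq] at hdec
    have h7 : (cj N g θ) = fun _ => 1 := by
      have h8 : ∀ n ∈ ⁅N, (P : Subgroup G)⁆, ∀ hn : n ∈ N, (cj N g θ) ⟨n, hn⟩ = 1 := by
        have h9 : ⁅N, (P : Subgroup G)⁆ ≤ (linKer (isCharacter_of_isIrr hirr) hlin).map N.subtype := by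
          rw [Subgroup.commutator_le]
          intro n hn x hx
          have h10 : n * (x * n⁻¹ * x⁻¹) ∈ N := N.mul_mem hn (hN.conj_mem _ (N.inv_mem hn) x)
          refine ⟨⟨n * (x * n⁻¹ * x⁻¹), h10⟩, ?_, by simp [commutatorElement_def, mul_assoc]⟩
          rw [SetLike.mem_coe, mem_linKer]
          have h11 : (⟨n * (x * n⁻¹ * x⁻¹), h10⟩ : N) = ⟨n, hn⟩ * ⟨x * n⁻¹ * x⁻¹, hN.conj_mem _ (N.inv_mem hn) x⟩ := rfl
          rw [h11, linChar_mul (isCharacter_of_isIrr hirr) hlin]
          have h12 := congrFun (hinv x hx) (⟨n, hn⟩⁻¹)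
          rw [cj_apply] at h12
          have h13 : (⟨x * n⁻¹ * x⁻¹, hN.conj_mem _ (N.inv_mem hn) x⟩ : N) =
            ⟨x * ((⟨n, hn⟩⁻¹ : N) : G) * x⁻¹, hN.conj_mem _ (⟨n, hn⟩⁻¹ : N).2 x⟩ := rfl
          rw [h13, h12, ← linChar_mul (isCharacter_of_isIrr hirr) hlin, mul_inv_cancel, hlin]
        intro n hn hnN
        obtain ⟨y, hy, he⟩ := h9 hn
        have : y = ⟨n, hnN⟩ := Subtype.ext he
        rw [← this]
        exact (mem_linKer _ _ _).mp hy
      funext n
      exact h8 n (by rw [hdec]; exact n.2) n.2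
    rw [h7] at hc
    exact ker_of_one_constituent N h1 hc

/-- quotients by kernels of surjections. -/
theorem card_RO_of_surj {A B : Type u} [Group A] [Group B] [Finite A] (f : A →* B) (hf : Function.Surjective f)
    (N : Subgroup A) [N.Normal] (hN : N = f.ker) : Nat.card (RO flag (A ⧸ N)) = Nat.card (RO flag B) :=
  card_RO_equiv ((QuotientGroup.quotientMulEquivOfEq hN).trans (QuotientGroup.quotientKerEquivOfSurjective f hf))

theorem card_RO_of_ker {G : Type u} [Group G] [Finite G] (N : Subgroup G) [N.Normal]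
    (h : ∀ χ ∈ RO flag G, ∀ n ∈ N, χ n = χ 1) : Nat.card (RO flag G) = Nat.card (RO flag (G ⧸ N)) := by
  rw [← card_RO_quot]
  exact Nat.card_congr (Equiv.subtypeEquivRight fun χ => ⟨fun hχ => ⟨hχ, h χ hχ⟩, fun hχ => hχ.1⟩)

/-- the statement to be proved by induction. -/
def ROStat (flag : Prop) (G : Type u) [Group G] [Finite G] : Prop :=
  ∀ P : Sylow 2 G, (flag ∨ Subgroup.normalizer ((P : Subgroup G) : Set G) = P) →
    Nat.card (RO flag G) = Nat.card (RO flag ↥(Subgroup.normalizer ((P : Subgroup G) : Set G)))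

theorem fl_quot {G : Type u} [Group G] [Finite G] (N : Subgroup G) [N.Normal] (P : Sylow 2 G)
    (hfl : flag ∨ Subgroup.normalizer ((P : Subgroup G) : Set G) = P) :
    flag ∨ Subgroup.normalizer (((P.mapSurjective (QuotientGroup.mk'_surjective N) : Sylow 2 (G ⧸ N)) :
      Subgroup (G ⧸ N)) : Set (G ⧸ N)) = (P.mapSurjective (QuotientGroup.mk'_surjective N) : Sylow 2 (G ⧸ N)) := by
  rcases hfl with h | h
  · exact Or.inl h
  · right
    apply le_antisymm _ Subgroup.le_normalizer
    intro x hx
    rw [Sylow.coe_mapSurjective] at hx ⊢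
    obtain ⟨n, hn, rfl⟩ := (mem_normalizer_map_iff N P).mp hx
    rw [h] at hn
    exact ⟨n, hn, rfl⟩

/-- the odd step. -/
theorem ROStat_odd {G : Type u} [Group G] [Finite G] (N : Subgroup G) [hN : N.Normal]
    (hodd : Odd (Nat.card N)) (hab : IsMulCommutative N) (ih : ROStat flag (G ⧸ N)) : ROStat flag G := by
  classical
  intro P hfl
  have : Fintype G := Fintype.ofFinite _
  set Nm := Subgroup.normalizer ((P : Subgroup G) : Set G) with hNm
  have : Fintype Nm := Fintype.ofFinite _
  rw [card_RO_of_ker N (fun χ hχ => RO_odd_normal_ker P hfl N hodd hab hχ)]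
  rw [ih (P.mapSurjective (QuotientGroup.mk'_surjective N)) (fl_quot N P hfl)]
  -- the same for the normalizer
  have hPN : (P : Subgroup G) ≤ Nm := Subgroup.le_normalizer
  have hNn : (N.subgroupOf Nm).Normal := Subgroup.normal_subgroupOf
  have hfl' : flag ∨ Subgroup.normalizer (((P.subtype hPN : Sylow 2 Nm) : Subgroup Nm) : Set Nm) =
      (P.subtype hPN : Sylow 2 Nm) := by
    rcases hfl with h | h
    · exact Or.inl h
    · right
      apply le_antisymm _ Subgroup.le_normalizer
      intro x _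
      rw [Sylow.coe_subtype, Subgroup.mem_subgroupOf]
      exact h.le x.2
  have hle : ∀ χ ∈ RO flag Nm, ∀ n ∈ N.subgroupOf Nm, χ n = χ 1 := by
    intro χ hχ
    apply RO_odd_normal_ker (P.subtype hPN) hfl' (N.subgroupOf Nm) _ _ hχ
    · apply hodd.of_dvd_nat
      have h1 : Nat.card (N.subgroupOf Nm) = Nat.card ↥(N ⊓ Nm) := by
        rw [← Subgroup.inf_subgroupOf_right]
        exact Nat.card_congr (Subgroup.subgroupOfEquivOfLe inf_le_right).toEquiv
      rw [h1]
      exact Subgroup.card_dvd_of_le inf_le_left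
    · constructor
      constructor
      intro a b
      apply Subtype.ext
      apply Subtype.ext
      have := mul_comm' (⟨((a : Nm) : G), Subgroup.mem_subgroupOf.mp a.2⟩ : N) ⟨((b : Nm) : G), Subgroup.mem_subgroupOf.mp b.2⟩
      have h2 : ((a : Nm) : G) * ((b : Nm) : G) = ((b : Nm) : G) * ((a : Nm) : G) := congrArg Subtype.val this
      exact h2
  rw [card_RO_of_ker (N.subgroupOf Nm) hle]
  symm
  let f : Nm →* ↥(Subgroup.normalizer (((P.mapSurjective (QuotientGroup.mk'_surjective N) : Sylow 2 (G ⧸ N)) :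
      Subgroup (G ⧸ N)) : Set (G ⧸ N))) :=
    ((QuotientGroup.mk' N).comp Nm.subtype).codRestrict _ (fun x => by
      rw [Sylow.coe_mapSurjective]
      exact (mem_normalizer_map_iff N P).mpr ⟨x, x.2, rfl⟩)
  apply card_RO_of_surj f
  · rintro ⟨x, hx⟩
    rw [Sylow.coe_mapSurjective] at hx
    obtain ⟨n, hn, he⟩ := (mem_normalizer_map_iff N P).mp hx
    exact ⟨⟨n, hn⟩, Subtype.ext he⟩
  · ext x
    rw [Subgroup.mem_subgroupOf, MonoidHom.mem_ker]
    constructor
    · intro h
      apply Subtype.ext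
      exact (QuotientGroup.eq_one_iff (x : G)).mpr h
    · intro h
      exact (QuotientGroup.eq_one_iff (x : G)).mp (congrArg Subtype.val h)

end Cfsg.Agent.H25
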