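import Mathlib
import Cfsg.Agent.H25.ROddD

/-!
# Counting odd degree (real valued) characters of solvable groups: the 2-step (owner helper25)
-/

set_option autoImplicit false
set_option linter.unusedSectionVars false
set_option linter.style.haveILetI false

namespace Cfsg.Agent.H25

open scoped ComplexConjugate BigOperators Pointwise commutatorElement
open Cfsg Cfsg.Agent.CharBase Cfsg.Agent.Char

universe u

variable {flag : Prop}

theorem card_eq_of_fiber {A B S : Type u} [Finite A] [Finite B] (F : A → S) (F' : B → S)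
    (h : ∀ s, Nat.card {a // F a = s} = Nat.card {b // F' b = s}) : Nat.card A = Nat.card B := by
  have e : ∀ s, Nonempty ({a // F a = s} ≃ {b // F' b = s}) := fun s => Finite.card_eq.mp (h s)
  exact Nat.card_congr ((Equiv.sigmaFiberEquiv F).symm.trans
    ((Equiv.sigmaCongrRight fun s => (e s).some).trans (Equiv.sigmaFiberEquiv F')))

section one

variable {G : Type u} [Group G] [Fintype G] (K P N : Subgroup G) [hKn : K.Normal] [Fintype K]

/-- admissible characters of `K`. -/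
def Adm (flag : Prop) (l : K → ℂ) : Prop :=
  IsIrrCharacter K l ∧ l 1 = 1 ∧ (flag → ∀ k, conj (l k) = l k) ∧ ∀ x ∈ P, cj K x l = l

variable {K P N}

theorem exists_adm (hKP : K ≤ P) (hP : IsPGroup 2 P) {φ : P → ℂ} (hφ : IsCharacter P φ) {n : ℕ} (hn : φ 1 = n)
    (hodd : Odd n) (hreal : flag → ∀ x, conj (φ x) = φ x) :
    ∃ l : K → ℂ, Adm K P flag l ∧ classInner (fun k : K => φ ⟨k, hKP k.2⟩) l ≠ 0 := by
  classical
  have : Fintype P := Fintype.ofFinite _
  obtain ⟨ξ, hξ, hξc⟩ := exists_RO_constituent (flag := flag) hφ hn hodd hreal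
  have hξ1 := RO_linear_of_two_group hP hξ
  have hξch := isCharacter_of_isIrr hξ.1
  have hl : IsCharacter K (fun k : K => ξ ⟨k, hKP k.2⟩) :=
    isCharacter_comp hξch (Subgroup.inclusion hKP)
  have hli : IsIrrCharacter K (fun k : K => ξ ⟨k, hKP k.2⟩) := linChar_isIrr hl (by exact hξ1)
  refine ⟨fun k : K => ξ ⟨k, hKP k.2⟩, ⟨hli, by exact hξ1, fun h k => hξ.2.2 h _, ?_⟩, ?_⟩
  · intro x hx
    funext k
    rw [cj_apply]
    have h1 : (⟨x * k * x⁻¹, hKP (hKn.conj_mem (k : G) k.2 x)⟩ : P) = ⟨x, hx⟩ * ⟨k, hKP k.2⟩ * ⟨x, hx⟩⁻¹ := rfl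
    change ξ ⟨x * k * x⁻¹, hKP (hKn.conj_mem (k : G) k.2 x)⟩ = ξ ⟨k, hKP k.2⟩
    rw [h1]
    exact isClassFunction_of_isCharacter hξch _ _
  · have h5 := CC.isCharacter_sub_of_constituent hφ hξ.1 hξc
    obtain ⟨m, hm⟩ := classInner_natCast (isCharacter_comp h5 (Subgroup.inclusion hKP)) hl
    have h7 : (fun k : K => φ ⟨k, hKP k.2⟩) =
        ((φ - ξ) ∘ (Subgroup.inclusion hKP)) + (fun k : K => ξ ⟨k, hKP k.2⟩) := by
      funext k
      simp only [Pi.add_apply, Function.comp, Pi.sub_apply]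
      have h8 : ξ (Subgroup.inclusion hKP k) = ξ ⟨k, hKP k.2⟩ := rfl
      have h9 : φ (Subgroup.inclusion hKP k) = φ ⟨k, hKP k.2⟩ := rfl
      rw [h8, h9]; ring
    rw [h7, classInner_add_left, hm, classInner_self_of_irr hli]
    have : (m + 1 : ℕ) ≠ 0 := by omega
    exact_mod_cast this

omit [Fintype G] in
theorem Adm.cj {l : K → ℂ} (h : Adm K P flag l) {n : G}
    (hn : n ∈ Subgroup.normalizer (P : Set G)) : Adm K P flag (cj K n l) := by
  obtain ⟨h1, h2, h3, h4⟩ := h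
  refine ⟨isIrrCharacter_cj K n h1, by rw [cj_one_apply]; exact h2, fun hf k => h3 hf _, ?_⟩
  intro x hx
  have h5 : n * x * n⁻¹ ∈ P := (Subgroup.mem_normalizer_iff.mp hn x).mp hx
  rw [← cj_mul]
  conv_rhs => rw [← h4 _ h5, ← cj_mul]
  congr 1
  group

omit [Fintype G] in
/-- restriction from an intermediate subgroup: invariance of multiplicities. -/
theorem classInner_restr_cj (hKN : K ≤ N) {ψ : N → ℂ} (hψ : IsClassFunction N ψ) (l : K → ℂ) {n : G} (hn : n ∈ N) :
    classInner (fun k : K => ψ ⟨k, hKN k.2⟩) (cj K n l) = classInner (fun k : K => ψ ⟨k, hKN k.2⟩) l := by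
  have h1 : cj K n (fun k : K => ψ ⟨k, hKN k.2⟩) = fun k : K => ψ ⟨k, hKN k.2⟩ := by
    funext k
    exact hψ ⟨k, hKN k.2⟩ ⟨n, hn⟩
  conv_lhs => rw [← h1]
  exact classInner_cj K n _ _

/-- transport of functions on `K` to `K.subgroupOf N`. -/
def tr (hKN : K ≤ N) (l : K → ℂ) : K.subgroupOf N → ℂ := fun k => l ⟨(k : N), Subgroup.mem_subgroupOf.mp k.2⟩

theorem tr_irr (hKN : K ≤ N) {l : K → ℂ} (hl : IsIrrCharacter K l) : IsIrrCharacter (K.subgroupOf N) (tr hKN l) :=
  isIrrCharacter_comp_surjective hl (Subgroup.subgroupOfEquivOfLe hKN).toMonoidHom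
    (Subgroup.subgroupOfEquivOfLe hKN).surjective

theorem tr_inner [Fintype (K.subgroupOf N)] (hKN : K ≤ N) (ψ : N → ℂ) (l : K → ℂ) :
    classInner (fun n : K.subgroupOf N => ψ n) (tr hKN l) = classInner (fun k : K => ψ ⟨k, hKN k.2⟩) l := by
  rw [← classInner_comp_equiv (Subgroup.subgroupOfEquivOfLe hKN)]
  rfl

theorem cj_tr (hKN : K ≤ N) (l : K → ℂ) (n : N) :
    cj (K.subgroupOf N) n (tr hKN l) = tr hKN (cj K (n : G) l) := rfl

theorem tr_injective (hKN : K ≤ N) : Function.Injective (tr hKN : (K → ℂ) → _) := by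
  intro a b h
  funext k
  exact congrFun h ⟨⟨k, hKN k.2⟩, Subgroup.mem_subgroupOf.mpr k.2⟩

theorem exists_conj_of_constituents_sub (hKN : K ≤ N) {ψ : N → ℂ} (hψ : IsIrrCharacter N ψ) {l m : K → ℂ}
    (hl : IsIrrCharacter K l) (hm : IsIrrCharacter K m) (h1 : classInner (fun k : K => ψ ⟨k, hKN k.2⟩) l ≠ 0)
    (h2 : classInner (fun k : K => ψ ⟨k, hKN k.2⟩) m ≠ 0) : ∃ n ∈ N, cj K n l = m := by
  classical
  have : Fintype N := Fintype.ofFinite _
  have : Fintype (K.subgroupOf N) := Fintype.ofFinite _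
  obtain ⟨n, hn⟩ := exists_conj_of_constituents (K.subgroupOf N) hψ (tr_irr hKN hl) (tr_irr hKN hm)
    (by rw [tr_inner]; exact h1) (by rw [tr_inner]; exact h2)
  exact ⟨n, n.2, tr_injective hKN (by rw [← cj_tr]; exact hn)⟩

end one

end Cfsg.Agent.H25
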