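import Mathlib
import Cfsg.Agent.H25.ROddE

/-!
# Counting odd degree (real valued) characters of solvable groups: main theorem (owner helper25)
-/

set_option autoImplicit false
set_option linter.unusedSectionVars false
set_option linter.unusedVariables false
set_option linter.style.haveILetI false

namespace Cfsg.Agent.H25

open scoped ComplexConjugate BigOperators Pointwise commutatorElement
open Cfsg Cfsg.Agent.CharBase Cfsg.Agent.Char

universe u

variable {flag : Prop} {G : Type u} [Group G] [Fintype G]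

theorem over_card (K : Subgroup G) [hKn : K.Normal] [Fintype K] (P : Sylow 2 G) (hKP : K ≤ P)
    (hfl : flag ∨ Subgroup.normalizer ((P : Subgroup G) : Set G) = P)
    (ih : ∀ T : Subgroup G, ROStat flag (T ⧸ K.subgroupOf T)) {l : K → ℂ} (hl : Adm K P flag l)
    (hKN : K ≤ Subgroup.normalizer ((P : Subgroup G) : Set G)) :
    Nat.card {χ : G → ℂ // χ ∈ RO flag G ∧ classInner (fun n : K => χ n) l ≠ 0} =
      Nat.card {ψ : Subgroup.normalizer ((P : Subgroup G) : Set G) → ℂ //
        ψ ∈ RO flag (Subgroup.normalizer ((P : Subgroup G) : Set G)) ∧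
          classInner (fun n : K => ψ ⟨n, hKN n.2⟩) l ≠ 0} := by
  classical
  set Nm := Subgroup.normalizer ((P : Subgroup G) : Set G) with hNm
  have : Fintype Nm := Fintype.ofFinite _
  have : Fintype (K.subgroupOf Nm) := Fintype.ofFinite _
  have : Fintype P := Fintype.ofFinite _
  obtain ⟨hl1, hl2, hl3, hl4⟩ := hl
  have hPN : (P : Subgroup G) ≤ Nm := Subgroup.le_normalizer
  have hKNn : (K.subgroupOf Nm).Normal := Subgroup.normal_subgroupOf
  -- rewrite the right-hand side
  have hR : Nat.card {ψ : Nm → ℂ // ψ ∈ RO flag Nm ∧ classInner (fun n : K => ψ ⟨n, hKN n.2⟩) l ≠ 0} =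
      Nat.card {ψ : Nm → ℂ // ψ ∈ RO flag Nm ∧ classInner (fun n : K.subgroupOf Nm => ψ n) (tr hKN l) ≠ 0} :=
    Nat.card_congr (Equiv.subtypeEquivRight fun ψ => by rw [tr_inner])
  rw [hR]
  by_cases hmu : ∃ mu : ↥(P : Subgroup G) → ℂ, IsCharacter ↥(P : Subgroup G) mu ∧ mu 1 = 1 ∧
      (flag → ∀ x, conj (mu x) = mu x) ∧ ∀ k : K, mu ⟨k, hKP k.2⟩ = l k
  · obtain ⟨mu, hmu, hmu1, hmur, hmul⟩ := hmu
    set T := inertia K l with hT
    have : Fintype T := Fintype.ofFinite _
    have hPT : (P : Subgroup G) ≤ T := hl4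
    have hKT : K ≤ T := hKP.trans hPT
    have hidx : Odd T.index := by
      rw [← Nat.not_even_iff_odd]
      intro h
      exact P.not_dvd_index ((even_iff_two_dvd.mp h).trans (Subgroup.index_dvd_of_le hPT))
    -- the extension to `T`
    obtain ⟨nu, hnu, hnu1, hnur, hnul⟩ : ∃ nu : T → ℂ, IsCharacter T nu ∧ nu 1 = 1 ∧
        (flag → ∀ t, conj (nu t) = nu t) ∧ ∀ k : K, nu ⟨k, hKT k.2⟩ = l k := by
      have hle : K.subgroupOf T ≤ (P : Subgroup G).subgroupOf T := fun x hx => hKP hx
      have hP2 : IsPGroup 2 ((P : Subgroup G).subgroupOf T) := by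
        have := (P.subtype hPT).2
        exact this
      let mu' : ↥((P : Subgroup G).subgroupOf T) → ℂ := fun x => mu ⟨((x : T) : G), Subgroup.mem_subgroupOf.mp x.2⟩
      have hmu' : IsCharacter ↥((P : Subgroup G).subgroupOf T) mu' :=
        isCharacter_comp hmu (Subgroup.subgroupOfEquivOfLe hPT).toMonoidHom
      have hodd2 : Odd ((P : Subgroup G).subgroupOf T).index := by
        rw [← Nat.not_even_iff_odd]
        intro h
        exact (P.subtype hPT).not_dvd_index (even_iff_two_dvd.mp h)
      obtain ⟨nu, h1, h2, h3, h4⟩ := exists_linear_ext (flag := flag) (K.subgroupOf T) ((P : Subgroup G).subgroupOf T)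
        hle hP2 hodd2 hmu' (by exact hmu1) (fun h x => hmur h _) (by
          intro t
          funext k
          have h5 := congrFun ((mem_inertia K).mp t.2) ⟨(k : T), Subgroup.mem_subgroupOf.mp k.2⟩
          rw [cj_apply] at h5 ⊢
          have h6 := hmul ⟨(t : G) * ((k : T) : G) * (t : G)⁻¹, hKn.conj_mem _ (Subgroup.mem_subgroupOf.mp k.2) t⟩
          have h7 := hmul ⟨((k : T) : G), Subgroup.mem_subgroupOf.mp k.2⟩
          exact h6.trans (h5.trans h7.symm))
      refine ⟨nu, h1, h2, h3, fun k => ?_⟩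
      rw [← hmul k]
      exact h4 ⟨⟨k, hKT k.2⟩, Subgroup.mem_subgroupOf.mpr k.2⟩
    rw [card_RO_over K hl1 hl2 hl3 T hT.symm hKT hidx hnu hnu1 hnur hnul]
    -- the normalizer
    set T' := inertia (K.subgroupOf Nm) (tr hKN l) with hT'
    have hmemT : ∀ n : Nm, n ∈ T' ↔ (n : G) ∈ T := by
      intro n
      rw [hT', hT, mem_inertia, mem_inertia, cj_tr]
      exact (tr_injective hKN).eq_iff
    have hKT' : K.subgroupOf Nm ≤ T' := fun x hx => (hmemT x).mpr (hKT hx)
    have hidx' : Odd T'.index := by
      rw [← Nat.not_even_iff_odd]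
      intro h
      have h1 : ((P.subtype hPN : Sylow 2 Nm) : Subgroup Nm) ≤ T' := fun x hx => (hmemT x).mpr (hPT hx)
      exact (P.subtype hPN).not_dvd_index ((even_iff_two_dvd.mp h).trans (Subgroup.index_dvd_of_le h1))
    let j : T' →* T :=
      { toFun := fun t => ⟨((t : Nm) : G), (hmemT t).mp t.2⟩
        map_one' := rfl
        map_mul' := fun _ _ => rfl }
    rw [card_RO_over (K.subgroupOf Nm) (tr_irr hKN hl1) (by exact hl2) (fun h k => hl3 h _) T' hT'.symm hKT' hidx'
      (nu := fun t => nu (j t)) (isCharacter_comp hnu j) (by exact hnu1) (fun h t => hnur h _)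
      (fun k => hnul ⟨(k : Nm), Subgroup.mem_subgroupOf.mp k.2⟩)]
    -- induction
    have hPsyl := P.subtype hPT
    have hflT : flag ∨ Subgroup.normalizer (((P.subtype hPT : Sylow 2 T) : Subgroup T) : Set T) =
        (P.subtype hPT : Sylow 2 T) := by
      rcases hfl with h | h
      · exact Or.inl h
      · right
        apply le_antisymm _ Subgroup.le_normalizer
        intro x hx
        rw [Sylow.coe_subtype, Subgroup.mem_subgroupOf]
        have h1 : (x : G) ∈ Nm := by
          rw [hNm, Subgroup.mem_normalizer_iff]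
          intro y
          constructor
          · intro hy
            have := (Subgroup.mem_normalizer_iff.mp hx ⟨y, hPT hy⟩).mp (by
              rw [Sylow.coe_subtype, Subgroup.mem_subgroupOf]; exact hy)
            rw [Sylow.coe_subtype, Subgroup.mem_subgroupOf] at this
            exact this
          · intro hy
            have hyT : y ∈ T := by
              have h2 : (x : G)⁻¹ * ((x : G) * y * (x : G)⁻¹) * x ∈ T :=
                T.mul_mem (T.mul_mem (T.inv_mem x.2) (hPT hy)) x.2
              have e : (x : G)⁻¹ * ((x : G) * y * (x : G)⁻¹) * x = y := by group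
              rwa [e] at h2
            have := (Subgroup.mem_normalizer_iff.mp hx ⟨y, hyT⟩).mpr (by
              rw [Sylow.coe_subtype, Subgroup.mem_subgroupOf]; exact hy)
            rw [Sylow.coe_subtype, Subgroup.mem_subgroupOf] at this
            exact this
        exact h.le h1
    rw [ih T ((P.subtype hPT).mapSurjective (QuotientGroup.mk'_surjective (K.subgroupOf T)))
      (fl_quot (K.subgroupOf T) (P.subtype hPT) hflT)]
    symm
    -- the isomorphism
    have hnorm : ∀ n : T, n ∈ Subgroup.normalizer (((P.subtype hPT : Sylow 2 T) : Subgroup T) : Set T) ↔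
        (n : G) ∈ Nm := by
      intro n
      rw [hNm, Subgroup.mem_normalizer_iff, Subgroup.mem_normalizer_iff]
      constructor
      · intro h y
        constructor
        · intro hy
          have := (h ⟨y, hPT hy⟩).mp (by rw [Sylow.coe_subtype, Subgroup.mem_subgroupOf]; exact hy)
          rw [Sylow.coe_subtype, Subgroup.mem_subgroupOf] at this
          exact this
        · intro hy
          have hyT : y ∈ T := by
            have h2 : (n : G)⁻¹ * ((n : G) * y * (n : G)⁻¹) * n ∈ T :=
              T.mul_mem (T.mul_mem (T.inv_mem n.2) (hPT hy)) n.2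
            have e : (n : G)⁻¹ * ((n : G) * y * (n : G)⁻¹) * n = y := by group
            rwa [e] at h2
          have := (h ⟨y, hyT⟩).mpr (by rw [Sylow.coe_subtype, Subgroup.mem_subgroupOf]; exact hy)
          rw [Sylow.coe_subtype, Subgroup.mem_subgroupOf] at this
          exact this
      · intro h y
        rw [Sylow.coe_subtype, Subgroup.mem_subgroupOf, Subgroup.mem_subgroupOf]
        exact h y
    let f : T' →* ↥(Subgroup.normalizer ((((P.subtype hPT).mapSurjective
        (QuotientGroup.mk'_surjective (K.subgroupOf T)) : Sylow 2 (T ⧸ K.subgroupOf T)) :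
        Subgroup (T ⧸ K.subgroupOf T)) : Set (T ⧸ K.subgroupOf T))) :=
      ((QuotientGroup.mk' (K.subgroupOf T)).comp j).codRestrict _ (fun x => by
        rw [Sylow.coe_mapSurjective]
        exact (mem_normalizer_map_iff (K.subgroupOf T) (P.subtype hPT)).mpr
          ⟨j x, (hnorm (j x)).mpr (x : Nm).2, rfl⟩)
    apply card_RO_of_surj f
    · rintro ⟨x, hx⟩
      rw [Sylow.coe_mapSurjective] at hx
      obtain ⟨n, hn, he⟩ := (mem_normalizer_map_iff (K.subgroupOf T) (P.subtype hPT)).mp hx
      exact ⟨⟨⟨n, (hnorm n).mp hn⟩, (hmemT _).mpr n.2⟩, Subtype.ext he⟩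
    · ext x
      rw [Subgroup.mem_subgroupOf, MonoidHom.mem_ker]
      constructor
      · intro h
        apply Subtype.ext
        exact (QuotientGroup.eq_one_iff (j x)).mpr h
      · intro h
        exact (QuotientGroup.eq_one_iff (j x)).mp (congrArg Subtype.val h)
  · -- both sides are empty
    have h1 : IsEmpty {χ : G → ℂ // χ ∈ RO flag G ∧ classInner (fun n : K => χ n) l ≠ 0} := by
      constructor
      rintro ⟨χ, hχ, hc⟩
      exact hmu (exists_ext_of_RO_over K P hKP P.2 hl1 hl2 hl3 hl4 hχ hc)
    have h2 : IsEmpty {ψ : Nm → ℂ // ψ ∈ RO flag Nm ∧ classInner (fun n : K.subgroupOf Nm => ψ n) (tr hKN l) ≠ 0} := by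
      constructor
      rintro ⟨ψ, hψ, hc⟩
      apply hmu
      have hle : K.subgroupOf Nm ≤ (P : Subgroup G).subgroupOf Nm := fun x hx => hKP hx
      obtain ⟨mu', h3, h4, h5, h6⟩ := exists_ext_of_RO_over (flag := flag) (K.subgroupOf Nm)
        ((P : Subgroup G).subgroupOf Nm) hle (P.subtype hPN).2 (tr_irr hKN hl1) (by exact hl2) (fun h k => hl3 h _)
        (fun x hx => by rw [cj_tr, hl4 x hx]) hψ hc
      refine ⟨fun x => mu' ⟨⟨x, hPN x.2⟩, Subgroup.mem_subgroupOf.mpr x.2⟩, ?_, by exact h4, fun h x => h5 h _, ?_⟩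
      · exact isCharacter_comp h3 (Subgroup.subgroupOfEquivOfLe hPN).symm.toMonoidHom
      · intro k
        exact h6 ⟨⟨k, hKN k.2⟩, Subgroup.mem_subgroupOf.mpr k.2⟩
    rw [Nat.card_of_isEmpty, Nat.card_of_isEmpty]

end Cfsg.Agent.H25
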