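import Mathlib
import Cfsg.Agent.H25.ROddF

/-!
# Counting odd degree (real valued) characters of solvable groups: main theorem (owner helper25)

`RO_card`: for a solvable group `G` and a Sylow 2-subgroup `P` with normalizer `N`: `G` and `N` have the same number of
real valued irreducible characters of odd degree; if `N = P`, they have the same number of irreducible characters of odd
degree.
-/

set_option autoImplicit false
set_option linter.unusedSectionVars false
set_option linter.unusedVariables false
set_option linter.style.haveILetI false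

namespace Cfsg.Agent.H25

open scoped ComplexConjugate BigOperators Pointwise commutatorElement
open Cfsg Cfsg.Agent.CharBase Cfsg.Agent.Char

universe u

variable {flag : Prop}

theorem finite_RO (G : Type u) [Group G] [Finite G] : Finite (RO flag G) := by
  have : Finite (IrrCharacter G) := inferInstance
  exact Finite.of_injective (fun χ : RO flag G => (⟨χ, χ.2.1⟩ : IrrCharacter G))
    (fun a b h => Subtype.ext (congrArg (fun x : IrrCharacter G => (x : G → ℂ)) h))

theorem ROStat_two {G : Type u} [Group G] [Finite G] (K : Subgroup G) [hKn : K.Normal] (hK : IsPGroup 2 K)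
    (ih : ∀ T : Subgroup G, ROStat flag (T ⧸ K.subgroupOf T)) : ROStat flag G := by
  classical
  intro P hfl
  have : Fintype G := Fintype.ofFinite _
  have : Fintype K := Fintype.ofFinite _
  have hKP : K ≤ P := hK.le_sylow_of_normal P
  set Nm := Subgroup.normalizer ((P : Subgroup G) : Set G) with hNm
  have : Fintype Nm := Fintype.ofFinite _
  have hPN : (P : Subgroup G) ≤ Nm := Subgroup.le_normalizer
  have hKN : K ≤ Nm := hKP.trans hPN
  have := finite_RO (flag := flag) G
  have := finite_RO (flag := flag) Nm
  let F : RO flag G → Set (K → ℂ) := fun χ => {l | Adm K P flag l ∧ classInner (fun n : K => (χ : G → ℂ) n) l ≠ 0}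
  let F' : RO flag Nm → Set (K → ℂ) :=
    fun ψ => {l | Adm K P flag l ∧ classInner (fun n : K => (ψ : Nm → ℂ) ⟨n, hKN n.2⟩) l ≠ 0}
  have hFne : ∀ χ, ∃ l, l ∈ F χ := by
    rintro ⟨χ, h1, ⟨n, hn, h2⟩, h3⟩
    obtain ⟨l, hl, hc⟩ := exists_adm (K := K) (P := (P : Subgroup G)) (flag := flag) hKP P.2
      (isCharacter_restrict (isCharacter_of_isIrr h1) (P : Subgroup G)) (n := n) h2 hn (fun h x => h3 h _)
    exact ⟨l, hl, hc⟩
  have hFne' : ∀ ψ, ∃ l, l ∈ F' ψ := by
    rintro ⟨ψ, h1, ⟨n, hn, h2⟩, h3⟩
    obtain ⟨l, hl, hc⟩ := exists_adm (K := K) (P := (P : Subgroup G)) (flag := flag) hKP P.2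
      (isCharacter_comp (isCharacter_of_isIrr h1) (Subgroup.inclusion hPN)) (n := n) h2 hn (fun h x => h3 h _)
    exact ⟨l, hl, hc⟩
  have hFo : ∀ χ, ∀ l ∈ F χ, F χ = {m | ∃ n ∈ Nm, cj K n l = m} := by
    rintro ⟨χ, h1, ⟨n, hn, h2⟩, h3⟩ l ⟨hl, hc⟩
    ext m
    constructor
    · rintro ⟨hm, hmc⟩
      exact conj_of_inv_constituents K P h1 hl.1 hm.1 hc hmc hl.2.2.2 hm.2.2.2
    · rintro ⟨g, hg, rfl⟩
      refine ⟨hl.cj hg, ?_⟩
      rw [classInner_restrict_cj K (isClassFunction_of_isCharacter (isCharacter_of_isIrr h1))]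
      exact hc
  have hFo' : ∀ ψ, ∀ l ∈ F' ψ, F' ψ = {m | ∃ n ∈ Nm, cj K n l = m} := by
    rintro ⟨ψ, h1, ⟨n, hn, h2⟩, h3⟩ l ⟨hl, hc⟩
    ext m
    constructor
    · rintro ⟨hm, hmc⟩
      exact exists_conj_of_constituents_sub hKN h1 hl.1 hm.1 hc hmc
    · rintro ⟨g, hg, rfl⟩
      refine ⟨hl.cj hg, ?_⟩
      rw [classInner_restr_cj hKN (isClassFunction_of_isCharacter (isCharacter_of_isIrr h1)) l hg]
      exact hc
  apply card_eq_of_fiber F F'
  intro s
  by_cases hs : ∃ l ∈ s, Adm K P flag l ∧ s = {m | ∃ n ∈ Nm, cj K n l = m}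
  · obtain ⟨l, hls, hl, hso⟩ := hs
    have e1 : Nat.card {a // F a = s} =
        Nat.card {χ : G → ℂ // χ ∈ RO flag G ∧ classInner (fun n : K => χ n) l ≠ 0} := by
      refine Nat.card_congr
        { toFun := fun a => ⟨a.1, a.1.2, ?_⟩
          invFun := fun χ => ⟨⟨χ, χ.2.1⟩, ?_⟩
          left_inv := fun a => rfl
          right_inv := fun χ => rfl }
      · have : l ∈ F a.1 := by rw [a.2]; exact hls
        exact this.2
      · rw [hFo ⟨χ, χ.2.1⟩ l ⟨hl, χ.2.2⟩, hso]
    have e2 : Nat.card {a // F' a = s} =
        Nat.card {ψ : Nm → ℂ // ψ ∈ RO flag Nm ∧ classInner (fun n : K => ψ ⟨n, hKN n.2⟩) l ≠ 0} := by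
      refine Nat.card_congr
        { toFun := fun a => ⟨a.1, a.1.2, ?_⟩
          invFun := fun χ => ⟨⟨χ, χ.2.1⟩, ?_⟩
          left_inv := fun a => rfl
          right_inv := fun χ => rfl }
      · have : l ∈ F' a.1 := by rw [a.2]; exact hls
        exact this.2
      · rw [hFo' ⟨χ, χ.2.1⟩ l ⟨hl, χ.2.2⟩, hso]
    rw [e1, e2]
    exact over_card K P hKP hfl ih hl hKN
  · have h1 : IsEmpty {a // F a = s} := by
      constructor
      rintro ⟨χ, hχ⟩
      obtain ⟨l, hl⟩ := hFne χ
      exact hs ⟨l, by rw [← hχ]; exact hl, hl.1, by rw [← hχ]; exact hFo χ l hl⟩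
    have h2 : IsEmpty {a // F' a = s} := by
      constructor
      rintro ⟨χ, hχ⟩
      obtain ⟨l, hl⟩ := hFne' χ
      exact hs ⟨l, by rw [← hχ]; exact hl, hl.1, by rw [← hχ]; exact hFo' χ l hl⟩
    rw [Nat.card_of_isEmpty, Nat.card_of_isEmpty]

theorem ROStat_all (n : ℕ) : ∀ (G : Type u) [Group G] [Finite G], Group.IsSolvable G → Nat.card G = n →
    ROStat flag G := by
  induction n using Nat.strong_induction_on with
  | _ n ih =>
    intro G _ _ hsol hn
    rcases subsingleton_or_nontrivial G with hs | hnt
    · intro P _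
      have h1 : Subgroup.normalizer ((P : Subgroup G) : Set G) = ⊤ := by
        rw [eq_top_iff]
        intro x _
        rw [Subsingleton.elim x 1]
        exact one_mem _
      exact card_RO_equiv (Subgroup.topEquiv.symm.trans (MulEquiv.subgroupCongr h1.symm))
    · obtain ⟨p, N, hp, hN, hNb, hNe, hmin⟩ := H30.exists_minimal_normal G
      have hcard : ∀ T : Subgroup G, N ≤ T → Nat.card (T ⧸ N.subgroupOf T) < n := by
        intro T hT
        have h1 := (N.subgroupOf T).card_eq_card_quotient_mul_card_subgroup
        have h2 : Nat.card (N.subgroupOf T) = Nat.card N := Nat.card_congr (Subgroup.subgroupOfEquivOfLe hT).toEquiv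
        have h3 : 1 < Nat.card N := by
          have : Nat.card N ≠ 1 := fun h => hNb (Subgroup.card_eq_one.mp h)
          have := Nat.card_pos (α := N)
          omega
        have h4 : Nat.card T ≤ n := by rw [← hn]; exact Subgroup.card_le_card_group T
        rw [h2] at h1
        have h5 := Nat.card_pos (α := (T ⧸ N.subgroupOf T))
        nlinarith
      by_cases hp2 : p = 2
      · subst hp2
        have hNp : IsPGroup 2 N := by
          intro x
          exact ⟨1, Subtype.ext (by rw [pow_one]; exact hNe.2 x x.2)⟩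
        apply ROStat_two N hNp
        intro T
        by_cases hT : N ≤ T
        · exact ih _ (hcard T hT) (T ⧸ N.subgroupOf T) inferInstance rfl
        · -- smaller anyway
          have h6 : Nat.card (T ⧸ N.subgroupOf T) < n := by
            have h1 := (N.subgroupOf T).card_eq_card_quotient_mul_card_subgroup
            have h3 : Nat.card T < n := by
              rw [← hn]
              apply lt_of_le_of_ne (Subgroup.card_le_card_group T)
              intro h
              apply hT
              rw [Subgroup.eq_top_of_card_eq T h]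
              exact le_top
            have h7 := Nat.card_pos (α := N.subgroupOf T)
            have h5 := Nat.card_pos (α := (T ⧸ N.subgroupOf T))
            nlinarith
          exact ih _ h6 (T ⧸ N.subgroupOf T) inferInstance rfl
      · have hpodd : Odd p := hp.odd_of_ne_two hp2
        have hNp : IsPGroup p N := by
          intro x
          exact ⟨1, Subtype.ext (by rw [pow_one]; exact hNe.2 x x.2)⟩
        have hodd : Odd (Nat.card N) := by
          have := Fact.mk hp
          obtain ⟨k, hk⟩ := (IsPGroup.iff_card).mp hNp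
          rw [hk]; exact hpodd.pow
        apply ROStat_odd N hodd hNe.1
        have h6 : Nat.card (G ⧸ N) < n := by
          have h1 := N.card_eq_card_quotient_mul_card_subgroup
          rw [hn] at h1
          have h3 : 1 < Nat.card N := by
            have : Nat.card N ≠ 1 := fun h => hNb (Subgroup.card_eq_one.mp h)
            have := Nat.card_pos (α := N)
            omega
          have h5 := Nat.card_pos (α := (G ⧸ N))
          nlinarith
        exact ih _ h6 (G ⧸ N) inferInstance rfl

theorem RO_card {G : Type u} [Group G] [Finite G] (hG : Group.IsSolvable G) (P : Sylow 2 G)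
    (hfl : flag ∨ Subgroup.normalizer ((P : Subgroup G) : Set G) = P) :
    Nat.card (RO flag G) = Nat.card (RO flag ↥(Subgroup.normalizer ((P : Subgroup G) : Set G))) :=
  ROStat_all (flag := flag) (Nat.card G) G hG rfl P hfl

end Cfsg.Agent.H25
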