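import Mathlib
import Cfsg.Agent.H25.ROddG
import Cfsg.Agent.H79.LinChar
import Cfsg.Agent.Solv.Frattini

/-!
# Odd degree characters all real (owner helper25)

`self_normalizing_of_real`: in a solvable group all of whose irreducible characters of odd degree are real valued, the
Sylow 2-subgroups are self-normalizing.
-/

set_option autoImplicit false
set_option linter.unusedSectionVars false
set_option linter.unusedVariables false
set_option linter.style.haveILetI false

namespace Cfsg.Agent.H25

open scoped ComplexConjugate BigOperators Pointwise commutatorElement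
open Cfsg Cfsg.Agent.CharBase Cfsg.Agent.Char

universe u

/-- a linear character of `N` below an irreducible character of `G` which is trivial on `c` is trivial on `c`. -/
theorem linear_eq_one_of_ker {N : Type u} [Group N] [Fintype N] {μ ξ : N → ℂ} (hμ : IsCharacter N μ) (hμ1 : μ 1 = 1)
    (hξ : IsCharacter N ξ) (h : classInner μ ξ ≠ 0) {c : N} (hc : ξ c = ξ 1) : μ c = 1 := by
  have h1 : classInner μ ξ = μ c * classInner μ ξ := by
    have h0 : ∑ g : N, μ g * conj (ξ g) = μ c * ∑ g : N, μ g * conj (ξ g) := by
      conv_lhs => rw [← Equiv.sum_comp (Equiv.mulLeft c)]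
      rw [Finset.mul_sum]
      apply Finset.sum_congr rfl
      intro x _
      rw [Equiv.coe_mulLeft, linChar_mul hμ hμ1, H75.char_mul_of_mem_ker hξ hc, mul_assoc]
    unfold classInner
    conv_lhs => rw [h0]
    ring
  have h2 : (μ c - 1) * classInner μ ξ = 0 := by
    rw [sub_mul, ← h1]; ring
  rcases mul_eq_zero.mp h2 with h3 | h3
  · exact sub_eq_zero.mp h3
  · exact absurd h3 h

theorem self_normalizing_of_real (n : ℕ) : ∀ (G : Type u) [Group G] [Finite G], Group.IsSolvable G → Nat.card G = n →
    RO False G ⊆ RO True G → ∀ P : Sylow 2 G, Subgroup.normalizer ((P : Subgroup G) : Set G) = P := by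
  induction n using Nat.strong_induction_on with
  | _ n ih =>
    intro G _ _ hsol hn hreal P
    classical
    have : Fintype G := Fintype.ofFinite _
    apply le_antisymm _ Subgroup.le_normalizer
    rcases subsingleton_or_nontrivial G with hs | hnt
    · intro x _
      rw [Subsingleton.elim x 1]
      exact one_mem _
    obtain ⟨p, M, hp, hM, hMb, hMe, hmin⟩ := H30.exists_minimal_normal G
    have h6 : Nat.card (G ⧸ M) < n := by
      have h1 := M.card_eq_card_quotient_mul_card_subgroup
      rw [hn] at h1
      have h3 : 1 < Nat.card M := by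
        have : Nat.card M ≠ 1 := fun h => hMb (Subgroup.card_eq_one.mp h)
        have := Nat.card_pos (α := M)
        omega
      have h5 := Nat.card_pos (α := (G ⧸ M))
      nlinarith
    have hq : RO False (G ⧸ M) ⊆ RO True (G ⧸ M) := by
      intro χ hχ
      have h1 := hreal (RO_comp hχ (QuotientGroup.mk' M) (QuotientGroup.mk'_surjective M))
      refine ⟨hχ.1, hχ.2.1, fun _ x => ?_⟩
      obtain ⟨g, rfl⟩ := QuotientGroup.mk_surjective x
      exact h1.2.2 trivial g
    have h7 := ih _ h6 (G ⧸ M) inferInstance rfl hq (P.mapSurjective (QuotientGroup.mk'_surjective M))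
    rw [Sylow.coe_mapSurjective] at h7
    have hfac : ∀ x ∈ Subgroup.normalizer ((P : Subgroup G) : Set G), ∃ a ∈ P, ∃ m ∈ M, x = a * m := by
      intro x hx
      have h8 : (QuotientGroup.mk x : G ⧸ M) ∈ Subgroup.normalizer ((((P : Subgroup G).map (QuotientGroup.mk' M)) :
          Subgroup (G ⧸ M)) : Set (G ⧸ M)) := (mem_normalizer_map_iff M P).mpr ⟨x, hx, rfl⟩
      rw [h7] at h8
      obtain ⟨a, ha, hax⟩ := h8
      refine ⟨a, ha, a⁻¹ * x, ?_, by group⟩
      exact QuotientGroup.eq.mp hax
    by_cases hp2 : p = 2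
    · subst hp2
      have hMp : IsPGroup 2 M := by
        intro x
        exact ⟨1, Subtype.ext (by rw [pow_one]; exact hMe.2 x x.2)⟩
      have hMP : M ≤ P := hMp.le_sylow_of_normal P
      intro x hx
      obtain ⟨a, ha, m, hm, rfl⟩ := hfac x hx
      exact (P : Subgroup G).mul_mem ha (hMP hm)
    -- the odd case
    have hpodd : Odd p := hp.odd_of_ne_two hp2
    have hMp : IsPGroup p M := by
      intro x
      exact ⟨1, Subtype.ext (by rw [pow_one]; exact hMe.2 x x.2)⟩
    have hodd : Odd (Nat.card M) := by
      have := Fact.mk hp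
      obtain ⟨k, hk⟩ := (IsPGroup.iff_card).mp hMp
      rw [hk]; exact hpodd.pow
    set Nm := Subgroup.normalizer ((P : Subgroup G) : Set G) with hNm
    have : Fintype Nm := Fintype.ofFinite _
    by_contra hNP
    have hPn : ((P : Subgroup G).subgroupOf Nm).Normal := Subgroup.normal_in_normalizer
    let Q := Nm ⧸ (P : Subgroup G).subgroupOf Nm
    have hQnt : Nontrivial Q := by
      rw [QuotientGroup.nontrivial_iff]
      intro h
      apply hNP
      exact Subgroup.subgroupOf_eq_top.mp h
    have hQc : commutator Q ≠ ⊤ := (Group.IsSolvable.commutator_lt_top_of_nontrivial Q).ne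
    obtain ⟨l, hl1, hl⟩ := H79.exists_linear_nonprincipal hQc
    let μ : Nm → ℂ := fun x => (l : Q → ℂ) (QuotientGroup.mk x)
    have hμ : IsCharacter Nm μ :=
      isCharacter_comp (isCharacter_of_isIrr l.2) (QuotientGroup.mk' ((P : Subgroup G).subgroupOf Nm))
    have hμ1 : μ 1 = 1 := hl1
    have hind : indFun Nm μ 1 = (Nm.index : ℕ) := by rw [indFun_one_apply, hμ1, mul_one]
    have hidx : Odd Nm.index := by
      have h8 : ¬ 2 ∣ (P : Subgroup G).index := P.not_dvd_index
      have h9 : Nm.index ∣ (P : Subgroup G).index := Subgroup.index_dvd_of_le Subgroup.le_normalizer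
      rw [← Nat.not_even_iff_odd]
      intro h10
      exact h8 ((even_iff_two_dvd.mp h10).trans h9)
    obtain ⟨ξ, hξ, hξc⟩ := exists_RO_constituent (flag := False) (indFun_isCharacter Nm μ hμ) hind hidx
      (fun h => h.elim)
    have hξ' := hreal hξ
    have hker := RO_odd_normal_ker P (Or.inl trivial) M hodd hMe.1 hξ'
    rw [frobenius_reciprocity Nm μ ξ (isClassFunction_of_isCharacter (isCharacter_of_isIrr hξ.1))] at hξc
    apply hl
    funext q
    obtain ⟨x, rfl⟩ := QuotientGroup.mk_surjective q
    change μ x = 1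
    obtain ⟨a, ha, m, hm, hx⟩ := hfac x x.2
    have haN : a ∈ Nm := Subgroup.le_normalizer ha
    have hmN : m ∈ Nm := by
      have : m = a⁻¹ * x := by rw [hx]; group
      rw [this]
      exact Nm.mul_mem (Nm.inv_mem haN) x.2
    have hx' : x = ⟨a, haN⟩ * ⟨m, hmN⟩ := Subtype.ext hx
    have hμa : μ ⟨a, haN⟩ = 1 := by
      have h11 : (QuotientGroup.mk (⟨a, haN⟩ : Nm) : Q) = 1 := by
        rw [QuotientGroup.eq_one_iff]
        exact Subgroup.mem_subgroupOf.mpr ha
      change (l : Q → ℂ) (QuotientGroup.mk (⟨a, haN⟩ : Nm)) = 1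
      rw [h11]; exact hl1
    have hμm : μ ⟨m, hmN⟩ = 1 :=
      linear_eq_one_of_ker hμ hμ1 (isCharacter_restrict (isCharacter_of_isIrr hξ.1) Nm) hξc (hker m hm)
    rw [hx', linChar_mul hμ hμ1, hμa, hμm, one_mul]

/-- linear characters of a `2`-group are real iff squares are in the commutator subgroup. -/
theorem commutator_eq_frattini_iff {P : Type u} [Group P] [Finite P] (hP : IsPGroup 2 P) :
    commutator P = frattini P ↔ RO False P ⊆ RO True P := by
  have := Fintype.ofFinite P
  constructor
  · intro h χ hχ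
    refine ⟨hχ.1, hχ.2.1, fun _ x => ?_⟩
    have h1 : χ 1 = 1 := RO_linear_of_two_group hP hχ
    have h2 : x ^ 2 ∈ commutator P := by
      rw [h]; exact Solv.pow_mem_frattini_of_pGroup hP x
    have hc := isCharacter_of_isIrr hχ.1
    have h3 := H79.linear_of_mem_commutator hc h1 h2
    rw [pow_two, linChar_mul hc h1] at h3
    rcases mul_self_eq_one_iff.mp h3 with h4 | h4
    · rw [h4]; simp
    · rw [h4]; simp
  · intro h
    apply le_antisymm (Solv.commutator_le_frattini_of_pGroup hP)
    apply Solv.frattini_le_of_elementary_quotient (p := 2) _ le_rfl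
    intro x
    by_contra hx
    obtain ⟨l, hl1, hlx⟩ := H79.exists_linear_ne_one hx
    have hc := isCharacter_of_isIrr l.2
    have h1 : (l : P → ℂ) ∈ RO False P := ⟨l.2, ⟨1, odd_one, by rw [hl1]; simp⟩, fun h => h.elim⟩
    have h2 := (h h1).2.2 trivial x
    apply hlx
    rw [pow_two, linChar_mul hc hl1]
    have h3 : (l : P → ℂ) x * conj ((l : P → ℂ) x) = 1 := by
      rw [← isCharacter_inv hc, ← linChar_mul hc hl1, mul_inv_cancel, hl1]
    rwa [h2] at h3

theorem RO_mono (G : Type u) [Group G] : RO True G ⊆ RO False G :=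
  fun _ h => ⟨h.1, h.2.1, fun h => h.elim⟩

theorem RO_eq_of_card {G : Type u} [Group G] [Finite G] (h : Nat.card (RO False G) ≤ Nat.card (RO True G)) :
    RO False G ⊆ RO True G := by
  have h1 := finite_RO (flag := False) G
  have h2 : (RO False G).Finite := Set.toFinite _
  have h3 : RO True G = RO False G := by
    apply Set.eq_of_subset_of_ncard_le (RO_mono G) _ h2
    exact h
  rw [h3]

/-- the second part. -/
theorem RO_real_iff {G : Type u} [Group G] [Finite G] (hG : Group.IsSolvable G) (P : Sylow 2 G) :
    RO False G ⊆ RO True G ↔ (commutator (P : Subgroup G) = frattini (P : Subgroup G) ∧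
      Subgroup.normalizer ((P : Subgroup G) : Set G) = (P : Subgroup G)) := by
  constructor
  · intro h
    have hN := self_normalizing_of_real _ G hG rfl h P
    refine ⟨?_, hN⟩
    rw [commutator_eq_frattini_iff P.2]
    apply RO_eq_of_card
    have e := MulEquiv.subgroupCongr hN
    rw [← card_RO_equiv e, ← card_RO_equiv e, ← RO_card hG P (Or.inr hN), ← RO_card hG P (Or.inr hN)]
    have h1 := finite_RO (flag := True) G
    exact Nat.card_mono (Set.toFinite _) h
  · rintro ⟨h, hN⟩
    rw [commutator_eq_frattini_iff P.2] at h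
    apply RO_eq_of_card
    have e := MulEquiv.subgroupCongr hN
    rw [RO_card hG P (Or.inr hN), RO_card hG P (Or.inr hN), card_RO_equiv e, card_RO_equiv e]
    have h1 := finite_RO (flag := True) P
    exact Nat.card_mono (Set.toFinite _) h

/-- translation to the bundled irreducible characters. -/
theorem card_real_odd (G : Type u) [Group G] [Finite G] :
    Nat.card {χ : IrrCharacter G // (∀ g : G, ((χ : G → ℂ) g).im = 0) ∧ Odd (charDegree (χ : G → ℂ))} =
      Nat.card (RO True G) := by
  refine Nat.card_congr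
    { toFun := fun χ => ⟨χ.1, χ.1.2, ⟨H75.deg χ.1, by rw [← H75.charDegree_eq_deg]; exact χ.2.2, H75.deg_spec _⟩,
        fun _ g => Complex.conj_eq_iff_im.mpr (χ.2.1 g)⟩
      invFun := fun χ => ⟨⟨χ.1, χ.2.1⟩, fun g => Complex.conj_eq_iff_im.mp (χ.2.2.2 trivial g), ?_⟩
      left_inv := fun χ => rfl
      right_inv := fun χ => rfl }
  obtain ⟨n, hn, h⟩ := χ.2.2.1
  rw [show charDegree ((⟨χ.1, χ.2.1⟩ : IrrCharacter G) : G → ℂ) = n from H75.charDegree_eq h]
  exact hn

end Cfsg.Agent.H25
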