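import Mathlib
import Cfsg.Agent.BG.PCentral
import Cfsg.Agent.BG.Rank2Aut
import Cfsg.Agent.BG.RankOne
import Cfsg.Agent.BG.OmZ
import Cfsg.Agent.BG.PStructure
import Cfsg.Agent.H50.SSolv
import Cfsg.Agent.H76.PSolvable
import Cfsg.Agent.H10.Nilp

/-!
Chief factors of `p`-solvable groups of `p`-rank at most 2 (owner: helper25).
-/

set_option autoImplicit false

open Subgroup Cfsg Cfsg.Agent
open scoped commutatorElement

namespace Cfsg.Agent.H25.R2

variable {G : Type*} [Group G] [Finite G] {p : ℕ} [hp : Fact p.Prime]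

/-- basic facts about a chief factor of `p`-power order -/
theorem chief_basic (H K : Subgroup G) [H.Normal] [K.Normal] (hKH : K < H) (hpow : ∃ n : ℕ, K.relIndex H = p ^ n)
    (hchief : ∀ L : Subgroup G, L.Normal → K ≤ L → L ≤ H → L = K ∨ L = H) :
    (∀ x ∈ H, x ^ p ∈ K) ∧ (∀ P : Subgroup G, P.Normal → IsPGroup p P → ∀ x ∈ H, ∀ y ∈ P, ⁅x, y⁆ ∈ K) ∧
    (∀ P : Subgroup G, P.Normal → IsPGroup p P → commutator G ≤ P → (∀ g : G, g ^ (p - 1) ∈ P) → K.relIndex H = p) ∧
    1 < K.relIndex H := by
  set π := QuotientGroup.mk' K with hπ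
  set W := H.map π with hW
  have hπs : Function.Surjective π := QuotientGroup.mk'_surjective K
  have hWn : W.Normal := Subgroup.Normal.map inferInstance π hπs
  have hker : π.ker = K := QuotientGroup.ker_mk' K
  have hone : ∀ {x : G}, π x = 1 ↔ x ∈ K := fun {x} => QuotientGroup.eq_one_iff x
  have hcardW : Nat.card W = K.relIndex H := by
    have h1 : K.map π = ⊥ := by rw [Subgroup.map_eq_bot_iff, hker]
    rw [← Subgroup.relIndex_bot_left, ← h1, hW, Subgroup.relIndex_map_map, hker, sup_idem, sup_eq_left.2 hKH.le]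
  have hW1 : W ≠ ⊥ := by
    intro h
    rw [hW, Subgroup.map_eq_bot_iff, hker] at h
    exact not_le_of_gt hKH h
  have hmin : ∀ L : Subgroup (G ⧸ K), L.Normal → L ≤ W → L = ⊥ ∨ L = W := by
    intro L hL hLW
    have hLc : (L.comap π).map π = L := Subgroup.map_comap_eq_self_of_surjective hπs L
    have hKL : K ≤ L.comap π := by
      intro x hx
      rw [Subgroup.mem_comap, hone.2 hx]; exact L.one_mem
    have hLH : L.comap π ≤ H := by
      intro x hx
      obtain ⟨y, hy, hxy⟩ := hLW hx
      have h1 : y⁻¹ * x ∈ K := QuotientGroup.eq.1 hxy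
      have h2 := H.mul_mem hy (hKH.le h1)
      simpa using h2
    rcases hchief (L.comap π) inferInstance hKL hLH with h | h
    · left
      rw [← hLc, h, Subgroup.map_eq_bot_iff, hker]
    · right
      rw [← hLc, h]
  have hWp : IsPGroup p W := by
    obtain ⟨n, hn⟩ := hpow
    exact IsPGroup.of_card (hcardW.trans hn)
  have hnil : Group.IsNilpotent ↥W := hWp.isNilpotent
  obtain ⟨hWc, r, hr, hWr⟩ := Solv.minimal_normal_of_solvable W inferInstance hW1 hmin
  obtain ⟨x₀, hx₀, hx₀1⟩ : ∃ x ∈ W, x ≠ 1 := by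
    by_contra hcon
    push Not at hcon
    exact hW1 ((eq_bot_iff_forall _).2 hcon)
  have hrp : r = p := by
    obtain ⟨k, hk⟩ := hWp.exists_card_eq
    have h1 : orderOf x₀ ∣ p ^ k := by
      rw [← hk]
      have := orderOf_dvd_natCard (⟨x₀, hx₀⟩ : W)
      rwa [orderOf_mk] at this
    have h2 : orderOf x₀ = r := by
      have : Fact r.Prime := ⟨hr⟩
      exact orderOf_eq_prime (hWr x₀ hx₀) hx₀1
    rw [h2] at h1
    exact (Nat.prime_dvd_prime_iff_eq hr hp.out).1 (hr.dvd_of_dvd_pow h1)
  subst hrp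
  have hcardgt : 1 < Nat.card W := Subgroup.one_lt_card_iff_ne_bot W |>.2 hW1
  have hcent : ∀ P : Subgroup G, P.Normal → IsPGroup r P → P.map π ≤ centralizer (W : Set (G ⧸ K)) := by
    intro P hP hPp
    have hPn : (P.map π).Normal := hP.map π hπs
    have hPnil : Group.IsNilpotent (P.map π) := (hPp.map π).isNilpotent
    exact H10.nilpotent_normal_le_centralizer_minimal_normal W (P.map π) hPnil hmin
  refine ⟨fun x hx => ?_, fun P hP hPp x hx y hy => ?_, fun P hP hPp hcm hpw => ?_, by rw [← hcardW]; exact hcardgt⟩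
  · rw [← hone, map_pow]
    exact hWr _ ⟨x, hx, rfl⟩
  · rw [← hone, map_commutatorElement, commutatorElement_eq_one_iff_mul_comm]
    exact (mem_centralizer_iff.1 (hcent P hP hPp ⟨y, hy, rfl⟩) _ ⟨x, hx, rfl⟩)
  · have hcyc : IsCyclic W := by
      refine H50.SSolv.isCyclic_of_minNormal (C := P.map π) hWn hW1 hmin hWp ?_ ?_ ?_
      · have := hcent P hP hPp
        rw [← Subgroup.commutator_eq_bot_iff_le_centralizer] at this ⊢
        rw [Subgroup.commutator_comm]; exact this
      · rw [commutator_def, ← MonoidHom.range_eq_top.2 hπs, MonoidHom.range_eq_map, ← Subgroup.map_commutator]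
        exact Subgroup.map_mono hcm
      · intro q
        obtain ⟨g, rfl⟩ := hπs q
        exact ⟨g ^ (r - 1), hpw g, map_pow _ _ _⟩
    obtain ⟨w, hw⟩ := hcyc.exists_generator
    have h1 : orderOf w = Nat.card W := orderOf_eq_card_of_forall_mem_zpowers hw
    have h2 : orderOf w ∣ r := orderOf_dvd_of_pow_eq_one (Subtype.ext (hWr w w.2))
    rw [h1] at h2
    rw [← hcardW]
    rcases (Nat.dvd_prime hr).1 h2 with h3 | h3
    · omega
    · exact h3

omit [Finite G] in
theorem relIndex_dvd_of_le {A B N : Subgroup G} [N.Normal] (h : A ≤ B) : N.relIndex A ∣ N.relIndex B := by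
  rw [← Subgroup.relIndex_sup_right (H := A) (K := N), ← Subgroup.relIndex_sup_right (H := B) (K := N)]
  have h1 := Subgroup.relIndex_mul_relIndex N (A ⊔ N) (B ⊔ N) le_sup_right (sup_le_sup_right h N)
  exact ⟨_, h1.symm⟩

omit [Finite G] in
/-- the order of a chief factor divides the order of the factor of a normal series where it lives -/
theorem chief_dvd (H K : Subgroup G) [H.Normal] [K.Normal] (hKH : K < H)
    (hchief : ∀ L : Subgroup G, L.Normal → K ≤ L → L ≤ H → L = K ∨ L = H) (N' N : Subgroup G) [N'.Normal] [N.Normal]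
    (h1 : H ⊓ N' ≤ K) (h2 : ¬ H ⊓ N ≤ K) : K.relIndex H ∣ N'.relIndex N ∧ K.relIndex H = K.relIndex (H ⊓ N) ∧
    K.relIndex H ∣ N'.relIndex (H ⊓ N) := by
  have h3 : H = (H ⊓ N) ⊔ K := by
    rcases hchief ((H ⊓ N) ⊔ K) inferInstance le_sup_right (sup_le inf_le_left hKH.le) with h | h
    · exact absurd (h ▸ le_sup_left) h2
    · exact h.symm
  have h4 : K.relIndex H = K.relIndex (H ⊓ N) := by
    conv_lhs => rw [h3]
    rw [Subgroup.relIndex_sup_right]
  have h5 : K.relIndex (H ⊓ N) ∣ N'.relIndex (H ⊓ N) := by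
    rw [← Subgroup.inf_relIndex_right K, ← Subgroup.inf_relIndex_right N']
    apply Subgroup.relIndex_dvd_of_le_left
    intro x hx
    exact ⟨h1 ⟨hx.2.1, hx.1⟩, hx.2⟩
  refine ⟨?_, h4, ?_⟩
  · rw [h4]
    exact h5.trans (relIndex_dvd_of_le inf_le_right)
  · rw [h4]; exact h5

theorem card_le_of_pgroup_mulAut {V : Type*} [CommGroup V] [Finite V] (hexp : ∀ v : V, v ^ p = 1)
    (hcard : Nat.card V = p ^ 2) (A : Subgroup (MulAut V)) (hA : IsPGroup p A) : Nat.card A ≤ p := by
  classical
  haveI : Finite (MulAut V) := Finite.of_injective (fun e : MulAut V => (e : V → V)) DFunLike.coe_injective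
  have hfix : (1 : V) ∈ MulAction.fixedPoints A V := fun a => map_one (a : MulAut V)
  obtain ⟨v, hv, hv1⟩ := hA.exists_fixed_point_of_prime_dvd_card_of_fixed_point V
    (by rw [hcard]; exact dvd_pow_self p two_ne_zero) hfix
  set Z := zpowers v with hZdef
  have hZ : Nat.card Z = p := by rw [Nat.card_zpowers]; exact orderOf_eq_prime (hexp v) (Ne.symm hv1)
  have hpV : IsPGroup p V := fun v => ⟨1, by rw [pow_one]; exact hexp v⟩
  have hplt : p < p ^ 2 := by
    have := hp.out.one_lt
    nlinarith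
  obtain ⟨w, hw⟩ : ∃ w, w ∉ Z := by
    by_contra hcon
    push Not at hcon
    have h1 : Z = ⊤ := (Subgroup.eq_top_iff' Z).2 hcon
    rw [h1, Subgroup.card_top, hcard] at hZ
    omega
  have hfixZ : ∀ a : A, ∀ z ∈ Z, (a : MulAut V) z = z := by
    rintro a _ ⟨k, rfl⟩
    have h1 : (a : MulAut V) v = v := hv a
    simp only [map_zpow, h1]
  have hmem : ∀ a : A, (a : MulAut V) w ∉ Z := by
    intro a h
    have h1 := hfixZ a⁻¹ _ h
    have h2 : ((a⁻¹ : A) : MulAut V) ((a : MulAut V) w) = w := by
      show (((a : MulAut V))⁻¹ * (a : MulAut V)) w = w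
      rw [inv_mul_cancel]; rfl
    rw [h2] at h1
    exact hw (h1 ▸ h)
  have hinj : Function.Injective (fun a : A => (⟨(a : MulAut V) w, hmem a⟩ : {x : V // x ∉ Z})) := by
    intro a b hab
    have h1 : (a : MulAut V) w = (b : MulAut V) w := congrArg Subtype.val hab
    let F : Subgroup V :=
      { carrier := {x | (a : MulAut V) x = (b : MulAut V) x}
        one_mem' := by show (a : MulAut V) 1 = (b : MulAut V) 1; rw [map_one, map_one]
        mul_mem' := by
          intro x y hx hy
          show (a : MulAut V) (x * y) = (b : MulAut V) (x * y)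
          rw [map_mul, map_mul, show (a : MulAut V) x = (b : MulAut V) x from hx,
            show (a : MulAut V) y = (b : MulAut V) y from hy]
        inv_mem' := by
          intro x hx
          show (a : MulAut V) x⁻¹ = (b : MulAut V) x⁻¹
          rw [map_inv, map_inv, show (a : MulAut V) x = (b : MulAut V) x from hx] }
    have hZF : Z < F := by
      refine lt_of_le_of_ne (fun z hz => ?_) (fun h => hw ?_)
      · show (a : MulAut V) z = (b : MulAut V) z
        rw [hfixZ a z hz, hfixZ b z hz]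
      · rw [h]; exact h1
    have h2 := BG.card_mul_le_of_lt (hpV.to_subgroup F) hZF
    rw [hZ] at h2
    have h3 : F = ⊤ := by
      apply Subgroup.eq_top_of_le_card
      rw [hcard, pow_two]; exact h2
    apply Subtype.ext
    ext x
    have : x ∈ F := by rw [h3]; trivial
    exact this
  have h1 := Nat.card_le_card_of_injective _ hinj
  have h2 : Nat.card {x : V // x ∉ Z} < p ^ 2 := by
    rw [← hcard]
    letI := Fintype.ofFinite V
    rw [Nat.card_eq_fintype_card, Nat.card_eq_fintype_card]
    exact Fintype.card_subtype_lt (x := 1) (by simp [Z.one_mem])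
  obtain ⟨k, hk⟩ := IsPGroup.iff_card.1 hA
  rw [hk] at h1 ⊢
  have h3 : k < 2 := (Nat.pow_lt_pow_iff_right hp.out.one_lt).1 (h1.trans_lt h2)
  calc p ^ k ≤ p ^ 1 := Nat.pow_le_pow_right hp.out.pos (by omega)
    _ = p := pow_one p

/-- a subgroup with no nontrivial `p'`-elements is a `p`-group -/
theorem isPGroup_of_forall (N : Subgroup G) (h : ∀ g ∈ N, (orderOf g).Coprime p → g = 1) : IsPGroup p N := by
  intro g
  obtain ⟨k, m, hm, hkm⟩ := Nat.exists_eq_pow_mul_and_not_dvd (orderOf_pos (g : G)).ne' p hp.out.ne_one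
  refine ⟨k, Subtype.ext ?_⟩
  push_cast
  apply h _ (N.pow_mem g.2 _)
  have h1 : ((g : G) ^ p ^ k) ^ m = 1 := by rw [← pow_mul, ← hkm, pow_orderOf_eq_one]
  exact Nat.Coprime.coprime_dvd_left (orderOf_dvd_of_pow_eq_one h1) ((Nat.Prime.coprime_iff_not_dvd hp.out).2 hm).symm

omit [Finite G] hp in
/-- coprime action: an element acting trivially on `D / F` and `F / E`, `F / E` of exponent `p`, acts trivially
on `D / E`. -/
theorem coprime_step {D F E : Subgroup G} [hE : E.Normal] {g : G} (hg : (orderOf g).Coprime p)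
    (h1 : ∀ x ∈ D, x⁻¹ * (g * x * g⁻¹) ∈ F) (h2 : ∀ x ∈ F, x⁻¹ * (g * x * g⁻¹) ∈ E) (h3 : ∀ x ∈ F, x ^ p ∈ E) :
    ∀ x ∈ D, x⁻¹ * (g * x * g⁻¹) ∈ E := by
  intro x hx
  set f := x⁻¹ * (g * x * g⁻¹) with hf
  have hfF := h1 x hx
  rw [← hf] at hfF
  set π := QuotientGroup.mk' E with hπ
  have hone : ∀ {x : G}, π x = 1 ↔ x ∈ E := fun {x} => QuotientGroup.eq_one_iff x
  have e1 : π g * π x * (π g)⁻¹ = π x * π f := by
    rw [hf, ← map_mul, ← map_inv, ← map_mul, ← map_mul]
    congr 1; group
  have e2 : π g * π f * (π g)⁻¹ = π f := by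
    have := hone.2 (h2 f hfF)
    rw [map_mul, map_mul, map_mul, map_inv, map_inv] at this
    rw [inv_mul_eq_one] at this
    exact this.symm
  have e3 : ∀ k : ℕ, (π g) ^ k * π x * ((π g) ^ k)⁻¹ = π x * (π f) ^ k := by
    intro k
    induction k with
    | zero => simp
    | succ k ih =>
      calc (π g) ^ (k + 1) * π x * ((π g) ^ (k + 1))⁻¹ = π g * ((π g) ^ k * π x * ((π g) ^ k)⁻¹) * (π g)⁻¹ := by
            rw [pow_succ']; group
        _ = (π g * π x * (π g)⁻¹) * (π g * π f * (π g)⁻¹) ^ k := by rw [ih, conj_pow]; group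
        _ = _ := by rw [e1, e2, pow_succ']; group
  have e4 := e3 (orderOf g)
  rw [← map_pow, pow_orderOf_eq_one, map_one, one_mul, inv_one, mul_one] at e4
  have e5 : (π f) ^ orderOf g = 1 := (mul_eq_left.1 e4.symm)
  have e6 : (π f) ^ p = 1 := by rw [← map_pow]; exact hone.2 (h3 f hfF)
  have e7 : orderOf (π f) ∣ 1 := by
    have := Nat.dvd_gcd (orderOf_dvd_of_pow_eq_one e5) (orderOf_dvd_of_pow_eq_one e6)
    rwa [hg] at this
  exact hone.1 (orderOf_eq_one_iff.1 (Nat.dvd_one.1 e7))

/-- the case of an abelian irreducible critical subgroup -/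
theorem case_abelian (hp2 : p ≠ 2) (hr : PRankLE p 2 G) (P D : Subgroup G) (hPp : IsPGroup p P)
    (hDc : IsElementaryAbelian p D) (hD : Nat.card D = p ^ 2) (hDP : P ≤ centralizer (D : Set G))
    (H K : Subgroup G) (hexp : ∀ x ∈ H, x ^ p ∈ K) : K.relIndex (H ⊓ P) ≤ p ^ 2 := by
  have hΩ : ∀ x ∈ P, x ^ p = 1 → x ∈ D := by
    intro x hx hxp
    have h1 : IsElementaryAbelian p (D ⊔ zpowers x) := by
      refine BG.IsElementaryAbelian.sup hDc (BG.IsElementaryAbelian.zpowers hxp) ?_
      rw [← Subgroup.commutator_eq_bot_iff_le_centralizer, Subgroup.commutator_comm,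
        Subgroup.commutator_eq_bot_iff_le_centralizer, zpowers_le]
      exact hDP hx
    have h2 := hr _ h1.1 h1.2
    have h3 : D = D ⊔ zpowers x := Subgroup.eq_of_le_of_card_ge le_sup_left (by rw [hD]; exact h2)
    rw [h3]
    exact Subgroup.mem_sup_right (mem_zpowers x)
  have hRp : IsPGroup p ↥(H ⊓ P) := hPp.to_le inf_le_right
  have hpc : BG.PCentral p ↥(H ⊓ P) := by
    intro x hx
    rw [Subgroup.mem_center_iff]
    intro y
    have h1 : (x : G) ∈ D := hΩ x x.2.2 (congrArg Subtype.val hx)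
    exact Subtype.ext (mem_centralizer_iff.1 (hDP y.2.2) x h1).symm
  have h1 := hpc.index_closure_pow_le hp2 hRp
  have h2 : Nat.card (BG.omegaZ p ↥(H ⊓ P)) ≤ p ^ 2 := by
    refine (BG.PRankLE.subgroup hr (H ⊓ P)) _ ?_ ?_
    · exact BG.isMulCommutative_of_forall fun x hx y _ => (Subgroup.mem_center_iff.1 (BG.mem_omegaZ.1 hx).1 y).symm
    · intro a ha; exact (BG.mem_omegaZ.1 ha).2
  have h3 : (K.subgroupOf (H ⊓ P)).index ≤ (Subgroup.closure {x : ↥(H ⊓ P) | ∃ y, y ^ p = x}).index := by
    refine Nat.le_of_dvd (Nat.pos_of_ne_zero Subgroup.index_ne_zero_of_finite) (Subgroup.index_dvd_of_le ?_)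
    rw [Subgroup.closure_le]
    rintro _ ⟨y, rfl⟩
    exact Subgroup.mem_subgroupOf.2 (hexp y y.2.1)
  exact h3.trans (h1.trans h2)

/-- the case of an extraspecial critical subgroup -/
theorem case_extra (hp2 : p ≠ 2) (hr : PRankLE p 2 G) (P D E : Subgroup G) [P.Normal] [D.Normal] [E.Normal]
    (hPp : IsPGroup p P) (hEP : D ≤ P) (hED : E ≤ D) (hDexp : ∀ x ∈ D, x ^ p = 1)
    (hD : Nat.card D = p ^ 3) (hE : Nat.card E = p) (hEz : D ⊓ centralizer (D : Set G) = E)
    (hDP : ∀ x ∈ D, ∀ y ∈ P, ⁅x, y⁆ ∈ E)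
    (H K : Subgroup G) [H.Normal] [K.Normal] (hKH : K < H) 
    (hchief : ∀ L : Subgroup G, L.Normal → K ≤ L → L ≤ H → L = K ∨ L = H)
    (hexp : ∀ x ∈ H, x ^ p ∈ K) (hHP : ¬ H ⊓ P ≤ K) : K.relIndex H ≤ p ^ 2 := by
  have hpos := hp.out.pos
  have hEc : P ≤ centralizer (E : Set G) := by
    apply BG.P09.le_centralizer_of_card_prime hPp hE
    rw [Subgroup.normalizer_eq_top]
    exact le_top
  have hcE : ∀ x ∈ P, ∀ e ∈ E, x * e = e * x := fun x hx e he => (mem_centralizer_iff.1 (hEc hx) e he).symm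
  have hElem : ∀ d ∈ D, IsElementaryAbelian p (E ⊔ zpowers d) := by
    intro d hd
    refine BG.IsElementaryAbelian.sup ⟨?_, fun x hx => hDexp x (hED hx)⟩ (BG.IsElementaryAbelian.zpowers (hDexp d hd)) ?_
    · exact BG.isMulCommutative_of_forall fun x hx y hy => hcE x (hEP (hED hx)) y hy
    · rw [← Subgroup.commutator_eq_bot_iff_le_centralizer, Subgroup.commutator_comm,
        Subgroup.commutator_eq_bot_iff_le_centralizer, zpowers_le]
      exact hEc (hEP hd)
  set C₀ := P ⊓ centralizer (D : Set G) with hC₀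
  have hC₀n : C₀.Normal := inferInstance
  have hC₀p : IsPGroup p C₀ := hPp.to_le inf_le_left
  have hlt : ∀ {A B : Subgroup G}, IsPGroup p B → A < B → Nat.card A * p ≤ Nat.card B := 
    fun hB h => BG.card_mul_le_of_lt hB h
  have hDp : IsPGroup p D := hPp.to_le hEP
  -- generators
  have hED' : E < D := by
    refine lt_of_le_of_ne hED (fun h => ?_)
    rw [← h, hE] at hD
    have h1 := hp.out.one_lt
    have h2 : p ^ 1 < p ^ 3 := Nat.pow_lt_pow_right h1 (by norm_num)
    rw [pow_one] at h2
    omega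
  obtain ⟨d₁, hd₁, hd₁E⟩ := SetLike.exists_of_lt hED'
  set E₁ := E ⊔ zpowers d₁ with hE₁
  have hE₁D : E₁ ≤ D := sup_le hED (by rw [zpowers_le]; exact hd₁)
  have hE₁lt : E < E₁ := lt_of_le_of_ne le_sup_left (fun h => hd₁E (by
    rw [h]; exact Subgroup.mem_sup_right (mem_zpowers _)))
  have hcE₁ : p ^ 2 ≤ Nat.card E₁ := by
    have := hlt (hDp.to_le hE₁D) hE₁lt
    rw [hE] at this
    rw [pow_two]; exact this
  have hE₁le : Nat.card E₁ ≤ p ^ 2 := hr _ (hElem d₁ hd₁).1 (hElem d₁ hd₁).2
  have hE₁D' : E₁ < D := by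
    refine lt_of_le_of_ne hE₁D (fun h => ?_)
    rw [h, hD] at hE₁le
    have h1 := hp.out.one_lt
    have h2 : p ^ 2 < p ^ 3 := Nat.pow_lt_pow_right h1 (by norm_num)
    omega
  obtain ⟨d₂, hd₂, hd₂E⟩ := SetLike.exists_of_lt hE₁D'
  have hE₂ : E₁ ⊔ zpowers d₂ = D := by
    have h1 : E₁ ⊔ zpowers d₂ ≤ D := sup_le hE₁D (by rw [zpowers_le]; exact hd₂)
    have h2 : E₁ < E₁ ⊔ zpowers d₂ := lt_of_le_of_ne le_sup_left (fun h => hd₂E (by
      rw [h]; exact Subgroup.mem_sup_right (mem_zpowers _)))
    apply Subgroup.eq_of_le_of_card_ge h1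
    have h3 := hlt (hDp.to_le h1) h2
    rw [hD]
    calc p ^ 3 = p ^ 2 * p := by ring
      _ ≤ Nat.card E₁ * p := Nat.mul_le_mul_right _ hcE₁
      _ ≤ _ := h3
  -- index of the centralizer
  have hidx1 : ∀ d ∈ D, (centralizer ({d} : Set G)).relIndex P ≤ p := by
    intro d hd
    let f : P →* E :=
      { toFun := fun x => ⟨⁅(x : G), d⁆, by
          have := E.inv_mem (hDP d hd x x.2)
          rwa [commutatorElement_inv] at this⟩
        map_one' := Subtype.ext (by simp)
        map_mul' := by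
          intro x y
          apply Subtype.ext
          show ⁅(x : G) * y, d⁆ = ⁅(x : G), d⁆ * ⁅(y : G), d⁆
          have h1 : ⁅(y : G), d⁆ ∈ E := by
            have := E.inv_mem (hDP d hd y y.2)
            rwa [commutatorElement_inv] at this
          have h2 : ⁅(x : G), d⁆ ∈ E := by
            have := E.inv_mem (hDP d hd x x.2)
            rwa [commutatorElement_inv] at this
          have h3 := hcE x x.2 _ h1
          have h4 := hcE _ (hEP (hED h2)) _ h1
          calc ⁅(x : G) * y, d⁆ = x * ⁅(y : G), d⁆ * (x : G)⁻¹ * ⁅(x : G), d⁆ := by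
                simp only [commutatorElement_def]; group
            _ = ⁅(y : G), d⁆ * ⁅(x : G), d⁆ := by rw [h3, mul_inv_cancel_right]
            _ = _ := h4.symm }
    have hk : f.ker = (centralizer ({d} : Set G)).subgroupOf P := by
      ext x
      rw [MonoidHom.mem_ker, mem_subgroupOf, mem_centralizer_singleton_iff]
      constructor
      · intro h
        have h1 : ⁅(x : G), d⁆ = 1 := congrArg Subtype.val h
        exact (commutatorElement_eq_one_iff_mul_comm.1 h1)
      · intro h
        exact Subtype.ext (commutatorElement_eq_one_iff_mul_comm.2 h)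
    rw [relIndex, ← hk, Subgroup.index_ker]
    calc Nat.card f.range ≤ Nat.card E := Nat.card_le_card_of_injective _ f.range.subtype_injective
      _ = p := hE
  have hidx : C₀.relIndex P ≤ p ^ 2 := by
    have h1 : centralizer ({d₁} : Set G) ⊓ centralizer ({d₂} : Set G) ⊓ P ≤ C₀ := by
      rintro x ⟨⟨hx1, hx2⟩, hxP⟩
      refine ⟨hxP, ?_⟩
      have h2 : D ≤ centralizer ({x} : Set G) := by
        rw [← hE₂, hE₁]
        refine sup_le (sup_le ?_ ?_) ?_
        · intro e he
          rw [mem_centralizer_singleton_iff]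
          exact (hcE x hxP e he).symm
        · rw [zpowers_le, mem_centralizer_singleton_iff]
          exact (mem_centralizer_singleton_iff.1 hx1).symm
        · rw [zpowers_le, mem_centralizer_singleton_iff]
          exact (mem_centralizer_singleton_iff.1 hx2).symm
      show x ∈ centralizer (D : Set G)
      rw [mem_centralizer_iff]
      intro d hd
      exact mem_centralizer_singleton_iff.1 (h2 hd)
    calc C₀.relIndex P ≤ (centralizer ({d₁} : Set G) ⊓ centralizer ({d₂} : Set G)).relIndex P := by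
          rw [← Subgroup.inf_relIndex_right (centralizer ({d₁} : Set G) ⊓ centralizer ({d₂} : Set G))]
          exact Nat.le_of_dvd (Nat.pos_of_ne_zero (Subgroup.index_ne_zero_of_finite (H := C₀.subgroupOf P)) |> fun h => by
            refine Nat.pos_of_ne_zero ?_
            exact Subgroup.index_ne_zero_of_finite) (Subgroup.relIndex_dvd_of_le_left _ h1)
      _ ≤ (centralizer ({d₁} : Set G)).relIndex P * (centralizer ({d₂} : Set G)).relIndex P := Subgroup.relIndex_inf_le
      _ ≤ p * p := Nat.mul_le_mul (hidx1 d₁ hd₁) (hidx1 d₂ hd₂)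
      _ = p ^ 2 := (pow_two p).symm
  by_cases hc : H ⊓ C₀ ≤ K
  · have h1 := (chief_dvd H K hKH hchief C₀ P hc hHP).1
    exact (Nat.le_of_dvd (Nat.pos_of_ne_zero (Subgroup.index_ne_zero_of_finite (H := C₀.subgroupOf P))) h1).trans hidx
  · have h1 := (chief_dvd H K hKH hchief ⊥ C₀ (by simp) hc).2.1
    have hcyc : IsCyclic C₀ := by
      apply BG.isCyclic_of_rank_one hp2 hC₀p
      rw [BG.pRankLE_iff]
      intro A hA hAe
      by_contra hcon
      push Not at hcon
      obtain ⟨k, hk⟩ := BG.IsElementaryAbelian.card_eq_pow hAe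
      have h2 : p ^ 2 ≤ Nat.card A := by
        rw [hk] at hcon ⊢
        have := (Nat.pow_lt_pow_iff_right hp.out.one_lt).1 hcon
        exact Nat.pow_le_pow_right hpos (by omega)
      have h3 : IsElementaryAbelian p (A ⊔ E₁) := by
        apply BG.IsElementaryAbelian.sup hAe (hElem d₁ hd₁)
        intro a ha
        have := (hA ha).2
        exact centralizer_le hE₁D this
      have h4 := hr _ h3.1 h3.2
      have h5 : A = A ⊔ E₁ := Subgroup.eq_of_le_of_card_ge le_sup_left (h4.trans h2)
      have h6 : E₁ ≤ A := by rw [h5]; exact le_sup_right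
      have h7 : d₁ ∈ D ⊓ centralizer (D : Set G) :=
        ⟨hd₁, (hA (h6 (Subgroup.mem_sup_right (mem_zpowers _)))).2⟩
      rw [hEz] at h7
      exact hd₁E h7
    have hcyc' : IsCyclic ↥(H ⊓ C₀) :=
      isCyclic_of_injective (Subgroup.inclusion (inf_le_right : H ⊓ C₀ ≤ C₀)) (Subgroup.inclusion_injective _)
    rw [h1]
    obtain ⟨g, hg⟩ := hcyc'.exists_generator
    have h2 : (K.subgroupOf (H ⊓ C₀)).index ≤ p := by
      have hN : (K.subgroupOf (H ⊓ C₀)).Normal := inferInstance
      have hgen : ∀ q : ↥(H ⊓ C₀) ⧸ K.subgroupOf (H ⊓ C₀), q ∈ zpowers (QuotientGroup.mk' (K.subgroupOf (H ⊓ C₀)) g) := by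
        intro q
        obtain ⟨x, rfl⟩ := QuotientGroup.mk'_surjective _ q
        obtain ⟨k, rfl⟩ := hg x
        exact ⟨k, (map_zpow _ _ _).symm⟩
      have h3 := orderOf_eq_card_of_forall_mem_zpowers hgen
      change Nat.card (↥(H ⊓ C₀) ⧸ K.subgroupOf (H ⊓ C₀)) ≤ p
      rw [← h3]
      apply Nat.le_of_dvd hpos
      apply orderOf_dvd_of_pow_eq_one
      rw [← map_pow]
      apply (QuotientGroup.eq_one_iff _).2
      exact mem_subgroupOf.2 (hexp g g.2.1)
    calc K.relIndex (H ⊓ C₀) ≤ p := h2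
      _ = p ^ 1 := (pow_one p).symm
      _ ≤ p ^ 2 := Nat.pow_le_pow_right hpos (by norm_num)

theorem main_core (hp2 : p ≠ 2) (hG : IsPSolvable p G) (hcore : pPrimeCore p G = ⊥) (hr : PRankLE p 2 G)
    (H K : Subgroup G) [H.Normal] [K.Normal] (hKH : K < H) (hpow : ∃ n : ℕ, K.relIndex H = p ^ n)
    (hchief : ∀ L : Subgroup G, L.Normal → K ≤ L → L ≤ H → L = K ∨ L = H) :
    K.relIndex H ≤ p ^ 2 := by
  have hpos := hp.out.pos
  have hlt1 := hp.out.one_lt
  have hple : p ≤ p ^ 2 := by nlinarith
  obtain ⟨hexpH, -, hcase1, hgt⟩ := chief_basic H K hKH hpow hchief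
  set P := pCore p G with hP
  have hPn : P.Normal := inferInstance
  have hPp : IsPGroup p P := Solv.pCore_isPGroup p
  have hPc : centralizer (P : Set G) ≤ P := H76.centralizer_pCore_le hG hcore
  obtain ⟨C, hCc, hexp, hcom, hfaith⟩ := BG.exists_critical_odd hp2 hPp
  have := hCc
  have hexpC : ∀ x : C, x ^ p = 1 := fun x => Subtype.ext (hexp x x.2)
  have hclC : commutator C ≤ Subgroup.center C := by
    rw [commutator_def, Subgroup.commutator_le]
    intro a _ b _
    rw [Subgroup.mem_center_iff]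
    intro z
    have h1 : (⁅(a : P), (b : P)⁆) ∈ Subgroup.centralizer (C : Set P) :=
      hcom (Subgroup.commutator_mem_commutator a.2 (Subgroup.mem_top _))
    exact Subtype.ext ((Subgroup.mem_centralizer_iff.1 h1) z z.2)
  have hrC : Cfsg.PRankLE p 2 C := BG.PRankLE.subgroup (BG.PRankLE.subgroup hr P) C
  set D : Subgroup G := C.map P.subtype with hD
  have hDn : D.Normal := inferInstance
  have hDP : D ≤ P := Subgroup.map_subtype_le C
  have hDp : IsPGroup p D := hPp.to_le hDP
  have hDexp : ∀ x ∈ D, x ^ p = 1 := by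
    rintro _ ⟨x, hx, rfl⟩
    rw [← map_pow, hexp x hx, map_one]
  set E : Subgroup G := ⁅D, D⁆ with hE
  have hEn : E.Normal := inferInstance
  have hED : E ≤ D := Subgroup.commutator_le_left D D
  have hEmap : E = ((commutator C).map C.subtype).map P.subtype := by
    have h1 : (commutator C).map C.subtype = ⁅C, C⁆ := by
      rw [commutator_def, Subgroup.map_commutator, ← MonoidHom.range_eq_map, Subgroup.range_subtype]
    rw [h1, Subgroup.map_commutator]
  have hcardD : Nat.card D = Nat.card C := Nat.card_congr (C.equivMapOfInjective _ P.subtype_injective).symm.toEquiv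
  have hcardE : Nat.card E = Nat.card (commutator C) := by
    rw [hEmap, Nat.card_congr (((commutator C).map C.subtype).equivMapOfInjective _ P.subtype_injective).symm.toEquiv,
      Nat.card_congr ((commutator C).equivMapOfInjective _ C.subtype_injective).symm.toEquiv]
  let φ : G →* MulAut P := MulAut.conjNormal
  let ψ : G →* MulAut (Abelianization C) := (BG.mulAutAbelianization C).comp ((MulAut.characteristic C).comp φ)
  have hpsi : ∀ g : G, (orderOf g).Coprime p → ψ g = 1 → g = 1 := by
    intro g hcop hg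
    have h4 : MulAut.characteristic C (φ g) = 1 := by
      refine BG.mulAut_eq_one_of_abelianization hexpC hclC _ (n := orderOf g) ?_ hcop hg
      rw [← map_pow, ← map_pow, pow_orderOf_eq_one, map_one, map_one]
    have h5 : φ g = 1 := by
      apply hfaith
      · have : orderOf (φ g) ∣ orderOf g := orderOf_map_dvd φ g
        exact Nat.Coprime.coprime_dvd_left this hcop
      · intro c hc
        have := DFunLike.congr_fun h4 (⟨c, hc⟩ : C)
        exact congrArg Subtype.val this
    have h6 : g ∈ centralizer (P : Set G) := by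
      rw [mem_centralizer_iff]
      intro x hx
      have h7 := DFunLike.congr_fun h5 (⟨x, hx⟩ : P)
      have h8 : g * x * g⁻¹ = x := congrArg Subtype.val h7
      calc x * g = (g * x * g⁻¹) * g := by rw [h8]
        _ = g * x := by group
    obtain ⟨k, hk⟩ := (IsPGroup.iff_orderOf.1 hPp) ⟨g, hPc h6⟩
    rw [orderOf_mk] at hk
    rw [← orderOf_eq_one_iff]
    rw [hk] at hcop ⊢
    rcases Nat.eq_zero_or_pos k with h0 | h0
    · rw [h0, pow_zero]
    · exact absurd ((Nat.coprime_pow_left_iff h0 p p).1 hcop) (by rw [Nat.coprime_self]; omega)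
  have hker : ψ.ker ≤ P := Solv.le_pCore inferInstance (isPGroup_of_forall _ fun g hg hc => hpsi g hc hg)
  by_cases hI : ∃ F₀ : Subgroup G, F₀.Normal ∧ E ≤ F₀ ∧ F₀ ≤ D ∧ (F₀.relIndex D = 1 ∨ F₀.relIndex D = p) ∧
      (E.relIndex F₀ = 1 ∨ E.relIndex F₀ = p)
  · obtain ⟨F₀, hFn, hEF, hFD, h1, h2⟩ := hI
    have hact : H50.SSolv.actCore p D ≤ P := by
      apply Solv.le_pCore inferInstance
      apply isPGroup_of_forall
      intro g hg hcop
      have t1 : ∀ x ∈ D, x⁻¹ * (g * x * g⁻¹) ∈ F₀ := by
        rcases h1 with h1 | h1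
        · intro x hx
          have h3 : D ≤ F₀ := Subgroup.relIndex_eq_one.1 h1
          exact h3 (D.mul_mem (D.inv_mem hx) (hDn.conj_mem x hx g))
        · exact hg F₀ D hFn hDn hFD le_rfl h1
      have t2 : ∀ x ∈ F₀, x⁻¹ * (g * x * g⁻¹) ∈ E := by
        rcases h2 with h2 | h2
        · intro x hx
          have h3 : F₀ ≤ E := Subgroup.relIndex_eq_one.1 h2
          exact h3 (F₀.mul_mem (F₀.inv_mem hx) (hFn.conj_mem x hx g))
        · exact hg E F₀ hEn hFn hEF hFD h2
      have t3 := coprime_step hcop t1 t2 (fun x hx => by rw [hDexp x (hFD hx)]; exact E.one_mem)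
      apply hpsi g hcop
      apply MulEquiv.ext
      intro v
      obtain ⟨x, rfl⟩ := QuotientGroup.mk_surjective (s := commutator C) v
      have h3 := t3 (((x : P) : G)) ⟨x, x.2, rfl⟩
      rw [hEmap] at h3
      obtain ⟨y, ⟨c, hc, rfl⟩, hy⟩ := h3
      have h4 : c = x⁻¹ * (MulAut.characteristic C (φ g)) x := by
        apply Subtype.ext
        apply Subtype.ext
        exact hy
      show Abelianization.of ((MulAut.characteristic C (φ g)) x) = Abelianization.of x
      symm
      apply QuotientGroup.eq.2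
      rw [← h4]
      exact hc
    have h3 := hcase1 P hPn hPp ((H50.SSolv.commutator_le_actCore p D).trans hact)
      (fun g => hact (H50.SSolv.pow_mem_actCore p D g))
    rw [h3]; exact hple
  · -- irreducible case
    have hcl := BG.class_two_exponent_p_rank_two hexpC hclC hrC
    have hmul : Nat.card E * E.relIndex D = Nat.card D := by
      have h0 := Subgroup.relIndex_mul_relIndex ⊥ E D bot_le hED
      rwa [Subgroup.relIndex_bot_left, Subgroup.relIndex_bot_left] at h0
    have hEpos : 0 < Nat.card E := Nat.card_pos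
    have hle : E.relIndex D ≤ p ^ 2 := by
      rcases hcl with ⟨-, h⟩ | ⟨h1, h2, h3, h4⟩
      · rw [← hcardD] at h
        calc E.relIndex D ≤ Nat.card E * E.relIndex D := Nat.le_mul_of_pos_left _ hEpos
          _ ≤ p ^ 2 := hmul ▸ h
      · rw [hcardD, h1, hcardE, h2, h3] at hmul
        have : p * E.relIndex D = p * p ^ 2 := by rw [hmul]; ring
        exact (Nat.eq_of_mul_eq_mul_left hpos this).le
    obtain ⟨m, hm⟩ : ∃ m, E.relIndex D = p ^ m := by
      obtain ⟨n, hn⟩ := IsPGroup.iff_card.1 hDp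
      have h1 : E.relIndex D ∣ p ^ n := by rw [← hn, ← hmul]; exact Dvd.intro_left _ rfl
      obtain ⟨m, -, hm⟩ := (Nat.dvd_prime_pow hp.out).1 h1
      exact ⟨m, hm⟩
    have hm2 : m = 2 := by
      rw [hm] at hle
      have h1 := (Nat.pow_le_pow_iff_right hlt1).1 hle
      by_contra hcon
      apply hI
      refine ⟨E, hEn, le_rfl, hED, ?_, Or.inl (Subgroup.relIndex_self E)⟩
      have : m = 0 ∨ m = 1 := by omega
      rcases this with rfl | rfl
      · left; rw [hm, pow_zero]
      · right; rw [hm, pow_one]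
    subst hm2
    have hED' : E < D := by
      refine lt_of_le_of_ne hED (fun h => ?_)
      rw [h, Subgroup.relIndex_self] at hm
      nlinarith
    have hchD : ∀ L : Subgroup G, L.Normal → E ≤ L → L ≤ D → L = E ∨ L = D := by
      intro L hL hEL hLD
      have h1 := Subgroup.relIndex_mul_relIndex E L D hEL hLD
      rw [hm] at h1
      obtain ⟨i, hi, hi'⟩ := (Nat.dvd_prime_pow hp.out).1 (Dvd.intro _ h1)
      have h2 : i = 0 ∨ i = 1 ∨ i = 2 := by omega
      rcases h2 with rfl | rfl | rfl
      · left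
        rw [pow_zero] at hi'
        exact le_antisymm (Subgroup.relIndex_eq_one.1 hi') hEL
      · exfalso
        rw [pow_one] at hi'
        apply hI
        refine ⟨L, hL, hEL, hLD, Or.inr ?_, Or.inr hi'⟩
        rw [hi', pow_two] at h1
        exact Nat.eq_of_mul_eq_mul_left hpos h1
      · right
        rw [hi'] at h1
        have h3 : L.relIndex D = 1 := Nat.eq_of_mul_eq_mul_left (show 0 < p ^ 2 by positivity) (by rw [h1, mul_one])
        exact le_antisymm hLD (Subgroup.relIndex_eq_one.1 h3)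
    obtain ⟨-, hDcomm, -, -⟩ := chief_basic D E hED' ⟨2, hm⟩ hchD
    have hDcP := hDcomm P hPn hPp
    have hcardAb : Nat.card (Abelianization C) = p ^ 2 := by
      have h1 := Subgroup.card_eq_card_quotient_mul_card_subgroup (commutator C)
      rw [← hcardD, ← hcardE, ← hmul, hm, mul_comm] at h1
      exact (Nat.eq_of_mul_eq_mul_right hEpos h1).symm
    by_cases hHP : H ⊓ P ≤ K
    · -- above P
      have h1 := (chief_dvd H K hKH hchief P ⊤ hHP (by rw [inf_top_eq]; exact not_le_of_gt hKH)).1
      rw [Subgroup.relIndex_top_right] at h1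
      obtain ⟨n, hn⟩ := hpow
      obtain ⟨S⟩ : Nonempty (Sylow p G) := inferInstance
      have hVexp : ∀ v : Abelianization C, v ^ p = 1 := by
        intro v
        obtain ⟨y, rfl⟩ := QuotientGroup.mk_surjective (s := commutator C) v
        change ((y ^ p : C) : C ⧸ commutator C) = 1
        rw [hexpC, QuotientGroup.mk_one]
      let θ : S →* MulAut (Abelianization C) := ψ.comp (S : Subgroup G).subtype
      have h2 : Nat.card θ.range ≤ p := by
        apply card_le_of_pgroup_mulAut hVexp hcardAb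
        exact IsPGroup.of_surjective S.2 θ.rangeRestrict θ.rangeRestrict_surjective
      have h3 : Nat.card θ.ker ≤ Nat.card P := by
        have : ∀ x : θ.ker, ((x : S) : G) ∈ P := fun x => hker x.2
        exact Nat.card_le_card_of_injective (fun x : θ.ker => (⟨_, this x⟩ : P)) (by
          intro x y hxy
          have h := congrArg (fun z : P => (z : G)) hxy
          exact Subtype.ext (Subtype.ext h))
      have h4 : Nat.card S ≤ p * Nat.card P := by
        have h5 := θ.ker.card_mul_index
        rw [Subgroup.index_ker] at h5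
        rw [← h5, mul_comm p]
        exact Nat.mul_le_mul h3 h2
      have h5 : p ^ n * Nat.card P ≤ Nat.card S := by
        obtain ⟨k, hk⟩ := IsPGroup.iff_card.1 hPp
        rw [hn] at h1
        have h6 : p ^ n * Nat.card P ∣ Nat.card G := by
          rw [← P.index_mul_card]
          exact Nat.mul_dvd_mul_right h1 _
        rw [hk, ← pow_add] at h6 ⊢
        rw [S.card_eq_multiplicity]
        exact Nat.pow_le_pow_right hpos ((hp.out.pow_dvd_iff_le_factorization Nat.card_pos.ne').1 h6)
      rw [hn]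
      have h6 : p ^ n * Nat.card P ≤ p * Nat.card P := h5.trans h4
      exact (Nat.le_of_mul_le_mul_right h6 Nat.card_pos).trans hple
    · rcases hcl with ⟨hab, -⟩ | ⟨h1, h2, h3, h4⟩
      · -- abelian
        have hE1 : E = ⊥ := by
          rw [hE, Subgroup.commutator_eq_bot_iff_le_centralizer]
          rintro _ ⟨x, hx, rfl⟩
          rw [mem_centralizer_iff]
          rintro _ ⟨y, hy, rfl⟩
          have := hab ⟨y, hy⟩ ⟨x, hx⟩
          have h5 : y * x = x * y := congrArg Subtype.val this
          rw [← map_mul, h5, map_mul]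
        have hD2 : Nat.card D = p ^ 2 := by
          rw [← hmul, hE1, Subgroup.card_bot, one_mul, ← hE1, hm]
        rw [(chief_dvd H K hKH hchief ⊥ P (by simp) hHP).2.1]
        apply case_abelian hp2 hr P D hPp ⟨?_, hDexp⟩ hD2 ?_ H K hexpH
        · apply BG.isMulCommutative_of_forall
          rintro _ ⟨x, hx, rfl⟩ _ ⟨y, hy, rfl⟩
          have := hab ⟨x, hx⟩ ⟨y, hy⟩
          have h5 : x * y = y * x := congrArg Subtype.val this
          rw [← map_mul, h5, map_mul]
        · intro y hy
          rw [mem_centralizer_iff]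
          intro x hx
          have := hDcP x hx y hy
          rw [hE1, mem_bot, commutatorElement_eq_one_iff_mul_comm] at this
          exact this
      · -- extraspecial
        apply case_extra hp2 hr P D E hPp hDP hED hDexp (by rw [hcardD, h1]) (by rw [hcardE, h2, h3]) ?_ hDcP H K
          hKH hchief hexpH hHP
        apply le_antisymm
        · rintro _ ⟨⟨x, hx, rfl⟩, hc⟩
          rw [hEmap]
          refine ⟨x, ⟨⟨x, hx⟩, ?_, rfl⟩, rfl⟩
          rw [h2]
          show (⟨x, hx⟩ : C) ∈ center C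
          rw [Subgroup.mem_center_iff]
          intro y
          have h5 := mem_centralizer_iff.1 hc (((y : P) : G)) ⟨y, y.2, rfl⟩
          exact Subtype.ext (Subtype.ext h5)
        · intro e he
          refine ⟨hED he, ?_⟩
          rw [hEmap] at he
          obtain ⟨_, ⟨c, hc, rfl⟩, rfl⟩ := he
          show _ ∈ centralizer (D : Set G)
          rw [mem_centralizer_iff]
          rintro _ ⟨y, hy, rfl⟩
          have h5 := Subgroup.mem_center_iff.1 (hclC hc) ⟨y, hy⟩
          exact congrArg (fun z : C => ((z : P) : G)) h5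

theorem main (hp2 : p ≠ 2) (hG : IsPSolvable p G) (hr : PRankLE p 2 G)
    (H K : Subgroup G) [H.Normal] [K.Normal] (hKH : K < H) (hpow : ∃ n : ℕ, K.relIndex H = p ^ n)
    (hchief : ∀ L : Subgroup G, L.Normal → K ≤ L → L ≤ H → L = K ∨ L = H) :
    K.relIndex H = p ∨ K.relIndex H = p ^ 2 := by
  have hlt1 := hp.out.one_lt
  obtain ⟨hexpH, -, -, hgt⟩ := chief_basic H K hKH hpow hchief
  suffices h : K.relIndex H ≤ p ^ 2 by
    obtain ⟨n, hn⟩ := hpow
    rw [hn] at h hgt ⊢
    have h1 := (Nat.pow_le_pow_iff_right hlt1).1 h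
    have h2 : n ≠ 0 := by rintro rfl; simp at hgt
    have : n = 1 ∨ n = 2 := by omega
    rcases this with rfl | rfl
    · left; exact pow_one p
    · right; rfl
  set N := pPrimeCore p G with hN
  have hNc : (Nat.card N).Coprime p := Solv.pPrimeCore_card_coprime p
  set π := QuotientGroup.mk' N with hπ
  have hπs : Function.Surjective π := QuotientGroup.mk'_surjective N
  have hker : π.ker = N := QuotientGroup.ker_mk' N
  have hNH : N ⊓ H ≤ K := by
    rintro x ⟨hxN, hxH⟩
    have h1 : (orderOf x).Coprime p :=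
      Nat.Coprime.coprime_dvd_left (Subgroup.orderOf_dvd_natCard N hxN) hNc
    have h2 := hexpH x hxH
    obtain ⟨k, hk⟩ := exists_pow_eq_self_of_coprime h1.symm
    rw [← hk]
    exact K.pow_mem h2 k
  have hrel : (K.map π).relIndex (H.map π) = K.relIndex H := by
    rw [Subgroup.relIndex_map_map, hker]
    have h1 : H ⊔ N = H ⊔ (K ⊔ N) := by
      rw [← sup_assoc, sup_eq_left.2 hKH.le]
    rw [h1, Subgroup.relIndex_sup_right, ← Subgroup.inf_relIndex_right]
    congr 1
    apply le_antisymm
    · rintro x ⟨hx1, hx2⟩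
      obtain ⟨k, hk, n, hn, rfl⟩ := Subgroup.mem_sup_of_normal_right.1 (show x ∈ K ⊔ N from hx1)
      have h2 : n ∈ H := by
        have := H.mul_mem (H.inv_mem (hKH.le hk)) hx2
        simpa using this
      exact K.mul_mem hk (hNH ⟨hn, h2⟩)
    · exact le_inf le_sup_left hKH.le
  have hKn : (K.map π).Normal := Subgroup.Normal.map inferInstance π hπs
  have hHn : (H.map π).Normal := Subgroup.Normal.map inferInstance π hπs
  have hlt : K.map π < H.map π := by
    refine lt_of_le_of_ne (Subgroup.map_mono hKH.le) (fun h => ?_)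
    rw [h, Subgroup.relIndex_self] at hrel
    omega
  rw [← hrel]
  refine main_core hp2 (H76.isPSolvable_quotient N hG) (Solv.pPrimeCore_quotient_pPrimeCore p)
    (BG.PRankLE.quotient_coprime N hNc hr) (H.map π) (K.map π) hlt (by rw [hrel]; exact hpow) ?_
  intro L hL hKL hLH
  have hLc : (L.comap π).map π = L := Subgroup.map_comap_eq_self_of_surjective hπs L
  rcases hchief (L.comap π ⊓ H) inferInstance (le_inf (Subgroup.map_le_iff_le_comap.1 hKL) hKH.le) inf_le_right with h | h
  · left
    apply le_antisymm _ hKL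
    intro q hq
    obtain ⟨x, hx, rfl⟩ := hLH hq
    have : x ∈ L.comap π ⊓ H := ⟨hq, hx⟩
    rw [h] at this
    exact ⟨x, this, rfl⟩
  · right
    apply le_antisymm hLH
    rintro _ ⟨x, hx, rfl⟩
    rw [← h] at hx
    exact hx.1

end Cfsg.Agent.H25.R2
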