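import Mathlib

/-! Modules of `A₆` over `F₅` without fixed points of a four-group of the first kind vanish. -/

set_option autoImplicit false

namespace Cfsg.Agent.H25.SixZero

open Equiv

/-- the alternating group of degree 6 -/
abbrev A6 : Type := alternatingGroup (Fin 6)

theorem mem_alt {p : Perm (Fin 6)} (h : Perm.sign p = 1) : p ∈ alternatingGroup (Fin 6) :=
  Equiv.Perm.mem_alternatingGroup.mpr h

section
variable {V : Type*} [AddCommGroup V] (rho : A6 →* AddMonoid.End V)

theorem rmul (g h : A6) (v : V) : rho (g * h) v = rho g (rho h v) := by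
  rw [map_mul]; rfl

theorem rone (v : V) : rho 1 v = v := by
  rw [map_one]; rfl

theorem neg_zero_of (h5 : ∀ v : V, 5 • v = 0) {v : V} (h : v = -v) : v = 0 := by
  have h2 : v + v = 0 := by
    nth_rewrite 2 [h]; exact add_neg_cancel v
  have h4 : v = 5 • v - 2 • (v + v) := by module
  rw [h4, h5, h2]; simp

variable (a b : A6) (hab : a * b = b * a) (hb2 : b * b = 1)
  (h : ∀ v : V, rho a v = v → rho b v = v → v = 0)

include hab hb2 h in
theorem R (g : A6) {w : V} (hs : rho (g * a * g⁻¹) w = w) : rho (g * b * g⁻¹) w = -w := by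
  have hu : rho a (rho g⁻¹ w) = rho g⁻¹ w := by
    have h1 : rho g⁻¹ (rho (g * a * g⁻¹) w) = rho g⁻¹ w := by rw [hs]
    rw [← rmul, ← mul_assoc, ← mul_assoc, inv_mul_cancel, one_mul, rmul] at h1
    exact h1
  obtain ⟨u, hu'⟩ : ∃ u, u = rho g⁻¹ w := ⟨_, rfl⟩
  rw [← hu'] at hu
  have hN : u + rho b u = 0 := by
    apply h
    · rw [map_add, hu, ← rmul, hab, rmul, hu]
    · rw [map_add, ← rmul, hb2, rone, add_comm]
  have h3 : rho b u = -u := by
    rw [eq_neg_iff_add_eq_zero, add_comm]; exact hN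
  rw [rmul, rmul, ← hu', h3, map_neg, hu', ← rmul, mul_inv_cancel, rone]

/-- `R` with the conjugates given -/
theorem R' (hab : a * b = b * a) (hb2 : b * b = 1)
    (h : ∀ v : V, rho a v = v → rho b v = v → v = 0) (g s t : A6) (hgs : g * a * g⁻¹ = s)
    (hgt : g * b * g⁻¹ = t) {w : V} (hs : rho s w = w) : rho t w = -w := by
  subst hgs; subst hgt
  exact R rho a b hab hb2 h g hs

end

theorem inverts {V : Type*} [AddCommGroup V] (rho : A6 →* AddMonoid.End V) {x z : A6}
    (hz : z * z = 1) (hxz : x * z = z * x⁻¹)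
    (h0 : ∀ v : V, rho x v = v → rho z v = v → v = 0) {v : V} (hv : rho x v = v) :
    rho z v = -v := by
  have hv' : rho x⁻¹ v = v := by
    have h1 : rho x⁻¹ (rho x v) = rho x⁻¹ v := by rw [hv]
    rw [← rmul, inv_mul_cancel, rone] at h1
    exact h1.symm
  have hN : v + rho z v = 0 := by
    apply h0
    · rw [map_add, hv, ← rmul, hxz, rmul, hv']
    · rw [map_add, ← rmul, hz, rone, add_comm]
  rw [eq_neg_iff_add_eq_zero, add_comm]; exact hN

theorem six_zero {V : Type*} [AddCommGroup V] (h5 : ∀ v : V, 5 • v = 0)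
    (rho : alternatingGroup (Fin 6) →* AddMonoid.End V) (a b : alternatingGroup (Fin 6))
    (ha : (a : Perm (Fin 6)) = swap 0 1 * swap 2 3) (hb : (b : Perm (Fin 6)) = swap 0 2 * swap 1 3)
    (h : ∀ v : V, rho a v = v → rho b v = v → v = 0) : ∀ v : V, v = 0 := by
  have hab : a * b = b * a := by
    apply Subtype.ext
    rw [Subgroup.coe_mul, Subgroup.coe_mul, ha, hb]; decide
  have hb2 : b * b = 1 := by
    apply Subtype.ext
    rw [Subgroup.coe_mul, hb]; decide
  -- the elements
  obtain ⟨x, hx⟩ : ∃ x : A6, (x : Perm (Fin 6)) = swap 0 1 * swap 1 2 :=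
    ⟨⟨swap 0 1 * swap 1 2, mem_alt (by decide)⟩, rfl⟩
  obtain ⟨y, hy⟩ : ∃ x : A6, (x : Perm (Fin 6)) = swap 3 4 * swap 4 5 :=
    ⟨⟨swap 3 4 * swap 4 5, mem_alt (by decide)⟩, rfl⟩
  obtain ⟨z, hz⟩ : ∃ x : A6, (x : Perm (Fin 6)) = swap 0 1 * swap 3 4 :=
    ⟨⟨swap 0 1 * swap 3 4, mem_alt (by decide)⟩, rfl⟩
  -- the relation for a conjugate pair
  have key : ∀ s t : A6, (∃ g : A6, g * a * g⁻¹ = s ∧ g * b * g⁻¹ = t) → ∀ w : V,
      rho s w = w → rho t w = -w := by
    rintro s t ⟨g, h1, h2⟩ w hw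
    exact R' rho a b hab hb2 h g s t h1 h2 hw
  have mk : ∀ (p : Perm (Fin 6)) (_ : Perm.sign p = 1) (s t : Perm (Fin 6))
      (hs : Perm.sign s = 1) (ht : Perm.sign t = 1),
      p * (swap 0 1 * swap 2 3) * p⁻¹ = s → p * (swap 0 2 * swap 1 3) * p⁻¹ = t → ∀ w : V,
      rho ⟨s, mem_alt hs⟩ w = w → rho ⟨t, mem_alt ht⟩ w = -w := by
    intro p hp s t hs ht h1 h2 w hw
    refine key ⟨s, mem_alt hs⟩ ⟨t, mem_alt ht⟩ ⟨⟨p, mem_alt hp⟩, ?_, ?_⟩ w hw
    · apply Subtype.ext
      simp only [Subgroup.coe_mul, Subgroup.coe_inv, ha]; exact h1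
    · apply Subtype.ext
      simp only [Subgroup.coe_mul, Subgroup.coe_inv, hb]; exact h2
  -- no fixed points of the four groups `S₃`
  have pow : ∀ (e : A6) (w : V), rho e w = -w → e * (e * (e * (e * e))) = 1 → w = 0 := by
    intro e w he h1
    apply neg_zero_of h5
    have h2 : rho (e * (e * (e * (e * e)))) w = -w := by
      rw [rmul, rmul, rmul, rmul, he, map_neg, he, neg_neg, he, map_neg, he, neg_neg, he]
    rw [h1, rone] at h2
    exact h2
  have ex : ∀ v : V, rho x v = v → rho z v = v → v = 0 := by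
    intro v h1 h2
    have h3 := mk (swap 2 3 * swap 3 4) (by decide) (swap 0 1 * swap 3 4) (swap 0 3 * swap 1 4)
      (by decide) (by decide) (by decide) (by decide) v
      (by
        have : (⟨swap 0 1 * swap 3 4, mem_alt (by decide)⟩ : A6) = z := Subtype.ext hz.symm
        rw [this]; exact h2)
    refine pow (⟨swap 0 3 * swap 1 4, mem_alt (by decide)⟩ * x) v ?_ ?_
    · rw [rmul, h1]; exact h3
    · apply Subtype.ext
      simp only [Subgroup.coe_mul, hx]
      decide
  have ey : ∀ v : V, rho y v = v → rho z v = v → v = 0 := by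
    intro v h1 h2
    have h3 := mk (swap 2 3 * swap 3 4) (by decide) (swap 0 1 * swap 3 4) (swap 0 3 * swap 1 4)
      (by decide) (by decide) (by decide) (by decide) v
      (by
        have : (⟨swap 0 1 * swap 3 4, mem_alt (by decide)⟩ : A6) = z := Subtype.ext hz.symm
        rw [this]; exact h2)
    refine pow (⟨swap 0 3 * swap 1 4, mem_alt (by decide)⟩ * y) v ?_ ?_
    · rw [rmul, h1]; exact h3
    · apply Subtype.ext
      simp only [Subgroup.coe_mul, hy]
      decide
  have three : ∀ (s1 s2 s3 t1 t2 t3 : A6) (v : V),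
      (∀ w : V, rho s1 w = w → rho t1 w = -w) → (∀ w : V, rho s2 w = w → rho t2 w = -w) →
      (∀ w : V, rho s3 w = w → rho t3 w = -w) → t1 * t2 = t3 → rho s1 v = v → rho s2 v = v →
      rho s3 v = v → v = 0 := by
    intro s1 s2 s3 t1 t2 t3 v h1 h2 h3 h4 h5' h6 h7
    apply neg_zero_of h5
    have h8 := h3 v h7
    rw [← h4, rmul, h2 v h6, map_neg, h1 v h5', neg_neg] at h8
    exact h8
  have fixconj : ∀ (e s : A6) (v : V), rho e v = v → rho s v = v → rho (e * s * e⁻¹) v = v := by
    intro e s v h1 h2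
    have hv' : rho e⁻¹ v = v := by
      have h1' : rho e⁻¹ (rho e v) = rho e⁻¹ v := by rw [h1]
      rw [← rmul, inv_mul_cancel, rone] at h1'
      exact h1'.symm
    rw [rmul, rmul, hv', h2, h1]
  have fixinv : ∀ (e : A6) (v : V), rho e v = v → rho e⁻¹ v = v := by
    intro e v h1
    have h1' : rho e⁻¹ (rho e v) = rho e⁻¹ v := by rw [h1]
    rw [← rmul, inv_mul_cancel, rone] at h1'
    exact h1'.symm
  have exy : ∀ v : V, rho (x * y) v = v → rho z v = v → v = 0 := by
    intro v h1 h2
    refine three ⟨swap 0 1 * swap 3 4, mem_alt (by decide)⟩ ⟨swap 1 2 * swap 4 5, mem_alt (by decide)⟩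
      ⟨swap 0 2 * swap 3 5, mem_alt (by decide)⟩ ⟨swap 0 3 * swap 1 4, mem_alt (by decide)⟩
      ⟨swap 1 4 * swap 2 5, mem_alt (by decide)⟩ ⟨swap 0 3 * swap 2 5, mem_alt (by decide)⟩ v
      (mk (swap 2 3 * swap 3 4) (by decide) _ _ (by decide) (by decide) (by decide) (by decide))
      (mk (swap 0 1 * swap 1 2 * swap 2 4 * swap 3 5) (by decide) _ _ (by decide) (by decide)
        (by decide) (by decide))
      (mk (swap 1 2 * swap 2 3 * swap 3 5 * swap 5 4) (by decide) _ _ (by decide) (by decide)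
        (by decide) (by decide)) (Subtype.ext (by decide)) ?_ ?_ ?_
    · have : (⟨swap 0 1 * swap 3 4, mem_alt (by decide)⟩ : A6) = z := Subtype.ext hz.symm
      rw [this]; exact h2
    · have : (⟨swap 1 2 * swap 4 5, mem_alt (by decide)⟩ : A6) = (x * y) * z * (x * y)⁻¹ := by
        apply Subtype.ext
        simp only [Subgroup.coe_mul, Subgroup.coe_inv, hx, hy, hz]; decide
      rw [this]; exact fixconj _ _ v h1 h2
    · have : (⟨swap 0 2 * swap 3 5, mem_alt (by decide)⟩ : A6) = (x * y)⁻¹ * z * ((x * y)⁻¹)⁻¹ := by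
        apply Subtype.ext
        simp only [Subgroup.coe_mul, Subgroup.coe_inv, hx, hy, hz]; decide
      rw [this]; exact fixconj _ _ v (fixinv _ v h1) h2
  have exy' : ∀ v : V, rho (x * y⁻¹) v = v → rho z v = v → v = 0 := by
    intro v h1 h2
    refine three ⟨swap 0 1 * swap 3 4, mem_alt (by decide)⟩ ⟨swap 1 2 * swap 3 5, mem_alt (by decide)⟩
      ⟨swap 0 2 * swap 4 5, mem_alt (by decide)⟩ ⟨swap 0 4 * swap 1 3, mem_alt (by decide)⟩
      ⟨swap 1 3 * swap 2 5, mem_alt (by decide)⟩ ⟨swap 0 4 * swap 2 5, mem_alt (by decide)⟩ v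
      (mk (swap 2 4 * swap 4 5) (by decide) _ _ (by decide) (by decide) (by decide) (by decide))
      (mk (swap 0 1 * swap 1 2 * swap 2 3 * swap 3 5) (by decide) _ _ (by decide) (by decide)
        (by decide) (by decide))
      (mk (swap 1 2 * swap 2 4 * swap 4 3 * swap 3 5) (by decide) _ _ (by decide) (by decide)
        (by decide) (by decide)) (Subtype.ext (by decide)) ?_ ?_ ?_
    · have : (⟨swap 0 1 * swap 3 4, mem_alt (by decide)⟩ : A6) = z := Subtype.ext hz.symm
      rw [this]; exact h2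
    · have : (⟨swap 1 2 * swap 3 5, mem_alt (by decide)⟩ : A6) = (x * y⁻¹) * z * (x * y⁻¹)⁻¹ := by
        apply Subtype.ext
        simp only [Subgroup.coe_mul, Subgroup.coe_inv, hx, hy, hz]; decide
      rw [this]; exact fixconj _ _ v h1 h2
    · have : (⟨swap 0 2 * swap 4 5, mem_alt (by decide)⟩ : A6) = (x * y⁻¹)⁻¹ * z * ((x * y⁻¹)⁻¹)⁻¹ := by
        apply Subtype.ext
        simp only [Subgroup.coe_mul, Subgroup.coe_inv, hx, hy, hz]; decide
      rw [this]; exact fixconj _ _ v (fixinv _ v h1) h2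
  -- `z` inverts every fixed vector of the subgroups of order 3 of `⟨x, y⟩`
  have hz2 : z * z = 1 := by
    apply Subtype.ext
    rw [Subgroup.coe_mul, hz]; decide
  have zx : ∀ v : V, rho x v = v → rho z v = -v := fun v hv =>
    inverts rho hz2 (by
      apply Subtype.ext
      simp only [Subgroup.coe_mul, Subgroup.coe_inv, hx, hz]; decide) ex hv
  have zy : ∀ v : V, rho y v = v → rho z v = -v := fun v hv =>
    inverts rho hz2 (by
      apply Subtype.ext
      simp only [Subgroup.coe_mul, Subgroup.coe_inv, hy, hz]; decide) ey hv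
  have zxy : ∀ v : V, rho (x * y) v = v → rho z v = -v := fun v hv =>
    inverts rho hz2 (by
      apply Subtype.ext
      simp only [Subgroup.coe_mul, Subgroup.coe_inv, hx, hy, hz]; decide) exy hv
  have zxy' : ∀ v : V, rho (x * y⁻¹) v = v → rho z v = -v := fun v hv =>
    inverts rho hz2 (by
      apply Subtype.ext
      simp only [Subgroup.coe_mul, Subgroup.coe_inv, hx, hy, hz]; decide) exy' hv
  have hx3 : x * (x * x) = 1 := by
    apply Subtype.ext
    simp only [Subgroup.coe_mul, hx]; decide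
  have hy3 : y * (y * y) = 1 := by
    apply Subtype.ext
    simp only [Subgroup.coe_mul, hy]; decide
  have hxy : x * y = y * x := by
    apply Subtype.ext
    simp only [Subgroup.coe_mul, hx, hy]; decide
  have orb : ∀ (e : A6), e * (e * e) = 1 → (∀ v : V, rho e v = v → rho z v = -v) → ∀ v : V,
      rho z (v + rho e v + rho (e * e) v) = -(v + rho e v + rho (e * e) v) := by
    intro e he hze v
    apply hze
    rw [map_add, map_add, ← rmul, ← rmul, he, rone]
    abel
  have hneg : ∀ v : V, rho z v = -v := by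
    intro v
    have e1 := orb x hx3 zx v
    have e2 := orb y hy3 zy v
    have e3 := orb (x * y) (by
      apply Subtype.ext
      simp only [Subgroup.coe_mul, hx, hy]; decide) zxy v
    have e4 := orb (x * y⁻¹) (by
      apply Subtype.ext
      simp only [Subgroup.coe_mul, Subgroup.coe_inv, hx, hy]; decide) zxy' v
    have e5 := orb x hx3 zx (v + rho y v + rho (y * y) v)
    have f1 : x * y * (x * y) = x * x * (y * y) := by
      apply Subtype.ext
      simp only [Subgroup.coe_mul, hx, hy]; decide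
    have f2 : x * y⁻¹ = x * (y * y) := by
      apply Subtype.ext
      simp only [Subgroup.coe_mul, Subgroup.coe_inv, hx, hy]; decide
    have f3 : x * y⁻¹ * (x * y⁻¹) = x * x * y := by
      apply Subtype.ext
      simp only [Subgroup.coe_mul, Subgroup.coe_inv, hx, hy]; decide
    rw [f3, f2] at e4
    rw [f1] at e3
    rw [rmul rho x y, rmul rho (x * x) (y * y)] at e3
    rw [rmul rho x (y * y), rmul rho (x * x) y] at e4
    simp only [map_add] at e1 e2 e3 e4 e5
    have h3 : 3 • (rho z v + v) = 0 := by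
      linear_combination (norm := module) e1 + e2 + e3 + e4 - e5
    have h6 : rho z v + v = 5 • (2 • (rho z v + v)) - 3 • (3 • (rho z v + v)) := by module
    rw [h3, h5] at h6
    rw [eq_neg_iff_add_eq_zero, h6]; simp
  have conjneg : ∀ (g s : A6), g * z * g⁻¹ = s → ∀ v : V, rho s v = -v := by
    rintro g s rfl v
    rw [rmul, rmul, hneg, map_neg, ← rmul, mul_inv_cancel, rone]
  intro v
  have ga : ∀ w : V, rho a w = -w := conjneg ⟨swap 2 4 * swap 4 3, mem_alt (by decide)⟩ a (by
    apply Subtype.ext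
    simp only [Subgroup.coe_mul, Subgroup.coe_inv, ha, hz]; decide)
  have gb : ∀ w : V, rho b w = -w := conjneg ⟨swap 1 2 * swap 2 4, mem_alt (by decide)⟩ b (by
    apply Subtype.ext
    simp only [Subgroup.coe_mul, Subgroup.coe_inv, hb, hz]; decide)
  have gab : ∀ w : V, rho (a * b) w = -w := conjneg ⟨swap 1 3 * swap 2 4, mem_alt (by decide)⟩ (a * b) (by
    apply Subtype.ext
    simp only [Subgroup.coe_mul, Subgroup.coe_inv, ha, hb, hz]; decide)
  apply neg_zero_of h5
  rw [← gab v, rmul, gb, map_neg, ga, neg_neg]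

/-- the same with an action given by functions -/
theorem six_zero' {V : Type*} [AddCommGroup V] (h5 : ∀ v : V, 5 • v = 0)
    (rho : alternatingGroup (Fin 6) → V → V) (hone : ∀ v, rho 1 v = v)
    (hmul : ∀ g h v, rho (g * h) v = rho g (rho h v))
    (hadd : ∀ g v w, rho g (v + w) = rho g v + rho g w)
    (a b : alternatingGroup (Fin 6))
    (ha : (a : Perm (Fin 6)) = swap 0 1 * swap 2 3) (hb : (b : Perm (Fin 6)) = swap 0 2 * swap 1 3)
    (h : ∀ v : V, rho a v = v → rho b v = v → v = 0) : ∀ v : V, v = 0 := by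
  have hzero : ∀ g, rho g 0 = 0 := by
    intro g
    have h1 := hadd g 0 0
    rw [add_zero] at h1
    exact left_eq_add.mp h1
  let r : alternatingGroup (Fin 6) →* AddMonoid.End V :=
    { toFun := fun g => { toFun := rho g, map_zero' := hzero g, map_add' := hadd g }
      map_one' := by ext v; exact hone v
      map_mul' := by intro g h; ext v; exact hmul g h v }
  exact six_zero h5 r a b ha hb h

end Cfsg.Agent.H25.SixZero
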