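import Cfsg.Agent.H25.SixZero
import Cfsg.Agent.H25.PairZero
import Cfsg.Agent.H59.AW
import Cfsg.Agent.H86.Alt.TwoE

/-! Modules of `A₁₀` in characteristic 5 (assembly). -/

set_option autoImplicit false

namespace Cfsg.Agent.H25.Star5

open Equiv

universe u

/-- the alternating groups as types -/
abbrev A5 : Type := alternatingGroup (Fin 5)
/-- the alternating groups as types -/
abbrev A6 : Type := alternatingGroup (Fin 6)
/-- the alternating groups as types -/
abbrev A10 : Type := alternatingGroup (Fin 10)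

theorem mem_alt {n : ℕ} {p : Perm (Fin n)} (h : Perm.sign p = 1) : p ∈ alternatingGroup (Fin n) :=
  Equiv.Perm.mem_alternatingGroup.mpr h

/-- `A₅ × A₅` inside `A₁₀` -/
def psi (E : Fin 5 ⊕ Fin 5 ≃ Fin 10) : A5 × A5 →* A10 where
  toFun p := ⟨E.permCongr (Perm.sumCongr (p.1 : Perm (Fin 5)) (p.2 : Perm (Fin 5))), mem_alt (by
    rw [Equiv.Perm.sign_permCongr, Equiv.Perm.sign_sumCongr,
      Equiv.Perm.mem_alternatingGroup.mp p.1.2, Equiv.Perm.mem_alternatingGroup.mp p.2.2, mul_one])⟩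
  map_one' := by
    apply Subtype.ext
    ext i
    simp
  map_mul' p q := by
    apply Subtype.ext
    ext i
    simp [Equiv.permCongr_apply]

/-- `A₆` inside `A₁₀` -/
def chi (E : Fin 6 ⊕ Fin 4 ≃ Fin 10) : A6 →* A10 where
  toFun p := ⟨E.permCongr (Perm.sumCongr (p : Perm (Fin 6)) (1 : Perm (Fin 4))), mem_alt (by
    rw [Equiv.Perm.sign_permCongr, Equiv.Perm.sign_sumCongr,
      Equiv.Perm.mem_alternatingGroup.mp p.2, Equiv.Perm.sign_one, mul_one])⟩
  map_one' := by
    apply Subtype.ext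
    ext i
    simp
  map_mul' p q := by
    apply Subtype.ext
    ext i
    simp [Equiv.permCongr_apply]

theorem psi_inj (E : Fin 5 ⊕ Fin 5 ≃ Fin 10) : Function.Injective (psi E) := by
  intro p q h
  have h1 : E.permCongr (Perm.sumCongr (p.1 : Perm (Fin 5)) (p.2 : Perm (Fin 5))) =
      E.permCongr (Perm.sumCongr (q.1 : Perm (Fin 5)) (q.2 : Perm (Fin 5))) := congrArg Subtype.val h
  have h2 := E.permCongr.injective h1
  have h3 := Equiv.Perm.sumCongrHom_injective (α := Fin 5) (β := Fin 5) (a₁ := ((p.1 : Perm (Fin 5)), (p.2 : Perm (Fin 5))))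
    (a₂ := ((q.1 : Perm (Fin 5)), (q.2 : Perm (Fin 5)))) h2
  have h4 := Prod.mk.inj h3
  exact Prod.ext (Subtype.ext h4.1) (Subtype.ext h4.2)

/-- numbering of the two blocks -/
def E2 : Fin 5 ⊕ Fin 5 ≃ Fin 10 where
  toFun := Sum.elim ![0, 1, 2, 3, 4] ![6, 7, 8, 9, 5]
  invFun := ![Sum.inl 0, Sum.inl 1, Sum.inl 2, Sum.inl 3, Sum.inl 4, Sum.inr 4, Sum.inr 0, Sum.inr 1,
    Sum.inr 2, Sum.inr 3]
  left_inv := by decide
  right_inv := by decide

/-- numbering of the two blocks -/
def E3 : Fin 5 ⊕ Fin 5 ≃ Fin 10 where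
  toFun := Sum.elim ![0, 1, 2, 3, 4] ![7, 6, 8, 9, 5]
  invFun := ![Sum.inl 0, Sum.inl 1, Sum.inl 2, Sum.inl 3, Sum.inl 4, Sum.inr 4, Sum.inr 1, Sum.inr 0,
    Sum.inr 2, Sum.inr 3]
  left_inv := by decide
  right_inv := by decide

/-- numbering of the letters of `A₆` -/
def E6 : Fin 6 ⊕ Fin 4 ≃ Fin 10 where
  toFun := Sum.elim ![0, 1, 2, 3, 4, 5] ![6, 7, 8, 9]
  invFun := ![Sum.inl 0, Sum.inl 1, Sum.inl 2, Sum.inl 3, Sum.inl 4, Sum.inl 5, Sum.inr 0, Sum.inr 1,
    Sum.inr 2, Sum.inr 3]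
  left_inv := by decide
  right_inv := by decide

/-- elements of order 2 and 3 of `A₅` with product of order 5 -/
theorem exists_xy : ∃ x y : A5, x * x = 1 ∧ y * (y * y) = 1 ∧
    x * y * ((x * y) * ((x * y) * ((x * y) * (x * y)))) = 1 ∧ x ≠ 1 := by
  refine ⟨⟨swap 0 1 * swap 2 3, mem_alt (by decide)⟩, ⟨swap 0 2 * swap 2 4, mem_alt (by decide)⟩,
    ?_, ?_, ?_, ?_⟩
  · exact Subtype.ext (by decide)
  · exact Subtype.ext (by decide)
  · exact Subtype.ext (by decide)
  · intro h
    have := congrArg Subtype.val h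
    revert this
    decide

/-- conjugation by an arbitrary permutation -/
def cj (s : Perm (Fin 5)) : A5 →* A5 where
  toFun g := ⟨s * g * s⁻¹, mem_alt (by
    rw [map_mul, map_mul, Equiv.Perm.mem_alternatingGroup.mp g.2, map_inv, mul_one, mul_inv_cancel])⟩
  map_one' := by
    apply Subtype.ext
    simp
  map_mul' g h := by
    apply Subtype.ext
    simp [mul_assoc]

theorem chi_inj (E : Fin 6 ⊕ Fin 4 ≃ Fin 10) : Function.Injective (chi E) := by
  intro p q h
  have h1 : E.permCongr (Perm.sumCongr (p : Perm (Fin 6)) (1 : Perm (Fin 4))) =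
      E.permCongr (Perm.sumCongr (q : Perm (Fin 6)) (1 : Perm (Fin 4))) := congrArg Subtype.val h
  have h2 := E.permCongr.injective h1
  have h3 := Equiv.Perm.sumCongrHom_injective (α := Fin 6) (β := Fin 4)
    (a₁ := ((p : Perm (Fin 6)), (1 : Perm (Fin 4)))) (a₂ := ((q : Perm (Fin 6)), (1 : Perm (Fin 4)))) h2
  exact Subtype.ext (Prod.mk.inj h3).1

theorem comm_chi (E : Fin 6 ⊕ Fin 4 ≃ Fin 10) (g : A6) (q : A10) (β : Perm (Fin 4))
    (hq : (q : Perm (Fin 10)) = E.permCongr (Perm.sumCongr (1 : Perm (Fin 6)) β)) :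
    q * chi E g = chi E g * q := by
  apply Subtype.ext
  change (q : Perm (Fin 10)) * E.permCongr (Perm.sumCongr (g : Perm (Fin 6)) (1 : Perm (Fin 4))) =
    E.permCongr (Perm.sumCongr (g : Perm (Fin 6)) (1 : Perm (Fin 4))) * (q : Perm (Fin 10))
  rw [hq]
  ext i
  simp only [Perm.mul_apply, Equiv.permCongr_apply, Equiv.symm_apply_apply]
  rcases E.symm i with k | k <;> simp

/-- restriction to an invariant subgroup -/
def restr {K : Type*} [Monoid K] {V : Type u} [AddCommGroup V] (σ : K →* AddMonoid.End V)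
    (N : AddSubgroup V) (h : ∀ k, ∀ v ∈ N, σ k v ∈ N) : K →* AddMonoid.End N where
  toFun k := { toFun := fun v : N => (⟨σ k (v : V), h k v v.2⟩ : N)
               map_zero' := Subtype.ext (map_zero (σ k))
               map_add' := fun v w => Subtype.ext (map_add (σ k) (v : V) (w : V)) }
  map_one' := by
    ext v
    change σ 1 (v : V) = v
    rw [map_one]; rfl
  map_mul' a b := by
    ext v
    change σ (a * b) (v : V) = σ a (σ b (v : V))
    rw [map_mul]; rfl

section
variable {V : Type u} [AddCommGroup V] (rho : A10 →* AddMonoid.End V)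

theorem rmul (g h : A10) (v : V) : rho g (rho h v) = rho (g * h) v := by
  rw [map_mul]; rfl

theorem rone (v : V) : rho 1 v = v := by
  rw [map_one]; rfl

theorem fixinv (e : A10) (v : V) (h1 : rho e v = v) : rho e⁻¹ v = v := by
  have h1' : rho e⁻¹ (rho e v) = rho e⁻¹ v := by rw [h1]
  rw [rmul, inv_mul_cancel, rone] at h1'
  exact h1'.symm

/-- no vector is fixed by a nonsolvable subgroup -/
def NF : Prop := ∀ Y : Subgroup A10, ¬ Group.IsSolvable Y → ∀ v : V, (∀ y ∈ Y, rho y v = v) → v = 0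

variable {rho} (hN : NF rho)
include hN

theorem ns {x y : A10} (hx : x * x = 1) (hy : y * (y * y) = 1)
    (hxy : x * y * ((x * y) * ((x * y) * ((x * y) * (x * y)))) = 1) (hx1 : x ≠ 1) {v : V}
    (h1 : rho x v = v) (h2 : rho y v = v) : v = 0 := by
  refine hN (Subgroup.closure {x, y}) (Cfsg.Agent.H86.Alt2.ns x y (by rw [sq]; exact hx)
    (by rw [pow_succ', sq]; exact hy) 5 ?_ (by decide) hx1) v ?_
  · rw [← hxy, pow_succ', pow_succ', pow_succ', pow_succ', pow_one]
  · intro z hz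
    induction hz using Subgroup.closure_induction with
    | mem w hw =>
      rcases hw with rfl | rfl
      · exact h1
      · exact h2
    | one => exact rone rho v
    | mul a b _ _ iha ihb => rw [← rmul, ihb, iha]
    | inv a _ iha => exact fixinv rho a v iha


theorem ns_hom (f : A5 →* A10) (hf : Function.Injective f) {v : V} (h : ∀ g, rho (f g) v = v) :
    v = 0 := by
  obtain ⟨x, y, h1, h2, h3, h4⟩ := exists_xy
  refine ns hN (x := f x) (y := f y) ?_ ?_ ?_ ?_ (h x) (h y)
  · rw [← map_mul, h1, map_one]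
  · rw [← map_mul, ← map_mul, h2, map_one]
  · simp only [← map_mul]
    rw [h3, map_one]
  · intro h5
    exact h4 (hf (by rw [h5, map_one]))

theorem h1E (E : Fin 5 ⊕ Fin 5 ≃ Fin 10) (v : V) (h : ∀ g, (rho.comp (psi E)) (g, 1) v = v) :
    v = 0 :=
  ns_hom hN ((psi E).comp (MonoidHom.inl A5 A5))
    ((psi_inj E).comp (fun a b h => (Prod.mk.inj h).1)) h

theorem h2E (E : Fin 5 ⊕ Fin 5 ≃ Fin 10) (v : V) (h : ∀ g, (rho.comp (psi E)) (1, g) v = v) :
    v = 0 :=
  ns_hom hN ((psi E).comp (MonoidHom.inr A5 A5))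
    ((psi_inj E).comp (fun a b h => (Prod.mk.inj h).2)) h

theorem hdE (E : Fin 5 ⊕ Fin 5 ≃ Fin 10) (s : Perm (Fin 5)) (v : V)
    (h : ∀ g g' : A5, (g' : Perm (Fin 5)) = s * g * s⁻¹ → (rho.comp (psi E)) (g, g') v = v) :
    v = 0 :=
  ns_hom hN ((psi E).comp ((MonoidHom.id A5).prod (cj s)))
    ((psi_inj E).comp (fun a b h => (Prod.mk.inj h).1)) (fun g => h g _ rfl)

variable (h5 : ∀ v : V, 5 • v = 0)
include h5

/-- `pair_zero` for a numbering of the blocks -/
theorem pairE (E : Fin 5 ⊕ Fin 5 ≃ Fin 10) (a b c : A5)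
    (ha : (a : Perm (Fin 5)) = swap 0 1 * swap 2 3) (hb : (b : Perm (Fin 5)) = swap 0 2 * swap 1 3)
    (hc : (c : Perm (Fin 5)) = swap 0 1 * swap 1 2) (v : V) (va : rho (psi E (a, 1)) v = v)
    (vb : rho (psi E (b, 1)) v = v) (va' : rho (psi E (1, a)) v = v)
    (vb' : rho (psi E (1, b)) v = v) (vc : rho (psi E (c, c)) v = v) : v = 0 :=
  Cfsg.Agent.H25.PairZero.pair_zero (rho.comp (psi E)) h5 (h1E hN E) (h2E hN E) (hdE hN E)
    a b c ha hb hc v va vb va' vb' vc


end

/-! explicit elements -/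

/-- letters 0..3 -/
def a1 : A10 := ⟨swap 0 1 * swap 2 3, mem_alt (by decide)⟩
/-- letters 0..3 -/
def b1 : A10 := ⟨swap 0 2 * swap 1 3, mem_alt (by decide)⟩
/-- letters 0..3 -/
def c1 : A10 := ⟨swap 0 1 * swap 1 2, mem_alt (by decide)⟩
/-- letters 6..9 -/
def a2 : A10 := ⟨swap 6 7 * swap 8 9, mem_alt (by decide)⟩
/-- letters 6..9 -/
def b2 : A10 := ⟨swap 6 8 * swap 7 9, mem_alt (by decide)⟩
/-- letters 6..9 -/
def c2 : A10 := ⟨swap 6 7 * swap 7 8, mem_alt (by decide)⟩
/-- exchange of the letters 0..3 and 6..9 -/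
def g12 : A10 := ⟨swap 0 6 * swap 1 7 * swap 2 8 * swap 3 9, mem_alt (by decide)⟩
/-- elements of `A₅` -/
def a5 : A5 := ⟨swap 0 1 * swap 2 3, mem_alt (by decide)⟩
/-- elements of `A₅` -/
def b5 : A5 := ⟨swap 0 2 * swap 1 3, mem_alt (by decide)⟩
/-- elements of `A₅` -/
def c5 : A5 := ⟨swap 0 1 * swap 1 2, mem_alt (by decide)⟩
/-- elements of `A₅` -/
def x5 : A5 := ⟨swap 0 1 * swap 1 2 * swap 2 3 * swap 3 4, mem_alt (by decide)⟩
/-- elements of `A₅` -/
def t5 : A5 := ⟨swap 1 4 * swap 2 3, mem_alt (by decide)⟩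
/-- elements of `A₆` -/
def a6 : A6 := ⟨swap 0 1 * swap 2 3, mem_alt (by decide)⟩
/-- elements of `A₆` -/
def b6 : A6 := ⟨swap 0 2 * swap 1 3, mem_alt (by decide)⟩
/-- elements of `A₆` -/
def x6 : A6 := ⟨swap 0 1 * swap 1 2 * swap 2 3 * swap 3 4, mem_alt (by decide)⟩
/-- elements of `A₆` -/
def t6 : A6 := ⟨swap 1 4 * swap 2 3, mem_alt (by decide)⟩
/-- elements of `A₆` -/
def w6 : A6 := ⟨swap 2 4 * swap 3 5, mem_alt (by decide)⟩
/-- elements of `A₆` -/
def u6 : A6 := ⟨swap 0 2 * swap 2 4, mem_alt (by decide)⟩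

theorem p2a : psi E2 (a5, 1) = a1 := Subtype.ext (by decide +kernel)
theorem p2b : psi E2 (b5, 1) = b1 := Subtype.ext (by decide +kernel)
theorem p2a' : psi E2 (1, a5) = a2 := Subtype.ext (by decide +kernel)
theorem p2b' : psi E2 (1, b5) = b2 := Subtype.ext (by decide +kernel)
theorem p2c' : psi E2 (1, c5) = c2 := Subtype.ext (by decide +kernel)
theorem p2c : psi E2 (c5, c5) = c1 * c2 := Subtype.ext (by decide +kernel)
theorem p3a : psi E3 (a5, 1) = a1 := Subtype.ext (by decide +kernel)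
theorem p3b : psi E3 (b5, 1) = b1 := Subtype.ext (by decide +kernel)
theorem p3a' : psi E3 (1, a5) = a2 := Subtype.ext (by decide +kernel)
theorem p3b' : psi E3 (1, b5) = a2 * b2 := Subtype.ext (by decide +kernel)
theorem p3c : psi E3 (c5, c5) = c1 * (c2 * c2) := Subtype.ext (by decide +kernel)
theorem p2x : psi E2 (x5, 1) = chi E6 x6 := Subtype.ext (by decide +kernel)
theorem p2t : psi E2 (t5, 1) = chi E6 t6 := Subtype.ext (by decide +kernel)
theorem c6a : chi E6 a6 = a1 := Subtype.ext (by decide +kernel)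
theorem c6b : chi E6 b6 = b1 := Subtype.ext (by decide +kernel)
theorem comm_a2 (g : A6) : a2 * chi E6 g = chi E6 g * a2 :=
  comm_chi E6 g a2 (swap 0 1 * swap 2 3) (by decide +kernel)
theorem comm_b2 (g : A6) : b2 * chi E6 g = chi E6 g * b2 :=
  comm_chi E6 g b2 (swap 0 2 * swap 1 3) (by decide +kernel)
theorem comm_c2 (g : A6) : c2 * chi E6 g = chi E6 g * c2 :=
  comm_chi E6 g c2 (swap 0 1 * swap 1 2) (by decide +kernel)


/-- the statement of piece (Z) -/
def SixSt : Prop := ∀ (M : Type u) [AddCommGroup M] [Finite M], (∀ v : M, 5 • v = 0) →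
  ∀ (r : A6 →* AddMonoid.End M) (x t w : A6), (∀ i, (x : Perm (Fin 6)) i = ![1,2,3,4,0,5] i) →
  (∀ i, (t : Perm (Fin 6)) i = ![0,4,3,2,1,5] i) → (∀ i, (w : Perm (Fin 6)) i = ![0,1,4,5,2,3] i) →
  (∀ v : M, (∀ g : A6, (g : Perm (Fin 6)) 5 = 5 → r g v = v) → v = 0) →
  (∀ v : M, r x v = v → r t v = v → r w v = v → v = 0) →
  (∀ v : M, r x v = v → r t v = -v → v = 0) → ∀ v : M, v = 0

section
variable {V : Type u} [AddCommGroup V] {rho : A10 →* AddMonoid.End V} (hN : NF rho)
  (h5 : ∀ v : V, 5 • v = 0)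
include hN

theorem ns6 (x y : A6) (h1 : x * x = 1) (h2 : y * (y * y) = 1)
    (h3 : x * y * ((x * y) * ((x * y) * ((x * y) * (x * y)))) = 1) (h4 : x ≠ 1) {v : V}
    (hx : rho (chi E6 x) v = v) (hy : rho (chi E6 y) v = v) : v = 0 := by
  refine ns hN (x := chi E6 x) (y := chi E6 y) ?_ ?_ ?_ ?_ hx hy
  · rw [← map_mul, h1, map_one]
  · rw [← map_mul, ← map_mul, h2, map_one]
  · simp only [← map_mul]
    rw [h3, map_one]
  · intro h5
    exact h4 (chi_inj E6 (by rw [h5, map_one]))

include h5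

theorem fourA [Finite V] (hSt : SixSt.{u}) {v : V} (ha : rho a2 v = v) (hb : rho b2 v = v)
    (hc : rho c2 v = v) : v = 0 := by
  let N : AddSubgroup V :=
    { carrier := {v | rho a2 v = v ∧ rho b2 v = v ∧ rho c2 v = v}
      add_mem' := by
        rintro x y ⟨h1, h2, h3⟩ ⟨k1, k2, k3⟩
        exact ⟨by rw [map_add, h1, k1], by rw [map_add, h2, k2], by rw [map_add, h3, k3]⟩
      zero_mem' := ⟨map_zero _, map_zero _, map_zero _⟩
      neg_mem' := by
        rintro x ⟨h1, h2, h3⟩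
        exact ⟨by rw [map_neg, h1], by rw [map_neg, h2], by rw [map_neg, h3]⟩ }
  have hst : ∀ (k : A6), ∀ v ∈ N, (rho.comp (chi E6)) k v ∈ N := by
    rintro k v ⟨h1, h2, h3⟩
    refine ⟨?_, ?_, ?_⟩
    · change rho a2 (rho (chi E6 k) v) = rho (chi E6 k) v
      rw [rmul, comm_a2, ← rmul, h1]
    · change rho b2 (rho (chi E6 k) v) = rho (chi E6 k) v
      rw [rmul, comm_b2, ← rmul, h2]
    · change rho c2 (rho (chi E6 k) v) = rho (chi E6 k) v
      rw [rmul, comm_c2, ← rmul, h3]
  have key := hSt N (fun v => Subtype.ext (by rw [AddSubgroup.coe_nsmul]; exact h5 v))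
    (restr (rho.comp (chi E6)) N hst) x6 t6 w6 (by decide) (by decide) (by decide)
    (by
      intro v hv
      apply Subtype.ext
      refine ns6 hN a6 u6 (Subtype.ext (by decide)) (Subtype.ext (by decide))
        (Subtype.ext (by decide)) (fun h => ?_) (v := (v : V))
        (congrArg Subtype.val (hv a6 (by decide))) (congrArg Subtype.val (hv u6 (by decide)))
      have := congrArg Subtype.val h
      revert this
      decide)
    (by
      intro v hx ht hw
      apply Subtype.ext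
      refine ns6 hN w6 (w6 * x6) (Subtype.ext (by decide +kernel)) (Subtype.ext (by decide +kernel))
        (Subtype.ext (by decide +kernel)) (fun h => ?_) (v := (v : V)) (congrArg Subtype.val hw) ?_
      · have := congrArg Subtype.val h
        revert this
        decide
      · have hx' : rho (chi E6 x6) (v : V) = v := congrArg Subtype.val hx
        have hw' : rho (chi E6 w6) (v : V) = v := congrArg Subtype.val hw
        rw [map_mul, ← rmul, hx', hw'])
    (by
      intro v hx ht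
      apply Subtype.ext
      obtain ⟨v, h1, h2, h3⟩ := v
      have hx' : rho (chi E6 x6) v = v := congrArg Subtype.val hx
      have ht' : rho (chi E6 t6) v = -v := congrArg Subtype.val ht
      refine Cfsg.Agent.H59.AW.minus_zero' h5 (rho.comp (psi E2)) (h2E hN E2) (hdE hN E2) x5 t5
        a5 b5 c5 (by decide) (by decide) (by decide) (by decide) (by decide) v ?_ ?_ ?_ ?_ ?_
      · change rho (psi E2 (x5, 1)) v = v
        rw [p2x]; exact hx'
      · change rho (psi E2 (t5, 1)) v = -v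
        rw [p2t]; exact ht'
      · change rho (psi E2 (1, a5)) v = v
        rw [p2a']; exact h1
      · change rho (psi E2 (1, b5)) v = v
        rw [p2b']; exact h2
      · change rho (psi E2 (1, c5)) v = v
        rw [p2c']; exact h3) ⟨v, ha, hb, hc⟩
  exact congrArg Subtype.val key

end

theorem conj_zero {V : Type u} [AddCommGroup V] {rho : A10 →* AddMonoid.End V} (g s t : A10)
    (h : g * s * g⁻¹ = t) {v : V} (hv : rho t v = v) : rho s (rho g⁻¹ v) = rho g⁻¹ v := by
  have h1 : s * g⁻¹ = g⁻¹ * t := by rw [← h]; group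
  rw [rmul, h1, ← rmul, hv]

theorem zero_of_inv {V : Type u} [AddCommGroup V] {rho : A10 →* AddMonoid.End V} (g : A10)
    {v : V} (hv : rho g⁻¹ v = 0) : v = 0 := by
  have h := congrArg (rho g) hv
  rw [rmul, mul_inv_cancel, rone, map_zero] at h
  exact h

theorem ga : g12 * a2 * g12⁻¹ = a1 := Subtype.ext (by decide +kernel)
theorem gb : g12 * b2 * g12⁻¹ = b1 := Subtype.ext (by decide +kernel)
theorem gc : g12 * c2 * g12⁻¹ = c1 := Subtype.ext (by decide +kernel)

/-- fixed vectors of orbit sums -/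
theorem orbfix {V : Type u} [AddCommGroup V] {rho : A10 →* AddMonoid.End V} (e p p' p'' : A10)
    (h1 : p * e = e * p') (h2 : p * (e * e) = e * e * p'') {v : V} (hp : rho p v = v)
    (hp' : rho p' v = v) (hp'' : rho p'' v = v) :
    rho p (v + rho e v + rho (e * e) v) = v + rho e v + rho (e * e) v := by
  rw [map_add, map_add, hp, rmul, rmul, h1, h2, ← rmul, ← rmul rho (e * e), hp', hp'']

theorem orbfix' {V : Type u} [AddCommGroup V] {rho : A10 →* AddMonoid.End V} (e : A10)
    (h : e * (e * e) = 1) (v : V) :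
    rho e (v + rho e v + rho (e * e) v) = v + rho e v + rho (e * e) v := by
  rw [map_add, map_add, rmul, rmul, h, rone]
  abel


section
variable {V : Type u} [AddCommGroup V] {rho : A10 →* AddMonoid.End V} (hN : NF rho)
  (h5 : ∀ v : V, 5 • v = 0)
include hN h5

theorem fourA' [Finite V] (hSt : SixSt.{u}) {v : V} (ha : rho a1 v = v) (hb : rho b1 v = v)
    (hc : rho c1 v = v) : v = 0 :=
  zero_of_inv g12 (fourA hN h5 hSt (conj_zero g12 a2 a1 ga ha) (conj_zero g12 b2 b1 gb hb)
    (conj_zero g12 c2 c1 gc hc))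

theorem two_four [Finite V] (hSt : SixSt.{u}) {v : V} (ha : rho a1 v = v) (hb : rho b1 v = v)
    (ha' : rho a2 v = v) (hb' : rho b2 v = v) : v = 0 := by
  have hab : rho (a1 * b1) v = v := by rw [← rmul, hb, ha]
  have hab' : rho (a2 * b2) v = v := by rw [← rmul, hb', ha']
  have e1 : v + rho c1 v + rho (c1 * c1) v = 0 :=
    fourA' hN h5 hSt
      (orbfix c1 a1 b1 (a1 * b1) (Subtype.ext (by decide +kernel)) (Subtype.ext (by decide +kernel))
        ha hb hab)
      (orbfix c1 b1 (a1 * b1) a1 (Subtype.ext (by decide +kernel)) (Subtype.ext (by decide +kernel))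
        hb hab ha)
      (orbfix' c1 (Subtype.ext (by decide +kernel)) v)
  have e2 : v + rho c2 v + rho (c2 * c2) v = 0 :=
    fourA hN h5 hSt
      (orbfix c2 a2 b2 (a2 * b2) (Subtype.ext (by decide +kernel)) (Subtype.ext (by decide +kernel))
        ha' hb' hab')
      (orbfix c2 b2 (a2 * b2) a2 (Subtype.ext (by decide +kernel)) (Subtype.ext (by decide +kernel))
        hb' hab' ha')
      (orbfix' c2 (Subtype.ext (by decide +kernel)) v)
  have e3 : v + rho (c1 * c2) v + rho (c1 * c2 * (c1 * c2)) v = 0 := by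
    refine pairE hN h5 E2 a5 b5 c5 rfl rfl rfl _ ?_ ?_ ?_ ?_ ?_
    · rw [p2a]
      exact orbfix (c1 * c2) a1 b1 (a1 * b1) (Subtype.ext (by decide +kernel))
        (Subtype.ext (by decide +kernel)) ha hb hab
    · rw [p2b]
      exact orbfix (c1 * c2) b1 (a1 * b1) a1 (Subtype.ext (by decide +kernel))
        (Subtype.ext (by decide +kernel)) hb hab ha
    · rw [p2a']
      exact orbfix (c1 * c2) a2 b2 (a2 * b2) (Subtype.ext (by decide +kernel))
        (Subtype.ext (by decide +kernel)) ha' hb' hab'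
    · rw [p2b']
      exact orbfix (c1 * c2) b2 (a2 * b2) a2 (Subtype.ext (by decide +kernel))
        (Subtype.ext (by decide +kernel)) hb' hab' ha'
    · rw [p2c]
      exact orbfix' (c1 * c2) (Subtype.ext (by decide +kernel)) v
  have e4 : v + rho (c1 * (c2 * c2)) v + rho (c1 * (c2 * c2) * (c1 * (c2 * c2))) v = 0 := by
    refine pairE hN h5 E3 a5 b5 c5 rfl rfl rfl _ ?_ ?_ ?_ ?_ ?_
    · rw [p3a]
      exact orbfix _ a1 b1 (a1 * b1) (Subtype.ext (by decide +kernel))
        (Subtype.ext (by decide +kernel)) ha hb hab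
    · rw [p3b]
      exact orbfix _ b1 (a1 * b1) a1 (Subtype.ext (by decide +kernel))
        (Subtype.ext (by decide +kernel)) hb hab ha
    · rw [p3a']
      exact orbfix _ a2 (a2 * b2) b2 (Subtype.ext (by decide +kernel))
        (Subtype.ext (by decide +kernel)) ha' hab' hb'
    · rw [p3b']
      exact orbfix _ (a2 * b2) b2 a2 (Subtype.ext (by decide +kernel))
        (Subtype.ext (by decide +kernel)) hab' hb' ha'
    · rw [p3c]
      exact orbfix' _ (Subtype.ext (by decide +kernel)) v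
  have k1 : c1 * c2 * (c1 * c2) = c1 * c1 * (c2 * c2) := Subtype.ext (by decide +kernel)
  have k2 : c1 * (c2 * c2) * (c1 * (c2 * c2)) = c1 * c1 * c2 := Subtype.ext (by decide +kernel)
  rw [k1] at e3
  rw [k2] at e4
  have e5 := congrArg (rho c1) e2
  have e6 := congrArg (rho (c1 * c1)) e2
  rw [map_add, map_add, rmul, rmul, map_zero] at e5 e6
  have h3 : 3 • v = 0 := by
    linear_combination (norm := module) e1 + e2 + e3 + e4 - e2 - e5 - e6
  have h6 : v = 5 • (2 • v) - 3 • (3 • v) := by module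
  rw [h6, h3, h5]
  simp

theorem one_four [Finite V] (hSt : SixSt.{u}) {v : V} (ha : rho a2 v = v) (hb : rho b2 v = v) :
    v = 0 := by
  let N : AddSubgroup V :=
    { carrier := {v | rho a2 v = v ∧ rho b2 v = v}
      add_mem' := by
        rintro x y ⟨h1, h2⟩ ⟨k1, k2⟩
        exact ⟨by rw [map_add, h1, k1], by rw [map_add, h2, k2]⟩
      zero_mem' := ⟨map_zero _, map_zero _⟩
      neg_mem' := by
        rintro x ⟨h1, h2⟩
        exact ⟨by rw [map_neg, h1], by rw [map_neg, h2]⟩ }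
  have hst : ∀ (k : A6), ∀ v ∈ N, (rho.comp (chi E6)) k v ∈ N := by
    rintro k v ⟨h1, h2⟩
    refine ⟨?_, ?_⟩
    · change rho a2 (rho (chi E6 k) v) = rho (chi E6 k) v
      rw [rmul, comm_a2, ← rmul, h1]
    · change rho b2 (rho (chi E6 k) v) = rho (chi E6 k) v
      rw [rmul, comm_b2, ← rmul, h2]
  have key := Cfsg.Agent.H25.SixZero.six_zero (V := N)
    (fun v => Subtype.ext (by rw [AddSubgroup.coe_nsmul]; exact h5 v))
    (restr (rho.comp (chi E6)) N hst) a6 b6 rfl rfl
    (by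
      rintro ⟨v, h1, h2⟩ hx hy
      apply Subtype.ext
      have hx' : rho (chi E6 a6) v = v := congrArg Subtype.val hx
      have hy' : rho (chi E6 b6) v = v := congrArg Subtype.val hy
      rw [c6a] at hx'
      rw [c6b] at hy'
      exact two_four hN h5 hSt hx' hy' h1 h2) ⟨v, ha, hb⟩
  exact congrArg Subtype.val key

theorem all_zero [Finite V] (hSt : SixSt.{u}) (v : V) : v = 0 :=
  Cfsg.Agent.H25.SixZero.six_zero h5 (rho.comp (chi E6)) a6 b6 rfl rfl
    (by
      intro v hx hy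
      have hx' : rho (chi E6 a6) v = v := hx
      have hy' : rho (chi E6 b6) v = v := hy
      rw [c6a] at hx'
      rw [c6b] at hy'
      exact zero_of_inv g12 (one_four hN h5 hSt (conj_zero g12 a2 a1 ga hx')
        (conj_zero g12 b2 b1 gb hy'))) v

end

theorem star5_of (hSt : SixSt.{u}) {V : Type u} [AddCommGroup V] [Finite V] (h5 : ∀ v : V, 5 • v = 0)
    (hne : ∃ v : V, v ≠ 0) (rho : alternatingGroup (Fin 10) →* AddMonoid.End V) :
    ∃ Y : Subgroup (alternatingGroup (Fin 10)), ¬ Group.IsSolvable Y ∧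
      ∃ v : V, v ≠ 0 ∧ ∀ y ∈ Y, rho y v = v := by
  by_contra hcon
  have hN : NF rho := by
    intro Y hY v hv
    by_contra hv0
    exact hcon ⟨Y, hY, v, hv0, hv⟩
  obtain ⟨v, hv⟩ := hne
  exact hv (all_zero hN h5 hSt v)

end Cfsg.Agent.H25.Star5
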