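import Cfsg.Agent.H25.Star5
import Cfsg.Agent.H59.AZ4

/-! Modules of `A₁₀` in characteristic 5 (end). -/

set_option autoImplicit false

namespace Cfsg.Agent.H25.Star5

open Equiv

universe u

theorem sixSt : SixSt.{u} := by
  intro M _ _ h5 r x t w hx ht hw hn he hm
  have e1 : x = Cfsg.Agent.H59.AZ.x6 := Subtype.ext (Equiv.ext fun i => by
    rw [hx i]; revert i; decide)
  have e2 : t = Cfsg.Agent.H59.AZ.t6 := Subtype.ext (Equiv.ext fun i => by
    rw [ht i]; revert i; decide)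
  have e3 : w = Cfsg.Agent.H59.AZ.w6 := Subtype.ext (Equiv.ext fun i => by
    rw [hw i]; revert i; decide)
  subst e1 e2 e3
  exact Cfsg.Agent.H59.AZ.six_St h5 hn he hm

theorem star5 {V : Type u} [AddCommGroup V] [Finite V] (h5 : ∀ v : V, 5 • v = 0)
    (hne : ∃ v : V, v ≠ 0) (rho : alternatingGroup (Fin 10) →* AddMonoid.End V) :
    ∃ Y : Subgroup (alternatingGroup (Fin 10)), ¬ Group.IsSolvable Y ∧
      ∃ v : V, v ≠ 0 ∧ ∀ y ∈ Y, rho y v = v :=
  star5_of sixSt h5 hne rho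

end Cfsg.Agent.H25.Star5
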